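import Mathlib
import Cfsg.Agent.Comp2.GenFitting
import Cfsg.Agent.Perm.SolvOrbit

/-! Permutation groups with a quasisimple self-centralising normal subgroup and a 3-cycle. -/

set_option autoImplicit false
set_option backward.isDefEq.respectTransparency false

namespace Cfsg.Agent.Elu

open Equiv Equiv.Perm
open scoped commutatorElement

section
variable {α : Type*} [Fintype α] [DecidableEq α]

/-- A perfect group fixes every point of an invariant set with at most four points. -/
theorem al_fix {G X : Type*} [Group G] [MulAction G X] (L : Subgroup G) (hL : ⁅L, L⁆ = L)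
    (S : Finset X) (hS : S.card ≤ 4) (hinv : ∀ l ∈ L, ∀ s ∈ S, l • s ∈ S) :
    ∀ l ∈ L, ∀ s ∈ S, l • s = s := by
  let M : SubMulAction L X := ⟨(S : Set X), fun l x hx => hinv l l.2 x hx⟩
  have hc : Nat.card M ≤ 4 := by
    have : Nat.card M = S.card := Nat.card_coe_set_eq (S : Set X) ▸ (Set.ncard_coe_finset S)
    omega
  haveI : Finite M := S.finite_toSet.to_subtype
  haveI := Perm.isSolvable_perm_of_card_le_four M hc
  let f := MulAction.toPermHom L M
  haveI : Group.IsPerfect L := Subgroup.isPerfect_iff.mpr hL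
  have h1 : ⁅f.range, f.range⁆ = f.range := by
    rw [MonoidHom.range_eq_map, ← Subgroup.map_commutator]
    congr 1
    exact Group.IsPerfect.commutator_eq_top
  have h2 : f.range = ⊥ := Comp2.eq_bot_of_perfect_of_isSolvable h1 inferInstance
  intro l hl s hs
  have h3 : f ⟨l, hl⟩ = 1 := by
    have : f ⟨l, hl⟩ ∈ f.range := ⟨_, rfl⟩
    rwa [h2, Subgroup.mem_bot] at this
  exact congrArg (fun σ : Equiv.Perm M => (σ ⟨s, hs⟩).1) h3

/-- The standing hypotheses. -/
structure AlHyp (H L : Subgroup (Perm α)) : Prop where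
  le : L ≤ H
  norm : H ≤ Subgroup.normalizer (L : Set (Perm α))
  qs : Cfsg.IsQuasisimple L
  cent : ∀ h ∈ H, (∀ l ∈ L, l * h = h * l) → h ∈ L

variable {H L : Subgroup (Perm α)}

theorem AlHyp.perf (h : AlHyp H L) : ⁅L, L⁆ = L := Comp2.quasisimple_commutator_self h.qs

theorem AlHyp.nocent (h : AlHyp H L) {c : Perm α} (hc : c ∈ H) (h4 : c.support.card ≤ 4)
    (hcomm : ∀ l ∈ L, l * c = c * l) : c = 1 := by
  have h1 := al_fix L h.perf c.support h4 (fun l hl s hs => by
    rw [mem_support] at hs ⊢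
    intro e
    apply hs
    have := congrArg (fun σ : Perm α => σ s) (hcomm l hl)
    simp only [Perm.mul_apply, Perm.smul_def] at this e
    rw [e] at this
    exact l.injective this) c (h.cent c hc hcomm)
  ext x
  by_contra hx
  exact hx (h1 x (mem_support.mpr hx))

theorem AlHyp.le_of (h : AlHyp H L) {c : Perm α} (hc : c ∈ H) (D : Subgroup (Perm α))
    (hD : ∀ l ∈ L, ∀ d ∈ D, l * d * l⁻¹ ∈ D) (hcD : c ∈ D) :
    L ≤ D ∨ ∀ l ∈ L, l * c = c * l := by
  rcases Comp2.quasisimple_commutator_eq_or_eq_bot (U := Subgroup.zpowers c) h.qs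
    ((Subgroup.zpowers_le.mpr hc).trans h.norm) with e | e
  · left
    rw [← e, Subgroup.commutator_le]
    intro l hl d hd
    have hd' : d ∈ D := Subgroup.zpowers_le.mpr hcD hd
    rw [commutatorElement_def]
    exact D.mul_mem (hD l hl d hd') (D.inv_mem hd')
  · right
    intro l hl
    exact Comp2.commutator_eq_bot_iff_forall.mp e l hl c (Subgroup.mem_zpowers c)

/-- The 3-cycle `(x y w)` lies in `H`. -/
def AlTri (H : Subgroup (Perm α)) (x y w : α) : Prop :=
  x ≠ y ∧ x ≠ w ∧ y ≠ w ∧ swap x y * swap y w ∈ H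

theorem AlTri.rot {x y w : α} (h : AlTri H x y w) : AlTri H y w x := by
  obtain ⟨h1, h2, h3, h4⟩ := h
  refine ⟨h3, h1.symm, h2.symm, ?_⟩
  have : swap y w * swap w x = swap x y * swap y w := by
    ext t
    simp only [Perm.mul_apply, swap_apply_def]
    split_ifs <;> simp_all
  rwa [this]

theorem AlTri.flip {x y w : α} (h : AlTri H x y w) : AlTri H x w y := by
  obtain ⟨h1, h2, h3, h4⟩ := h
  refine ⟨h2, h1, h3.symm, ?_⟩
  have : swap x w * swap w y = (swap x y * swap y w)⁻¹ := by
    rw [mul_inv_rev, swap_inv, swap_inv]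
    ext t
    simp only [Perm.mul_apply, swap_apply_def]
    split_ifs <;> simp_all
  rw [this]
  exact H.inv_mem h4

theorem AlTri.conj {x y w : α} (h : AlTri H x y w) {g : Perm α} (hg : g ∈ H) :
    AlTri H (g x) (g y) (g w) := by
  obtain ⟨h1, h2, h3, h4⟩ := h
  refine ⟨g.injective.ne h1, g.injective.ne h2, g.injective.ne h3, ?_⟩
  have : swap (g x) (g y) * swap (g y) (g w) = g * (swap x y * swap y w) * g⁻¹ := by
    rw [swap_apply_apply, swap_apply_apply]; group
  rw [this]
  exact H.mul_mem (H.mul_mem hg h4) (H.inv_mem hg)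

theorem AlTri.two {x y w a : α} (h : AlTri H x y a) (h' : AlTri H x w a) (hyw : y ≠ w) :
    AlTri H x y w := by
  have := h.conj h'.2.2.2
  obtain ⟨h1, h2, h3, -⟩ := h
  obtain ⟨h4, h5, h6, -⟩ := h'
  have e1 : (swap x w * swap w a) x = w := by
    simp only [Perm.mul_apply, swap_apply_def]; split_ifs <;> simp_all
  have e2 : (swap x w * swap w a) y = y := by
    simp only [Perm.mul_apply, swap_apply_def]; split_ifs <;> simp_all
  have e3 : (swap x w * swap w a) a = x := by
    simp only [Perm.mul_apply, swap_apply_def]; split_ifs <;> simp_all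
  rw [e1, e2, e3] at this
  exact this.rot.rot.flip

theorem AlTri.trans {x y w a b : α} (h : AlTri H x y a) (h' : AlTri H y w b) (hxw : x ≠ w) :
    AlTri H x y w := by
  by_cases e1 : a = w
  · exact e1 ▸ h
  by_cases e2 : b = x
  · subst e2; exact h'.rot.rot
  by_cases e3 : a = b
  · subst e3
    exact (h.flip.rot.rot.two h' hxw).flip.rot.rot
  have := h.conj h'.2.2.2
  have hh := h
  obtain ⟨h1, h2, h3, -⟩ := h
  obtain ⟨h4, h5, h6, -⟩ := h'
  have f1 : (swap y w * swap w b) x = x := by
    simp only [Perm.mul_apply, swap_apply_def]; split_ifs <;> simp_all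
  have f2 : (swap y w * swap w b) y = w := by
    simp only [Perm.mul_apply, swap_apply_def]; split_ifs <;> simp_all
  have f3 : (swap y w * swap w b) a = a := by
    simp only [Perm.mul_apply, swap_apply_def]; split_ifs <;> simp_all
  rw [f1, f2, f3] at this
  exact hh.two this h4

/-- Two points lie in a common 3-cycle of `H`, or are equal. -/
def AlRel (H : Subgroup (Perm α)) (x y : α) : Prop := x = y ∨ ∃ a, AlTri H x y a

theorem AlRel.symm {x y : α} (h : AlRel H x y) : AlRel H y x := by
  rcases h with rfl | ⟨a, h⟩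
  · exact Or.inl rfl
  · exact Or.inr ⟨a, h.flip.rot.rot⟩

theorem AlRel.trans {x y w : α} (h : AlRel H x y) (h' : AlRel H y w) : AlRel H x w := by
  rcases h with rfl | ⟨a, h⟩
  · exact h'
  rcases h' with rfl | ⟨b, h'⟩
  · exact Or.inr ⟨a, h⟩
  by_cases e : x = w
  · exact Or.inl e
  · exact Or.inr ⟨y, (h.trans h' e).flip⟩

theorem AlRel.conj {x y : α} (h : AlRel H x y) {g : Perm α} (hg : g ∈ H) :
    AlRel H (g x) (g y) := by
  rcases h with rfl | ⟨a, h⟩
  · exact Or.inl rfl
  · exact Or.inr ⟨_, h.conj hg⟩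

theorem AlRel.tri {x y w : α} (h : AlRel H x y) (h' : AlRel H y w) (h1 : x ≠ y) (h2 : x ≠ w)
    (h3 : y ≠ w) : AlTri H x y w := by
  obtain ⟨a, h⟩ := h.resolve_left h1
  obtain ⟨b, h'⟩ := h'.resolve_left h3
  exact h.trans h' h2

theorem AlHyp.three (h : AlHyp H L) {x y w : α} (ht : AlTri H x y w) :
    ∃ Δ : Finset α, Nonempty (L ≃* alternatingGroup Δ) ∧ ∀ t, t ∈ Δ ↔ ∃ l ∈ L, l t ≠ t := by
  classical
  set c := swap x y * swap y w with hc
  have hcH : c ∈ H := ht.2.2.2
  have hc3 : c.IsThreeCycle := by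
    rw [hc, swap_comm x y]
    exact isThreeCycle_swap_mul_swap_same ht.1.symm ht.2.2.1 ht.2.1
  have hnc : ¬ ∀ l ∈ L, l * c = c * l := fun e =>
    hc3.ne_one (h.nocent hcH (by rw [hc3.card_support]; omega) e)
  have hcx : ∀ t, c t ≠ t → AlRel H x t := by
    intro t htt
    by_cases e1 : t = x
    · exact Or.inl e1.symm
    by_cases e2 : t = y
    · exact Or.inr ⟨w, e2 ▸ ht⟩
    by_cases e3 : t = w
    · exact Or.inr ⟨y, e3 ▸ ht.flip⟩
    exact absurd (by simp [hc, swap_apply_of_ne_of_ne, e1, e2, e3]) htt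
  let K : Subgroup (Perm α) :=
    { carrier := {g | g ∈ H ∧ ∀ t, AlRel H t (g t)}
      mul_mem' := fun {a b} ha hb => ⟨H.mul_mem ha.1 hb.1, fun t => (hb.2 t).trans (ha.2 _)⟩
      one_mem' := ⟨H.one_mem, fun t => Or.inl rfl⟩
      inv_mem' := fun {a} ha => ⟨H.inv_mem ha.1, fun t => by
        have := (ha.2 (a⁻¹ t)).symm
        simpa using this⟩ }
  have hLK : L ≤ K := by
    refine (h.le_of hcH K (fun l hl d hd => ⟨H.mul_mem (H.mul_mem (h.le hl) hd.1)
      (H.inv_mem (h.le hl)), fun t => ?_⟩) ⟨hcH, fun t => ?_⟩).resolve_right hnc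
    · have := (hd.2 (l⁻¹ t)).conj (h.le hl)
      simpa using this
    · by_cases e : c t = t
      · exact Or.inl e.symm
      · exact (hcx t e).symm.trans (hcx (c t) (fun e' => e (c.injective e')))
  let Δ : Finset α := Finset.univ.filter (fun t => AlRel H x t)
  have hΔ : ∀ t, t ∈ Δ ↔ AlRel H x t := fun t => by simp [Δ]
  let D : Subgroup (Perm α) :=
    { carrier := {g | ∀ t, t ∉ Δ → g t = t}
      mul_mem' := fun {a b} ha hb t htt => by
        rw [Perm.mul_apply, hb t htt, ha t htt]
      one_mem' := fun t _ => rfl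
      inv_mem' := fun {a} ha t htt => by
        rw [Perm.inv_eq_iff_eq, ha t htt] }
  have hLD : L ≤ D := by
    refine (h.le_of hcH D (fun l hl d hd t htt => ?_) (fun t htt => ?_)).resolve_right hnc
    · have : l⁻¹ t ∉ Δ := by
        intro e
        apply htt
        rw [hΔ] at e ⊢
        exact e.trans ((hLK (L.inv_mem hl)).2 t).symm
      simp only [Perm.mul_apply]
      rw [hd _ this]; simp
    · by_contra e
      exact htt ((hΔ t).mpr (hcx t e))
  have hLs : ∀ l ∈ L, sign l = 1 := by
    have : L ≤ alternatingGroup α := by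
      rw [← h.perf, Subgroup.commutator_le]
      intro a _ b _
      rw [mem_alternatingGroup, commutatorElement_def]
      simp only [map_mul, map_inv]
      rw [mul_right_comm (sign a)]; simp
    exact fun l hl => this hl
  let φ : alternatingGroup Δ →* Perm α :=
    (Perm.ofSubtype : Perm Δ →* Perm α).comp (alternatingGroup Δ).subtype
  have hφ : Function.Injective φ := Perm.ofSubtype_injective.comp (alternatingGroup Δ).subtype_injective
  have hφH : ∀ k, φ k ∈ H := by
    have : alternatingGroup Δ ≤ H.comap (Perm.ofSubtype : Perm Δ →* Perm α) := by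
      rw [← closure_three_cycles_eq_alternating, Subgroup.closure_le]
      intro σ hσ
      have hσ' : σ.IsThreeCycle := hσ
      obtain ⟨a, ha⟩ : σ.support.Nonempty := by
        rw [← Finset.card_pos, hσ'.card_support]; omega
      have e := hσ'.eq_swap_mul_swap_iff_mem_support.mpr ha
      have nd := hσ'.nodup_iff_mem_support.mpr ha
      simp only [List.nodup_cons, List.mem_cons, List.not_mem_nil, or_false, not_or] at nd
      show Perm.ofSubtype σ ∈ H
      rw [e, map_mul, ofSubtype_swap_eq, ofSubtype_swap_eq]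
      have r1 := (hΔ _).mp a.2
      have r2 := (hΔ _).mp (σ a).2
      have r3 := (hΔ _).mp (σ (σ a)).2
      exact ((r1.symm.trans r2).tri (r2.symm.trans r3) (fun e => nd.1.1 (Subtype.ext e))
        (fun e => nd.1.2 (Subtype.ext e)) (fun e => nd.2.1 (Subtype.ext e))).2.2.2
    exact fun k => this k.2
  have hLφ : L ≤ φ.range := by
    intro l hl
    obtain ⟨σ, rfl⟩ : l ∈ (Perm.ofSubtype : Perm Δ →* Perm α).range := by
      rw [Perm.mem_range_ofSubtype_iff]
      intro t htt
      by_contra e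
      exact (mem_support.mp htt) (hLD hl t e)
    exact ⟨⟨σ, by have := hLs _ hl; rwa [sign_ofSubtype] at this⟩, rfl⟩
  have h5 : 5 ≤ Nat.card Δ := by
    by_contra e
    apply hnc
    have := al_fix L h.perf Δ (by simp at e; omega) (fun l hl s hs => by
      rw [hΔ] at hs ⊢
      exact hs.trans ((hLK hl).2 s))
    intro l hl
    have : l = 1 := by
      ext t
      by_cases e : t ∈ Δ
      · exact this l hl t e
      · exact hLD hl t e
    simp [this]
  haveI := alternatingGroup.isSimpleGroup h5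
  haveI : (L.comap φ).Normal := ⟨fun n hn g => by
    show φ (g * n * g⁻¹) ∈ L
    rw [map_mul, map_mul, map_inv]
    exact (Subgroup.mem_normalizer_iff.mp (h.norm (hφH g)) (φ n)).mp hn⟩
  have hL : L = φ.range := by
    rcases (inferInstance : (L.comap φ).Normal).eq_bot_or_eq_top with e | e
    · exfalso
      apply hnc
      intro l hl
      obtain ⟨k, rfl⟩ := hLφ hl
      have : k ∈ L.comap φ := hl
      rw [e, Subgroup.mem_bot] at this
      simp [this]
    · refine le_antisymm hLφ ?_
      rintro _ ⟨k, rfl⟩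
      have : k ∈ L.comap φ := e ▸ Subgroup.mem_top k
      exact this
  refine ⟨Δ, ⟨(MulEquiv.subgroupCongr hL).trans (MonoidHom.ofInjective hφ).symm⟩, fun t => ⟨fun htt => ?_, ?_⟩⟩
  · obtain ⟨a, ha⟩ : ∃ a : Δ, a ≠ ⟨t, htt⟩ := by
      haveI : Nontrivial Δ := Finite.one_lt_card_iff_nontrivial.mp (by omega)
      exact exists_ne _
    obtain ⟨b, hb1, hb2⟩ : ∃ b : Δ, b ≠ ⟨t, htt⟩ ∧ b ≠ a := by
      by_contra e
      push Not at e
      have : (Finset.univ : Finset Δ) ⊆ {⟨t, htt⟩, a} := by
        intro b _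
        by_cases e' : b = ⟨t, htt⟩
        · simp [e']
        · simp [e b e']
      have h1 := Finset.card_le_card this
      have h2 := Finset.card_le_two (a := (⟨t, htt⟩ : Δ)) (b := a)
      rw [Finset.card_univ, ← Nat.card_eq_fintype_card] at h1
      omega
    have h3 := isThreeCycle_swap_mul_swap_same ha.symm hb1.symm hb2.symm
    refine ⟨φ ⟨_, h3.mem_alternatingGroup⟩, hL ▸ ⟨_, rfl⟩, ?_⟩
    show Perm.ofSubtype (swap (⟨t, htt⟩ : Δ) a * swap ⟨t, htt⟩ b) t ≠ t
    rw [ofSubtype_apply_of_mem _ htt]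
    intro e
    have e' : (swap (⟨t, htt⟩ : Δ) a * swap ⟨t, htt⟩ b) ⟨t, htt⟩ = ⟨t, htt⟩ := Subtype.ext e
    rw [Perm.mul_apply, swap_apply_left, swap_apply_of_ne_of_ne hb1 hb2] at e'
    exact hb1 e'
  · rintro ⟨l, hl, e⟩
    by_contra e'
    exact e (hLD hl t e')

end

end Cfsg.Agent.Elu
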