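import Mathlib
import Cfsg.Agent.Elu.Alt1

/-! Subgroups of `S_n` containing a Sylow 2-subgroup of `A_n`. -/

set_option autoImplicit false
set_option backward.isDefEq.respectTransparency false

namespace Cfsg.Agent.Elu

open Equiv Equiv.Perm
open scoped commutatorElement Pointwise

section
variable {α : Type*} [Fintype α] [DecidableEq α] {H L : Subgroup (Perm α)}

/-- Four points whose Klein four-group lies in `H`. -/
def AlBl (H : Subgroup (Perm α)) (B : Finset α) : Prop :=
  B.card = 4 ∧ ∀ a ∈ B, ∀ b ∈ B, ∀ c ∈ B, ∀ d ∈ B, a ≠ b → a ≠ c → a ≠ d → b ≠ c → b ≠ d →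
    c ≠ d → swap a b * swap c d ∈ H

theorem AlBl.pre {B : Finset α} (h : AlBl H B) {g : Perm α} (hg : g ∈ H) :
    AlBl H (Finset.univ.filter (fun t => g t ∈ B)) := by
  refine ⟨?_, fun a ha b hb c hc d hd h1 h2 h3 h4 h5 h6 => ?_⟩
  · rw [← h.1]
    exact Finset.card_bijective g g.bijective (by simp)
  · simp only [Finset.mem_filter, Finset.mem_univ, true_and] at ha hb hc hd
    have := h.2 _ ha _ hb _ hc _ hd (g.injective.ne h1) (g.injective.ne h2) (g.injective.ne h3)
      (g.injective.ne h4) (g.injective.ne h5) (g.injective.ne h6)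
    have e : swap a b * swap c d = g⁻¹ * (swap (g a) (g b) * swap (g c) (g d)) * g := by
      rw [swap_apply_apply, swap_apply_apply]; group
    rw [e]
    exact H.mul_mem (H.mul_mem (H.inv_mem hg) this) hg

theorem AlBl.tri {B B' : Finset α} (h : AlBl H B) (h' : AlBl H B') {a a' : α} (ha : a ∈ B)
    (ha' : a' ∈ B') (hn : a' ∉ B) (hs : ∀ t ∈ B, t ≠ a → t ∈ B') : ∃ b, AlTri H a b a' := by
  have h3 : (B.erase a).card = 3 := by rw [Finset.card_erase_of_mem ha, h.1]
  obtain ⟨b, c, d, bc, bd, cd, e⟩ := Finset.card_eq_three.mp h3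
  have hb : b ∈ B.erase a := by simp [e]
  have hc : c ∈ B.erase a := by simp [e]
  have hd : d ∈ B.erase a := by simp [e]
  rw [Finset.mem_erase] at hb hc hd
  have n1 : b ≠ a' := fun e => hn (e ▸ hb.2)
  have n2 : c ≠ a' := fun e => hn (e ▸ hc.2)
  have n3 : d ≠ a' := fun e => hn (e ▸ hd.2)
  have m1 := h.2 c hc.2 d hd.2 a ha b hb.2 cd hc.1 bc.symm hd.1 bd.symm hb.1.symm
  have m2 := h'.2 c (hs c hc.2 hc.1) d (hs d hd.2 hd.1) b (hs b hb.2 hb.1) a' ha' cd bc.symm n2
    bd.symm n3 n1
  refine ⟨b, hb.1.symm, fun e => hn (e ▸ ha), n1, ?_⟩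
  have := H.mul_mem (H.inv_mem m1) m2
  rwa [mul_inv_rev, swap_inv, swap_inv, mul_assoc, ← mul_assoc (swap c d), swap_mul_self,
    one_mul] at this

end

section
variable {n : ℕ} {H L : Subgroup (Perm (Fin n))}

/-- The elements of a standard 2-subgroup of `A_n`. -/
def AlQ (n : ℕ) : Subgroup (Perm (Fin n)) where
  carrier := {g | sign g = 1 ∧ (∀ x, (g x).val / 4 = x.val / 4) ∧
    ∀ x y : Fin n, x.val / 2 = y.val / 2 ↔ (g x).val / 2 = (g y).val / 2}
  mul_mem' := fun {a b} ha hb => ⟨by simp [ha.1, hb.1], fun x => by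
    rw [Perm.mul_apply, ha.2.1, hb.2.1], fun x y => by
    rw [Perm.mul_apply, Perm.mul_apply, ← ha.2.2, hb.2.2]⟩
  one_mem' := ⟨by simp, fun x => rfl, fun x y => Iff.rfl⟩
  inv_mem' := fun {a} ha => ⟨by simp [ha.1], fun x => by
    have := ha.2.1 (a⁻¹ x); simp only [Perm.coe_inv, apply_symm_apply] at this ⊢; omega,
    fun x y => by
    have := ha.2.2 (a⁻¹ x) (a⁻¹ y); simp only [Perm.coe_inv, apply_symm_apply] at this ⊢
    exact this.symm⟩

theorem alQ_pow {g : Perm (Fin n)} (hg : g ∈ AlQ n) : g ^ 4 = 1 := by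
  have h2 : ∀ x, (g (g x)).val / 2 = x.val / 2 := by
    intro x
    have a1 := hg.2.1 x
    have a2 := hg.2.1 (g x)
    have a3 := hg.2.2 x (g x)
    omega
  ext x
  have a1 := h2 x
  have a2 := h2 (g (g x))
  have a3 : g (g (g (g x))) = g (g x) → g (g x) = x := fun e => g.injective (g.injective e)
  rw [Fin.ext_iff, Fin.ext_iff] at a3
  have a4 : g (g x) = x → g (g (g (g x))) = x := fun e => by rw [e, e]
  rw [Fin.ext_iff, Fin.ext_iff] at a4
  show (g (g (g (g x)))).val = x.val
  omega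

theorem alQ_pair {a a' e e' : Fin n} (h1 : a ≠ a') (h2 : e ≠ e') (h3 : a.val / 2 = a'.val / 2)
    (h4 : e.val / 2 = e'.val / 2) : swap a a' * swap e e' ∈ AlQ n := by
  have key : ∀ x, ((swap a a' * swap e e') x).val / 2 = x.val / 2 := by
    intro x
    simp only [Perm.mul_apply, swap_apply_def]
    split_ifs <;> simp_all
  refine ⟨by simp [h1, h2], fun x => ?_, fun x y => by rw [key, key]⟩
  have := key x
  omega

theorem alQ_block {a b c d : Fin n} (h1 : a ≠ b) (h2 : a ≠ c) (h3 : a ≠ d) (h4 : b ≠ c)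
    (h5 : b ≠ d) (h6 : c ≠ d) (e1 : b.val / 4 = a.val / 4) (e2 : c.val / 4 = a.val / 4)
    (e3 : d.val / 4 = a.val / 4) : swap a b * swap c d ∈ AlQ n := by
  have key : ∀ x, ((swap a b * swap c d) x).val = if x.val = a.val then b.val else
      if x.val = b.val then a.val else if x.val = c.val then d.val else
      if x.val = d.val then c.val else x.val := by
    intro x
    simp only [Perm.mul_apply, swap_apply_def, ← Fin.ext_iff]
    split_ifs <;> simp_all
  rw [Ne, Fin.ext_iff] at h1 h2 h3 h4 h5 h6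
  refine ⟨by simp [Fin.ext_iff, h1, h6], fun x => ?_, fun x y => ?_⟩
  · rw [key]; split_ifs <;> omega
  · rw [key, key]; split_ifs <;> omega

theorem alBl_block (hQ : AlQ n ≤ H) (j : ℕ) (hj : 4 * j + 3 < n) :
    AlBl H (Finset.univ.filter (fun t : Fin n => t.val / 4 = j)) := by
  refine ⟨?_, fun a ha b hb c hc d hd h1 h2 h3 h4 h5 h6 => ?_⟩
  · have : Finset.univ.filter (fun t : Fin n => t.val / 4 = j) =
        {⟨4 * j, by omega⟩, ⟨4 * j + 1, by omega⟩, ⟨4 * j + 2, by omega⟩, ⟨4 * j + 3, by omega⟩} := by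
      ext t
      simp only [Finset.mem_filter, Finset.mem_univ, true_and, Finset.mem_insert,
        Finset.mem_singleton, Fin.ext_iff]
      omega
    rw [this, Finset.card_eq_four]
    refine ⟨_, _, _, _, ?_, ?_, ?_, ?_, ?_, ?_, rfl⟩ <;> simp [Fin.ext_iff]
  · simp only [Finset.mem_filter, Finset.mem_univ, true_and] at ha hb hc hd
    exact hQ (alQ_block h1 h2 h3 h4 h5 h6 (by omega) (by omega) (by omega))

theorem al_five {B : Finset (Fin n)} (hB : B.card = 4) (h : ∀ i < 5, ∃ t ∈ B, t.val / 2 = i) :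
    False := by
  have h1 : Finset.range 5 ⊆ B.image (fun t => t.val / 2) := by
    intro i hi
    obtain ⟨t, ht, e⟩ := h i (Finset.mem_range.mp hi)
    exact Finset.mem_image.mpr ⟨t, ht, e⟩
  have h2 := Finset.card_le_card h1
  have h3 := Finset.card_image_le (s := B) (f := fun t : Fin n => t.val / 2)
  simp at h2; omega

theorem al_half (hQ : AlQ n ≤ H) (hno : ∀ x y w, ¬ AlTri H x y w) {B : Finset (Fin n)}
    (hB : AlBl H B) : (∀ a a' : Fin n, a.val / 2 = a'.val / 2 → a ∈ B → a' ∈ B) ∨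
      ∀ e e' : Fin n, e ≠ e' → e.val / 2 = e'.val / 2 → (e ∈ B ↔ e' ∉ B) := by
  by_cases h : ∀ a a' : Fin n, a.val / 2 = a'.val / 2 → a ∈ B → a' ∈ B
  · exact Or.inl h
  right
  push Not at h
  obtain ⟨a, a', h1, h2, h3⟩ := h
  have h4 : a ≠ a' := fun e => h3 (e ▸ h2)
  intro e e' h5 h6
  by_cases h7 : e.val / 2 = a.val / 2
  · have : (e = a ∧ e' = a') ∨ (e = a' ∧ e' = a) := by
      simp only [Ne, Fin.ext_iff] at h4 h5 ⊢; omega
    rcases this with ⟨rfl, rfl⟩ | ⟨rfl, rfl⟩ <;> simp [h2, h3]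
  by_contra h8
  have h9 : e ∈ B ↔ e' ∈ B := by tauto
  have n1 : a ≠ e := fun h => h7 (h ▸ rfl)
  have n2 : a ≠ e' := fun h => h7 (by rw [h6, ← h])
  have n3 : a' ≠ e := fun h => h7 (by rw [← h, h1])
  have n4 : a' ≠ e' := fun h => h7 (by rw [h6, ← h, h1])
  obtain ⟨b, hb⟩ := hB.tri (hB.pre (hQ (alQ_pair h4 h5 h1 h6))) h2 (a' := a') (by
    simp [swap_apply_of_ne_of_ne n3 n4, h2]) h3 (fun t ht hta => by
    have : t ≠ a' := fun h => h3 (h ▸ ht)
    simp only [Finset.mem_filter, Finset.mem_univ, true_and, Perm.mul_apply, swap_apply_def]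
    split_ifs <;> simp_all)
  exact hno _ _ _ hb

theorem al_iff {p q r s t a b : Prop} (e1 : p ↔ (q ↔ b)) (e2 : q ↔ (r ↔ a)) (e3 : s ↔ (r ↔ b))
    (e4 : t ↔ (s ↔ a)) : t ↔ p := by
  by_cases a <;> by_cases b <;> simp_all

theorem AlHyp.exists_tri (h : AlHyp H L) (hn : 8 ≤ n) (hQ : AlQ n ≤ H) :
    ∃ x y w, AlTri H x y w := by
  classical
  by_contra hno
  push Not at hno
  let U : Set (Fin n) := {x | ∃ B, AlBl H B ∧ x ∈ B}
  have hU : ∀ g ∈ H, ∀ x ∈ U, g x ∈ U := by
    rintro g hg x ⟨B, hB, hx⟩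
    exact ⟨_, hB.pre (H.inv_mem hg), by simpa using hx⟩
  let T : Subgroup (Perm (Fin n)) :=
    { carrier := {g | g ∈ H ∧ ∀ B, AlBl H B → ∀ x ∈ U, ∀ y ∈ U,
        ((g x ∈ B ↔ g y ∈ B) ↔ (x ∈ B ↔ y ∈ B))}
      mul_mem' := fun {a b} ha hb => ⟨H.mul_mem ha.1 hb.1, fun B hB x hx y hy =>
        (ha.2 B hB _ (hU b hb.1 x hx) _ (hU b hb.1 y hy)).trans (hb.2 B hB x hx y hy)⟩
      one_mem' := ⟨H.one_mem, fun B hB x hx y hy => Iff.rfl⟩
      inv_mem' := fun {a} ha => ⟨H.inv_mem ha.1, fun B hB x hx y hy => by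
        have := ha.2 B hB _ (hU _ (H.inv_mem ha.1) x hx) _ (hU _ (H.inv_mem ha.1) y hy)
        simp only [Perm.coe_inv, apply_symm_apply] at this ⊢
        exact this.symm⟩ }
  let p : ∀ i : ℕ, i < 8 → Fin n := fun i hi => ⟨i, by omega⟩
  let z : Perm (Fin n) := (swap (p 0 (by omega)) (p 1 (by omega)) *
    swap (p 2 (by omega)) (p 3 (by omega))) * (swap (p 4 (by omega)) (p 5 (by omega)) *
    swap (p 6 (by omega)) (p 7 (by omega)))
  have hz0 : swap (p 0 (by omega)) (p 1 (by omega)) * swap (p 2 (by omega)) (p 3 (by omega)) ∈ H :=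
    hQ (alQ_pair (by simp [p]) (by simp [p]) (by simp [p]) (by simp [p]))
  have hzH : z ∈ H := H.mul_mem hz0
    (hQ (alQ_pair (by simp [p]) (by simp [p]) (by simp [p]) (by simp [p])))
  have hz : ∀ x, (z x).val = if x.val < 8 then (if x.val % 2 = 0 then x.val + 1 else x.val - 1)
      else x.val := by
    intro x
    simp only [z, p, Perm.mul_apply, swap_apply_def, Fin.ext_iff]
    split_ifs <;> first | omega | (simp only [] at *; omega) | simp_all
  have hz2 : ∀ x, (z x).val / 2 = x.val / 2 := fun x => by rw [hz]; split_ifs <;> omega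
  have hzne : ∀ x : Fin n, z x ≠ x ↔ x.val < 8 := fun x => by
    rw [Ne, Fin.ext_iff, hz]; split_ifs <;> omega
  have hpairs : ∀ B : Finset (Fin n), (∀ e e' : Fin n, e ≠ e' → e.val / 2 = e'.val / 2 →
      (e ∈ B ↔ e' ∉ B)) → ∀ i, 2 * i + 1 < n → ∃ t ∈ B, t.val / 2 = i := by
    intro B hB i hi
    have := hB ⟨2 * i, by omega⟩ ⟨2 * i + 1, hi⟩ (by simp) (by simp only []; omega)
    by_cases e : (⟨2 * i, by omega⟩ : Fin n) ∈ B
    · exact ⟨_, e, by simp⟩
    · exact ⟨_, by tauto, (by simp only []; omega : (⟨2 * i + 1, hi⟩ : Fin n).val / 2 = i)⟩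
  have hzT : z ∈ T := by
    refine ⟨hzH, fun B hB x hx y hy => ?_⟩
    rcases al_half hQ hno hB with h1 | h1
    · have : ∀ t, z t ∈ B ↔ t ∈ B := fun t => ⟨h1 _ _ (hz2 t), h1 _ _ (hz2 t).symm⟩
      rw [this, this]
    · have h9 : n ≤ 9 := by
        by_contra e
        exact al_five hB.1 (fun i hi => hpairs B h1 i (by omega))
      have h8 : ∀ t ∈ U, t.val < 8 := by
        rintro t ⟨C, hC, ht⟩
        by_contra e
        have t8 : t.val = 8 := by omega
        rcases al_half hQ hno hC with h2 | h2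
        · have h3 : (C.erase t).card = 3 := by rw [Finset.card_erase_of_mem ht, hC.1]
          obtain ⟨b, c, d, bc, bd, cd, e⟩ := Finset.card_eq_three.mp h3
          have key : ∀ s, s ∈ C.erase t → s.val < 8 ∧ z s ∈ C.erase t ∧ (z s).val ≠ s.val := by
            intro s hs
            rw [Finset.mem_erase] at hs ⊢
            have s8 : s.val < 8 := by
              have := hs.1; rw [Ne, Fin.ext_iff] at this; omega
            refine ⟨s8, ⟨?_, h2 _ _ (hz2 s).symm hs.2⟩, fun e => (hzne s).mpr s8 (Fin.ext e)⟩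
            have := hz2 s
            rw [Ne, Fin.ext_iff]; omega
          have k1 := key b (by simp [e])
          have k2 := key c (by simp [e])
          have k3 := key d (by simp [e])
          have l1 := hz2 b
          have l2 := hz2 c
          have l3 := hz2 d
          simp only [e, Finset.mem_insert, Finset.mem_singleton, Ne, Fin.ext_iff] at k1 k2 k3 bc bd cd
          omega
        · refine al_five hC.1 (fun i hi => ?_)
          by_cases e4 : i = 4
          · exact ⟨t, ht, by omega⟩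
          · exact hpairs C h2 i (by omega)
      have : ∀ t ∈ U, (z t ∈ B ↔ t ∉ B) := fun t ht =>
        h1 _ _ ((hzne t).mpr (h8 t ht)) (hz2 t)
      rw [this x hx, this y hy]; tauto
  rcases h.le_of hzH T (fun l hl d hd => ⟨H.mul_mem (H.mul_mem (h.le hl) hd.1)
      (H.inv_mem (h.le hl)), fun B hB x hx y hy => by
        have := hd.2 _ (hB.pre (h.le hl)) _ (hU _ (H.inv_mem (h.le hl)) x hx) _
          (hU _ (H.inv_mem (h.le hl)) y hy)
        simpa using this⟩) hzT with hLT | hc
  · have hB := alBl_block hQ 0 (by omega)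
    set B := Finset.univ.filter (fun t : Fin n => t.val / 4 = 0) with hBdef
    have hx0 : p 0 (by omega) ∈ B := by simp [hBdef, p]
    have hs : ∀ g ∈ L, ∀ t ∈ U, (g t ∈ B ↔ (t ∈ B ↔ g (p 0 (by omega)) ∈ B)) := by
      intro g hg t ht
      have := (hLT hg).2 B hB t ht _ ⟨B, hB, hx0⟩
      tauto
    have hst : L ≤ MulAction.stabilizer (Perm (Fin n)) B := by
      rw [← h.perf, Subgroup.commutator_le]
      intro a ha b hb
      rw [MulAction.mem_stabilizer_finset]
      intro t
      have aH := h.le ha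
      have bH := h.le hb
      by_cases ht : t ∈ U
      · have u1 := hU _ (H.inv_mem bH) t ht
        have u2 := hU _ (H.inv_mem aH) _ u1
        have u3 := hU _ bH _ u2
        have e1 := hs b hb _ u1
        have e2 := hs a ha _ u2
        have e3 := hs b hb _ u2
        have e4 := hs a ha _ u3
        simp only [Perm.coe_inv, apply_symm_apply] at e1 e2 e3 e4
        simp only [commutatorElement_def, Perm.smul_def, Perm.mul_apply, Perm.coe_inv]
        exact al_iff e1 e2 e3 e4
      · refine iff_of_false (fun e => ht ?_) (fun e => ht ⟨B, hB, e⟩)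
        have hab : ⁅a, b⁆ ∈ H := by
          rw [commutatorElement_def]
          exact H.mul_mem (H.mul_mem (H.mul_mem aH bH) (H.inv_mem aH)) (H.inv_mem bH)
        have := hU _ (H.inv_mem hab) _ ⟨B, hB, e⟩
        rwa [Perm.smul_def, Perm.coe_inv, symm_apply_apply] at this
    have hfix := al_fix L h.perf B hB.1.le (fun l hl s hs =>
      (MulAction.mem_stabilizer_finset.mp (hst hl) s).mpr hs)
    have hsupp : ∀ t, t ∉ B → (swap (p 0 (by omega)) (p 1 (by omega)) *
        swap (p 2 (by omega)) (p 3 (by omega))) t = t := by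
      intro t ht
      simp only [hBdef, Finset.mem_filter, Finset.mem_univ, true_and] at ht
      simp only [p, Perm.mul_apply, swap_apply_def, Fin.ext_iff]
      split_ifs <;> first | omega | (simp only [] at *; omega) | simp_all
    have := h.nocent hz0 ((Finset.card_le_card (fun t ht => by
      by_contra e
      exact mem_support.mp ht (hsupp t e))).trans hB.1.le) (fun l hl => by
      refine (Perm.Disjoint.commute (fun t => ?_)).eq
      by_cases e : t ∈ B
      · exact Or.inl (hfix l hl t e)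
      · exact Or.inr (hsupp t e))
    have e := congrArg (fun σ : Perm (Fin n) => (σ (p 0 (by omega))).val) this
    simp [p, swap_apply_def] at e
  · have hzL := h.cent z hzH hc
    have hlz : ∀ l ∈ L, ∀ t, l (z t) = z (l t) := fun l hl t =>
      congrArg (fun σ : Perm (Fin n) => σ t) (hc l hl)
    let S : Finset (Finset (Fin n)) := Finset.univ.image
      (fun i : Fin 4 => ({p (2 * i) (by omega), p (2 * i + 1) (by omega)} : Finset (Fin n)))
    have hS : ∀ s, s ∈ S ↔ ∃ t : Fin n, t.val < 8 ∧ s = {t, z t} := by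
      intro s
      simp only [S, Finset.mem_image, Finset.mem_univ, true_and]
      constructor
      · rintro ⟨i, rfl⟩
        refine ⟨p (2 * i) (by omega), by simp only [p]; omega, ?_⟩
        congr 2
        rw [Fin.ext_iff, hz]
        simp only [p]
        split_ifs <;> omega
      · rintro ⟨t, ht, rfl⟩
        refine ⟨⟨t.val / 2, by omega⟩, ?_⟩
        ext u
        simp only [p, Finset.mem_insert, Finset.mem_singleton, Fin.ext_iff, hz]
        split_ifs <;> omega
    have hfix := al_fix L h.perf S (Finset.card_image_le.trans (by simp)) (fun l hl s hs => by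
      obtain ⟨t, ht, rfl⟩ := (hS s).mp hs
      refine (hS _).mpr ⟨l t, ?_, ?_⟩
      · rw [← hzne, ← hlz l hl]
        exact l.injective.ne ((hzne t).mpr ht)
      · rw [Finset.smul_finset_insert, Finset.smul_finset_singleton, Perm.smul_def, Perm.smul_def,
          hlz l hl])
    have h0 : (p 0 (by omega)).val < 8 := by simp [p]
    have hfix2 := al_fix L h.perf {p 0 (by omega), z (p 0 (by omega))}
      (Finset.card_le_two.trans (by omega)) (fun l hl s hs => by
        rw [← hfix l hl _ ((hS _).mpr ⟨_, h0, rfl⟩)]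
        exact Finset.smul_mem_smul_finset hs)
    exact (hzne _).mpr h0 (hfix2 z hzL _ (by simp))

theorem AlHyp.main (h : AlHyp H L) (hn : 8 ≤ n) (hQ : AlQ n ≤ H) :
    ∃ m : ℕ, (m = n - 3 ∨ m = n - 2 ∨ m = n - 1 ∨ m = n) ∧
      Nonempty (L ≃* alternatingGroup (Fin m)) := by
  classical
  obtain ⟨x, y, w, ht⟩ := h.exists_tri hn hQ
  obtain ⟨Δ, ⟨e⟩, hΔ⟩ := h.three ht
  have hinv : ∀ g ∈ H, ∀ t ∈ Δ, g t ∈ Δ := by
    intro g hg t ht
    obtain ⟨l, hl, e⟩ := (hΔ t).mp ht
    refine (hΔ _).mpr ⟨g * l * g⁻¹, (Subgroup.mem_normalizer_iff.mp (h.norm hg) l).mp hl, ?_⟩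
    simpa using e
  have hbig : ∀ t : Fin n, t.val < 4 * (n / 4) → t ∈ Δ := by
    intro t ht
    by_contra hne
    have hB := alBl_block hQ (t.val / 4) (by omega)
    set B := Finset.univ.filter (fun s : Fin n => s.val / 4 = t.val / 4) with hBdef
    have htB : t ∈ B := by simp [hBdef]
    have h3 : (B.erase t).card = 3 := by rw [Finset.card_erase_of_mem htB, hB.1]
    obtain ⟨b, c, d, bc, bd, cd, e⟩ := Finset.card_eq_three.mp h3
    have hb : b ∈ B.erase t := by simp [e]
    have hc : c ∈ B.erase t := by simp [e]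
    have hd : d ∈ B.erase t := by simp [e]
    rw [Finset.mem_erase] at hb hc hd
    have m1 := hB.2 t htB b hb.2 c hc.2 d hd.2 hb.1.symm hc.1.symm hd.1.symm bc bd cd
    have m2 := hB.2 t htB c hc.2 b hb.2 d hd.2 hc.1.symm hb.1.symm hd.1.symm bc.symm cd bd
    have m3 := hB.2 t htB d hd.2 b hb.2 c hc.2 hd.1.symm hb.1.symm hc.1.symm bd.symm cd.symm bc
    have nb : b ∉ Δ := fun hh => hne (by
      simpa [swap_apply_of_ne_of_ne bc bd] using hinv _ m1 b hh)
    have nc : c ∉ Δ := fun hh => hne (by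
      simpa [swap_apply_of_ne_of_ne bc.symm cd] using hinv _ m2 c hh)
    have nd : d ∉ Δ := fun hh => hne (by
      simpa [swap_apply_of_ne_of_ne bd.symm cd.symm] using hinv _ m3 d hh)
    have hsupp : ∀ s, s ≠ t → s ≠ b → s ≠ c → s ≠ d → (swap t b * swap c d) s = s := by
      intro s h1 h2 h3 h4
      simp [swap_apply_of_ne_of_ne, h1, h2, h3, h4]
    have := h.nocent m1 ((Finset.card_le_card (fun s hs => by
      by_contra e
      exact mem_support.mp hs (hsupp s (fun f => e (f ▸ htB)) (fun f => e (f ▸ hb.2))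
        (fun f => e (f ▸ hc.2)) (fun f => e (f ▸ hd.2))))).trans hB.1.le) (fun l hl => by
      refine (Perm.Disjoint.commute (fun s => ?_)).eq
      by_cases e : s ∈ Δ
      · exact Or.inr (hsupp s (fun f => hne (f ▸ e)) (fun f => nb (f ▸ e)) (fun f => nc (f ▸ e))
          (fun f => nd (f ▸ e)))
      · left
        by_contra e'
        exact e ((hΔ s).mpr ⟨l, hl, e'⟩))
    have e := congrArg (fun σ : Perm (Fin n) => σ t) this
    simp only [Perm.mul_apply, swap_apply_of_ne_of_ne hc.1.symm hd.1.symm, swap_apply_left,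
      Perm.one_apply] at e
    exact hb.1 e
  have h1 : Δ.card ≤ n := by simpa using Finset.card_le_univ Δ
  have h2 : 4 * (n / 4) ≤ Δ.card := by
    have := Finset.card_le_card (s := Finset.univ.filter (fun t : Fin n => t.val < 4 * (n / 4)))
      (t := Δ) (fun t ht => hbig t (by simpa using ht))
    rw [Fin.card_filter_val_lt] at this
    omega
  exact ⟨Δ.card, by omega, ⟨e.trans (Equiv.altCongrHom Δ.equivFin)⟩⟩

end

end Cfsg.Agent.Elu
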