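import Mathlib
import Cfsg.Agent.Elu.Alt2

/-! Indecomposability of Sylow 2-subgroups of alternating groups. -/

set_option autoImplicit false
set_option backward.isDefEq.respectTransparency false

namespace Cfsg.Agent.Elu

open Equiv Equiv.Perm

variable {n : ℕ}

/-- A standard 2-subgroup of `S_n`. -/
def SyW (n : ℕ) : Subgroup (Perm (Fin n)) where
  carrier := {g | (∀ x, (g x).val / 4 = x.val / 4) ∧
    ∀ x y : Fin n, x.val / 2 = y.val / 2 ↔ (g x).val / 2 = (g y).val / 2}
  mul_mem' := fun {a b} ha hb => ⟨fun x => by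
    rw [Perm.mul_apply, ha.1, hb.1], fun x y => by
    rw [Perm.mul_apply, Perm.mul_apply, ← ha.2, hb.2]⟩
  one_mem' := ⟨fun x => rfl, fun x y => Iff.rfl⟩
  inv_mem' := fun {a} ha => ⟨fun x => by
    have := ha.1 (a⁻¹ x); simp only [Perm.coe_inv, apply_symm_apply] at this ⊢; omega,
    fun x y => by
    have := ha.2 (a⁻¹ x) (a⁻¹ y); simp only [Perm.coe_inv, apply_symm_apply] at this ⊢
    exact this.symm⟩

theorem syW_pow {g : Perm (Fin n)} (hg : g ∈ SyW n) : g ^ 4 = 1 := by
  have h2 : ∀ x, (g (g x)).val / 2 = x.val / 2 := by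
    intro x
    have a1 := hg.1 x
    have a2 := hg.1 (g x)
    have a3 := hg.2 x (g x)
    omega
  ext x
  have a1 := h2 x
  have a2 := h2 (g (g x))
  have a3 : g (g (g (g x))) = g (g x) → g (g x) = x := fun e => g.injective (g.injective e)
  rw [Fin.ext_iff, Fin.ext_iff] at a3
  have a4 : g (g x) = x → g (g (g (g x))) = x := fun e => by rw [e, e]
  rw [Fin.ext_iff, Fin.ext_iff] at a4
  show (g (g (g (g x)))).val = x.val
  omega

theorem alQ_le_syW : AlQ n ≤ SyW n := fun _ hg => hg.2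

theorem swap_div_two {a a' : Fin n} (h : a.val / 2 = a'.val / 2) (x : Fin n) :
    (swap a a' x).val / 2 = x.val / 2 := by
  simp only [swap_apply_def]
  split_ifs <;> simp_all

theorem syW_swap {a a' : Fin n} (h : a.val / 2 = a'.val / 2) : swap a a' ∈ SyW n :=
  ⟨fun x => by have := swap_div_two h x; omega, fun x y => by rw [swap_div_two h, swap_div_two h]⟩

theorem sy_partner (c : Fin n) (h : c.val < 2 * (n / 2)) :
    ∃ c' : Fin n, c ≠ c' ∧ c.val / 2 = c'.val / 2 := by
  by_cases e : c.val % 2 = 0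
  · exact ⟨⟨c.val + 1, by omega⟩, by simp [Fin.ext_iff], by simp only []; omega⟩
  · exact ⟨⟨c.val - 1, by omega⟩, by simp only [Ne, Fin.ext_iff]; omega, by simp only []; omega⟩

/-- A direct decomposition of the even part of a 2-group containing `SyW n`. -/
structure SyHyp (S X Y : Subgroup (Perm (Fin n))) : Prop where
  pg : IsPGroup 2 S
  le : SyW n ≤ S
  hX : ∀ x ∈ X, x ∈ S ∧ sign x = 1
  hY : ∀ y ∈ Y, y ∈ S ∧ sign y = 1
  comm : ∀ x ∈ X, ∀ y ∈ Y, x * y = y * x
  disj : ∀ x ∈ X, x ∈ Y → x = 1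
  gen : ∀ g ∈ S, sign g = 1 → ∃ x ∈ X, ∃ y ∈ Y, g = x * y
  nX : X ≠ ⊥
  nY : Y ≠ ⊥

variable {S X Y : Subgroup (Perm (Fin n))}

theorem SyHyp.symm (h : SyHyp S X Y) : SyHyp S Y X :=
  ⟨h.pg, h.le, h.hY, h.hX, fun y hy x hx => (h.comm x hx y hy).symm,
    fun y hy hx => h.disj y hx hy, fun g hg hs => by
      obtain ⟨x, hx, y, hy, e⟩ := h.gen g hg hs
      exact ⟨y, hy, x, hx, e.trans (h.comm x hx y hy)⟩, h.nY, h.nX⟩

theorem sy_pres (pg : IsPGroup 2 S) (le : SyW n ≤ S) {s : Perm (Fin n)} (hs : s ∈ S)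
    {x y : Fin n} (e : x.val / 2 = y.val / 2) : (s x).val / 2 = (s y).val / 2 := by
  by_contra hne
  have hsw : swap (s x) (s y) ∈ S := by
    rw [swap_apply_apply]
    exact S.mul_mem (S.mul_mem hs (le (syW_swap e))) (S.inv_mem hs)
  have key : ∀ c d : Fin n, c.val / 2 ≠ d.val / 2 → swap c d ∈ S → c.val < 2 * (n / 2) → False := by
    intro c d h1 h2 h3
    obtain ⟨c', h4, h5⟩ := sy_partner c h3
    have h6 := isThreeCycle_swap_mul_swap_same (a := c) (b := d) (c := c')
      (fun e => h1 (e ▸ rfl)) h4 (fun e => h1 (e ▸ h5))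
    obtain ⟨k, hk⟩ := pg ⟨_, S.mul_mem h2 (le (syW_swap h5))⟩
    have h7 : (swap c d * swap c c') ^ 2 ^ k = 1 := congrArg Subtype.val hk
    have h8 := orderOf_dvd_of_pow_eq_one h7
    rw [h6.orderOf] at h8
    have := Nat.Prime.dvd_of_dvd_pow Nat.prime_three h8
    omega
  by_cases h : (s x).val < 2 * (n / 2)
  · exact key _ _ hne hsw h
  · exact key _ _ (Ne.symm hne) (swap_comm (s x) (s y) ▸ hsw) (by have := (s x).2; have := (s y).2; omega)

theorem sy_comm_supp {z : Perm (Fin n)} {a a' e e' : Fin n} (h1 : a ≠ a') (h2 : a ≠ e)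
    (h3 : a ≠ e') (hc : z * (swap a a' * swap e e') = (swap a a' * swap e e') * z) :
    z a = a ∨ z a = a' ∨ z a = e ∨ z a = e' := by
  by_contra h
  push Not at h
  have := congrArg (fun σ : Perm (Fin n) => σ a) hc
  simp only [Perm.mul_apply, swap_apply_of_ne_of_ne h2 h3, swap_apply_left,
    swap_apply_of_ne_of_ne h.2.2.1 h.2.2.2, swap_apply_of_ne_of_ne h.1 h.2.1] at this
  exact h1 (z.injective this).symm

theorem SyHyp.pair (h : SyHyp S X Y) {a a' e e' : Fin n} (h1 : a ≠ a') (h2 : e ≠ e')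
    (h3 : a.val / 2 = a'.val / 2) (h4 : e.val / 2 = e'.val / 2) :
    swap a a' * swap e e' ∈ S ∧ sign (swap a a' * swap e e') = 1 :=
  ⟨h.le (alQ_le_syW (alQ_pair h1 h2 h3 h4)), (alQ_pair h1 h2 h3 h4).1⟩

theorem SyHyp.central (h : SyHyp S X Y) (hn : 6 ≤ n) {z : Perm (Fin n)}
    (hz : ∀ g ∈ S, sign g = 1 → z * g = g * z) (c : Fin n) : (z c).val / 2 = c.val / 2 := by
  have key : ∀ z : Perm (Fin n), (∀ g ∈ S, sign g = 1 → z * g = g * z) → ∀ c : Fin n,
      c.val < 2 * (n / 2) → (z c).val / 2 = c.val / 2 := by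
    intro z hz c hc
    obtain ⟨c', h1, h2⟩ := sy_partner c hc
    have k : ∀ i, i < 3 → i ≠ c.val / 2 → (z c).val / 2 = c.val / 2 ∨ (z c).val / 2 = i := by
      intro i hi hic
      have m := h.pair (e := ⟨2 * i, by omega⟩) (e' := ⟨2 * i + 1, by omega⟩) h1 (by simp) h2
        (by simp only []; omega)
      have := sy_comm_supp h1 (by simp only [Ne, Fin.ext_iff]; omega)
        (by simp only [Ne, Fin.ext_iff]; omega) (hz _ m.1 m.2)
      simp only [Fin.ext_iff] at this
      omega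
    have k0 := k 0
    have k1 := k 1
    have k2 := k 2
    omega
  by_cases hc : c.val < 2 * (n / 2)
  · exact key z hz c hc
  by_cases hd : (z c).val < 2 * (n / 2)
  · have := key z⁻¹ (fun g hg hs => by
      rw [inv_mul_eq_iff_eq_mul, ← mul_assoc, hz g hg hs, mul_assoc, mul_inv_cancel, mul_one])
      (z c) hd
    simp only [Perm.coe_inv, symm_apply_apply] at this
    exact this.symm
  · have := c.2; have := (z c).2; omega

theorem SyHyp.exists_central (h : SyHyp S X Y) :
    ∃ z ∈ X, z ≠ 1 ∧ ∀ g ∈ S, sign g = 1 → z * g = g * z := by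
  have hp : IsPGroup 2 X := h.pg.to_le (fun x hx => (h.hX x hx).1)
  haveI : Nontrivial X := (Subgroup.nontrivial_iff_ne_bot X).mpr h.nX
  haveI := hp.center_nontrivial
  obtain ⟨z, hz⟩ := exists_ne (1 : Subgroup.center X)
  refine ⟨z.1.1, z.1.2, fun e => hz (Subtype.ext (Subtype.ext e)), fun g hg hs => ?_⟩
  obtain ⟨x, hx, y, hy, rfl⟩ := h.gen g hg hs
  have e1 : x * z.1.1 = z.1.1 * x :=
    congrArg Subtype.val (Subgroup.mem_center_iff.mp z.2 ⟨x, hx⟩)
  rw [← mul_assoc, ← e1, mul_assoc, h.comm _ z.1.2 y hy, mul_assoc]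

theorem SyHyp.trans_false (h : SyHyp S X Y) (hn : 6 ≤ n)
    (htr : ∀ x y : Fin n, x.val < 4 * (n / 4) → y.val < 4 * (n / 4) →
      ∃ s ∈ S, sign s = 1 ∧ s x = y) : False := by
  have key : ∀ z : Perm (Fin n), sign z = 1 → (∀ g ∈ S, sign g = 1 → z * g = g * z) →
      z ⟨0, by omega⟩ = ⟨0, by omega⟩ → z = 1 := by
    intro z hs hz h0
    have h1 : ∀ y : Fin n, y.val < 4 * (n / 4) → z y = y := by
      intro y hy
      obtain ⟨s, hs, hs', e⟩ := htr ⟨0, by omega⟩ y (by simp only []; omega) hy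
      have := congrArg (fun σ : Perm (Fin n) => σ ⟨0, by omega⟩) (hz s hs hs')
      simp only [Perm.mul_apply] at this
      rw [e, h0, e] at this
      exact this
    by_contra hne
    obtain ⟨c, hc⟩ : ∃ c, z c ≠ c := by
      by_contra e
      push Not at e
      exact hne (Equiv.ext e)
    have h2 := h.central hn hz
    have : z = swap c (z c) := by
      ext y
      have a1 := h1 y
      have a2 := h1 c
      have a3 := h2 y
      have a4 := h2 c
      have a5 : z y = z c → y = c := fun e => z.injective e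
      have a6 := y.2
      have a7 := (z y).2
      have a8 := c.2
      have a9 := (z c).2
      simp only [swap_apply_def]
      simp only [Ne, Fin.ext_iff] at a1 a2 a5 hc ⊢
      split_ifs with e1 e2
      · rw [Fin.ext e1]
      · omega
      · omega
    rw [this, sign_swap hc.symm] at hs
    exact absurd hs (by decide)
  obtain ⟨z, hz, hz1, hz2⟩ := h.exists_central
  obtain ⟨w, hw, hw1, hw2⟩ := h.symm.exists_central
  have a1 := h.central hn hz2 ⟨0, by omega⟩
  have a2 := h.central hn hw2 ⟨0, by omega⟩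
  have a3 : z ⟨0, by omega⟩ ≠ ⟨0, by omega⟩ := fun e => hz1 (key z (h.hX z hz).2 hz2 e)
  have a4 : w ⟨0, by omega⟩ ≠ ⟨0, by omega⟩ := fun e => hw1 (key w (h.hY w hw).2 hw2 e)
  have a5 : z ⟨0, by omega⟩ = w ⟨0, by omega⟩ := by
    simp only [Ne, Fin.ext_iff] at a1 a2 a3 a4 ⊢; omega
  have a6 := key (w⁻¹ * z) (by simp [(h.hX z hz).2, (h.hY w hw).2]) (fun g hg hs => by
    rw [mul_assoc, hz2 g hg hs, ← mul_assoc, ← mul_assoc]
    congr 1
    rw [inv_mul_eq_iff_eq_mul, ← mul_assoc, hw2 g hg hs, mul_assoc, mul_inv_cancel, mul_one])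
    (by rw [Perm.mul_apply, a5]; simp)
  rw [inv_mul_eq_one] at a6
  exact hz1 (h.disj z hz (a6 ▸ hw))

theorem sy_lemA {α : Type*} [DecidableEq α] {x y g k : Perm α} {a a' b b' : α} (h1 : a ≠ a')
    (hv : swap a a' * swap b b' = x * y) (c1 : x * k = k * x) (c2 : g * y = y * g)
    (c3 : g * k = k * g) (c4 : x * y = y * x) (ya : y a = a) (ya' : y a' = a')
    (n0 : a ≠ b ∧ a ≠ b') (n1 : g a ≠ b ∧ g a ≠ b') (n2 : k a ≠ b ∧ k a ≠ b')
    (n3 : g (k a) ≠ b ∧ g (k a) ≠ b') (m1 : g a ≠ a ∧ g a ≠ a') (m2 : k a ≠ a ∧ k a ≠ a') :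
    False := by
  have v : ∀ t, x (y t) = swap a a' (swap b b' t) := fun t =>
    (congrArg (fun σ : Perm α => σ t) hv).symm
  have d1 : ∀ t, x (k t) = k (x t) := fun t => congrArg (fun σ : Perm α => σ t) c1
  have d2 : ∀ t, g (y t) = y (g t) := fun t => congrArg (fun σ : Perm α => σ t) c2
  have d3 : ∀ t, g (k t) = k (g t) := fun t => congrArg (fun σ : Perm α => σ t) c3
  have d4 : ∀ t, x (y t) = y (x t) := fun t => congrArg (fun σ : Perm α => σ t) c4
  have xa : x a = a' := by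
    have := v a
    rwa [ya, swap_apply_of_ne_of_ne n0.1 n0.2, swap_apply_left] at this
  have f1 : y (k a) ≠ k a := by
    intro e
    have := v (k a)
    rw [e, d1, xa, swap_apply_of_ne_of_ne n2.1 n2.2, swap_apply_of_ne_of_ne m2.1 m2.2] at this
    exact h1 (k.injective this).symm
  have f2 : x (g a) = g a := by
    have := v (g a)
    rwa [← d2, ya, swap_apply_of_ne_of_ne n1.1 n1.2, swap_apply_of_ne_of_ne m1.1 m1.2] at this
  have f3 : x (g (k a)) = g (k a) := by rw [d3, d1, f2]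
  have f4 : y (g (k a)) ≠ g (k a) := by
    rw [← d2]; exact g.injective.ne f1
  have f5 := v (g (k a))
  rw [d4, f3, swap_apply_of_ne_of_ne n3.1 n3.2] at f5
  apply f4
  by_cases e1 : g (k a) = a
  · rw [e1, ya]
  by_cases e2 : g (k a) = a'
  · rw [e2, ya']
  rw [f5, swap_apply_of_ne_of_ne e1 e2]

/-- `Y` keeps the point `a` inside its pair. -/
def SySm (Y : Subgroup (Perm (Fin n))) (a : Fin n) : Prop := ∀ y ∈ Y, (y a).val / 2 = a.val / 2

theorem SyHyp.small (h : SyHyp S X Y) {a a' b b' : Fin n} (h1 : a ≠ a') (h2 : b ≠ b')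
    (h3 : a.val / 2 = a'.val / 2) (h4 : b.val / 2 = b'.val / 2)
    (ho : ∀ p ∈ S, sign p = 1 → p a ≠ b ∧ p a ≠ b') : SySm X a ∨ SySm Y a := by
  by_contra hc
  simp only [SySm, not_or, not_forall] at hc
  obtain ⟨⟨g, hg, eg⟩, ⟨k, hk, ek⟩⟩ := hc
  have m := h.pair h1 h2 h3 h4
  obtain ⟨x, hx, y, hy, e⟩ := h.gen _ m.1 m.2
  have n0 := ho 1 S.one_mem (by simp)
  simp only [Perm.one_apply] at n0
  have n1 := ho g (h.hX g hg).1 (h.hX g hg).2
  have n2 := ho k (h.hY k hk).1 (h.hY k hk).2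
  have n3 := ho (g * k) (S.mul_mem (h.hX g hg).1 (h.hY k hk).1)
    (by simp [(h.hX g hg).2, (h.hY k hk).2])
  have m1 : g a ≠ a ∧ g a ≠ a' := ⟨fun e => eg (by rw [e]), fun e => eg (by rw [e, h3])⟩
  have m2 : k a ≠ a ∧ k a ≠ a' := ⟨fun e => ek (by rw [e]), fun e => ek (by rw [e, h3])⟩
  have ny := ho y (h.hY y hy).1 (h.hY y hy).2
  have cy : y * (swap a a' * swap b b') = (swap a a' * swap b b') * y := by
    rw [e, ← mul_assoc, h.comm x hx y hy]
  have fix2 : ∀ s ∈ S, (s a = a ↔ s a' = a') := by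
    intro s hs
    have a1 := sy_pres h.pg h.le hs h3
    have a2 : s a ≠ s a' := s.injective.ne h1
    simp only [Ne, Fin.ext_iff] at a2 h1 ⊢
    omega
  rcases sy_comm_supp h1 n0.1 n0.2 cy with e1 | e1 | e1 | e1
  · exact sy_lemA h1 e (h.comm x hx k hk) (h.comm g hg y hy) (h.comm g hg k hk) (h.comm x hx y hy)
      e1 ((fix2 y (h.hY y hy).1).mp e1) n0 n1 n2 n3 m1 m2
  · have e2 : x a' = a' := by
      have := congrArg (fun σ : Perm (Fin n) => σ a) e
      simp only [Perm.mul_apply, swap_apply_of_ne_of_ne n0.1 n0.2, swap_apply_left, e1] at this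
      exact this.symm
    refine sy_lemA h1 (e.trans (h.comm x hx y hy)) (h.comm g hg y hy).symm (h.comm x hx k hk).symm
      (h.comm g hg k hk).symm (h.comm x hx y hy).symm ((fix2 x (h.hX x hx).1).mpr e2) e2 n0 n2 n1
      ?_ m2 m1
    rwa [h.comm g hg k hk] at n3
  · exact ny.1 e1
  · exact ny.2 e1

theorem SyHyp.small_move (h : SyHyp S X Y) {a : Fin n} (ha : SySm Y a) {p : Perm (Fin n)}
    (hp : p ∈ S) (hs : sign p = 1) : SySm Y (p a) := by
  intro y hy
  obtain ⟨x, hx, w, hw, rfl⟩ := h.gen p hp hs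
  have e : y * (x * w) = (x * w) * (w⁻¹ * y * w) := by
    rw [← mul_assoc, ← h.comm x hx y hy]; group
  have := congrArg (fun σ : Perm (Fin n) => σ a) e
  simp only [Perm.mul_apply] at this
  rw [Perm.mul_apply, this]
  exact sy_pres h.pg h.le hp (ha _ (Y.mul_mem (Y.mul_mem (Y.inv_mem hw) hy) hw))

theorem SyHyp.small_fix (h : SyHyp S X Y) {a : Fin n} (ha : SySm Y a) {p : Perm (Fin n)}
    (hp : p ∈ S) (hs : sign p = 1) {y : Perm (Fin n)} (hy : y ∈ Y) :
    y a = a ↔ y (p a) = p a := by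
  obtain ⟨x, hx, w, hw, rfl⟩ := h.gen p hp hs
  have := congrArg (fun σ : Perm (Fin n) => σ (w a)) (h.comm x hx y hy)
  simp only [Perm.mul_apply] at this
  rw [Perm.mul_apply, ← this, x.injective.eq_iff]
  have a1 := ha w hw
  have a2 := ha y hy
  have a3 := ha (y * w) (Y.mul_mem hy hw)
  have a4 : y (w a) = y a ↔ w a = a := y.injective.eq_iff
  simp only [Perm.mul_apply, Fin.ext_iff] at a3 a4 ⊢
  omega

theorem SyHyp.block (h : SyHyp S X Y) {c d : Fin n} (hc : c.val < 4 * (n / 4))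
    (e : c.val / 4 = d.val / 4) : ∃ p ∈ S, sign p = 1 ∧ p c = d := by
  by_cases hcd : c = d
  · exact ⟨1, S.one_mem, by simp, hcd⟩
  obtain ⟨u, w, h1, h2, h3, h4, h5, h6, h7⟩ : ∃ u w : Fin n, c ≠ u ∧ c ≠ w ∧ d ≠ u ∧ d ≠ w ∧ u ≠ w ∧
      u.val / 4 = c.val / 4 ∧ w.val / 4 = c.val / 4 := by
    have hB := (alBl_block (H := AlQ n) le_rfl (c.val / 4) (by omega)).1
    set B := Finset.univ.filter (fun t : Fin n => t.val / 4 = c.val / 4) with hBdef
    have : ((B.erase c).erase d).card = 2 := by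
      rw [Finset.card_erase_of_mem (by simp [hBdef, e, Ne.symm hcd]),
        Finset.card_erase_of_mem (by simp [hBdef]), hB]
    obtain ⟨u, w, h1, h2⟩ := Finset.card_eq_two.mp this
    have hu : u ∈ (B.erase c).erase d := by simp [h2]
    have hw : w ∈ (B.erase c).erase d := by simp [h2]
    simp only [hBdef, Finset.mem_erase, Finset.mem_filter, Finset.mem_univ, true_and] at hu hw
    exact ⟨u, w, hu.2.1.symm, hw.2.1.symm, hu.1.symm, hw.1.symm, h1, hu.2.2, hw.2.2⟩
  have m := alQ_block hcd h1 h2 h3 h4 h5 e.symm h6 h7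
  exact ⟨_, h.le (alQ_le_syW m), m.1, by simp [swap_apply_of_ne_of_ne h1 h2]⟩

theorem sy_lemB (hn : n % 4 ≤ 1) (K : Subgroup (Perm (Fin n)))
    (hK : ∀ j (hj : 4 * j + 3 < n), swap (⟨4 * j, by omega⟩ : Fin n) ⟨4 * j + 1, by omega⟩ *
      swap ⟨4 * j + 2, by omega⟩ ⟨4 * j + 3, hj⟩ ∈ K) (g : Perm (Fin n))
    (h1 : ∀ c, (g c).val / 2 = c.val / 2)
    (h2 : ∀ c d : Fin n, c.val / 4 = d.val / 4 → g c = c → g d = d) : g ∈ K := by
  suffices H : ∀ i, i ≤ n / 4 → ∀ g : Perm (Fin n), (∀ c, (g c).val / 2 = c.val / 2) →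
      (∀ c d : Fin n, c.val / 4 = d.val / 4 → g c = c → g d = d) →
      (∀ c : Fin n, i ≤ c.val / 4 → g c = c) → g ∈ K by
    refine H _ le_rfl g h1 h2 (fun c hc => ?_)
    have := h1 c; have := c.2; have := (g c).2
    rw [Fin.ext_iff]; omega
  intro i
  induction i with
  | zero =>
    intro _ g _ _ h3
    have : g = 1 := Equiv.ext (fun c => h3 c (Nat.zero_le _))
    rw [this]; exact K.one_mem
  | succ i ih =>
    intro hi g h1 h2 h3
    by_cases e : g ⟨4 * i, by omega⟩ = ⟨4 * i, by omega⟩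
    · refine ih (by omega) g h1 h2 (fun c hc => ?_)
      by_cases e' : c.val / 4 = i
      · exact h2 _ c (by simp only []; omega) e
      · exact h3 c (by omega)
    · have hu := hK i (by omega)
      set u := swap (⟨4 * i, by omega⟩ : Fin n) ⟨4 * i + 1, by omega⟩ *
        swap ⟨4 * i + 2, by omega⟩ ⟨4 * i + 3, by omega⟩ with hudef
      have u1 : ∀ c, (u c).val / 2 = c.val / 2 := fun c => by
        rw [hudef, Perm.mul_apply, swap_div_two (by simp only []; omega),
          swap_div_two (by simp only []; omega)]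
      have u2 : ∀ c : Fin n, u c = c ↔ c.val / 4 ≠ i := fun c => by
        simp only [hudef, Perm.mul_apply, swap_apply_def, Fin.ext_iff]
        split_ifs <;> first | omega | (simp only [] at *; omega)
      have k1 : ∀ c : Fin n, c.val / 4 = i → (g * u) c = c := by
        intro c hc
        have a1 := u1 c
        have a2 := u2 c
        have a3 := h1 (u c)
        have a4 : g (u c) ≠ u c := fun e' => e (h2 _ _ (by simp only []; omega) e')
        simp only [Perm.mul_apply, Ne, Fin.ext_iff] at a2 a4 ⊢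
        omega
      have k2 : ∀ c : Fin n, c.val / 4 ≠ i → (g * u) c = g c := fun c hc => by
        rw [Perm.mul_apply, (u2 c).mpr hc]
      have := ih (by omega) (g * u) (fun c => by rw [Perm.mul_apply, h1, u1]) (fun c d hcd hc => by
        by_cases e' : c.val / 4 = i
        · exact k1 d (by omega)
        · rw [k2 c e'] at hc
          rw [k2 d (by omega)]
          exact h2 c d hcd hc) (fun c hc => by
        by_cases e' : c.val / 4 = i
        · exact k1 c e'
        · rw [k2 c e']; exact h3 c (by omega))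
      simpa using K.mul_mem this (K.inv_mem hu)

theorem sy_comm_eq {α : Type*} [DecidableEq α] {p : Perm α} {a a' c d b b' : α} (h1 : p c = a)
    (h2 : p d = a') (h3 : p b = b) (h4 : p b' = b') :
    p * (swap c d * swap b b') * p⁻¹ * (swap c d * swap b b')⁻¹ = swap a a' * swap c d := by
  have : p * (swap c d * swap b b') * p⁻¹ = swap (p c) (p d) * swap (p b) (p b') := by
    rw [swap_apply_apply, swap_apply_apply]; group
  rw [this, h1, h2, h3, h4, mul_inv_rev, swap_inv, swap_inv, mul_assoc, ← mul_assoc (swap b b'),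
    swap_mul_self, one_mul]

theorem SyHyp.all_small_false (h : SyHyp S X Y) (h8 : 8 ≤ n) (hn : n % 4 ≤ 1)
    (hs : ∀ a, SySm Y a) : False := by
  have hYc : ∀ y ∈ Y, ∀ w ∈ Y, y * w = w * y := by
    intro y hy w hw
    ext c
    have a1 := hs c y hy
    have a2 := hs c w hw
    have a3 := hs (w c) y hy
    have a4 := hs (y c) w hw
    have a5 : y (w c) = y c ↔ w c = c := y.injective.eq_iff
    have a6 : w (y c) = w c ↔ y c = c := w.injective.eq_iff
    simp only [Perm.mul_apply, Fin.ext_iff] at a5 a6 ⊢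
    omega
  have hcomm : ∀ p ∈ S, sign p = 1 → ∀ q ∈ S, sign q = 1 → p * q * p⁻¹ * q⁻¹ ∈ X := by
    intro p hp hp' q hq hq'
    obtain ⟨x, hx, y, hy, rfl⟩ := h.gen p hp hp'
    obtain ⟨u, hu, w, hw, rfl⟩ := h.gen q hq hq'
    have e1 : y * (u * w) = (u * w) * y := by
      rw [← mul_assoc, ← h.comm u hu y hy, mul_assoc, hYc y hy w hw, mul_assoc]
    have e2 : w * x⁻¹ = x⁻¹ * w := (h.comm _ (X.inv_mem hx) w hw).symm
    have : x * y * (u * w) * (x * y)⁻¹ * (u * w)⁻¹ = x * u * x⁻¹ * u⁻¹ := by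
      calc _ = x * (y * (u * w)) * y⁻¹ * x⁻¹ * (u * w)⁻¹ := by group
        _ = x * u * (w * x⁻¹) * (u * w)⁻¹ := by rw [e1]; group
        _ = _ := by rw [e2]; group
    rw [this]
    exact X.mul_mem (X.mul_mem (X.mul_mem hx hu) (X.inv_mem hx)) (X.inv_mem hu)
  apply h.nY
  rw [eq_bot_iff]
  intro y hy
  refine h.disj y (sy_lemB hn X (fun j hj => ?_) y (fun c => hs c y hy) (fun c d hcd hc => ?_)) hy
  · obtain ⟨i, hi, hij⟩ : ∃ i, 4 * i + 3 < n ∧ i ≠ j := by
      by_cases e : j = 0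
      · exact ⟨1, by omega, by omega⟩
      · exact ⟨0, by omega, by omega⟩
    have m1 := alQ_block (a := (⟨4 * j, by omega⟩ : Fin n)) (b := ⟨4 * j + 2, by omega⟩)
      (c := ⟨4 * j + 1, by omega⟩) (d := ⟨4 * j + 3, by omega⟩) (by simp) (by simp) (by simp)
      (by simp) (by simp) (by simp) (by simp only []; omega) (by simp only []; omega)
      (by simp only []; omega)
    have m2 := h.pair (a := (⟨4 * j + 2, by omega⟩ : Fin n)) (a' := ⟨4 * j + 3, by omega⟩)
      (e := ⟨4 * i, by omega⟩) (e' := ⟨4 * i + 1, by omega⟩) (by simp) (by simp)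
      (by simp only []; omega) (by simp only []; omega)
    have := hcomm _ (h.le (alQ_le_syW m1)) m1.1 _ m2.1 m2.2
    rw [sy_comm_eq (a := ⟨4 * j, by omega⟩) (a' := ⟨4 * j + 1, by omega⟩)] at this
    · exact this
    all_goals
      simp only [Perm.mul_apply, swap_apply_def, Fin.ext_iff]
      split_ifs <;> first | rfl | contradiction | omega | (exfalso; simp only [] at *; omega)
  · by_cases e : c.val < 4 * (n / 4)
    · obtain ⟨p, hp, hp', rfl⟩ := h.block e hcd
      exact (h.small_fix (hs c) hp hp' hy).mp hc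
    · have : c = d := by have := c.2; have := d.2; rw [Fin.ext_iff]; omega
      exact this ▸ hc

theorem SyHyp.false_of_mod (h : SyHyp S X Y) (h8 : 8 ≤ n) (hn : n % 4 ≤ 1) : False := by
  by_cases htr : ∀ x y : Fin n, x.val < 4 * (n / 4) → y.val < 4 * (n / 4) →
      ∃ s ∈ S, sign s = 1 ∧ s x = y
  · exact h.trans_false (by omega) htr
  push Not at htr
  obtain ⟨x0, y0, hx0, hy0, hxy⟩ := htr
  have hlast : ∀ a : Fin n, ¬ a.val < 4 * (n / 4) → ∀ s ∈ S, (s a).val / 2 = a.val / 2 := by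
    intro a ha s hs
    by_cases e : (s a).val < 2 * (n / 2)
    · obtain ⟨c', h1, h2⟩ := sy_partner _ e
      have := sy_pres h.pg h.le (S.inv_mem hs) h2
      simp only [Perm.coe_inv, symm_apply_apply] at this
      have e2 : s.symm c' = a := by
        have := (s.symm c').2; have := a.2; rw [Fin.ext_iff]; omega
      exact absurd (by rw [← e2]; simp) h1
    · have := (s a).2; have := a.2; omega
  have hout : ∀ a b b' : Fin n, b.val < 4 * (n / 4) → b.val / 2 = b'.val / 2 →
      (∀ p ∈ S, sign p = 1 → p a ≠ b) → ∀ p ∈ S, sign p = 1 → p a ≠ b ∧ p a ≠ b' := by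
    intro a b b' hb hbb ho p hp hp'
    refine ⟨ho p hp hp', fun e => ?_⟩
    obtain ⟨q, hq, hq', e'⟩ := h.block (c := b') (d := b) (by omega) (by omega)
    exact ho (q * p) (S.mul_mem hq hp) (by simp [hq', hp']) (by rw [Perm.mul_apply, e, e'])
  have hall : ∀ a, SySm X a ∨ SySm Y a := by
    intro a
    by_cases ha : a.val < 4 * (n / 4)
    · obtain ⟨a', h1, h2⟩ := sy_partner a (by omega)
      obtain ⟨b, hb, ho⟩ : ∃ b : Fin n, b.val < 4 * (n / 4) ∧ ∀ p ∈ S, sign p = 1 → p a ≠ b := by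
        by_cases e : ∀ p ∈ S, sign p = 1 → p a ≠ x0
        · exact ⟨x0, hx0, e⟩
        · push Not at e
          obtain ⟨p, hp, hp', e⟩ := e
          refine ⟨y0, hy0, fun q hq hq' e' => hxy (q * p⁻¹) (S.mul_mem hq (S.inv_mem hp))
            (by simp [hq', hp']) ?_⟩
          rw [Perm.mul_apply, ← e, ← e']; simp
      obtain ⟨b', h3, h4⟩ := sy_partner b (by omega)
      exact h.small h1 h3 h2 h4 (hout a b b' hb h4 ho)
    · exact Or.inl (fun x hx => hlast a ha x (h.hX x hx).1)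
  by_cases e1 : ∀ a, SySm Y a
  · exact h.all_small_false h8 hn e1
  by_cases e2 : ∀ a, SySm X a
  · exact h.symm.all_small_false h8 hn e2
  push Not at e1 e2
  obtain ⟨b, hb⟩ := e1
  obtain ⟨a, ha⟩ := e2
  have ha4 : a.val < 4 * (n / 4) := by
    by_contra e
    exact ha (fun x hx => hlast a e x (h.hX x hx).1)
  have hb4 : b.val < 4 * (n / 4) := by
    by_contra e
    exact hb (fun x hx => hlast b e x (h.hY x hx).1)
  obtain ⟨a', h1, h2⟩ := sy_partner a (by omega)
  obtain ⟨b', h3, h4⟩ := sy_partner b (by omega)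
  have m := h.pair h1 h3 h2 h4
  obtain ⟨x, hx, y, hy, e⟩ := h.gen _ m.1 m.2
  have k1 : ∀ c, SySm X c → (swap a a' * x) c = x c := by
    intro c hc
    have := hout c a a' ha4 h2 (fun p hp hp' e => ha (e ▸ h.symm.small_move hc hp hp')) x
      (h.hX x hx).1 (h.hX x hx).2
    rw [Perm.mul_apply, swap_apply_of_ne_of_ne this.1 this.2]
  have k2 : ∀ c, SySm Y c → (swap a a' * x) c = y⁻¹ c := by
    intro c hc
    have := hout c b b' hb4 h4 (fun p hp hp' e => hb (e ▸ h.small_move hc hp hp')) y⁻¹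
      (h.hY _ (Y.inv_mem hy)).1 (h.hY _ (Y.inv_mem hy)).2
    have e' : swap a a' * x = swap b b' * y⁻¹ := by
      rw [← mul_inv_eq_iff_eq_mul] at e
      rw [← e, ← mul_assoc, ← mul_assoc, swap_mul_self, one_mul]
    rw [e', Perm.mul_apply, swap_apply_of_ne_of_ne this.1 this.2]
  have := sy_lemB hn (alternatingGroup (Fin n)) (fun j hj => by
    rw [mem_alternatingGroup]; simp) (swap a a' * x) (fun c => by
      rcases hall c with hc | hc
      · rw [k1 c hc]; exact hc x hx
      · rw [k2 c hc]; exact hc _ (Y.inv_mem hy)) (fun c d hcd hc => by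
      by_cases e : c.val < 4 * (n / 4)
      · obtain ⟨p, hp, hp', rfl⟩ := h.block e hcd
        rcases hall c with hs | hs
        · rw [k1 c hs] at hc
          rw [k1 _ (h.symm.small_move hs hp hp')]
          exact (h.symm.small_fix hs hp hp' hx).mp hc
        · rw [k2 c hs] at hc
          rw [k2 _ (h.small_move hs hp hp')]
          exact (h.small_fix hs hp hp' (Y.inv_mem hy)).mp hc
      · have : c = d := by have := c.2; have := d.2; rw [Fin.ext_iff]; omega
        exact this ▸ hc)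
  rw [mem_alternatingGroup, map_mul, sign_swap h1, (h.hX x hx).2] at this
  exact absurd this (by decide)

end Cfsg.Agent.Elu
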