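import Mathlib
import Cfsg.Prelude.Def_TwoFusion
import Cfsg.Agent.Elu.Alt3

/-! Decomposability of Sylow 2-subgroups of alternating groups. -/

set_option autoImplicit false
set_option backward.isDefEq.respectTransparency false

namespace Cfsg.Agent.Elu

open Equiv Equiv.Perm
open scoped Pointwise

theorem sy_fact (a u w : ℕ) (hu : 2 ^ a ∣ u) (hw : w < 2 ^ a) :
    (u + w).factorial.factorization 2 = u.factorial.factorization 2 + w.factorial.factorization 2 := by
  have hb : ∀ t, t ≤ u + w → Nat.log 2 t < Nat.log 2 (u + w) + 1 := fun t ht =>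
    Nat.lt_succ_of_le (Nat.log_mono_right ht)
  rw [Nat.factorization_factorial Nat.prime_two (hb _ le_rfl),
    Nat.factorization_factorial Nat.prime_two (hb u (by omega)),
    Nat.factorization_factorial Nat.prime_two (hb w (by omega)), ← Finset.sum_add_distrib]
  refine Finset.sum_congr rfl (fun i _ => ?_)
  by_cases h : i ≤ a
  · exact Nat.add_div_of_dvd_right ((pow_dvd_pow 2 h).trans hu)
  · obtain ⟨j, rfl⟩ : ∃ j, i = a + j := ⟨i - a, by omega⟩
    simp only [pow_add, ← Nat.div_div_eq_div_mul]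
    rw [Nat.add_div_of_dvd_right hu, Nat.div_eq_of_lt hw]
    simp

theorem sy_alt_fact (n : ℕ) (hn : 2 ≤ n) :
    (Nat.card (alternatingGroup (Fin n))).factorization 2 + 1 = n.factorial.factorization 2 := by
  haveI : Nontrivial (Fin n) := Fin.nontrivial_iff_two_le.mpr hn
  have := two_mul_nat_card_alternatingGroup (α := Fin n)
  rw [Nat.card_perm, Nat.card_eq_fintype_card (α := Fin n), Fintype.card_fin] at this
  rw [← this, Nat.factorization_mul (by omega) Nat.card_pos.ne']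
  simp [Nat.prime_two.factorization, add_comm]

theorem sy_dec_of_hom {G A B : Type*} [Group G] [Finite G] [Group A] [Group B] [Nontrivial A]
    [Nontrivial B] (P : Sylow 2 G) (ψ : A × B →* G) (hψ : Function.Injective ψ)
    (hc : Nat.card A * Nat.card B = 2 ^ (Nat.card G).factorization 2) :
    ∃ S₁ S₂ : Subgroup G, S₁ ≠ ⊥ ∧ S₂ ≠ ⊥ ∧ Cfsg.IsInternalDirectProduct S₁ S₂ (P : Subgroup G) := by
  have h1 : Nat.card ψ.range = 2 ^ (Nat.card G).factorization 2 := by
    rw [← hc, ← Nat.card_prod]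
    exact (Nat.card_congr (MonoidHom.ofInjective hψ).toEquiv).symm
  obtain ⟨g, hg⟩ := MulAction.exists_smul_eq G (Sylow.ofCard _ h1) P
  let χ : A × B →* G := (MulAut.conj g).toMonoidHom.comp ψ
  have hχ : Function.Injective χ := (MulAut.conj g).injective.comp hψ
  have hP : (P : Subgroup G) = χ.range := by
    rw [← hg, MonoidHom.range_comp]; rfl
  refine ⟨(χ.comp (MonoidHom.inl A B)).range, (χ.comp (MonoidHom.inr A B)).range, ?_, ?_, ?_, ?_,
    ?_, ?_, ?_⟩
  · obtain ⟨a, ha⟩ := exists_ne (1 : A)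
    intro e
    have : χ (a, 1) ∈ (χ.comp (MonoidHom.inl A B)).range := ⟨a, rfl⟩
    rw [e, Subgroup.mem_bot, map_eq_one_iff _ hχ] at this
    exact ha (congrArg Prod.fst this)
  · obtain ⟨a, ha⟩ := exists_ne (1 : B)
    intro e
    have : χ (1, a) ∈ (χ.comp (MonoidHom.inr A B)).range := ⟨a, rfl⟩
    rw [e, Subgroup.mem_bot, map_eq_one_iff _ hχ] at this
    exact ha (congrArg Prod.snd this)
  · rintro _ ⟨a, rfl⟩; rw [hP]; exact ⟨_, rfl⟩
  · rintro _ ⟨a, rfl⟩; rw [hP]; exact ⟨_, rfl⟩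
  · rintro _ ⟨a, rfl⟩ _ ⟨b, rfl⟩
    simp only [MonoidHom.comp_apply, ← map_mul]
    simp
  · rw [eq_bot_iff]
    rintro _ ⟨⟨a, rfl⟩, ⟨b, e⟩⟩
    have := hχ e
    simp only [MonoidHom.inr_apply, MonoidHom.inl_apply, Prod.mk.injEq] at this
    rw [← this.1, map_one]
    exact Subgroup.one_mem _
  · rw [hP]
    refine le_antisymm (sup_le ?_ ?_) ?_
    · rintro _ ⟨a, rfl⟩; exact ⟨_, rfl⟩
    · rintro _ ⟨a, rfl⟩; exact ⟨_, rfl⟩
    · rintro _ ⟨⟨a, b⟩, rfl⟩
      have : χ (a, b) = χ (a, 1) * χ (1, b) := by rw [← map_mul]; simp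
      rw [this]
      exact Subgroup.mul_mem _ (Subgroup.mem_sup_left ⟨a, rfl⟩) (Subgroup.mem_sup_right ⟨b, rfl⟩)

/-- The sign character, valued in the group generated by a transposition. -/
def syTheta (e : ℕ) : ℤˣ →* Perm (Fin (e + 2)) where
  toFun u := if u = 1 then 1 else swap 0 1
  map_one' := by simp
  map_mul' u v := by
    rcases Int.units_eq_one_or u with rfl | rfl <;> rcases Int.units_eq_one_or v with rfl | rfl <;>
      simp

theorem sign_syTheta (e : ℕ) (u : ℤˣ) : sign (syTheta e u) = u := by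
  rcases Int.units_eq_one_or u with rfl | rfl <;> simp [syTheta]

theorem sy_embed (β : Type) [Fintype β] [DecidableEq β] (e n : ℕ) (hn : Fintype.card β + (e + 2) = n) :
    ∃ Ψ : Perm β →* alternatingGroup (Fin n), Function.Injective Ψ := by
  let f : Perm β →* Perm (β ⊕ Fin (e + 2)) := (sumCongrHom β (Fin (e + 2))).comp
    ((MonoidHom.id _).prod ((syTheta e).comp sign))
  have hf : Function.Injective f := sumCongrHom_injective.comp (fun a b h => congrArg Prod.fst h)
  have hs : ∀ g, f g ∈ alternatingGroup _ := fun g => by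
    simp [f, mem_alternatingGroup, sign_sumCongr, sign_syTheta]
  let ε : (β ⊕ Fin (e + 2)) ≃ Fin n := Fintype.equivFinOfCardEq (by simpa using hn)
  refine ⟨ε.altCongrHom.toMonoidHom.comp (f.codRestrict _ hs), ε.altCongrHom.injective.comp ?_⟩
  exact (MonoidHom.injective_codRestrict _ _ _).mpr hf

theorem sy_dec_big (n : ℕ) (hn : 4 ≤ n) (P : Sylow 2 (alternatingGroup (Fin n)))
    (h1 : n % 4 = 2 ∨ n % 4 = 3) (h2 : ∀ r : ℕ, 4 * (n / 4) ≠ 2 ^ r) :
    ∃ S₁ S₂ : Subgroup (alternatingGroup (Fin n)), S₁ ≠ ⊥ ∧ S₂ ≠ ⊥ ∧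
      Cfsg.IsInternalDirectProduct S₁ S₂ (P : Subgroup (alternatingGroup (Fin n))) := by
  set m := 4 * (n / 4) with hm
  set a := Nat.log 2 m with ha
  have a1 : 2 ^ a ≤ m := Nat.pow_log_le_self 2 (by omega)
  have a2 : m < 2 ^ (a + 1) := Nat.lt_pow_succ_log_self (by omega) m
  have a3 : 2 ≤ a := Nat.le_log_of_pow_le (by omega) (by omega)
  have a4 : 4 ∣ 2 ^ a := pow_dvd_pow 2 a3
  have a5 := h2 a
  obtain ⟨w, hw⟩ : ∃ w, m = 2 ^ a + w := ⟨m - 2 ^ a, by omega⟩
  have a6 : 4 ≤ w := by omega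
  have a7 : 4 ≤ 2 ^ a := Nat.le_of_dvd (by positivity) a4
  obtain ⟨Ψ, hΨ⟩ := sy_embed (Fin (2 ^ a) ⊕ Fin w) (n % 4 - 2) n (by simp; omega)
  obtain ⟨A⟩ : Nonempty (Sylow 2 (Perm (Fin (2 ^ a)))) := inferInstance
  obtain ⟨B⟩ : Nonempty (Sylow 2 (Perm (Fin w))) := inferInstance
  have hnt : ∀ t, 2 ≤ t → ∀ C : Sylow 2 (Perm (Fin t)), Nontrivial C := by
    intro t ht C
    rw [← Finite.one_lt_card_iff_nontrivial]
    have := C.dvd_card_of_dvd_card (by
      rw [Nat.card_perm, Nat.card_eq_fintype_card, Fintype.card_fin]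
      exact Nat.dvd_factorial (by omega) ht)
    exact Nat.le_of_dvd Nat.card_pos this
  haveI := hnt _ (by omega) A
  haveI := hnt _ (by omega) B
  refine sy_dec_of_hom (A := A) (B := B) P (Ψ.comp ((sumCongrHom _ _).comp
    ((A : Subgroup (Perm (Fin (2 ^ a)))).subtype.prodMap (B : Subgroup (Perm (Fin w))).subtype)))
    (fun p q h => by
      have := sumCongrHom_injective (hΨ h)
      exact Prod.ext (Subtype.ext (congrArg Prod.fst this)) (Subtype.ext (congrArg Prod.snd this))) ?_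
  rw [A.card_eq_multiplicity, B.card_eq_multiplicity, ← pow_add, Nat.card_perm, Nat.card_perm]
  simp only [Nat.card_eq_fintype_card (α := Fin _), Fintype.card_fin]
  congr 1
  have b1 := sy_alt_fact n (by omega)
  have b2 := sy_fact a (2 ^ a) w dvd_rfl (by omega)
  have b3 := sy_fact 2 m (n % 4) ⟨n / 4, by omega⟩ (by omega)
  have b4 : (n % 4).factorial.factorization 2 = 1 := by
    rcases h1 with e | e <;> rw [e]
    · exact Nat.prime_two.factorization_self
    · have : (3 : ℕ).factorial = 2 * 3 := rfl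
      rw [this, Nat.factorization_mul (by omega) (by omega)]
      simp [Nat.prime_two.factorization, Nat.prime_three.factorization]
  rw [show m + n % 4 = n by omega] at b3
  rw [← hw] at b2
  omega

theorem sy_dec_small (n : ℕ) (hn : n = 4 ∨ n = 5) (P : Sylow 2 (alternatingGroup (Fin n))) :
    ∃ S₁ S₂ : Subgroup (alternatingGroup (Fin n)), S₁ ≠ ⊥ ∧ S₂ ≠ ⊥ ∧
      Cfsg.IsInternalDirectProduct S₁ S₂ (P : Subgroup (alternatingGroup (Fin n))) := by
  let f0 : Perm (Fin 2) × Perm (Fin 2) →* Perm (Fin 2 × Fin 2) :=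
    { toFun := fun g => Equiv.prodCongr g.1 g.2
      map_one' := by ext <;> rfl
      map_mul' := fun _ _ => by ext <;> rfl }
  let f : Perm (Fin 2) × Perm (Fin 2) →* Perm ((Fin 2 × Fin 2) ⊕ Fin (n - 4)) :=
    (sumCongrHom _ _).comp ((MonoidHom.inl _ _).comp f0)
  have h0 : Function.Injective f0 := by
    rw [injective_iff_map_eq_one]
    decide
  have hf : Function.Injective f := fun p q h =>
    h0 (congrArg Prod.fst (sumCongrHom_injective h))
  have s0 : ∀ g, sign (f0 g) = 1 := by decide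
  have hs : ∀ g, f g ∈ alternatingGroup _ := fun g => by
    simp [f, mem_alternatingGroup, sign_sumCongr, s0]
  let ε : ((Fin 2 × Fin 2) ⊕ Fin (n - 4)) ≃ Fin n := Fintype.equivFinOfCardEq (by simp; omega)
  refine sy_dec_of_hom P (ε.altCongrHom.toMonoidHom.comp (f.codRestrict _ hs))
    (ε.altCongrHom.injective.comp ((MonoidHom.injective_codRestrict _ _ _).mpr hf)) ?_
  have b1 := sy_alt_fact n (by omega)
  have b2 := sy_fact 2 4 (n - 4) (by norm_num) (by omega)
  have b3 : (n - 4).factorial.factorization 2 = 0 :=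
    Nat.factorization_factorial_eq_zero_of_lt (by omega)
  have b4 : (4 : ℕ).factorial.factorization 2 = 3 := by
    have : (4 : ℕ).factorial = 2 ^ 3 * 3 := rfl
    rw [this, Nat.factorization_mul (by omega) (by omega), Nat.factorization_pow]
    simp [Nat.prime_two.factorization, Nat.prime_three.factorization]
  rw [show 4 + (n - 4) = n by omega] at b2
  have : (Nat.card (alternatingGroup (Fin n))).factorization 2 = 2 := by omega
  rw [this, Nat.card_perm]
  simp

theorem sy_trans {n r : ℕ} (S : Sylow 2 (Perm (Fin n))) (hle : SyW n ≤ S) (hn : 4 ≤ n)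
    (h1 : n % 4 = 2 ∨ n % 4 = 3) (h2 : 4 * (n / 4) = 2 ^ r) (x y : Fin n)
    (hx : x.val < 4 * (n / 4)) (hy : y.val < 4 * (n / 4)) :
    ∃ s ∈ (S : Subgroup (Perm (Fin n))), sign s = 1 ∧ s x = y := by
  classical
  obtain ⟨c, hc⟩ : ∃ c : Perm (Fin n), c.cycleType = {2 ^ r} :=
    (Equiv.Perm.exists_with_cycleType_iff (Fin n)).mpr (by simp; omega)
  have hp : IsPGroup 2 (Subgroup.zpowers c) := by
    refine IsPGroup.of_card (n := r) ?_
    rw [Nat.card_zpowers, ← lcm_cycleType, hc]; simp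
  obtain ⟨S', hS'⟩ := hp.exists_le_sylow
  obtain ⟨g, hg⟩ := MulAction.exists_smul_eq (Perm (Fin n)) S' S
  have hd : g * c * g⁻¹ ∈ (S : Subgroup (Perm (Fin n))) := by
    rw [← hg]
    exact ⟨c, hS' (Subgroup.mem_zpowers c), rfl⟩
  set d := g * c * g⁻¹ with hddef
  have hdc : d.cycleType = {2 ^ r} := by rw [hddef, cycleType_conj, hc]
  have hcyc : d.IsCycle := by rw [← card_cycleType_eq_one, hdc]; simp
  have hsup : d.support.card = 2 ^ r := by rw [← sum_cycleType, hdc]; simp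
  obtain ⟨x0, hx0⟩ : d.support.Nonempty := by rw [← Finset.card_pos, hsup]; positivity
  let O : Finset (Fin n) := Finset.univ.filter (fun t => ∃ s ∈ (S : Subgroup (Perm (Fin n))), s x0 = t)
  have hO : ∀ t, t ∈ O ↔ ∃ s ∈ (S : Subgroup (Perm (Fin n))), s x0 = t := fun t => by simp [O]
  have hsub : d.support ⊆ O := by
    intro t ht
    obtain ⟨i, hi⟩ := hcyc.exists_zpow_eq (mem_support.mp hx0) (mem_support.mp ht)
    exact (hO t).mpr ⟨_, Subgroup.zpow_mem _ hd i, hi⟩
  have hall : ∀ t : Fin n, t.val < 4 * (n / 4) → t ∈ O := by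
    intro t ht
    by_contra hne
    have hB := alBl_block (H := AlQ n) le_rfl (t.val / 4) (by omega)
    set B := Finset.univ.filter (fun s : Fin n => s.val / 4 = t.val / 4) with hBdef
    have hdis : Disjoint O B := by
      rw [Finset.disjoint_left]
      intro u hu huB
      apply hne
      obtain ⟨s, hs, rfl⟩ := (hO u).mp hu
      have e : (s x0).val / 4 = t.val / 4 := by simpa [hBdef] using huB
      by_cases e' : (s x0).val / 2 = t.val / 2
      · exact (hO t).mpr ⟨_, Subgroup.mul_mem _ (hle (syW_swap e')) hs, by simp⟩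
      · obtain ⟨u', k1, k2⟩ := sy_partner (s x0) (by omega)
        obtain ⟨t', k3, k4⟩ := sy_partner t (by omega)
        have m := alQ_block (a := s x0) (b := t) (c := u') (d := t') (fun h => e' (h ▸ rfl)) k1
          (fun h => e' (by rw [h, k4])) (fun h => e' (by rw [k2, h])) k3
          (fun h => e' (by rw [k2, h, k4])) e.symm (by omega) (by omega)
        refine (hO t).mpr ⟨_, Subgroup.mul_mem _ (hle (alQ_le_syW m)) hs, ?_⟩
        rw [Perm.mul_apply, Perm.mul_apply, swap_apply_of_ne_of_ne k1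
          (fun h => e' (by rw [h, k4])), swap_apply_left]
    have c1 := Finset.card_union_of_disjoint hdis
    have c2 := Finset.card_le_card hsub
    have c3 : (O ∪ B).card ≤ n := by simpa using Finset.card_le_univ (O ∪ B)
    have c4 := hB.1
    omega
  obtain ⟨s, hs, e1⟩ := (hO x).mp (hall x hx)
  obtain ⟨t, ht, e2⟩ := (hO y).mp (hall y hy)
  have e3 : (t * s⁻¹) x = y := by rw [Perm.mul_apply, ← e1, ← e2]; simp
  have m := Subgroup.mul_mem _ ht (Subgroup.inv_mem _ hs)
  rcases Int.units_eq_one_or (sign (t * s⁻¹)) with e | e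
  · exact ⟨_, m, e, e3⟩
  · refine ⟨_, Subgroup.mul_mem _ m (hle (syW_swap (a := ⟨4 * (n / 4), by omega⟩)
      (a' := ⟨4 * (n / 4) + 1, by omega⟩) (by simp only []; omega))), ?_, ?_⟩
    · rw [map_mul, e, sign_swap (by simp)]; simp
    · rw [Perm.mul_apply, swap_apply_of_ne_of_ne (by simp only [Ne, Fin.ext_iff]; omega)
        (by simp only [Ne, Fin.ext_iff]; omega), e3]

theorem sy_hyp {n : ℕ} (P : Sylow 2 (alternatingGroup (Fin n)))
    (S₁ S₂ : Subgroup (alternatingGroup (Fin n))) (h1 : S₁ ≠ ⊥) (h2 : S₂ ≠ ⊥)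
    (h : Cfsg.IsInternalDirectProduct S₁ S₂ (P : Subgroup (alternatingGroup (Fin n)))) :
    ∃ (S : Sylow 2 (Perm (Fin n))) (X Y : Subgroup (Perm (Fin n))), SyHyp S X Y := by
  obtain ⟨S0, hS0⟩ := (P.isPGroup'.map (alternatingGroup (Fin n)).subtype).exists_le_sylow
  have hW : IsPGroup 2 (SyW n) := fun g => ⟨2, Subtype.ext (syW_pow g.2)⟩
  obtain ⟨S, hS⟩ := hW.exists_le_sylow
  obtain ⟨g, hg⟩ := MulAction.exists_smul_eq (Perm (Fin n)) S0 S
  let f : alternatingGroup (Fin n) →* Perm (Fin n) :=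
    (MulAut.conj g).toMonoidHom.comp (alternatingGroup (Fin n)).subtype
  have hf : Function.Injective f := (MulAut.conj g).injective.comp Subtype.val_injective
  have f1 : ∀ p ∈ (P : Subgroup (alternatingGroup (Fin n))),
      f p ∈ (S : Subgroup (Perm (Fin n))) ∧ sign (f p) = 1 := by
    intro p hp
    refine ⟨?_, ?_⟩
    · rw [← hg]; exact ⟨p, hS0 ⟨p, hp, rfl⟩, rfl⟩
    · have := mem_alternatingGroup.mp p.2
      simp [f, this]
  have hP : (S0 : Subgroup (Perm (Fin n))).subgroupOf (alternatingGroup (Fin n)) = P :=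
    P.is_maximal' (S0.isPGroup'.comap_subtype) (fun p hp => hS0 ⟨p, hp, rfl⟩)
  obtain ⟨k1, k2, k3, k4, k5⟩ := h
  refine ⟨S, S₁.map f, S₂.map f, S.isPGroup', hS, ?_, ?_, ?_, ?_, ?_, ?_, ?_⟩
  · rintro _ ⟨p, hp, rfl⟩; exact f1 p (k1 hp)
  · rintro _ ⟨p, hp, rfl⟩; exact f1 p (k2 hp)
  · rintro _ ⟨p, hp, rfl⟩ _ ⟨q, hq, rfl⟩
    rw [← map_mul, k3 p hp q hq, map_mul]
  · rintro _ ⟨p, hp, rfl⟩ ⟨q, hq, e⟩
    have : p ∈ S₁ ⊓ S₂ := ⟨hp, hf e ▸ hq⟩
    rw [k4, Subgroup.mem_bot] at this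
    rw [this, map_one]
  · intro s hs hs'
    rw [← hg] at hs
    obtain ⟨r, hr, rfl⟩ := hs
    have hr' : r ∈ alternatingGroup (Fin n) := by
      rw [mem_alternatingGroup]
      have : sign (g * r * g⁻¹) = 1 := hs'
      simpa [mul_right_comm (sign g)] using this
    have : (⟨r, hr'⟩ : alternatingGroup (Fin n)) ∈ S₁ ⊔ S₂ := by
      rw [k5, ← hP]; exact hr
    obtain ⟨a, ha, b, hb, e⟩ := Comp2.mem_sup_of_commutator_eq_bot
      (Comp2.commutator_eq_bot_iff_forall.mpr k3) this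
    exact ⟨_, ⟨a, ha, rfl⟩, _, ⟨b, hb, rfl⟩, by rw [← map_mul, e]; rfl⟩
  · rwa [Ne, Subgroup.map_eq_bot_iff_of_injective _ hf]
  · rwa [Ne, Subgroup.map_eq_bot_iff_of_injective _ hf]

end Cfsg.Agent.Elu
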