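import Mathlib
import Cfsg.Agent.Elu.Cmt6

/-! Every element of a special linear group is a commutator. -/

set_option autoImplicit false
set_option backward.isDefEq.respectTransparency false

namespace Cfsg.Agent.Com

open Polynomial Module

universe u

theorem comm_of_gd {F : Type u} [Field F] {n : ℕ} (g : Matrix.SpecialLinearGroup (Fin n) F)
    (h : Gd (Matrix.toLin' (g : Matrix (Fin n) (Fin n) F))) :
    ∃ a b : Matrix.SpecialLinearGroup (Fin n) F, g = a * b * a⁻¹ * b⁻¹ := by
  obtain ⟨T, e, h1, h2, h3⟩ := h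
  let E : Matrix.SpecialLinearGroup (Fin n) F :=
    ⟨LinearMap.toMatrix' (e : (Fin n → F) →ₗ[F] (Fin n → F)), by rw [LinearMap.det_toMatrix', h2]⟩
  let B : Matrix.SpecialLinearGroup (Fin n) F :=
    ⟨LinearMap.toMatrix' T, by rw [LinearMap.det_toMatrix', h1]⟩
  have : E * g * B = B * E := by
    apply Subtype.ext
    apply Matrix.toLin'.injective
    simp only [Matrix.SpecialLinearGroup.coe_mul, Matrix.toLin'_mul, E, B, Matrix.toLin'_toMatrix']
    exact LinearMap.ext h3
  refine ⟨E⁻¹, B, ?_⟩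
  rw [inv_inv, mul_assoc E⁻¹, ← this]
  group

theorem comm_transfer {K : Type} {F : Type u} [Field K] [Field F] (φ : K ≃+* F) {n : ℕ}
    (h : ∀ g : Matrix.SpecialLinearGroup (Fin n) K, ∃ a b : Matrix.SpecialLinearGroup (Fin n) K,
      g = a * b * a⁻¹ * b⁻¹) (g : Matrix.SpecialLinearGroup (Fin n) F) :
    ∃ a b : Matrix.SpecialLinearGroup (Fin n) F, g = a * b * a⁻¹ * b⁻¹ := by
  obtain ⟨a, b, e⟩ := h (Matrix.SpecialLinearGroup.map φ.symm.toRingHom g)
  refine ⟨Matrix.SpecialLinearGroup.map φ.toRingHom a,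
    Matrix.SpecialLinearGroup.map φ.toRingHom b, ?_⟩
  rw [← map_inv, ← map_inv, ← map_mul, ← map_mul, ← map_mul, ← e]
  ext i j
  simp

theorem sl_comm {F : Type u} [Field F] [Fintype F] (n : ℕ) (hn : 2 ≤ n)
    (hex : n = 2 → 4 ≤ Fintype.card F) (g : Matrix.SpecialLinearGroup (Fin n) F) :
    ∃ a b : Matrix.SpecialLinearGroup (Fin n) F, g = a * b * a⁻¹ * b⁻¹ := by
  by_cases hq : 4 ≤ Fintype.card F
  · exact comm_of_gd g (gd_big hq _ (by simp))
  have h3 : 3 ≤ n := by
    by_contra h
    exact hq (hex (by omega))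
  have := Fintype.one_lt_card (α := F)
  by_cases h2 : Fintype.card F = 2
  · exact comm_transfer (ZMod.ringEquivOfPrime F Nat.prime_two h2)
      (fun g => comm_of_gd g (gd_f2 _ (by simp) (by simpa using h3))) g
  · exact comm_transfer (ZMod.ringEquivOfPrime F Nat.prime_three (by omega))
      (fun g => comm_of_gd g (gd_three _ (by simp) (by simpa using h3))) g

end Cfsg.Agent.Com
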