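import Mathlib

/-! A weak form of Sylvester's theorem on prime divisors of binomial coefficients. -/

set_option autoImplicit false
set_option backward.isDefEq.respectTransparency false

namespace Cfsg.Agent.Elu

theorem dr_low : ∀ t m : ℕ, t ≤ m → m ^ t ≤ t ^ t * m.choose t
  | 0, m, _ => by simp
  | t + 1, 0, h => by omega
  | t + 1, m + 1, h => by
    have ih := dr_low t m (by omega)
    have e : (m + 1) * m.choose t = (m + 1).choose (t + 1) * (t + 1) := Nat.add_one_mul_choose_eq m t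
    have h1 : ((m + 1) * t) ^ t ≤ ((t + 1) * m) ^ t := Nat.pow_le_pow_left (by nlinarith) t
    rw [mul_pow, mul_pow] at h1
    have h2 : (m + 1) ^ t * t ^ t ≤ ((t + 1) ^ t * m.choose t) * t ^ t := by
      calc _ ≤ (t + 1) ^ t * m ^ t := h1
        _ ≤ (t + 1) ^ t * (t ^ t * m.choose t) := Nat.mul_le_mul_left _ ih
        _ = _ := by ring
    have h3 : 0 < t ^ t := by
      rcases Nat.eq_zero_or_pos t with rfl | ht
      · simp
      · positivity
    have h4 := Nat.le_of_mul_le_mul_right h2 h3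
    calc (m + 1) ^ (t + 1) = (m + 1) ^ t * (m + 1) := pow_succ _ _
      _ ≤ ((t + 1) ^ t * m.choose t) * (m + 1) := Nat.mul_le_mul_right _ h4
      _ = (t + 1) ^ t * ((m + 1) * m.choose t) := by ring
      _ = _ := by rw [e]; ring

theorem dr_low' (t m : ℕ) (ht : 1 ≤ t) (h : t + 1 ≤ m) :
    (m + 1) ^ (t + 1) < (t + 1) ^ (t + 1) * (m + 1).choose (t + 1) := by
  have ih := dr_low t m (by omega)
  have e : (m + 1) * m.choose t = (m + 1).choose (t + 1) * (t + 1) := Nat.add_one_mul_choose_eq m t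
  have h1 : ((m + 1) * t) ^ t < ((t + 1) * m) ^ t := Nat.pow_lt_pow_left (by nlinarith) (by omega)
  rw [mul_pow, mul_pow] at h1
  have h2 : (m + 1) ^ t * t ^ t < ((t + 1) ^ t * m.choose t) * t ^ t := by
    calc _ < (t + 1) ^ t * m ^ t := h1
      _ ≤ (t + 1) ^ t * (t ^ t * m.choose t) := Nat.mul_le_mul_left _ ih
      _ = _ := by ring
  have h4 := Nat.lt_of_mul_lt_mul_right h2
  calc (m + 1) ^ (t + 1) = (m + 1) ^ t * (m + 1) := pow_succ _ _
    _ < ((t + 1) ^ t * m.choose t) * (m + 1) := Nat.mul_lt_mul_of_pos_right h4 (by omega)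
    _ = (t + 1) ^ t * ((m + 1) * m.choose t) := by ring
    _ = _ := by rw [e]; ring

theorem dr_sq (t m : ℕ) (ht : 1 ≤ t) (hm : 2 ≤ m) (h : t * t ≤ m) : m ^ t < m.choose t ^ 2 := by
  rcases eq_or_lt_of_le ht with rfl | ht2
  · simp only [pow_one, Nat.choose_one_right]; nlinarith
  obtain ⟨s, rfl⟩ : ∃ s, t = s + 1 := ⟨t - 1, by omega⟩
  obtain ⟨l, rfl⟩ : ∃ l, m = l + 1 := ⟨m - 1, by omega⟩
  have h1 := dr_low' s l (by omega) (by nlinarith)
  set t := s + 1
  set m := l + 1
  have h2 : (m ^ t) ^ 2 < (t ^ t * m.choose t) ^ 2 := Nat.pow_lt_pow_left h1 (by omega)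
  have h3 : (t * t) ^ t ≤ m ^ t := Nat.pow_le_pow_left h t
  have h4 : m ^ t * m ^ t < m ^ t * m.choose t ^ 2 := by
    calc m ^ t * m ^ t = (m ^ t) ^ 2 := by ring
      _ < (t ^ t * m.choose t) ^ 2 := h2
      _ = (t * t) ^ t * m.choose t ^ 2 := by ring
      _ ≤ _ := Nat.mul_le_mul_right _ h3
  exact Nat.lt_of_mul_lt_mul_left h4

theorem dr_count : ∀ t : ℕ, 2 * Nat.count Nat.Prime (t + 8 + 1) ≤ t + 8
  | 0 => by decide
  | 1 => by decide
  | t + 2 => by
    have ih := dr_count t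
    rw [show t + 2 + 8 + 1 = (t + 8 + 1) + 1 + 1 by ring, Nat.count_succ, Nat.count_succ]
    have : ¬ (Nat.Prime (t + 8 + 1) ∧ Nat.Prime (t + 8 + 1 + 1)) := by
      rintro ⟨h1, h2⟩
      have a1 := h1.eq_two_or_odd
      have a2 := h2.eq_two_or_odd
      omega
    generalize Nat.count Nat.Prime (t + 8 + 1) = c at ih ⊢
    split_ifs with h1 h2
    · exact absurd ⟨h1, h2⟩ this
    all_goals omega

theorem dr_aux (b c d e : ℕ) (h2 : 85140 ≤ b) (h3 : d ≤ 16 * c) (h5 : 0 < c)
    (hd : b * c = 5040 * e) : d < e := by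
  have h4 := Nat.mul_le_mul_right c h2
  rw [hd] at h4
  omega

theorem dr_seven (s e : ℕ) (hd : ((s + 43) * (s + 44) * (s + 45)) *
    ((s + 46) * (s + 47) * (s + 48) * (s + 49)) = 5040 * e) : (s + 49) ^ 4 < e := by
  have h2 : 85140 ≤ (s + 43) * (s + 44) * (s + 45) :=
    Nat.mul_le_mul (Nat.mul_le_mul (Nat.le_add_left 43 s) (Nat.le_add_left 44 s))
      (Nat.le_add_left 45 s)
  have h3 : (s + 49) ^ 4 ≤ 16 * ((s + 46) * (s + 47) * (s + 48) * (s + 49)) := by
    calc (s + 49) ^ 4 = (s + 49) * (s + 49) * (s + 49) * (s + 49) := by ring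
      _ ≤ (2 * (s + 46)) * (2 * (s + 47)) * (2 * (s + 48)) * (2 * (s + 49)) :=
        Nat.mul_le_mul (Nat.mul_le_mul (Nat.mul_le_mul (by omega) (by omega)) (by omega)) (by omega)
      _ = _ := by ring
  have h5 : 0 < (s + 46) * (s + 47) * (s + 48) * (s + 49) :=
    Nat.mul_pos (Nat.mul_pos (Nat.mul_pos (by omega) (by omega)) (by omega)) (by omega)
  exact dr_aux _ _ _ _ h2 h3 h5 hd

theorem dr_pi (t m : ℕ) (ht : 1 ≤ t) (hm : 2 ≤ m) (h : t * t ≤ m) :
    m ^ Nat.count Nat.Prime (t + 1) < m.choose t := by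
  have key : 2 * Nat.count Nat.Prime (t + 1) ≤ t → m ^ Nat.count Nat.Prime (t + 1) < m.choose t := by
    intro h1
    have h2 := dr_sq t m ht hm h
    have h3 : (m ^ Nat.count Nat.Prime (t + 1)) ^ 2 ≤ m ^ t := by
      rw [← pow_mul]; exact Nat.pow_le_pow_right (by omega) (by omega)
    exact lt_of_pow_lt_pow_left₀ 2 (by omega) (h3.trans_lt h2)
  by_cases h8 : 8 ≤ t
  · obtain ⟨s, rfl⟩ : ∃ s, t = s + 8 := ⟨t - 8, by omega⟩
    exact key (dr_count s)
  have hd := Nat.descFactorial_eq_factorial_mul_choose m t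
  interval_cases t
  · exact key (by decide)
  · exact key (by decide)
  · obtain ⟨s, rfl⟩ : ∃ s, m = s + 9 := ⟨m - 9, by omega⟩
    rw [show Nat.count Nat.Prime (3 + 1) = 2 by decide]
    have : (s + 9).descFactorial 3 = 6 * (s + 9) ^ 2 + (s ^ 3 + 18 * s ^ 2 + 83 * s + 18) := by
      simp only [Nat.descFactorial_succ, Nat.descFactorial_zero, show s + 9 - 2 = s + 7 from rfl,
        show s + 9 - 1 = s + 8 from rfl, Nat.sub_zero]
      ring
    rw [this, show Nat.factorial 3 = 6 from rfl] at hd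
    omega
  · exact key (by decide)
  · obtain ⟨s, rfl⟩ : ∃ s, m = s + 25 := ⟨m - 25, by omega⟩
    rw [show Nat.count Nat.Prime (5 + 1) = 3 by decide]
    have h1 : (s + 25).descFactorial 5 = ((s + 21) * (s + 22)) * ((s + 23) * (s + 24) * (s + 25)) := by
      simp only [Nat.descFactorial_succ, Nat.descFactorial_zero, show s + 25 - 2 = s + 23 from rfl,
        show s + 25 - 1 = s + 24 from rfl, show s + 25 - 3 = s + 22 from rfl,
        show s + 25 - 4 = s + 21 from rfl, Nat.sub_zero]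
      ring
    have h2 : 240 ≤ (s + 21) * (s + 22) := by nlinarith
    have h3 : (s + 25) ^ 3 < 2 * ((s + 23) * (s + 24) * (s + 25)) := by
      have : 2 * ((s + 23) * (s + 24) * (s + 25)) =
        (s + 25) ^ 3 + (s ^ 3 + 69 * s ^ 2 + 1579 * s + 11975) := by ring
      omega
    have h4 := Nat.mul_le_mul_right ((s + 23) * (s + 24) * (s + 25)) h2
    rw [h1, show Nat.factorial 5 = 120 from rfl] at hd
    omega
  · exact key (by decide)
  · obtain ⟨s, rfl⟩ : ∃ s, m = s + 49 := ⟨m - 49, by omega⟩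
    rw [show Nat.count Nat.Prime (7 + 1) = 4 by decide]
    have h1 : (s + 49).descFactorial 7 = ((s + 43) * (s + 44) * (s + 45)) *
        ((s + 46) * (s + 47) * (s + 48) * (s + 49)) := by
      simp only [Nat.descFactorial_succ, Nat.descFactorial_zero, show s + 49 - 2 = s + 47 from rfl,
        show s + 49 - 1 = s + 48 from rfl, show s + 49 - 3 = s + 46 from rfl,
        show s + 49 - 4 = s + 45 from rfl, show s + 49 - 5 = s + 44 from rfl,
        show s + 49 - 6 = s + 43 from rfl, Nat.sub_zero]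
      ring
    rw [h1, show Nat.factorial 7 = 5040 from rfl] at hd
    exact dr_seven s _ hd

theorem dr_mono (m t k : ℕ) (h : t ≤ k) (hk : 2 * k ≤ m) : m.choose t ≤ m.choose k := by
  induction k, h using Nat.le_induction with
  | base => exact le_rfl
  | succ k h ih => exact (ih (by omega)).trans (Nat.choose_le_succ_of_lt_half_left (by omega))

theorem dr_sylv (m k : ℕ) (hk : 1 ≤ k) (hkm : 2 * k ≤ m) :
    ∃ p, p.Prime ∧ p ∣ m.choose k ∧ (k < p ∨ m < p * p) := by
  by_contra hc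
  push Not at hc
  set t := min k (Nat.sqrt m) with ht
  have t1 : 1 ≤ t := le_min hk (Nat.le_sqrt.mpr (by omega))
  have t2 : t * t ≤ m := Nat.le_sqrt.mp (min_le_right _ _)
  have h1 := dr_pi t m t1 (by omega) t2
  have h2 := dr_mono m t k (min_le_left _ _) hkm
  have h0 : m.choose k ≠ 0 := (Nat.choose_pos (by omega)).ne'
  have h3 : (m.choose k).primeFactors ⊆ (Finset.range (t + 1)).filter Nat.Prime := by
    intro p hp
    obtain ⟨a1, a2, -⟩ := Nat.mem_primeFactors.mp hp
    have := hc p a1 a2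
    rw [Finset.mem_filter, Finset.mem_range, Nat.lt_succ_iff]
    exact ⟨le_min this.1 (Nat.le_sqrt.mpr this.2), a1⟩
  have h4 : m.choose k ≤ m ^ (m.choose k).primeFactors.card := by
    conv_lhs => rw [← Nat.factorization_prod_pow_eq_self h0]
    exact Finset.prod_le_pow_card _ _ _ (fun p _ => Nat.pow_factorization_choose_le (by omega))
  have h5 := Finset.card_le_card h3
  rw [← Nat.count_eq_card_filter_range] at h5
  have h6 : m ^ (m.choose k).primeFactors.card ≤ m ^ Nat.count Nat.Prime (t + 1) :=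
    Nat.pow_le_pow_right (by omega) h5
  omega

theorem dr_lucas {m k r : ℕ} (hr : r.Prime) (hkm : k ≤ m) (h : m < r * r) (h1 : k % r ≤ m % r) :
    ¬ r ∣ m.choose k := by
  haveI := Fact.mk hr
  intro hd
  have luc := (Choose.choose_modEq_choose_mod_mul_choose_div_nat (n := m) (k := k) (p := r))
  have nd : ∀ a b, b ≤ a → a < r → ¬ r ∣ a.choose b := fun a b h1 h2 h3 => by
    have := (hr.dvd_factorial).1 (h3.trans (Dvd.intro _ (by
      rw [← Nat.choose_mul_factorial_mul_factorial h1, mul_assoc])))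
    omega
  have := (Nat.modEq_zero_iff_dvd).mp (luc.symm.trans ((Nat.modEq_zero_iff_dvd).mpr hd))
  rcases (Nat.Prime.dvd_mul hr).mp this with e | e
  · exact nd _ _ h1 (Nat.mod_lt _ hr.pos) e
  · exact nd _ _ (Nat.div_le_div_right hkm) (Nat.div_lt_of_lt_mul h) e

theorem dr_fact {m r : ℕ} (hr : r.Prime) (h : m < 2 * r) : ¬ r * r ∣ m.factorial := by
  intro hd
  have h1 : Nat.log r m < 2 := by
    rcases Nat.eq_zero_or_pos m with rfl | hm
    · simp
    · exact Nat.log_lt_of_lt_pow hm.ne' (by have := hr.two_le; nlinarith)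
  have h2 := Nat.factorization_factorial hr h1
  have h3 : 2 ≤ m.factorial.factorization r :=
    (hr.pow_dvd_iff_le_factorization m.factorial_ne_zero).mp (by rwa [pow_two])
  have h4 : m / r < 2 := Nat.div_lt_of_lt_mul (by omega)
  simp at h2
  omega

end Cfsg.Agent.Elu
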