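import Mathlib
import Cfsg.Agent.Elu.Der1
import Cfsg.Agent.S0713
import Cfsg.Agent.S3573

/-! Derangements of prime order for groups containing an alternating group. -/

set_option autoImplicit false
set_option backward.isDefEq.respectTransparency false

namespace Cfsg.Agent.Elu

open Equiv Equiv.Perm MulAction
open scoped Pointwise

theorem dr_prim {m : ℕ} (M : Subgroup (Perm (Fin m))) [IsPretransitive M (Fin m)]
    {c : Perm (Fin m)} (hc : c ∈ M) {p : ℕ} (hp : p.Prime) (hcp : c.cycleType = {p})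
    (hm : m < 2 * p) : IsPreprimitive M (Fin m) := by
  have hcyc : c.IsCycle := by rw [← card_cycleType_eq_one, hcp]; simp
  have hsup : c.support.card = p := by rw [← sum_cycleType, hcp]; simp
  obtain ⟨x0, hx0⟩ : c.support.Nonempty := by rw [← Finset.card_pos, hsup]; exact hp.pos
  have horb : orbit (Subgroup.zpowers c) x0 = (c.support : Set (Fin m)) := by
    ext y
    constructor
    · rintro ⟨⟨_, i, rfl⟩, rfl⟩
      simpa [Subgroup.smul_def] using hx0
    · intro hy
      obtain ⟨i, hi⟩ := hcyc.exists_zpow_eq (mem_support.mp hx0) (mem_support.mp hy)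
      exact ⟨⟨_, i, rfl⟩, hi⟩
  have hcard : (orbit (Subgroup.zpowers c) x0).ncard = p := by
    rw [horb, Set.ncard_coe_finset, hsup]
  haveI : IsPreprimitive (Subgroup.zpowers c) (orbit (Subgroup.zpowers c) x0) :=
    IsPreprimitive.of_prime_card (by rw [Nat.card_coe_set_eq, hcard]; exact hp)
  let f : (orbit (Subgroup.zpowers c) x0) →ₑ[Subgroup.inclusion (Subgroup.zpowers_le.mpr hc)] Fin m :=
    ⟨Subtype.val, fun _ _ => rfl⟩
  refine IsPreprimitive.of_card_lt (f := f) ?_
  have : Set.range f = orbit (Subgroup.zpowers c) x0 := Subtype.range_val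
  rw [this, hcard]
  simpa using hm

variable {Γ Ω : Type*} [Group Γ] [Finite Γ] [MulAction Γ Ω] [Finite Ω] {m r : ℕ}

/-- A minimal set of hypotheses for a counterexample. -/
structure DrHyp (φ : Γ →* Perm (Fin m)) (ω : Ω) (r : ℕ) : Prop where
  tr : IsPretransitive Γ Ω
  inj : Function.Injective φ
  alt : alternatingGroup (Fin m) ≤ φ.range
  nalt : ¬ alternatingGroup (Fin m) ≤ (stabilizer Γ ω).map φ
  hr : r.Prime
  hrd : r ∣ Nat.card Ω
  hmax : ∀ s : ℕ, s.Prime → s ∣ Nat.card Ω → s ≤ r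
  fix : ∀ g : Γ, orderOf g = r → ∃ ω' : Ω, g • ω' = ω'

variable {φ : Γ →* Perm (Fin m)} {ω : Ω}

theorem DrHyp.conj (h : DrHyp φ ω r) {g : Γ} {ω' : Ω} (hg : g • ω' = ω') :
    ∃ k : Γ, k * g * k⁻¹ ∈ stabilizer Γ ω := by
  haveI := h.tr
  obtain ⟨k, rfl⟩ := exists_smul_eq Γ ω' ω
  exact ⟨k, by rw [mem_stabilizer_iff, mul_smul, mul_smul, inv_smul_smul, hg]⟩

theorem DrHyp.get (h : DrHyp φ ω r) {σ : Perm (Fin m)} (hσ : sign σ = 1) {s : ℕ} (hs : s.Prime)
    (ho : orderOf σ = s) (hsr : s = r ∨ ¬ s ∣ Nat.card Ω) :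
    ∃ k : Perm (Fin m), k * σ * k⁻¹ ∈ (stabilizer Γ ω).map φ := by
  obtain ⟨g, rfl⟩ := h.alt (mem_alternatingGroup.mpr hσ)
  rw [orderOf_injective φ h.inj] at ho
  obtain ⟨ω', hω'⟩ : ∃ ω' : Ω, g • ω' = ω' := by
    rcases hsr with rfl | e
    · exact h.fix g ho
    · haveI := Fact.mk hs
      have hp : IsPGroup s (Subgroup.zpowers g) :=
        IsPGroup.of_card (n := 1) (by rw [Nat.card_zpowers, ho, pow_one])
      obtain ⟨ω', hω'⟩ := hp.nonempty_fixed_point_of_prime_not_dvd_card Ω e
      exact ⟨ω', hω' ⟨g, Subgroup.mem_zpowers g⟩⟩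
  obtain ⟨k, hk⟩ := h.conj hω'
  exact ⟨φ k, _, hk, by simp⟩

theorem DrHyp.get' (h : DrHyp φ ω r) {s a : ℕ} (hs : s.Prime) (ha : 0 < a) (ham : a * s ≤ m)
    (hpar : Even (a * s + a)) (hsr : s = r ∨ ¬ s ∣ Nat.card Ω) :
    ∃ τ ∈ (stabilizer Γ ω).map φ, τ.cycleType = Multiset.replicate a s := by
  obtain ⟨σ, hσ⟩ := (exists_with_cycleType_iff (Fin m) (m := Multiset.replicate a s)).2
    ⟨by simpa using ham, fun b hb => by rw [Multiset.eq_of_mem_replicate hb]; exact hs.two_le⟩
  have ho : orderOf σ = s := by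
    rw [← lcm_cycleType, hσ]
    exact Nat.dvd_antisymm (Multiset.lcm_dvd.2 fun b hb => by rw [Multiset.eq_of_mem_replicate hb])
      (Multiset.dvd_lcm (Multiset.mem_replicate.2 ⟨ha.ne', rfl⟩))
  obtain ⟨k, hk⟩ := h.get (σ := σ) (by
    rw [sign_of_cycleType, hσ]
    simpa using hpar.neg_one_pow) hs ho hsr
  exact ⟨_, hk, by rw [cycleType_conj, hσ]⟩

theorem DrHyp.small (h : DrHyp φ ω r) : 2 * r ≤ m := by
  haveI := h.tr
  haveI := Fact.mk h.hr
  by_contra hc
  apply dr_fact h.hr (not_le.mp hc)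
  have h1 : Nat.card Γ ∣ m.factorial := by
    have := Subgroup.card_dvd_of_injective φ h.inj
    rwa [Nat.card_perm, Nat.card_eq_fintype_card (α := Fin m), Fintype.card_fin] at this
  have h2 := (stabilizer Γ ω).card_mul_index
  rw [index_stabilizer_of_transitive] at h2
  obtain ⟨g, hg⟩ := exists_prime_orderOf_dvd_card' (G := Γ) r (h.hrd.trans (Dvd.intro_left _ h2))
  obtain ⟨ω', hω'⟩ := h.fix g hg
  obtain ⟨k, hk⟩ := h.conj hω'
  have h3 : r ∣ Nat.card (stabilizer Γ ω) := by
    have := Subgroup.orderOf_dvd_natCard _ hk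
    rwa [← MulAut.conj_apply, MulEquiv.orderOf_eq, hg] at this
  exact (h2 ▸ Nat.mul_dvd_mul h3 h.hrd).trans h1

theorem DrHyp.trans_false (h : DrHyp φ ω r) (hm : 5 ≤ m)
    (ht : IsPretransitive ((stabilizer Γ ω).map φ) (Fin m)) : False := by
  have h1 := h.small
  obtain ⟨p, hp, h2, h3⟩ := Nat.exists_prime_lt_and_le_two_mul (m / 2) (by omega)
  have hodd : ∀ s : ℕ, s.Prime → s ≠ 2 → Even (1 * s + 1) := fun s hs e => by
    have := hs.eq_two_or_odd
    rw [Nat.even_iff]; omega
  obtain ⟨c, hc, hcp⟩ := h.get' (a := 1) hp one_pos (by omega) (hodd p hp (by omega))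
    (Or.inr (fun e => by have := h.hmax p hp e; omega))
  have hprim := dr_prim _ hc hp hcp (by omega)
  apply h.nalt
  by_cases e : r = 2
  · obtain ⟨d, hd, hd3⟩ := h.get' (a := 1) Nat.prime_three one_pos (by omega) (by decide)
      (Or.inr (fun e => by have := h.hmax 3 Nat.prime_three e; omega))
    exact alternatingGroup_le_of_isPreprimitive_of_isThreeCycle_mem hprim hd3 hd
  · obtain ⟨d, hd, hdr⟩ := h.get' (a := 1) h.hr one_pos (by omega) (hodd r h.hr e) (Or.inl rfl)
    have := h.hr.two_le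
    refine S0713.result _ hprim h.hr (by simpa using hm) (by simp; omega) ?_ ?_ hd
    · rw [← card_cycleType_eq_one, hdr]; simp
    · rw [← sum_cycleType, hdr]; simp

theorem DrHyp.six_false {φ : Γ →* Perm (Fin 6)} (h : DrHyp φ ω r) : False := by
  have h1 := h.small
  have h2 := h.hr.two_le
  obtain ⟨c, hc, hc5⟩ := h.get' (a := 1) Nat.prime_five one_pos (by omega) (by decide)
    (Or.inr (fun e => by have := h.hmax 5 Nat.prime_five e; omega))
  obtain ⟨d, hd, hd3⟩ := h.get' (a := 2) Nat.prime_three two_pos (by omega) (by decide) (by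
    by_cases e : r = 3
    · exact Or.inl e.symm
    · exact Or.inr (fun e => by have := h.hmax 3 Nat.prime_three e; omega))
  have hcyc : c.IsCycle := by rw [← card_cycleType_eq_one, hc5]; simp
  have hsup : c.support.card = 5 := by rw [← sum_cycleType, hc5]; simp
  have hsup' : d.support = Finset.univ := by
    apply Finset.eq_univ_of_card
    rw [← sum_cycleType, hd3]; simp
  have key : ∀ x : Fin 6, ∃ g ∈ (stabilizer Γ ω).map φ, g x ∈ c.support := by
    intro x
    by_cases e : x ∈ c.support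
    · exact ⟨1, Subgroup.one_mem _, e⟩
    · refine ⟨d, hd, ?_⟩
      by_contra e'
      have n1 : d x ≠ x := mem_support.mp (hsup' ▸ Finset.mem_univ x)
      have := Finset.card_le_univ (insert x (insert (d x) c.support))
      rw [Finset.card_insert_of_notMem (by simp only [Finset.mem_insert, not_or]; exact ⟨n1.symm, e⟩),
        Finset.card_insert_of_notMem e', hsup] at this
      simp at this
  refine h.trans_false (by omega) ⟨fun x y => ?_⟩
  obtain ⟨g, hg, e1⟩ := key x
  obtain ⟨k, hk, e2⟩ := key y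
  obtain ⟨i, hi⟩ := hcyc.exists_zpow_eq (mem_support.mp e1) (mem_support.mp e2)
  refine ⟨⟨k⁻¹ * (c ^ i * g), Subgroup.mul_mem _ (Subgroup.inv_mem _ hk)
    (Subgroup.mul_mem _ (Subgroup.zpow_mem _ hc i) hg)⟩, ?_⟩
  show k⁻¹ ((c ^ i) (g x)) = y
  rw [hi]; simp

theorem DrHyp.intrans_false (h : DrHyp φ ω r) (hm : 5 ≤ m) (hco : IsCoatom (stabilizer Γ ω))
    (ht : ¬ IsPretransitive ((stabilizer Γ ω).map φ) (Fin m)) : False := by
  classical
  haveI := h.tr
  set M := (stabilizer Γ ω).map φ with hM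
  obtain ⟨Δ, h1, h2, h3⟩ : ∃ Δ : Finset (Fin m), 1 ≤ Δ.card ∧ 2 * Δ.card ≤ m ∧
      ∀ g ∈ M, g • Δ = Δ := by
    obtain ⟨x, y, hxy⟩ : ∃ x y : Fin m, ∀ g ∈ M, g x ≠ y := by
      by_contra e
      push Not at e
      exact ht ⟨fun x y => by
        obtain ⟨g, hg, e⟩ := e x y
        exact ⟨⟨g, hg⟩, e⟩⟩
    let O : Finset (Fin m) := Finset.univ.filter (fun t => ∃ g ∈ M, g x = t)
    have hO : ∀ g ∈ M, ∀ t, g • t ∈ O ↔ t ∈ O := by
      intro g hg t
      simp only [O, Finset.mem_filter, Finset.mem_univ, true_and, Perm.smul_def]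
      constructor
      · rintro ⟨k, hk, e⟩
        exact ⟨g⁻¹ * k, M.mul_mem (M.inv_mem hg) hk, by rw [Perm.mul_apply, e]; simp⟩
      · rintro ⟨k, hk, e⟩
        exact ⟨g * k, M.mul_mem hg hk, by rw [Perm.mul_apply, e]⟩
    have hx : x ∈ O := by
      simp only [O, Finset.mem_filter, Finset.mem_univ, true_and]
      exact ⟨1, M.one_mem, rfl⟩
    have hy : y ∈ Oᶜ := by
      simp only [O, Finset.mem_compl, Finset.mem_filter, Finset.mem_univ, true_and, not_exists,
        not_and]
      exact hxy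
    have hc : O.card + Oᶜ.card = m := by simpa using Finset.card_add_card_compl O
    by_cases e : 2 * O.card ≤ m
    · exact ⟨O, Finset.card_pos.mpr ⟨x, hx⟩, e, fun g hg =>
        mem_stabilizer_finset.mpr (hO g hg)⟩
    · exact ⟨Oᶜ, Finset.card_pos.mpr ⟨y, hy⟩, by omega, fun g hg =>
        mem_stabilizer_finset.mpr (fun t => by simp only [Finset.mem_compl, hO g hg t])⟩
  set k := Δ.card with hk
  letI : MulAction Γ (Set.powersetCard (Fin m) k) := MulAction.compHom _ φ
  haveI := Set.powersetCard.isPretransitive_alternatingGroup (α := Fin m) (n := k) (by simp; omega)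
  haveI : IsPretransitive Γ (Set.powersetCard (Fin m) k) := ⟨fun s t => by
    obtain ⟨σ, hσ⟩ := exists_smul_eq (alternatingGroup (Fin m)) s t
    obtain ⟨g, hg⟩ := h.alt σ.2
    refine ⟨g, ?_⟩
    show φ g • s = t
    rw [hg]; exact hσ⟩
  let D : Set.powersetCard (Fin m) k := Set.powersetCard.ofCard hk.symm
  have hle : stabilizer Γ ω ≤ stabilizer Γ D := fun g hg => Subtype.ext (h3 _ ⟨g, hg, rfl⟩)
  have hind : (stabilizer Γ D).index = m.choose k := by
    rw [index_stabilizer_of_transitive, Set.powersetCard.card]; simp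
  have hch : m ≤ m.choose k := by simpa using dr_mono m 1 k h1 h2
  have heq : stabilizer Γ ω = stabilizer Γ D := by
    by_contra e
    rw [hco.2 _ (lt_of_le_of_ne hle e), Subgroup.index_top] at hind
    omega
  have hΩ : Nat.card Ω = m.choose k := by
    rw [← hind, ← heq, index_stabilizer_of_transitive]
  obtain ⟨p, hp, hpd, hpk⟩ := dr_sylv m k h1 h2
  have hpr := h.hmax p hp (hΩ ▸ hpd)
  have hrd : r ∣ m.choose k := hΩ ▸ h.hrd
  by_cases e : r = 2
  · subst e
    have := hp.two_le
    have e2 : p = 2 := by omega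
    subst e2
    have k1 : k = 1 := by omega
    rw [k1, Nat.choose_one_right] at hΩ
    have h4 : 4 ∣ m := by
      have := Nat.eq_prime_pow_of_unique_prime_dvd (n := m) (p := 2) (by omega) (fun {d} hd hdm => by
        have := h.hmax d hd (hΩ ▸ hdm); have := hd.two_le; omega)
      generalize m.primeFactorsList.length = l at this
      subst this
      refine pow_dvd_pow 2 (show 2 ≤ l from ?_)
      by_contra e
      have : l = 0 ∨ l = 1 := by omega
      rcases this with rfl | rfl <;> simp at hm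
    obtain ⟨τ, hτ, hτ2⟩ := h.get' (a := m / 2) Nat.prime_two (by omega) (by omega)
      (by rw [Nat.even_iff]; omega) (Or.inl rfl)
    have hsup : τ.support = Finset.univ := by
      apply Finset.eq_univ_of_card
      rw [← sum_cycleType, hτ2]; simp; omega
    obtain ⟨x, hx⟩ := Finset.card_eq_one.mp k1
    have := h3 τ hτ
    rw [hx, Finset.smul_finset_singleton, Finset.singleton_inj] at this
    exact mem_support.mp (hsup ▸ Finset.mem_univ x) this
  · have := (S3573.main m k r (by omega) h.hr hrd).mp (fun σ hσ => by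
      have hs : sign σ = 1 := by
        have h4 : sign σ ^ r = 1 := by rw [← map_pow, ← hσ, pow_orderOf_eq_one, map_one]
        rcases Int.units_eq_one_or (sign σ) with e' | e'
        · exact e'
        · rw [e', (h.hr.eq_two_or_odd'.resolve_left e).neg_one_pow] at h4
          exact absurd h4 (by decide)
      obtain ⟨u, hu⟩ := h.get hs h.hr hσ (Or.inl rfl)
      refine ⟨u⁻¹ • Δ, by simp [hk], ?_⟩
      show σ • u⁻¹ • Δ = u⁻¹ • Δ
      conv_rhs => rw [← h3 _ hu]
      simp [mul_smul])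
    refine dr_lucas h.hr (by omega) ?_ this.2 hrd
    have := Nat.mul_le_mul hpr hpr
    omega

end Cfsg.Agent.Elu
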