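import Mathlib
import Cfsg.Agent.Orth.Sum
import Cfsg.Agent.Orth.Disc

/-! Involutions of orthogonal groups in odd characteristic. -/

set_option autoImplicit false
set_option backward.isDefEq.respectTransparency false

namespace Cfsg.Agent.OreO

open QuadraticMap Module Cfsg.Agent.Orth

variable {F V : Type*} [Field F] [AddCommGroup V] [Module F V] {Q : QuadraticForm F V}

theorem avoid2 {A B : Submodule F V} (hA : A ≠ ⊤) (hB : B ≠ ⊤) : ∃ x, x ∉ A ∧ x ∉ B := by
  obtain ⟨a, ha⟩ : ∃ a, a ∉ A := by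
    by_contra h; push Not at h; exact hA (Submodule.eq_top_iff'.2 h)
  obtain ⟨b, hb⟩ : ∃ a, a ∉ B := by
    by_contra h; push Not at h; exact hB (Submodule.eq_top_iff'.2 h)
  by_cases h1 : a ∈ B
  · by_cases h2 : b ∈ A
    · exact ⟨a + b, fun h => ha ((A.add_mem_iff_left h2).1 h), fun h => hb ((B.add_mem_iff_right h1).1 h)⟩
    · exact ⟨b, h2, hb⟩
  · exact ⟨a, ha, h1⟩

theorem avoid3 (h2 : (2 : F) ≠ 0) {A B C : Submodule F V} (hA : A ≠ ⊤) (hB : B ≠ ⊤) (hC : C ≠ ⊤) :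
    ∃ x, x ∉ A ∧ x ∉ B ∧ x ∉ C := by
  obtain ⟨x, x1, x2⟩ := avoid2 hA hB
  obtain ⟨y, y1, y2⟩ := avoid2 hA hC
  by_cases x3 : x ∈ C
  swap
  · exact ⟨x, x1, x2, x3⟩
  by_cases y3 : y ∈ B
  swap
  · exact ⟨y, y1, y3, y2⟩
  by_cases h : x + y ∈ A
  · refine ⟨x - y, fun h' => x1 ?_, fun h' => x2 ((B.sub_mem_iff_left y3).1 h'),
      fun h' => y2 ((C.sub_mem_iff_right x3).1 h')⟩
    have := A.smul_mem (2 : F)⁻¹ (A.add_mem h h')
    rwa [show x + y + (x - y) = (2 : F) • x by module, inv_smul_smul₀ h2] at this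
  · exact ⟨x + y, h, fun h' => x2 ((B.add_mem_iff_left y3).1 h'),
      fun h' => y2 ((C.add_mem_iff_right x3).1 h')⟩

theorem ss {s : OG Q} (hs : s * s = 1) (x : V) : s.1 (s.1 x) = x :=
  congrArg (fun g : OG Q => g.1 x) hs

theorem sa {s : OG Q} (hs : s * s = 1) (x y : V) : polar Q (s.1 x) y = polar Q x (s.1 y) := by
  rw [← OG.map_polar s, ss hs]

theorem half (h2 : (2 : F) ≠ 0) {x : V} (h : x = -x) : x = 0 := by
  have : (2 : F) • x = 0 := by rw [two_smul]; exact add_eq_zero_iff_eq_neg.2 h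
  simpa [h2] using this

theorem mem_mov_iff (h2 : (2 : F) ≠ 0) {s : OG Q} (hs : s * s = 1) {x : V} :
    x ∈ mov s ↔ s.1 x = -x := by
  constructor
  · intro h
    obtain ⟨w, rfl⟩ := mem_mov.1 h
    rw [map_sub, ss hs, neg_sub]
  · intro h
    refine mem_mov.2 ⟨(-(2 : F)⁻¹) • x, ?_⟩
    rw [map_smul, h]
    match_scalars
    field_simp
    ring

theorem orth_pm (h2 : (2 : F) ≠ 0) {s : OG Q} {x y : V} (hx : s.1 x = x) (hy : s.1 y = -y) :
    polar Q x y = 0 := by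
  have := OG.map_polar s x y
  rw [hx, hy, polar_neg_right] at this
  have h : (2 : F) * polar Q x y = 0 := by linear_combination -this
  simpa [h2] using h

/-- The negative of an isometry. -/
abbrev ng (s : OG Q) : OG Q := negOne Q * s

@[simp] theorem ng_apply (s : OG Q) (x : V) : (ng s).1 x = -s.1 x := rfl

theorem ng_inv {s : OG Q} (hs : s * s = 1) : ng s * ng s = 1 :=
  OG.ext fun x => by simp [ss hs]

theorem ng_mul (s t : OG Q) : ng s * ng t = s * t := OG.ext fun x => by simp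

theorem mov_ng (h2 : (2 : F) ≠ 0) {s : OG Q} (hs : s * s = 1) : mov (ng s) = fix s := by
  ext x
  rw [mem_mov_iff h2 (ng_inv hs), mem_fix, ng_apply, neg_inj]

theorem rk_conj (k s : OG Q) : rk (k * s * k⁻¹) = rk s := by
  have : mov (k * s * k⁻¹) = (mov s).map (k.1 : V →ₗ[F] V) := by
    ext x
    constructor
    · intro h
      obtain ⟨w, rfl⟩ := mem_mov.1 h
      exact ⟨_, sub_mem_mov s ((k⁻¹).1 w), by simp⟩
    · rintro ⟨y, hy, rfl⟩
      obtain ⟨w, rfl⟩ := mem_mov.1 hy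
      exact mem_mov.2 ⟨k.1 w, by simp⟩
  rw [rk, this, LinearEquiv.finrank_map_eq, rk]

variable [FiniteDimensional F V]

theorem rk_ng (h2 : (2 : F) ≠ 0) {s : OG Q} (hs : s * s = 1) : rk (ng s) + rk s = finrank F V := by
  rw [rk, mov_ng h2 hs, add_comm, rk_add_finrank_fix]

theorem rk_le (h2 : (2 : F) ≠ 0) {s t : OG Q} (ht : t * t = 1)
    (h : ∀ x, s.1 x = x → t.1 x = -x → x = 0) : rk t ≤ rk s := by
  let f : mov t →ₗ[F] mov s := LinearMap.codRestrict _
    (((s.1 : V →ₗ[F] V) - LinearMap.id) ∘ₗ (mov t).subtype) (fun x => sub_mem_mov s x)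
  refine LinearMap.finrank_le_finrank_of_injective (f := f) ((injective_iff_map_eq_zero f).2 ?_)
  intro x hx
  have : s.1 x - x = 0 := congrArg Subtype.val hx
  exact Subtype.ext (h x (sub_eq_zero.1 this) ((mem_mov_iff h2 ht).1 x.2))

theorem rk_mul_le (s t : OG Q) : rk (s * t) ≤ rk s + rk t :=
  (Submodule.finrank_mono (mov_mul_le s t)).trans (Submodule.finrank_add_le_finrank_add_finrank _ _)

theorem nd_mov (hQ : ND Q) (h2 : (2 : F) ≠ 0) {s : OG Q} (hs : s * s = 1) :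
    mov s ⊓ perp Q (mov s) = ⊥ := by
  rw [hQ.perp_mov, Submodule.eq_bot_iff]
  intro x hx
  exact half h2 ((mem_fix.1 hx.2).symm.trans ((mem_mov_iff h2 hs).1 hx.1))

theorem exists_Q_sub [Finite F] {W : Submodule F V} (hW : W ⊓ perp Q W = ⊥) (hn : 2 ≤ finrank F W)
    (c : F) : ∃ v ∈ W, Q v = c := by
  obtain ⟨v, hv⟩ := ((nd_restrict_iff W).2 hW).exists_Q_eq hn c
  exact ⟨v, v.2, hv⟩

theorem comm_of_fix (hQ : ND Q) (h2 : (2 : F) ≠ 0) {t c : OG Q} (ht : t * t = 1)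
    (h : ∀ x ∈ mov t, c.1 x = x) : c * t = t * c := by
  refine OG.ext fun x => ?_
  have h1 : c.1 (x + t.1 x) ∈ fix t := by
    rw [← hQ.perp_mov, mem_perp]
    intro w hw
    rw [← h w hw, OG.map_polar, polar_comm]
    exact orth_pm h2 (s := t) (by rw [map_add, ss ht, add_comm]) ((mem_mov_iff h2 ht).1 hw)
  have h3 := (mem_mov_iff h2 ht).1 (sub_mem_mov t x)
  have h4 := h _ (sub_mem_mov t x)
  rw [mem_fix, map_add, map_add] at h1
  have h5 : t.1 (c.1 (t.1 x) - c.1 x) = -(c.1 (t.1 x) - c.1 x) := by rw [← map_sub, h4, h3]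
  rw [map_sub] at h5
  rw [OG.mul_apply, OG.mul_apply, ← sub_eq_zero]
  refine half h2 ?_
  have e : t.1 (c.1 (t.1 x)) = c.1 x + c.1 (t.1 x) - t.1 (c.1 x) := by rw [← h1]; abel
  rw [e] at h5
  linear_combination (norm := module) h5

/-- Witt's theorem inside the centraliser of an involution. -/
theorem cent_witt (hQ : ND Q) (h2 : (2 : F) ≠ 0) {t : OG Q} (ht : t * t = 1) {x y : V}
    (hx : t.1 x = x) (hy : t.1 y = y) (h0 : x = 0 ↔ y = 0) (h : Q x = Q y) :
    ∃ c : OG Q, c * t = t * c ∧ c.1 x = y ∧ ∀ w, t.1 w = -w → c.1 w = w := by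
  by_cases hx0 : x = 0
  · exact ⟨1, by simp, by rw [hx0, h0.1 hx0, map_zero], fun _ _ => rfl⟩
  obtain ⟨c, -, c1, c2⟩ := witt_step hQ ⊤ (fun _ => trivial) (fun _ _ => trivial) (mov t) (u := x)
    (v := y) (fun k => hx0 (half h2 (hx.symm.trans ((mem_mov_iff h2 ht).1 k))))
    (fun k => hx0 (h0.2 (half h2 (hy.symm.trans ((mem_mov_iff h2 ht).1 k))))) h (fun w hw => by
      rw [polar_comm, polar_comm Q w, orth_pm h2 hx ((mem_mov_iff h2 ht).1 hw),
        orth_pm h2 hy ((mem_mov_iff h2 ht).1 hw)])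
  exact ⟨c, comm_of_fix hQ h2 ht c1, c2, fun w hw => c1 w ((mem_mov_iff h2 ht).2 hw)⟩

theorem cent_witt' (hQ : ND Q) (h2 : (2 : F) ≠ 0) {t : OG Q} (ht : t * t = 1) {x y : V}
    (hx : t.1 x = -x) (hy : t.1 y = -y) (h0 : x = 0 ↔ y = 0) (h : Q x = Q y) :
    ∃ c : OG Q, c * t = t * c ∧ c.1 x = y ∧ ∀ w, t.1 w = w → c.1 w = w := by
  obtain ⟨c, c1, c2, c3⟩ := cent_witt hQ h2 (ng_inv ht) (x := x) (y := y) (by simp [hx])
    (by simp [hy]) h0 h
  refine ⟨c, OG.ext fun z => ?_, c2, fun w hw => c3 w (by simp [hw])⟩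
  have := congrArg (fun g : OG Q => g.1 z) c1
  simpa using this

omit [FiniteDimensional F V] in
theorem refl_comm {t : OG Q} {v : V} (h : t.1 v = v ∨ t.1 v = -v) : refl Q v * t = t * refl Q v := by
  have := refl_conj t v
  rw [mul_inv_eq_iff_eq_mul] at this
  rcases h with h | h
  · rw [this, h]
  · rw [this, h, refl_neg]

omit [FiniteDimensional F V] in
theorem conj_apply {k s t : OG Q} (h : k * s * k⁻¹ = t) (x : V) : t.1 (k.1 x) = k.1 (s.1 x) := by
  rw [← h]; simp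

/-- Involutions of the same rank in the same coset of `Ω` are conjugate. -/
theorem conj_invol [Finite F] (hQ : ND Q) (h2 : (2 : F) ≠ 0) (r : ℕ) : ∀ s t : OG Q, s * s = 1 →
    t * t = 1 → rk s = r → rk t = r → s * t ∈ commutator (OG Q) → ∃ k, k * s * k⁻¹ = t := by
  have hg : Good F V := good_of_two_ne_zero h2
  have z : ∀ s : OG Q, rk s = 0 → s = 1 := fun s h => OG.ext fun x => by
    have := sub_mem_mov s x
    rw [Submodule.finrank_eq_zero.1 h, Submodule.mem_bot] at this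
    exact sub_eq_zero.1 this
  have ex : ∀ s : OG Q, s * s = 1 → rk s ≠ 0 → ∃ a ∈ mov s, Q a ≠ 0 := fun s hs h => by
    haveI : Nontrivial (mov s) := Module.nontrivial_of_finrank_pos (R := F) (Nat.pos_of_ne_zero h)
    obtain ⟨a, ha⟩ := ((nd_restrict_iff _).2 (nd_mov hQ h2 hs)).exists_nonsingular
    exact ⟨a, a.2, ha⟩
  induction r with
  | zero => intro s t _ _ h1 h3 _; exact ⟨1, by rw [z s h1, z t h3]; simp⟩
  | succ r ih =>
    intro s t hs ht h1 h3 h4
    obtain ⟨a, a1, b, b1, a2, ab⟩ : ∃ a ∈ mov s, ∃ b ∈ mov t, Q a ≠ 0 ∧ Q a = Q b := by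
      obtain ⟨a, a1, a2⟩ := ex s hs (by omega)
      by_cases hr : r = 0
      · obtain ⟨b, b1, b2⟩ := ex t ht (by omega)
        have e1 := z (refl Q a * s) (by have := hQ.rk_refl_mul_of_mem a2 s a1; omega)
        have e2 := z (refl Q b * t) (by have := hQ.rk_refl_mul_of_mem b2 t b1; omega)
        rw [mul_eq_one_iff_inv_eq, refl_inv] at e1 e2
        have := (hQ.list_mem_commutator_iff hg [a, b] (by simp [a2, b2])).1 (by
          simpa [e1, e2] using h4)
        obtain ⟨w, hw⟩ := this.2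
        simp only [List.map_cons, List.map_nil, List.prod_cons, List.prod_nil, mul_one] at hw
        refine ⟨a, a1, (w / Q b) • b, Submodule.smul_mem _ _ b1, a2, ?_⟩
        rw [q_smul]; field_simp; linear_combination hw
      · obtain ⟨b, b1, b2⟩ := exists_Q_sub (nd_mov hQ h2 ht) (by unfold rk at h3; omega) (Q a)
        exact ⟨a, a1, b, b1, a2, b2.symm⟩
    have b2 : Q b ≠ 0 := ab ▸ a2
    have sa' := (mem_mov_iff h2 hs).1 a1
    have tb := (mem_mov_iff h2 ht).1 b1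
    have c1 := refl_comm (Or.inr sa')
    have c2 := refl_comm (Or.inr tb)
    have inv : ∀ (s : OG Q) (a : V), s * s = 1 → refl Q a * s = s * refl Q a →
        refl Q a * s * (refl Q a * s) = 1 := fun s a hs c => by
      rw [mul_assoc, ← mul_assoc s, ← c, mul_assoc, hs, mul_one, refl_mul_self]
    obtain ⟨k, hk⟩ := ih (refl Q a * s) (refl Q b * t) (inv s a hs c1) (inv t b ht c2)
      (by have := hQ.rk_refl_mul_of_mem a2 s a1; omega)
      (by have := hQ.rk_refl_mul_of_mem b2 t b1; omega) (by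
        have k1 := hQ.refl_mul_refl_mem_commutator a2 ab
        have k2 := (inferInstance : (commutator (OG Q)).Normal).conj_mem _ k1 s
        have := mul_mem k2 h4
        rwa [show s * (refl Q a * refl Q b) * s⁻¹ * (s * t) = s * refl Q a * (refl Q b * t) by group,
          ← c1] at this)
    have f1 : (refl Q a * s).1 a = a := by rw [OG.mul_apply, sa', map_neg, refl_apply_self a2, neg_neg]
    have f2 : (refl Q b * t).1 b = b := by rw [OG.mul_apply, tb, map_neg, refl_apply_self b2, neg_neg]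
    obtain ⟨c, d1, d2, -⟩ := cent_witt hQ h2 (inv t b ht c2) (x := k.1 a) (y := b)
      (by rw [conj_apply hk, f1]) f2 (by
        simp [ne_zero_of_Q_ne_zero a2, ne_zero_of_Q_ne_zero b2]) (by simp [ab])
    refine ⟨c * k, ?_⟩
    have e : s = refl Q a * (refl Q a * s) := by rw [← mul_assoc, refl_mul_self, one_mul]
    have e' : t = refl Q b * (refl Q b * t) := by rw [← mul_assoc, refl_mul_self, one_mul]
    have r1 := refl_conj (c * k) a
    rw [OG.mul_apply, d2] at r1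
    rw [e, e', ← r1, show c * k * (refl Q a * (refl Q a * s)) * (c * k)⁻¹ =
      c * k * refl Q a * (c * k)⁻¹ * (c * (k * (refl Q a * s) * k⁻¹) * c⁻¹) by group, hk, d1, r1]
    group

theorem perp_univ [Finite F] (hQ : ND Q) (h2 : (2 : F) ≠ 0) (hn : 4 ≤ finrank F V) (w : V) (c : F) :
    ∃ x, polar Q w x = 0 ∧ Q x = c := by
  by_cases h0 : w = 0
  · obtain ⟨x, hx⟩ := hQ.exists_Q_eq (by omega) c
    exact ⟨x, by simp [h0], hx⟩
  by_cases hw : Q w = 0
  · obtain ⟨f, f1, f2⟩ := hQ.exists_hyp h0 hw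
    obtain ⟨x, hx⟩ := (hQ.nd_perp_hyp hw f2 f1).exists_Q_eq (by
      have := hQ.finrank_perp_hyp hw f2 f1; omega) c
    exact ⟨x, (mem_perp_pair.1 x.2).1, hx⟩
  · obtain ⟨x, hx⟩ := (hQ.nd_perp (span_inf_perp_of_nonsingular h2 hw)).exists_Q_eq (by
      have := hQ.finrank_perp_singleton h0; omega) c
    exact ⟨x, mem_perp_singleton.1 x.2, hx⟩

theorem nperp_univ [Finite F] (hQ : ND Q) (h2 : (2 : F) ≠ 0) (hn : 3 ≤ finrank F V) {w : V}
    (h0 : w ≠ 0) (c : F) : ∃ x, polar Q w x ≠ 0 ∧ Q x = c := by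
  by_cases hw : Q w = 0
  · obtain ⟨f, f1, f2⟩ := hQ.exists_hyp h0 hw
    refine ⟨f + c • w, ?_, ?_⟩
    · rw [polar_add_right, p_smul_right, p_self, f1, hw]; simp
    · rw [q_add, q_smul, p_smul_right, polar_comm, f1, f2, hw]; ring
  · obtain ⟨x, hx⟩ := (hQ.nd_perp (span_inf_perp_of_nonsingular h2 hw)).exists_Q_eq (by
      have := hQ.finrank_perp_singleton h0; omega) (c - Q w)
    have x1 := mem_perp_singleton.1 x.2
    refine ⟨w + x, ?_, ?_⟩
    · rw [polar_add_right, p_self, x1, add_zero]; exact mul_ne_zero h2 hw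
    · rw [q_add, x1]
      have : Q x = c - Q w := hx
      rw [this]; ring

/-- Moving an element into `Ω` by two reflections. -/
theorem adjust [Finite F] (hQ : ND Q) (h2 : (2 : F) ≠ 0) (C : Subgroup (OG Q))
    (hC : ∀ c, ∃ x, Q x = c ∧ refl Q x ∈ C) (h : OG Q) : ∃ c ∈ C, h * c ∈ commutator (OG Q) := by
  have hg : Good F V := good_of_two_ne_zero h2
  obtain ⟨d, hd⟩ := exists_not_isSquare h2
  obtain ⟨x, x1, x2⟩ := hC 1
  obtain ⟨y, y1, y2⟩ := hC d
  have x0 : Q x ≠ 0 := by simp [x1]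
  have y0 : Q y ≠ 0 := by rintro e; exact hd (by rw [← y1, e]; exact IsSquare.zero)
  have a1 := hQ.even_rk_refl_mul x0 1
  have a2 := hQ.even_rk_refl_mul y0 1
  have a3 := hQ.sqSpin_refl x0
  have a4 := hQ.sqSpin_refl y0
  simp only [mul_one, rk_one, Even.zero, not_true, iff_false, x1, y1, IsSquare.one, iff_true, hd]
    at a1 a2 a3 a4
  simp only [hQ.mem_commutator_iff hg]
  by_cases k1 : Even (rk h) <;> by_cases k2 : SqSpin h
  · exact ⟨1, one_mem _, by simpa using ⟨k1, k2⟩⟩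
  · exact ⟨_, mul_mem x2 y2, by simp [hQ.even_rk_mul hg, hQ.sqSpin_mul hg, *]⟩
  · exact ⟨_, x2, by simp [hQ.even_rk_mul hg, hQ.sqSpin_mul hg, *]⟩
  · exact ⟨_, y2, by simp [hQ.even_rk_mul hg, hQ.sqSpin_mul hg, *]⟩

/-- The vector `v` has the same position with respect to `s` and `t`. -/
structure Gv (s t : OG Q) (v : V) : Prop where
  q : polar Q v (s.1 v) = polar Q v (t.1 v)
  p : s.1 v = v ↔ t.1 v = v
  n : s.1 v = -v ↔ t.1 v = -v

omit [FiniteDimensional F V] in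
theorem Gv.ng {s t : OG Q} {v : V} (h : Gv (ng s) (ng t) v) : Gv s t v :=
  ⟨by simpa using h.q, by simpa using h.n, by simpa [neg_eq_iff_eq_neg] using h.p⟩

theorem conj_fix (hQ : ND Q) (h2 : (2 : F) ≠ 0) {s t k : OG Q} (hs : s * s = 1) (ht : t * t = 1)
    (hk : k * s * k⁻¹ = t) {v : V} (h : Gv s t v) : ∃ k : OG Q, k * s * k⁻¹ = t ∧ k.1 v = v := by
  obtain ⟨c, c1, c2, c3⟩ := cent_witt hQ h2 ht (x := k.1 (v + s.1 v)) (y := v + t.1 v)
    (by rw [conj_apply hk, map_add s.1, ss hs, add_comm]) (by rw [map_add, ss ht, add_comm])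
    (by rw [OG.apply_eq_zero, add_eq_zero_iff_neg_eq, add_eq_zero_iff_neg_eq, eq_comm, h.n, eq_comm])
    (by rw [OG.map_Q, q_add, q_add, h.q, OG.map_Q, OG.map_Q])
  obtain ⟨d, d1, d2, d3⟩ := cent_witt' hQ h2 ht (x := k.1 (v - s.1 v)) (y := v - t.1 v)
    (by rw [conj_apply hk, map_sub s.1, ss hs, ← map_neg, neg_sub]) (by rw [map_sub, ss ht, neg_sub])
    (by rw [OG.apply_eq_zero, sub_eq_zero, sub_eq_zero, eq_comm, h.p, eq_comm])
    (by rw [OG.map_Q, q_sub, q_sub, h.q, OG.map_Q, OG.map_Q])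
  refine ⟨d * c * k, ?_, ?_⟩
  · rw [show d * c * k * s * (d * c * k)⁻¹ = d * (c * (k * s * k⁻¹) * c⁻¹) * d⁻¹ by group, hk, c1,
      mul_inv_cancel_right, d1, mul_inv_cancel_right]
  · rw [← sub_eq_zero]
    refine half h2 ?_
    have e1 : (d * c * k).1 (v + s.1 v) = v + t.1 v := by
      rw [OG.mul_apply, OG.mul_apply, c2, d3 _ (by rw [map_add, ss ht, add_comm])]
    have e2 : (d * c * k).1 (v - s.1 v) = v - t.1 v := by
      rw [OG.mul_apply, OG.mul_apply, c3 _ (by rw [conj_apply hk, map_sub s.1, ss hs, ← map_neg,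
        neg_sub]), d2]
    rw [map_add] at e1
    rw [map_sub] at e2
    linear_combination (norm := module) e1 + e2

theorem cent_refl [Finite F] (hQ : ND Q) (h2 : (2 : F) ≠ 0) {s : OG Q} (hs : s * s = 1)
    (hn : 4 ≤ rk s) (v : V) (c : F) : ∃ x, Q x = c ∧ s.1 x = -x ∧ polar Q x v = 0 := by
  have nd := (nd_restrict_iff _).2 (nd_mov hQ h2 hs)
  obtain ⟨x, x1, x2⟩ := perp_univ nd h2 hn ⟨_, sub_mem_mov s v⟩ c
  have x3 := (mem_mov_iff h2 hs).1 x.2
  refine ⟨x, x2, x3, ?_⟩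
  rw [polar_restrict, polar_sub_left, sa hs, x3, polar_neg_right, polar_comm] at x1
  have : (2 : F) * polar Q x.1 v = 0 := by linear_combination -x1
  simpa [h2] using this

theorem conj_fix_omega [Finite F] (hQ : ND Q) (h2 : (2 : F) ≠ 0) (hn : 7 ≤ finrank F V)
    {s t k : OG Q} (hs : s * s = 1) (ht : t * t = 1) (hk : k * s * k⁻¹ = t) {v : V}
    (h : Gv s t v) : ∃ k ∈ commutator (OG Q), k * s * k⁻¹ = t ∧ k.1 v = v := by
  obtain ⟨k, k1, k2⟩ := conj_fix hQ h2 hs ht hk h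
  obtain ⟨c, ⟨c1, c2⟩, c3⟩ := adjust hQ h2
    (Subgroup.centralizer {s} ⊓ MulAction.stabilizer (OG Q) v) (fun c => by
      obtain ⟨x, x1, x2, x3⟩ : ∃ x, Q x = c ∧ (s.1 x = x ∨ s.1 x = -x) ∧ polar Q x v = 0 := by
        have := rk_ng h2 hs
        by_cases h4 : 4 ≤ rk s
        · obtain ⟨x, x1, x2, x3⟩ := cent_refl hQ h2 hs h4 v c
          exact ⟨x, x1, Or.inr x2, x3⟩
        · obtain ⟨x, x1, x2, x3⟩ := cent_refl hQ h2 (ng_inv hs) (by omega) v c
          exact ⟨x, x1, Or.inl (by simpa using x2), x3⟩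
      exact ⟨x, x1, Subgroup.mem_centralizer_singleton_iff.2 (refl_comm x2),
        refl_apply_of_orth x3⟩) k
  have c4 : c * s = s * c := Subgroup.mem_centralizer_singleton_iff.1 c1
  have c5 : c.1 v = v := c2
  refine ⟨k * c, c3, ?_, by rw [OG.mul_apply, c5, k2]⟩
  rw [mul_assoc k, c4, ← k1]; group

end Cfsg.Agent.OreO
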