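import Mathlib
import Cfsg.Agent.Elu.Ore2

/-! Orthogonal decompositions of symplectic isometries. -/

set_option autoImplicit false
set_option backward.isDefEq.respectTransparency false

namespace Cfsg.Agent.Ore

open Polynomial Module Cfsg.Agent.Com

universe u

variable {F : Type u} [Field F] {V : Type u} [AddCommGroup V] [Module F V]
  {ω : LinearMap.BilinForm F V} {g g' : End F V}

/-- An isometry with its inverse. -/
structure Ctx (ω : LinearMap.BilinForm F V) (g g' : End F V) : Prop where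
  sy : Sy ω
  iso : Iso ω g
  e1 : g * g' = 1
  e2 : g' * g = 1

/-- Nondegenerate invariant subspaces. -/
structure Nv (ω : LinearMap.BilinForm F V) (g g' : End F V) (W : Submodule F V) : Prop where
  a : ∀ x ∈ W, g x ∈ W
  b : ∀ x ∈ W, g' x ∈ W
  nd : ∀ x ∈ W, (∀ y ∈ W, ω x y = 0) → x = 0

/-- `g` is a commutator on `W`. -/
def C2 (ω : LinearMap.BilinForm F V) (g : End F V) (W : Submodule F V) : Prop :=
  ∃ α β : End F V, Iso ω α ∧ Iso ω β ∧ (∀ x, (∀ y ∈ W, ω x y = 0) → α x = x ∧ β x = x) ∧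
    (∀ x ∈ W, α x ∈ W ∧ β x ∈ W) ∧ ∀ w ∈ W, α (β w) = g (β (α w))

/-- A good maximal totally isotropic subspace of `W`. -/
structure Gu (ω : LinearMap.BilinForm F V) (g g' : End F V) (W U : Submodule F V) : Prop where
  le : U ≤ W
  tot : Tot ω U
  inv : ∀ u ∈ U, (g + g') u ∈ U
  lag : ∀ y ∈ W, (∀ x ∈ U, ω y x = 0) → y ∈ U
  rad : ∀ u ∈ U, g u ∈ U → ∃ u1 ∈ U, ∃ u2 ∈ U, u = u1 + u2 ∧ g u1 = u1 ∧ g u2 = -u2

/-- The inductive invariant. -/
def Bi (ω : LinearMap.BilinForm F V) (g g' : End F V) (W : Submodule F V) : Prop :=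
  ∃ U, Gu ω g g' W U ∧ ((∃ u ∈ U, g u ∉ U) ∨ C2 ω g W)

theorem Ctx.gg (c : Ctx ω g g') (x : V) : g (g' x) = x := congrArg (fun f : End F V => f x) c.e1

theorem Ctx.gg' (c : Ctx ω g g') (x : V) : g' (g x) = x := congrArg (fun f : End F V => f x) c.e2

theorem Ctx.adj (c : Ctx ω g g') (x y : V) : ω (g x) y = ω x (g' y) := c.iso.adj c.e1 x y

theorem Ctx.adj' (c : Ctx ω g g') (x y : V) : ω (g' x) y = ω x (g y) :=
  (c.iso.of_inv c.e1).adj c.e2 x y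

theorem C2.sup (hs : Sy ω) {W1 W2 : Submodule F V} (h1 : C2 ω g W1) (h2 : C2 ω g W2)
    (ho : ∀ x ∈ W1, ∀ y ∈ W2, ω x y = 0) : C2 ω g (W1 ⊔ W2) := by
  obtain ⟨a1, b1, i1, j1, f1, p1, q1⟩ := h1
  obtain ⟨a2, b2, i2, j2, f2, p2, q2⟩ := h2
  have ka : ∀ x ∈ W1, ∀ y ∈ W2, (a1 * a2) (x + y) = a1 x + a2 y := fun x hx y hy => by
    rw [End.mul_apply, map_add, map_add, (f2 x (ho x hx)).1,
      (f1 _ (fun z hz => hs.sw (ho z hz _ (p2 y hy).1))).1]
  have kb : ∀ x ∈ W1, ∀ y ∈ W2, (b1 * b2) (x + y) = b1 x + b2 y := fun x hx y hy => by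
    rw [End.mul_apply, map_add, map_add, (f2 x (ho x hx)).2,
      (f1 _ (fun z hz => hs.sw (ho z hz _ (p2 y hy).2))).2]
  refine ⟨a1 * a2, b1 * b2, i1.mul i2, j1.mul j2, fun x hx => ?_, fun w hw => ?_, fun w hw => ?_⟩
  · have k1 := f1 x (fun y hy => hx y (Submodule.mem_sup_left hy))
    have k2 := f2 x (fun y hy => hx y (Submodule.mem_sup_right hy))
    simp [k1.1, k1.2, k2.1, k2.2]
  · obtain ⟨x, hx, y, hy, rfl⟩ := Submodule.mem_sup.mp hw
    rw [ka x hx y hy, kb x hx y hy]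
    exact ⟨Submodule.add_mem_sup (p1 x hx).1 (p2 y hy).1, Submodule.add_mem_sup (p1 x hx).2 (p2 y hy).2⟩
  · obtain ⟨x, hx, y, hy, rfl⟩ := Submodule.mem_sup.mp hw
    rw [ka x hx y hy, kb x hx y hy, ka _ (p1 x hx).2 _ (p2 y hy).2, kb _ (p1 x hx).1 _ (p2 y hy).1,
      q1 x hx, q2 y hy, map_add]

theorem Gu.part (hs : Sy ω) {W1 W2 U1 U2 : Submodule F V} (n1 : Nv ω g g' W1) (n2 : Nv ω g g' W2)
    (h1 : Gu ω g g' W1 U1) (h2 : Gu ω g g' W2 U2) (ho : ∀ x ∈ W1, ∀ y ∈ W2, ω x y = 0)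
    {x y : V} (hx : x ∈ U1) (hy : y ∈ U2) (h : g (x + y) ∈ U1 ⊔ U2) : g x ∈ U1 := by
  refine h1.lag _ (n1.a x (h1.le hx)) (fun z hz => ?_)
  obtain ⟨a, ha, b, hb, e⟩ := Submodule.mem_sup.mp h
  have := congrArg (fun v => ω v z) e
  simpa [h1.tot a ha z hz, hs.sw (ho z (h1.le hz) b (h2.le hb)),
    hs.sw (ho z (h1.le hz) _ (n2.a y (h2.le hy)))] using this.symm

theorem Bi.sup (hs : Sy ω) {W1 W2 : Submodule F V} (n1 : Nv ω g g' W1) (n2 : Nv ω g g' W2)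
    (h1 : Bi ω g g' W1) (h2 : Bi ω g g' W2) (ho : ∀ x ∈ W1, ∀ y ∈ W2, ω x y = 0) :
    Bi ω g g' (W1 ⊔ W2) := by
  obtain ⟨U1, a1, b1⟩ := h1
  obtain ⟨U2, a2, b2⟩ := h2
  have ho' : ∀ x ∈ W2, ∀ y ∈ W1, ω x y = 0 := fun x hx y hy => hs.sw (ho y hy x hx)
  refine ⟨U1 ⊔ U2, ⟨sup_le_sup a1.le a2.le, fun u hu v hv => ?_, fun u hu => ?_, fun w hw h => ?_,
    fun u hu h => ?_⟩, ?_⟩
  · obtain ⟨x, hx, y, hy, rfl⟩ := Submodule.mem_sup.mp hu
    obtain ⟨x', hx', y', hy', rfl⟩ := Submodule.mem_sup.mp hv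
    simp [a1.tot x hx x' hx', a2.tot y hy y' hy', ho x (a1.le hx) y' (a2.le hy'),
      ho' y (a2.le hy) x' (a1.le hx')]
  · obtain ⟨x, hx, y, hy, rfl⟩ := Submodule.mem_sup.mp hu
    rw [map_add]
    exact Submodule.add_mem_sup (a1.inv x hx) (a2.inv y hy)
  · obtain ⟨x, hx, y, hy, rfl⟩ := Submodule.mem_sup.mp hw
    refine Submodule.add_mem_sup (a1.lag x hx (fun z hz => ?_)) (a2.lag y hy (fun z hz => ?_))
    · simpa [ho' y hy z (a1.le hz)] using h z (Submodule.mem_sup_left hz)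
    · simpa [ho x hx z (a2.le hz)] using h z (Submodule.mem_sup_right hz)
  · obtain ⟨x, hx, y, hy, rfl⟩ := Submodule.mem_sup.mp hu
    obtain ⟨x1, p1, x2, p2, rfl, p3, p4⟩ := a1.rad x hx (a1.part hs n1 n2 a2 ho hx hy h)
    obtain ⟨y1, q1, y2, q2, rfl, q3, q4⟩ := a2.rad y hy (a2.part hs n2 n1 a1 ho' hy hx
      (by rwa [add_comm, sup_comm]))
    exact ⟨x1 + y1, Submodule.add_mem_sup p1 q1, x2 + y2, Submodule.add_mem_sup p2 q2, by abel,
      by rw [map_add, p3, q3], by rw [map_add, p4, q4, neg_add]⟩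
  rcases b1 with ⟨u, hu, h⟩ | b1
  · exact Or.inl ⟨u, Submodule.mem_sup_left hu, fun e => h
      (a1.part hs n1 n2 a2 ho hu (zero_mem _) (by rwa [add_zero]))⟩
  rcases b2 with ⟨u, hu, h⟩ | b2
  · exact Or.inl ⟨u, Submodule.mem_sup_right hu, fun e => h
      (a2.part hs n2 n1 a1 ho' hu (zero_mem _) (by rwa [add_zero, sup_comm]))⟩
  exact Or.inr (b1.sup hs b2 ho)

theorem c2_one {W : Submodule F V} (h : ∀ w ∈ W, g w = w) : C2 ω g W :=
  ⟨1, 1, iso_one, iso_one, fun _ _ => ⟨rfl, rfl⟩, fun _ h => ⟨h, h⟩, fun w hw => (h w hw).symm⟩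

/-- An element of the special linear group of a hyperbolic plane. -/
def pl (ω : LinearMap.BilinForm F V) (e f : V) (p q r s : F) : End F V :=
  LinearMap.id + (ω.flip f).smulRight ((p - 1) • e + r • f) -
    (ω.flip e).smulRight (q • e + (s - 1) • f)

theorem pl_apply (e f : V) (p q r s : F) (v : V) : pl ω e f p q r s v =
    v + ω v f • ((p - 1) • e + r • f) - ω v e • (q • e + (s - 1) • f) := rfl

theorem pl_iso (hs : Sy ω) {e f : V} (h : ω e f = 1) {p q r s : F} (hd : p * s - q * r = 1) :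
    Iso ω (pl ω e f p q r s) := by
  intro x y
  simp only [pl_apply, map_add, map_sub, map_smul, LinearMap.add_apply, LinearMap.sub_apply,
    LinearMap.smul_apply, smul_eq_mul, hs.alt, h, hs.skew f e, hs.skew e y, hs.skew f y]
  linear_combination (ω x e * ω y f - ω x f * ω y e) * hd

theorem pl_plane (hs : Sy ω) {e f : V} (h : ω e f = 1) (p q r s x y : F) :
    pl ω e f p q r s (x • e + y • f) = (p * x + q * y) • e + (r * x + s * y) • f := by
  simp only [pl_apply, map_add, map_smul, LinearMap.add_apply, LinearMap.smul_apply, smul_eq_mul,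
    hs.alt, h, hs.skew f e]
  module

theorem c2_neg [Finite F] (hs : Sy ω) {W : Submodule F V} {e f : V} (h : ω e f = 1) (he : e ∈ W)
    (hf : f ∈ W) (hW : ∀ w ∈ W, ∃ x y : F, w = x • e + y • f) (hg : ∀ w ∈ W, g w = -w) :
    C2 ω g W := by
  obtain ⟨p, hp⟩ := CharP.exists F
  haveI : NeZero p := ⟨CharP.char_ne_zero_of_finite F p⟩
  obtain ⟨a, b, hab⟩ := CharP.sq_add_sq F p (-1)
  have mem : ∀ x y : F, x • e + y • f ∈ W := fun x y => W.add_mem (W.smul_mem x he) (W.smul_mem y hf)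
  refine ⟨pl ω e f 0 (-1) 1 0, pl ω e f a b b (-a), pl_iso hs h (by ring), pl_iso hs h (by
    push_cast at hab; linear_combination -hab), fun x hx => by simp [pl_apply, hx e he, hx f hf],
    fun w hw => ?_, fun w hw => ?_⟩
  · obtain ⟨x, y, rfl⟩ := hW w hw
    rw [pl_plane hs h, pl_plane hs h]
    exact ⟨mem _ _, mem _ _⟩
  · obtain ⟨x, y, rfl⟩ := hW w hw
    rw [pl_plane hs h, pl_plane hs h, pl_plane hs h, pl_plane hs h, hg _ (mem _ _)]
    module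

theorem sa_aeval {m : End F V} (h : ∀ x y, ω (m x) y = ω x (m y)) (p : F[X]) (x y : V) :
    ω (aeval m p x) y = ω x (aeval m p y) := by
  induction p using Polynomial.induction_on generalizing x y with
  | C a => simp
  | add p q hp hq => simp [hp, hq]
  | monomial n a ih =>
    rw [pow_succ, ← mul_assoc, aeval_mul_apply, ih, aeval_X, h, mul_comm _ X,
      aeval_mul_apply m X, aeval_X]

theorem alt_aeval (hs : Sy ω) {m : End F V} (h : ∀ x y, ω (m x) y = ω x (m y))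
    (h' : ∀ x, ω x (m x) = 0) (p : F[X]) (x : V) : ω x (aeval m p x) = 0 := by
  induction p using Polynomial.induction_on' with
  | add p q hp hq => simp [hp, hq]
  | monomial n a =>
    rw [← C_mul_X_pow_eq_monomial, aeval_mul_apply, aeval_C, Module.algebraMap_end_apply, map_smul]
    rcases Nat.even_or_odd' n with ⟨j, rfl | rfl⟩
    · rw [two_mul, pow_add, aeval_mul_apply, ← sa_aeval h, hs.alt, smul_zero]
    · rw [two_mul, add_right_comm, pow_add, pow_succ, mul_assoc, aeval_mul_apply, ← sa_aeval h,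
        aeval_mul_apply, aeval_X, h', smul_zero]

/-- The cyclic subspace generated by a vector. -/
noncomputable def cyc (m : End F V) (y : V) : Submodule F V :=
  LinearMap.range ((LinearMap.applyₗ y) ∘ₗ (aeval m : F[X] →ₐ[F] End F V).toLinearMap)

theorem mem_cyc {m : End F V} {y x : V} : x ∈ cyc m y ↔ ∃ r : F[X], aeval m r y = x := Iff.rfl

theorem self_mem_cyc (m : End F V) (y : V) : y ∈ cyc m y := ⟨1, by simp⟩

theorem aeval_mem {m : End F V} {W : Submodule F V} (h : ∀ x ∈ W, m x ∈ W) (r : F[X]) {x : V}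
    (hx : x ∈ W) : aeval m r x ∈ W := aeval_apply_smul_mem_of_le_comap (q := W) hx r m h

theorem cyc_le {m : End F V} {W : Submodule F V} (h : ∀ x ∈ W, m x ∈ W) {x : V} (hx : x ∈ W) :
    cyc m x ≤ W := by rintro _ ⟨r, rfl⟩; exact aeval_mem h r hx

theorem cyc_inv {m : End F V} {y : V} : ∀ x ∈ cyc m y, m x ∈ cyc m y := by
  rintro _ ⟨r, rfl⟩
  exact ⟨X * r, by simp⟩

theorem cyc_tot (hs : Sy ω) {m : End F V} (h : ∀ x y, ω (m x) y = ω x (m y))
    (h' : ∀ x, ω x (m x) = 0) (y : V) : Tot ω (cyc m y) := by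
  intro a ha b hb
  obtain ⟨r, rfl⟩ := mem_cyc.mp ha
  obtain ⟨s, rfl⟩ := mem_cyc.mp hb
  rw [sa_aeval h, ← aeval_mul_apply, alt_aeval hs h h']

theorem aeval_top {m : End F V} {k : ℕ} {x : V} (h : (m ^ (k + 1)) x = 0) (r : F[X]) :
    aeval m (X ^ k * r) x = r.coeff 0 • (m ^ k) x := by
  conv_lhs => rw [← divX_mul_X_add r, mul_add, show X ^ k * (r.divX * X) = r.divX * X ^ (k + 1) by
    ring, mul_comm _ (C _)]
  simp [h]

theorem climb {r : F[X]} {K : ℕ} (h : ∀ j < K, ∀ r', r = X ^ j * r' → r'.coeff 0 = 0) :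
    X ^ K ∣ r := by
  induction K with
  | zero => simp
  | succ K ih =>
    obtain ⟨r', e⟩ := ih (fun j hj => h j (by omega))
    rw [e, pow_succ]
    exact mul_dvd_mul_left _ (X_dvd_iff.mpr (h K (by omega) r' e))

theorem Ctx.sa (c : Ctx ω g g') (x y : V) : ω ((g + g') x) y = ω x ((g + g') y) := by
  simp [c.adj, c.adj', add_comm]

theorem Ctx.alt (c : Ctx ω g g') (x : V) : ω x ((g + g') x) = 0 := by
  simp [← c.adj, c.sy.skew (g x) x]

theorem Ctx.symm (c : Ctx ω g g') {U : Submodule F V} (h : Tot ω U) (hi : ∀ u ∈ U, (g + g') u ∈ U)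
    {u v : V} (hu : u ∈ U) (hv : v ∈ U) : ω u (g v) = ω v (g u) := by
  have := h _ (hi u hu) v hv
  rw [LinearMap.add_apply, map_add, LinearMap.add_apply, c.adj', c.sy.skew (g u)] at this
  linear_combination this

theorem block_a (c : Ctx ω g g') {W U : Submodule F V} (hW : Nv ω g g' W) (le : U ≤ W)
    (tot : Tot ω U) (inv : ∀ u ∈ U, (g + g') u ∈ U) (h0 : U ≠ ⊥)
    (nd : ∀ u ∈ U, (∀ v ∈ U, ω v (g u) = 0) → u = 0) :
    ∃ W1 ≤ W, W1 ≠ ⊥ ∧ Nv ω g g' W1 ∧ Bi ω g g' W1 := by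
  have lag : ∀ y ∈ U ⊔ U.map g, (∀ x ∈ U, ω y x = 0) → y ∈ U := fun y hy h => by
    obtain ⟨u, hu, _, ⟨v, hv, rfl⟩, rfl⟩ := Submodule.mem_sup.mp hy
    rw [nd v hv (fun x hx => c.sy.sw (by simpa [tot u hu x hx] using h x hx)), map_zero, add_zero]
    exact hu
  refine ⟨U ⊔ U.map g, sup_le le (by rintro _ ⟨v, hv, rfl⟩; exact hW.a v (le hv)),
    fun e => h0 (eq_bot_iff.mpr (e ▸ le_sup_left)), ⟨fun y hy => ?_, fun y hy => ?_, fun y hy h => ?_⟩,
    U, ⟨le_sup_left, tot, inv, lag, fun u hu h => ?_⟩, Or.inl ?_⟩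
  · obtain ⟨u, hu, _, ⟨v, hv, rfl⟩, rfl⟩ := Submodule.mem_sup.mp hy
    exact Submodule.mem_sup.mpr ⟨-v, U.neg_mem hv, _, ⟨_, U.add_mem hu (inv v hv), rfl⟩, by
      simp only [map_add, LinearMap.add_apply, c.gg]; abel⟩
  · obtain ⟨u, hu, _, ⟨v, hv, rfl⟩, rfl⟩ := Submodule.mem_sup.mp hy
    exact Submodule.mem_sup.mpr ⟨_, U.add_mem hv (inv u hu), _, ⟨_, U.neg_mem hu, rfl⟩, by
      simp only [map_add, map_neg, LinearMap.add_apply, c.gg']; abel⟩
  · have hy' := lag y hy (fun x hx => h x (Submodule.mem_sup_left hx))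
    exact nd y hy' (fun v hv => by
      rw [c.symm tot inv hv hy']; exact h _ (Submodule.mem_sup_right ⟨v, hv, rfl⟩))
  · rw [nd u hu (fun v hv => tot v hv _ h)]
    exact ⟨0, zero_mem _, 0, zero_mem _, by simp⟩
  · obtain ⟨u, hu, h⟩ := (Submodule.ne_bot_iff _).mp h0
    exact ⟨u, hu, fun e => h (nd u hu (fun v hv => tot v hv _ e))⟩

variable [FiniteDimensional F V]

theorem Nv.proj (hs : Sy ω) {W : Submodule F V} (h : Nv ω g g' W) (y : V) :
    ∃ y' ∈ W, ∀ x ∈ W, ω y' x = ω y x := by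
  obtain ⟨y', hy⟩ := Sy.rep (ω := ω.domRestrict₁₂ W W) ⟨fun x => hs.alt x, fun x hx =>
    Subtype.ext (h.nd x x.2 (fun y hy => hx ⟨y, hy⟩))⟩ (ω y ∘ₗ W.subtype)
  exact ⟨y', y'.2, fun x hx => hy ⟨x, hx⟩⟩

theorem Nv.sep (hs : Sy ω) {W S : Submodule F V} (h : Nv ω g g' W) (le : S ≤ W) {z : V}
    (hz : z ∈ W) (hz' : z ∉ S) : ∃ y ∈ W, (∀ x ∈ S, ω y x = 0) ∧ ω y z ≠ 0 := by
  obtain ⟨y, h1, h2⟩ := hs.sep hz'
  obtain ⟨y', k1, k2⟩ := h.proj hs y
  exact ⟨y', k1, fun x hx => (k2 x (le hx)).trans (h1 x hx), k2 z hz ▸ h2⟩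

theorem orth_ind (c : Ctx ω g g') (hb : ∀ W, Nv ω g g' W → W ≠ ⊥ →
    ∃ W1 ≤ W, W1 ≠ ⊥ ∧ Nv ω g g' W1 ∧ Bi ω g g' W1) (W : Submodule F V) (hW : Nv ω g g' W) :
    Bi ω g g' W := by
  induction W using (wellFounded_lt (α := Submodule F V)).induction with
  | _ W ih =>
  by_cases h0 : W = ⊥
  · subst h0
    exact ⟨⊥, ⟨le_rfl, by simp [Tot], by simp, by simp, fun u hu _ =>
      ⟨0, zero_mem _, 0, zero_mem _, by simpa using hu⟩⟩, Or.inr (c2_one (by simp))⟩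
  obtain ⟨W1, le, h1, n1, b1⟩ := hb W hW h0
  let W2 := W ⊓ ω.orthogonal W1
  have m2 : ∀ x, x ∈ W2 ↔ x ∈ W ∧ ∀ y ∈ W1, ω y x = 0 := fun x => Iff.rfl
  have e : W1 ⊔ W2 = W := le_antisymm (sup_le le inf_le_left) (fun w hw => by
    obtain ⟨y, k1, k2⟩ := n1.proj c.sy w
    exact Submodule.mem_sup.mpr ⟨y, k1, w - y, (m2 _).mpr ⟨W.sub_mem hw (le k1), fun z hz =>
      c.sy.sw (by simp [k2 z hz])⟩, by abel⟩)
  have n2 : Nv ω g g' W2 := by
    refine ⟨fun x hx => (m2 _).mpr ⟨hW.a x hx.1, fun y hy => ?_⟩,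
      fun x hx => (m2 _).mpr ⟨hW.b x hx.1, fun y hy => ?_⟩, fun x hx h => hW.nd x hx.1 (fun y hy => ?_)⟩
    · rw [← c.adj']; exact ((m2 _).mp hx).2 _ (n1.b y hy)
    · rw [← c.adj]; exact ((m2 _).mp hx).2 _ (n1.a y hy)
    · obtain ⟨a, ha, b, hb, rfl⟩ := Submodule.mem_sup.mp (e ▸ hy : y ∈ W1 ⊔ W2)
      rw [map_add, h b hb, c.sy.sw (((m2 _).mp hx).2 a ha), add_zero]
  rw [← e]
  refine b1.sup c.sy n1 n2 (ih W2 (lt_of_le_of_ne inf_le_left (fun e' => h1 (eq_bot_iff.mpr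
    (fun x hx => n1.nd x hx (fun y hy => c.sy.sw (((m2 _).mp (e' ▸ le hx)).2 y hy)))))) n2)
    (fun x hx y hy => ((m2 _).mp hy).2 x hx)

end Cfsg.Agent.Ore
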