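import Mathlib
import Cfsg.Agent.Elu.Ore4

/-! The indecomposable blocks of a symplectic isometry. -/

set_option autoImplicit false
set_option backward.isDefEq.respectTransparency false

namespace Cfsg.Agent.Ore

open Polynomial Module Cfsg.Agent.Com

universe u

variable {F : Type u} [Field F] {V : Type u} [AddCommGroup V] [Module F V]
  {ω : LinearMap.BilinForm F V} {g g' : End F V}

theorem exists_irr {m : End F V} {W : Submodule F V} (h : ∀ x ∈ W, m x ∈ W) (μ : F[X]) :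
    μ ≠ 0 → ∀ x ∈ W, x ≠ 0 → aeval m μ x = 0 →
      ∃ p : F[X], p.Monic ∧ Irreducible p ∧ ∃ y ∈ W, y ≠ 0 ∧ aeval m p y = 0 := by
  induction μ using WfDvdMonoid.induction_on_irreducible with
  | zero => simp
  | unit u hu =>
    intro _ x _ h0 e
    obtain ⟨c, hc, rfl⟩ := isUnit_iff.mp hu
    simp [hc.ne_zero, h0] at e
  | mul a p ha hp ih =>
    intro _ x hx h0 e
    by_cases k : aeval m a x = 0
    · exact ih ha x hx h0 k
    · refine ⟨p * C p.leadingCoeff⁻¹, monic_mul_leadingCoeff_inv hp.ne_zero,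
        irreducible_mul_leadingCoeff_inv.mpr hp, _, aeval_mem h a hx, k, ?_⟩
      rw [mul_comm, aeval_mul_apply, ← aeval_mul_apply m p, e, map_zero]

theorem Ctx.cg (c : Ctx ω g g') (r : F[X]) (x : V) :
    g (aeval (g + g') r x) = aeval (g + g') r (g x) :=
  aeval_comm (by rw [add_mul, mul_add, c.e1, c.e2]) r x

theorem Ctx.cg' (c : Ctx ω g g') (r : F[X]) (x : V) :
    g' (aeval (g + g') r x) = aeval (g + g') r (g' x) :=
  aeval_comm (by rw [add_mul, mul_add, c.e1, c.e2]) r x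

theorem Nv.mm {W : Submodule F V} (h : Nv ω g g' W) : ∀ x ∈ W, (g + g') x ∈ W :=
  fun x hx => W.add_mem (h.a x hx) (h.b x hx)

theorem prim [FiniteDimensional F V] (c : Ctx ω g g') {W : Submodule F V} (hW : Nv ω g g' W)
    (h0 : W ≠ ⊥) : ∃ W' ≤ W, Nv ω g g' W' ∧ ∃ (p : F[X]) (k : ℕ), p.Monic ∧ Irreducible p ∧
      (∀ x ∈ W', aeval (g + g') (p ^ (k + 1)) x = 0) ∧ ∃ a ∈ W', aeval (g + g') (p ^ k) a ≠ 0 := by
  classical
  obtain ⟨x, hx, x0⟩ := (Submodule.ne_bot_iff _).mp h0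
  have hχ := LinearMap.aeval_self_charpoly (g + g')
  obtain ⟨p, p1, p2, y, y1, y2, y3⟩ := exists_irr hW.mm _ (LinearMap.charpoly_monic _).ne_zero x hx
    x0 (by rw [hχ]; rfl)
  obtain ⟨e, r, r1, r2⟩ := WfDvdMonoid.max_power_factor (LinearMap.charpoly_monic (g + g')).ne_zero p2
  obtain ⟨a, b, hab⟩ := (p2.coprime_iff_not_dvd.mpr r1).pow_left (m := e + 1)
  let W' := W ⊓ LinearMap.ker (aeval (g + g') (p ^ (e + 1)))
  have hex : ∃ j, ∀ x ∈ W', aeval (g + g') (p ^ j) x = 0 := ⟨e + 1, fun x hx => hx.2⟩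
  have hy : y ∈ W' := ⟨y1, by rw [SetLike.mem_coe, LinearMap.mem_ker, pow_succ, aeval_mul_apply, y3, map_zero]⟩
  obtain ⟨k, hk⟩ : ∃ k, Nat.find hex = k + 1 := Nat.exists_eq_succ_of_ne_zero (fun e0 => y2 (by
    have := Nat.find_spec hex y hy
    rw [e0] at this
    simpa using this))
  refine ⟨W', inf_le_left, ⟨fun x hx => ⟨hW.a x hx.1, ?_⟩, fun x hx => ⟨hW.b x hx.1, ?_⟩,
    fun x hx h => hW.nd x hx.1 (fun w hw => ?_)⟩, p, k, p1, p2, hk ▸ Nat.find_spec hex, ?_⟩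
  · rw [SetLike.mem_coe, LinearMap.mem_ker, ← c.cg, LinearMap.mem_ker.mp hx.2, map_zero]
  · rw [SetLike.mem_coe, LinearMap.mem_ker, ← c.cg', LinearMap.mem_ker.mp hx.2, map_zero]
  · have : w = aeval (g + g') (p ^ (e + 1)) (aeval (g + g') a w) + aeval (g + g') (b * r) w := by
      rw [← aeval_mul_apply, ← LinearMap.add_apply, ← map_add, mul_comm, hab]; simp
    rw [this, map_add, ← sa_aeval c.sa, LinearMap.mem_ker.mp hx.2, h _ ⟨aeval_mem hW.mm _ hw, ?_⟩]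
    · simp
    · rw [SetLike.mem_coe, LinearMap.mem_ker, ← aeval_mul_apply,
        show p ^ (e + 1) * (b * r) = (p * b) * (p ^ e * r) by ring, ← r2, aeval_mul_apply, hχ]
      simp
  · have := Nat.find_min hex (show k < Nat.find hex by omega)
    push Not at this
    exact this

theorem exists_mul_eq {p r : F[X]} (hp : Irreducible p) {k : ℕ} (h : ¬ p ^ (k + 1) ∣ r) :
    ∃ d e, p ^ k = d * r + e * p ^ (k + 1) := by
  obtain ⟨n, a, h1, rfl⟩ := WfDvdMonoid.max_power_factor (a₀ := r) (by rintro rfl; simp at h) hp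
  obtain ⟨i, rfl⟩ : ∃ i, k = n + i := Nat.exists_eq_add_of_le (by
    by_contra hn
    exact h ((pow_dvd_pow p (by omega)).mul_right a))
  obtain ⟨u, v, e⟩ := (hp.coprime_iff_not_dvd.mpr h1).pow_left (m := n + i + 1)
  exact ⟨v * p ^ i, u * p ^ (n + i), by linear_combination -(p ^ (n + i)) * e⟩

theorem case_a (c : Ctx ω g g') {W : Submodule F V} (hW : Nv ω g g' W) {p : F[X]} {k : ℕ}
    (hp : Irreducible p) {x : V} (hx : x ∈ W) (h1 : aeval (g + g') (p ^ (k + 1)) x = 0) {s : F[X]}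
    (h : ω (aeval (g + g') (p ^ k * s) x) (g x) ≠ 0) :
    ∃ W1 ≤ W, W1 ≠ ⊥ ∧ Nv ω g g' W1 ∧ Bi ω g g' W1 := by
  refine block_a c hW (cyc_le hW.mm hx) (cyc_tot c.sy c.sa c.alt x) cyc_inv (fun e => h (by
    have : x = 0 := (Submodule.eq_bot_iff _).mp e x (self_mem_cyc _ x)
    simp [this])) (fun u hu h0 => ?_)
  obtain ⟨t, rfl⟩ := mem_cyc.mp hu
  by_cases hd : p ^ (k + 1) ∣ t
  · obtain ⟨d, rfl⟩ := hd
    rw [mul_comm, aeval_mul_apply, h1, map_zero]
  obtain ⟨d, e, he⟩ := exists_mul_eq hp hd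
  refine absurd ?_ h
  rw [he, show (d * t + e * p ^ (k + 1)) * s = t * (d * s) + e * s * p ^ (k + 1) by ring, map_add,
    LinearMap.add_apply, aeval_mul_apply _ (e * s), h1, map_zero, add_zero, aeval_mul_apply,
    sa_aeval c.sa, ← c.cg]
  exact h0 _ ⟨_, rfl⟩

/-- The data of a block with eigenvalue `ε`. -/
structure Ep (ω : LinearMap.BilinForm F V) (g g' : End F V) (ε : F) (m n : End F V) : Prop where
  c : Ctx ω g g'
  e : ε * ε = 1
  hm : ∀ x, m x = g x + g' x - (2 * ε) • x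
  hn : ∀ x, n x = g x - ε • x

namespace Ep
variable {ε : F} {m n : End F V}

theorem sa (h : Ep ω g g' ε m n) (x y : V) : ω (m x) y = ω x (m y) := by
  simp [h.hm, h.c.adj, h.c.adj', add_comm]

theorem alt (h : Ep ω g g' ε m n) (x : V) : ω x (m x) = 0 := by
  simp [h.hm, ← h.c.adj, h.c.sy.skew (g x) x, h.c.sy.alt]

theorem cn (h : Ep ω g g' ε m n) (r : F[X]) (x : V) : n (aeval m r x) = aeval m r (n x) :=
  aeval_comm (LinearMap.ext (fun x => by
    simp only [End.mul_apply, h.hm, h.hn, map_add, map_sub, map_smul, h.c.gg, h.c.gg']; module)) r x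

theorem cn' (h : Ep ω g g' ε m n) (k : ℕ) (x : V) : n ((m ^ k) x) = (m ^ k) (n x) := by
  simpa using h.cn (X ^ k) x

theorem adj (h : Ep ω g g' ε m n) (x y : V) : ω x (n y) = ω (m x - n x) y := by
  simp [h.hm, h.hn, h.c.adj']; ring

theorem nn (h : Ep ω g g' ε m n) (x : V) : n (n x) = m (n x) + ε • m x := by
  simp only [h.hm, h.hn, map_add, map_sub, map_smul, h.c.gg']
  have := h.e
  rw [show g (g x) - ε • g x - ε • (g x - ε • x) = g (g x) - ε • g x - ε • g x + (ε * ε) • x by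
    module, show g (g x) - ε • g x + (x - ε • g' x) - (2 * ε) • (g x - ε • x) +
      ε • (g x + g' x - (2 * ε) • x) = g (g x) - ε • g x - ε • g x + x by module, this, one_smul]

theorem pair (h : Ep ω g g' ε m n) (x y : V) : ω (n x) (n y) = -ε * ω x (m y) := by
  simp only [h.hm, h.hn, map_add, map_sub, map_smul, LinearMap.sub_apply, LinearMap.smul_apply,
    smul_eq_mul, h.c.iso x y, h.c.adj]
  linear_combination -(ω x y) * h.e

theorem mi (h : Ep ω g g' ε m n) {W : Submodule F V} (hW : Nv ω g g' W) : ∀ x ∈ W, m x ∈ W :=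
  fun x hx => h.hm x ▸ W.sub_mem (hW.mm x hx) (W.smul_mem _ hx)

theorem ni (h : Ep ω g g' ε m n) {W : Submodule F V} (hW : Nv ω g g' W) : ∀ x ∈ W, n x ∈ W :=
  fun x hx => h.hn x ▸ W.sub_mem (hW.a x hx) (W.smul_mem _ hx)

theorem inv (h : Ep ω g g' ε m n) {U : Submodule F V} (hU : ∀ x ∈ U, m x ∈ U) :
    ∀ x ∈ U, (g + g') x ∈ U := fun x hx => by
  have := U.add_mem (hU x hx) (U.smul_mem (2 * ε) hx)
  rwa [h.hm, sub_add_cancel] at this

theorem sup_inv {a b : V} : ∀ x ∈ cyc m a ⊔ cyc m b, m x ∈ cyc m a ⊔ cyc m b := fun w hw => by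
  obtain ⟨x, hx, y, hy, rfl⟩ := Submodule.mem_sup.mp hw
  rw [map_add]
  exact Submodule.add_mem_sup (cyc_inv x hx) (cyc_inv y hy)

theorem sup_tot (h : Ep ω g g' ε m n) {a b : V} (e : ∀ x ∈ cyc m a, ω b x = 0) :
    Tot ω (cyc m a ⊔ cyc m b) := fun u hu v hv => by
  have k : ∀ x ∈ cyc m b, ∀ y ∈ cyc m a, ω x y = 0 := fun x hx y hy => by
    obtain ⟨r, rfl⟩ := mem_cyc.mp hx
    rw [sa_aeval h.sa]; exact e _ (aeval_mem cyc_inv r hy)
  obtain ⟨x, hx, y, hy, rfl⟩ := Submodule.mem_sup.mp hu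
  obtain ⟨x', hx', y', hy', rfl⟩ := Submodule.mem_sup.mp hv
  simp [cyc_tot h.c.sy h.sa h.alt a x hx x' hx', cyc_tot h.c.sy h.sa h.alt b y hy y' hy',
    k y hy x' hx', h.c.sy.sw (k y' hy' x hx)]

theorem mul_pow_apply (i j : ℕ) (r : F[X]) (x : V) :
    aeval m (X ^ i : F[X]) (aeval m (X ^ j * r) x) = aeval m (X ^ (j + i) * r) x := by
  rw [← aeval_mul_apply, ← mul_assoc, ← pow_add, add_comm]

theorem m_apply (j : ℕ) (r : F[X]) (x : V) :
    m (aeval m (X ^ j * r) x) = aeval m (X ^ (j + 1) * r) x := by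
  rw [← mul_pow_apply, pow_one, aeval_X]

theorem case_b1 [FiniteDimensional F V] (h : Ep ω g g' ε m n) {W : Submodule F V}
    (hW : Nv ω g g' W) {k : ℕ} (h1 : ∀ x ∈ W, (m ^ (k + 1)) x = 0)
    (hB : ∀ x ∈ W, ω x (n ((m ^ k) x)) = 0) {a : V} (ha : a ∈ W) (h2 : n ((m ^ k) a) ≠ 0) :
    ∃ W1 ≤ W, W1 ≠ ⊥ ∧ Nv ω g g' W1 ∧ Bi ω g g' W1 := by
  have dv : ∀ x ∈ W, ∀ r : F[X], X ^ (k + 1) ∣ r → aeval m r x = 0 := by
    rintro x hx _ ⟨r, rfl⟩
    rw [mul_comm, aeval_mul_apply]; simp [h1 x hx]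
  have mk : ∀ x ∈ W, m ((m ^ k) x) = 0 := fun x hx => by
    rw [← End.mul_apply, ← pow_succ', h1 x hx]
  obtain ⟨b, hb, b1, b2⟩ := hW.sep h.c.sy (cyc_le (h.mi hW) ha)
    (h.ni hW _ (by simpa using aeval_mem (h.mi hW) (X ^ k) ha)) (fun e => by
      obtain ⟨r, e⟩ := mem_cyc.mp e
      refine h2 (e ▸ dv a ha r (climb (fun j hj r' er => ?_)))
      obtain ⟨i, rfl⟩ : ∃ i, k = j + i := ⟨k - j, by omega⟩
      have := congrArg (fun v => n (aeval m (X ^ i : F[X]) v)) e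
      simp only [er] at this
      rw [mul_pow_apply, aeval_top (h1 a ha), h.cn, h.nn, h.cn', mk _ (h.ni hW a ha), mk a ha,
        map_smul] at this
      simpa [h2] using this)
  have b3 : ω a (n ((m ^ k) b)) ≠ 0 := by
    have := sa_aeval h.sa (X ^ k) a (n b)
    simp only [map_pow, aeval_X] at this
    rw [h.cn', ← this, h.adj, mk a ha, zero_sub, map_neg, LinearMap.neg_apply, ← h.c.sy.skew]
    exact b2
  have tot := h.sup_tot b1
  refine block_a h.c hW (sup_le (cyc_le (h.mi hW) ha) (cyc_le (h.mi hW) hb)) tot (h.inv sup_inv)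
    (fun e => h2 (by
      have : a = 0 := (Submodule.eq_bot_iff _).mp e a (Submodule.mem_sup_left (self_mem_cyc _ a))
      simp [this])) (fun u hu h0 => ?_)
  have h3 : ∀ v ∈ cyc m a ⊔ cyc m b, ω v (n u) = 0 := fun v hv => by
    simp [h.hn, h0 v hv, tot v hv u hu]
  obtain ⟨_, ⟨r, rfl⟩, _, ⟨s, rfl⟩, rfl⟩ := Submodule.mem_sup.mp hu
  change ∀ v ∈ cyc m a ⊔ cyc m b, ω v (n (aeval m r a + aeval m s b)) = 0 at h3
  change aeval m r a + aeval m s b = 0
  have : ∀ j ≤ k + 1, X ^ j ∣ r ∧ X ^ j ∣ s := fun j => by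
    induction j with
    | zero => simp
    | succ j ih =>
      intro hj
      obtain ⟨⟨r', rfl⟩, ⟨s', rfl⟩⟩ := ih (by omega)
      obtain ⟨i, rfl⟩ : ∃ i, k = j + i := ⟨k - j, by omega⟩
      have k1 := h3 _ (Submodule.mem_sup_left ⟨X ^ i, rfl⟩)
      have k2 := h3 _ (Submodule.mem_sup_right ⟨X ^ i, rfl⟩)
      change ω (aeval m (X ^ i : F[X]) _) _ = 0 at k1 k2
      rw [sa_aeval h.sa, ← h.cn, map_add, mul_pow_apply, mul_pow_apply, aeval_top (h1 a ha),
        aeval_top (h1 b hb)] at k1 k2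
      simp [hB a ha, b3] at k1
      simp [hB b hb, b2] at k2
      rw [pow_succ]
      exact ⟨mul_dvd_mul_left _ (X_dvd_iff.mpr k2), mul_dvd_mul_left _ (X_dvd_iff.mpr k1)⟩
  rw [dv a ha r (this _ le_rfl).1, dv b hb s (this _ le_rfl).2, add_zero]

theorem lem_l (h : Ep ω g g' ε m n) {W : Submodule F V} (hW : Nv ω g g' W) {k : ℕ}
    (h1 : ∀ x ∈ W, (m ^ (k + 1)) x = 0) (h2 : ∀ x ∈ W, (m ^ k) (n x) = 0) {a b : V} (ha : a ∈ W)
    (hb : b ∈ W) (h3 : ω b ((m ^ k) a) ≠ 0) {r s : F[X]}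
    (k1 : ∀ v ∈ cyc m a, ω v (aeval m r (n a) + aeval m s b) = 0)
    (k2 : ∀ v ∈ cyc m (n b), ω v (aeval m r (n a) + aeval m s b) = 0) :
    X ^ k ∣ r ∧ X ^ (k + 1) ∣ s := by
  have h4 : ω a ((m ^ k) b) ≠ 0 := by
    have := sa_aeval h.sa (X ^ k) a b
    simp only [map_pow, aeval_X] at this
    rw [← this, h.c.sy.skew]; simpa using h3
  have e0 : ε ≠ 0 := left_ne_zero_of_mul (h.e ▸ one_ne_zero)
  have s1 : ∀ j ≤ k, X ^ j ∣ r → X ^ j ∣ s → X ^ (j + 1) ∣ s := by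
    rintro j hj ⟨r', rfl⟩ ⟨s', rfl⟩
    obtain ⟨i, rfl⟩ : ∃ i, k = j + i := ⟨k - j, by omega⟩
    have := k1 _ ⟨X ^ i, rfl⟩
    change ω (aeval m (X ^ i : F[X]) _) _ = 0 at this
    rw [sa_aeval h.sa, map_add, mul_pow_apply, mul_pow_apply, aeval_top (h1 _ (h.ni hW a ha)),
      aeval_top (h1 b hb), h2 a ha] at this
    simp [h4] at this
    rw [pow_succ]
    exact mul_dvd_mul_left _ (X_dvd_iff.mpr this)
  have : ∀ j ≤ k, X ^ j ∣ r ∧ X ^ j ∣ s := fun j => by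
    induction j with
    | zero => simp
    | succ j ih =>
      intro hj
      obtain ⟨s', rfl⟩ := s1 j (by omega) (ih (by omega)).1 (ih (by omega)).2
      obtain ⟨r', rfl⟩ := (ih (by omega)).1
      obtain ⟨i, rfl⟩ : ∃ i, k = j + 1 + i := ⟨k - j - 1, by omega⟩
      have := k2 _ ⟨X ^ i, rfl⟩
      change ω (aeval m (X ^ i : F[X]) _) _ = 0 at this
      rw [sa_aeval h.sa, map_add, mul_pow_apply, mul_pow_apply, map_add, ← h.cn, h.pair,
        ← sa_aeval h.sa, aeval_top (h1 _ (h.ni hW b hb)), h2 b hb, m_apply,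
        show j + i + 1 = j + 1 + i by omega, aeval_top (h1 a ha)] at this
      simp [h3, e0] at this
      rw [pow_succ]
      exact ⟨mul_dvd_mul_left _ (X_dvd_iff.mpr this), dvd_mul_right _ _⟩
  exact ⟨(this k le_rfl).1, s1 k le_rfl (this k le_rfl).1 (this k le_rfl).2⟩

theorem case_b2 [FiniteDimensional F V] [Finite F] (h : Ep ω g g' ε m n) {W : Submodule F V}
    (hW : Nv ω g g' W) {k : ℕ} (h1 : ∀ x ∈ W, (m ^ (k + 1)) x = 0)
    (h2 : ∀ x ∈ W, (m ^ k) (n x) = 0) {a : V} (ha : a ∈ W) (h3 : (m ^ k) a ≠ 0) :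
    ∃ W1 ≤ W, W1 ≠ ⊥ ∧ Nv ω g g' W1 ∧ Bi ω g g' W1 := by
  have e0 : ε ≠ 0 := left_ne_zero_of_mul (h.e ▸ one_ne_zero)
  have dv : ∀ x ∈ W, ∀ r : F[X], X ^ (k + 1) ∣ r → aeval m r x = 0 := by
    rintro x hx _ ⟨r, rfl⟩
    rw [mul_comm, aeval_mul_apply]; simp [h1 x hx]
  have dn : ∀ x ∈ W, ∀ r : F[X], X ^ k ∣ r → aeval m r (n x) = 0 := by
    rintro x hx _ ⟨r, rfl⟩
    rw [mul_comm, aeval_mul_apply]; simp [h2 x hx]
  obtain ⟨b, hb, b1, b2⟩ := hW.sep h.c.sy (S := (cyc m a).map (m - n)) (by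
      rintro _ ⟨x, hx, rfl⟩
      have := cyc_le (h.mi hW) ha hx
      exact W.sub_mem (h.mi hW x this) (h.ni hW x this))
    (z := (m ^ k) a) (by simpa using aeval_mem (h.mi hW) (X ^ k) ha) (fun ⟨x, hx, e⟩ => by
      obtain ⟨r, rfl⟩ := mem_cyc.mp hx
      rw [LinearMap.sub_apply] at e
      obtain ⟨r', rfl⟩ : X ^ k ∣ r := climb (fun j hj r' er => by
        obtain ⟨i, rfl⟩ : ∃ i, k = j + i + 1 := ⟨k - j - 1, by omega⟩
        have := congrArg (fun v => aeval m (X ^ i : F[X]) (n v)) e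
        simp only [er] at this
        rw [map_sub n, h.nn, h.cn', h2 a ha, map_zero, show ∀ x, n (m x) = m (n x) from fun x => by
            simpa using h.cn' 1 x, sub_add_cancel_left, m_apply, map_neg, map_smul, mul_pow_apply,
          show j + 1 + i = j + i + 1 by omega, aeval_top (h1 a ha)] at this
        simpa [e0, h3] using this)
      apply h3
      rw [← e, m_apply, dv a ha _ (dvd_mul_right _ _), h.cn, dn a ha _ (dvd_mul_right _ _), sub_zero])
  have b3 : ω a ((m ^ k) b) ≠ 0 := by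
    have := sa_aeval h.sa (X ^ k) a b
    simp only [map_pow, aeval_X] at this
    rw [← this, h.c.sy.skew]; simpa using b2
  have tot : Tot ω (cyc m a ⊔ cyc m (n b)) := h.sup_tot (fun x hx => h.c.sy.sw (by
    rw [h.adj]; exact h.c.sy.sw (b1 _ ⟨x, hx, rfl⟩)))
  have dec : ∀ (a b : V), ∀ w ∈ cyc m a ⊔ cyc m b, ∃ r s : F[X], w = aeval m r a + aeval m s b :=
    fun a b w hw => by
      obtain ⟨_, ⟨r, rfl⟩, _, ⟨s, rfl⟩, rfl⟩ := Submodule.mem_sup.mp hw
      exact ⟨r, s, rfl⟩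
  have mem : ∀ (a b : V) (r s : F[X]), aeval m r a + aeval m s b ∈ cyc m a ⊔ cyc m b :=
    fun a b r s => Submodule.add_mem_sup ⟨r, rfl⟩ ⟨s, rfl⟩
  have nu : ∀ (a b : V) (r s : F[X]), n (aeval m r a + aeval m s (n b)) =
      aeval m (s * X) (n b) + (aeval m r (n a) + aeval m (C ε * (X * s)) b) := fun a b r s => by
    rw [map_add, h.cn, h.cn, h.nn, mul_comm X s]
    simp; abel
  let U := cyc m a ⊔ cyc m (n b)
  let U2 := cyc m (n a) ⊔ cyc m b
  have lag : ∀ y ∈ U ⊔ U2, (∀ x ∈ U, ω y x = 0) → y ∈ U := fun y hy e => by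
    obtain ⟨u, hu, v, hv, rfl⟩ := Submodule.mem_sup.mp hy
    obtain ⟨r, s, rfl⟩ := dec _ _ v hv
    have k0 : ∀ x ∈ U, ω x (aeval m r (n a) + aeval m s b) = 0 := fun x hx => h.c.sy.sw (by
      have := e x hx
      rwa [map_add, LinearMap.add_apply, tot u hu x hx, zero_add] at this)
    obtain ⟨k1, k2⟩ := h.lem_l hW h1 h2 ha hb b2 (fun v hv => k0 v (Submodule.mem_sup_left hv))
      (fun v hv => k0 v (Submodule.mem_sup_right hv))
    rwa [dn a ha r k1, dv b hb s k2, add_zero, add_zero]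
  have rad : ∀ u ∈ U, g u ∈ U → n u = 0 := fun u hu e => by
    have e' : n u ∈ U := h.hn u ▸ U.sub_mem e (U.smul_mem _ hu)
    obtain ⟨r, s, rfl⟩ := dec _ _ u hu
    rw [nu] at e' ⊢
    have k0 := (U.add_mem_iff_right (Submodule.mem_sup_right ⟨s * X, rfl⟩)).mp e'
    obtain ⟨k1, k2⟩ := h.lem_l hW h1 h2 ha hb b2
      (fun v hv => tot v (Submodule.mem_sup_left hv) _ k0)
      (fun v hv => tot v (Submodule.mem_sup_right hv) _ k0)
    rw [dn a ha r k1, dv b hb _ k2, dn b hb _ ?_, add_zero, add_zero]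
    rw [(isUnit_C.mpr e0.isUnit).dvd_mul_left, pow_succ', mul_dvd_mul_iff_left X_ne_zero] at k2
    exact k2.mul_right _
  have mi : ∀ y ∈ U ⊔ U2, m y ∈ U ⊔ U2 := fun y hy => by
    obtain ⟨u, hu, v, hv, rfl⟩ := Submodule.mem_sup.mp hy
    rw [map_add]
    exact Submodule.add_mem_sup (sup_inv u hu) (sup_inv v hv)
  have ni : ∀ y ∈ U ⊔ U2, n y ∈ U ⊔ U2 := fun y hy => by
    obtain ⟨u, hu, v, hv, rfl⟩ := Submodule.mem_sup.mp hy
    obtain ⟨r, s, rfl⟩ := dec _ _ u hu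
    obtain ⟨r', s', rfl⟩ := dec _ _ v hv
    rw [map_add n, nu, add_comm (aeval m r' _), nu]
    exact Submodule.add_mem _
      (Submodule.add_mem_sup (Submodule.mem_sup_right ⟨_, rfl⟩) (mem _ _ _ _))
      (Submodule.add_mem _ (Submodule.mem_sup_right (Submodule.mem_sup_left ⟨_, rfl⟩))
        (Submodule.mem_sup_left (add_comm (aeval m s' (n b)) _ ▸ mem _ _ _ _)))
  have gi : ∀ y ∈ U ⊔ U2, g y ∈ U ⊔ U2 := fun y hy => by
    have := (U ⊔ U2).add_mem (ni y hy) ((U ⊔ U2).smul_mem ε hy)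
    rwa [h.hn, sub_add_cancel] at this
  have le : U ⊔ U2 ≤ W := sup_le (sup_le (cyc_le (h.mi hW) ha) (cyc_le (h.mi hW) (h.ni hW b hb)))
    (sup_le (cyc_le (h.mi hW) (h.ni hW a ha)) (cyc_le (h.mi hW) hb))
  have aU : a ∈ U := Submodule.mem_sup_left (self_mem_cyc _ a)
  refine ⟨U ⊔ U2, le, fun e => h3 (by
      have : a = 0 := (Submodule.eq_bot_iff _).mp e a (Submodule.mem_sup_left aU)
      simp [this]), ⟨gi, fun y hy => ?_, fun y hy e => ?_⟩,
    U, ⟨le_sup_left, tot, h.inv sup_inv, lag, fun u hu e => ?_⟩, ?_⟩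
  · have := (U ⊔ U2).sub_mem (h.inv mi y hy) (gi y hy)
    rwa [LinearMap.add_apply, add_sub_cancel_left] at this
  · obtain ⟨r, s, rfl⟩ := dec _ _ y (lag y hy (fun x hx => e x (Submodule.mem_sup_left hx)))
    rw [add_comm] at e ⊢
    obtain ⟨k1, k2⟩ := h.lem_l hW h1 h2 hb ha b3
      (fun v hv => h.c.sy.sw (e v (Submodule.mem_sup_right (Submodule.mem_sup_right hv))))
      (fun v hv => h.c.sy.sw (e v (Submodule.mem_sup_right (Submodule.mem_sup_left hv))))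
    rw [dn b hb s k1, dv a ha r k2, add_zero]
  · have := rad u hu e
    rw [h.hn, sub_eq_zero] at this
    rcases mul_self_eq_one_iff.mp h.e with rfl | rfl
    · exact ⟨u, hu, 0, zero_mem _, by simp, by simpa using this, by simp⟩
    · exact ⟨0, zero_mem _, u, hu, by simp, by simp, by simpa using this⟩
  rcases k with _ | k
  swap
  · refine Or.inl ⟨a, aU, fun e => h3 ?_⟩
    have k1 := rad a aU e
    have := h.nn a
    rw [k1, map_zero, map_zero, zero_add, eq_comm, smul_eq_zero] at this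
    rw [pow_succ, End.mul_apply, this.resolve_left e0, map_zero]
  have hg : ∀ w ∈ U ⊔ U2, g w = ε • w := fun w hw => by
    have := h2 w (le hw)
    rwa [pow_zero, End.one_apply, h.hn, sub_eq_zero] at this
  rcases mul_self_eq_one_iff.mp h.e with rfl | rfl
  · exact Or.inr (c2_one (by simpa using hg))
  rw [pow_zero, End.one_apply] at b3
  refine Or.inr (c2_neg h.c.sy (e := a) (f := (ω a b)⁻¹ • b) (by simp [b3])
    (Submodule.mem_sup_left aU) (Submodule.smul_mem _ _ (Submodule.mem_sup_right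
      (Submodule.mem_sup_right (self_mem_cyc _ b)))) (fun w hw => ?_) (by simpa using hg))
  obtain ⟨u, hu, v, hv, rfl⟩ := Submodule.mem_sup.mp hw
  obtain ⟨r, s, rfl⟩ := dec _ _ u hu
  obtain ⟨r', s', rfl⟩ := dec _ _ v hv
  have t1 := aeval_top (h1 a ha) r
  have t2 := aeval_top (h1 b hb) s'
  rw [pow_zero, one_mul] at t1 t2
  refine ⟨r.coeff 0, s'.coeff 0 * ω a b, ?_⟩
  rw [dn b hb s (by simp), dn a ha r' (by simp), t1, t2, smul_smul, mul_inv_cancel_right₀ b3]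
  simp

end Ep

theorem exists_block [FiniteDimensional F V] [Finite F] (c : Ctx ω g g') (W : Submodule F V)
    (hW : Nv ω g g' W) (h0 : W ≠ ⊥) : ∃ W1 ≤ W, W1 ≠ ⊥ ∧ Nv ω g g' W1 ∧ Bi ω g g' W1 := by
  obtain ⟨W', le, hW', p, k, p1, p2, h1, a, ha, h2⟩ := prim c hW h0
  suffices ∃ W1 ≤ W', W1 ≠ ⊥ ∧ Nv ω g g' W1 ∧ Bi ω g g' W1 by
    obtain ⟨W1, k1, k2⟩ := this
    exact ⟨W1, k1.trans le, k2⟩
  by_cases hA : ∃ x ∈ W', ∃ s, ω (aeval (g + g') (p ^ k * s) x) (g x) ≠ 0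
  · obtain ⟨x, hx, s, h⟩ := hA
    exact case_a c hW' p2 hx (h1 x hx) h
  push Not at hA
  have hB : ∀ x ∈ W', ω (aeval (g + g') (p ^ k) x) (g x) = 0 := fun x hx => by
    simpa only [mul_one] using hA x hx 1
  obtain ⟨z, hz⟩ : ∃ z, z = aeval (g + g') (p ^ k) a := ⟨_, rfl⟩
  have z1 : g z = g' z := by
    rw [← sub_eq_zero]
    have zW : z ∈ W' := hz ▸ aeval_mem hW'.mm _ ha
    refine hW'.nd _ (W'.sub_mem (hW'.a z zW) (hW'.b z zW)) (fun y hy => ?_)
    have := hB _ (W'.add_mem ha hy)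
    simp only [map_add, LinearMap.add_apply, hB a ha, hB y hy] at this
    rw [sa_aeval c.sa _ y, ← c.cg, ← hz, c.sy.skew y] at this
    rw [map_sub, LinearMap.sub_apply, c.adj']
    linear_combination -this
  have z2 : aeval (g + g') p z = 0 := by rw [hz, ← aeval_mul_apply, ← pow_succ', h1 a ha]
  have z3 : aeval (g + g') ((X - C (2 * 1)) * (X - C (2 * -1)) : F[X]) z = 0 := by
    have k : g (g z) = z := by rw [z1, c.gg]
    rw [aeval_mul_apply]
    simp only [map_sub, aeval_X, aeval_C, LinearMap.sub_apply,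
      LinearMap.add_apply, Module.algebraMap_end_apply, ← z1, map_add, map_smul, k, c.gg']
    module
  obtain ⟨ε, e1, rfl⟩ : ∃ ε : F, ε * ε = 1 ∧ p = X - C (2 * ε) := by
    have : p ∣ (X - C (2 * 1)) * (X - C (2 * -1)) := by
      by_contra hn
      obtain ⟨u, v, e⟩ := p2.coprime_iff_not_dvd.mpr hn
      have := congrArg (fun r => aeval (g + g') r z) e
      rw [map_add, LinearMap.add_apply, aeval_mul_apply _ u, aeval_mul_apply _ v, z2, z3,
        map_zero, map_zero, add_zero, map_one, End.one_apply] at this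
      exact h2 (hz ▸ this.symm)
    rcases p2.prime.dvd_or_dvd this with h | h
    · exact ⟨1, by simp, eq_of_monic_of_associated p1 (monic_X_sub_C _)
        (p2.associated_of_dvd (irreducible_X_sub_C _) h)⟩
    · exact ⟨-1, by simp, eq_of_monic_of_associated p1 (monic_X_sub_C _)
        (p2.associated_of_dvd (irreducible_X_sub_C _) h)⟩
  simp only [map_pow] at h1 h2 hB
  have E : Ep ω g g' ε (aeval (g + g') (X - C (2 * ε))) (g - ε • 1) :=
    ⟨c, e1, fun x => by rw [map_sub, aeval_X, aeval_C]; rfl, fun x => rfl⟩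
  by_cases hn : ∃ a ∈ W', (g - ε • 1 : End F V) ((aeval (g + g') (X - C (2 * ε)) ^ k) a) ≠ 0
  · obtain ⟨a, ha, hn⟩ := hn
    refine E.case_b1 hW' h1 (fun x hx => ?_) ha hn
    have t1 := sa_aeval E.sa (X ^ k) x ((g - ε • 1 : End F V) x)
    have t2 := alt_aeval c.sy E.sa E.alt (X ^ k) x
    simp only [map_pow, aeval_X] at t1 t2
    rw [E.cn', ← t1, E.hn, map_sub, hB x hx, map_smul, c.sy.sw t2]
    simp
  · push Not at hn
    exact E.case_b2 hW' h1 (fun x hx => E.cn' k x ▸ hn x hx) ha h2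

theorem bi_top [FiniteDimensional F V] [Finite F] (c : Ctx ω g g') : Bi ω g g' ⊤ :=
  orth_ind c (exists_block c) ⊤ ⟨fun _ _ => trivial, fun _ _ => trivial,
    fun x _ h => c.sy.nd x (fun y => h y trivial)⟩

end Cfsg.Agent.Ore
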