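import Mathlib
import Cfsg.Agent.Elu.OmA
import Cfsg.Agent.Elu.Ore5

/-! Wonenburger's theorem: isometries are products of two involutions of almost equal rank. -/

set_option autoImplicit false
set_option backward.isDefEq.respectTransparency false

namespace Cfsg.Agent.OreO

open QuadraticMap Module Polynomial Cfsg.Agent.Orth Cfsg.Agent.Ore Cfsg.Agent.Com

universe u

variable {F V : Type u} [Field F] [AddCommGroup V] [Module F V] {Q : QuadraticForm F V}

/-- A product of two involutions of almost equal rank. -/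
def PP (g : OG Q) : Prop :=
  ∃ s t : OG Q, s * s = 1 ∧ t * t = 1 ∧ g = s * t ∧ rk s ≤ rk t + 1 ∧ rk t ≤ rk s + 1

theorem swap {g s t : OG Q} (hs : s * s = 1) (ht : t * t = 1) (h : g = s * t) :
    ∃ t' : OG Q, t' * t' = 1 ∧ g = t' * s ∧ rk t' = rk t :=
  ⟨s * t * s⁻¹, by rw [conj_mul, ht]; simp, by rw [h]; simp, rk_conj s t⟩

theorem PP.le {g : OG Q} (h : PP g) :
    ∃ s t : OG Q, s * s = 1 ∧ t * t = 1 ∧ g = s * t ∧ rk s ≤ rk t ∧ rk t ≤ rk s + 1 := by
  obtain ⟨s, t, hs, ht, e, h1, h2⟩ := h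
  by_cases k : rk s ≤ rk t
  · exact ⟨s, t, hs, ht, e, k, h2⟩
  · obtain ⟨t', a, b, c⟩ := swap hs ht e
    exact ⟨t', s, a, hs, b, by omega, by omega⟩

theorem PP.ge {g : OG Q} (h : PP g) :
    ∃ s t : OG Q, s * s = 1 ∧ t * t = 1 ∧ g = s * t ∧ rk t ≤ rk s ∧ rk s ≤ rk t + 1 := by
  obtain ⟨s, t, hs, ht, e, h1, h2⟩ := h.le
  obtain ⟨t', a, b, c⟩ := swap hs ht e
  exact ⟨t', s, a, hs, b, by omega, by omega⟩

/-- The self-adjoint part. -/
def mm (g : OG Q) : End F V := (g.1 : V →ₗ[F] V) + ((g⁻¹).1 : V →ₗ[F] V)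

/-- The skew part. -/
def dd (g : OG Q) : End F V := (g.1 : V →ₗ[F] V) - ((g⁻¹).1 : V →ₗ[F] V)

variable {g : OG Q}

theorem mm_apply (x : V) : mm g x = g.1 x + (g⁻¹).1 x := rfl

theorem dd_apply (x : V) : dd g x = g.1 x - (g⁻¹).1 x := rfl

theorem dd_adj (x y : V) : polar Q (dd g x) y = -polar Q x (dd g y) := by
  simp only [dd_apply, polar_sub_left, polar_sub_right, OG.polar_inv_left, OG.polar_inv_right]
  ring

theorem g_mem (h2 : (2 : F) ≠ 0) {W : Submodule F V} {x : V} (h : mm g x ∈ W) (h' : dd g x ∈ W) :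
    g.1 x ∈ W := by
  have := W.smul_mem (2 : F)⁻¹ (W.add_mem h h')
  rwa [mm_apply, dd_apply, show g.1 x + (g⁻¹).1 x + (g.1 x - (g⁻¹).1 x) = (2 : F) • g.1 x by module,
    inv_smul_smul₀ h2] at this

/-- A shift of the self-adjoint part. -/
def Sh (g : OG Q) (c : F) (n : End F V) : Prop := ∀ x, n x = mm g x - c • x

namespace Sh

variable {c : F} {n : End F V}

theorem sa (h : Sh g c n) (x y : V) : polar Q (n x) y = polar Q x (n y) := by
  simp only [h _, mm_apply, polar_sub_left, polar_sub_right, polar_add_left, polar_add_right,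
    p_smul_left, p_smul_right, OG.polar_inv_left, OG.polar_inv_right]
  ring

theorem sap (h : Sh g c n) (r : F[X]) (x y : V) :
    polar Q (aeval n r x) y = polar Q x (aeval n r y) :=
  sa_aeval (ω := Q.polarBilin) h.sa r x y

theorem cd (h : Sh g c n) (r : F[X]) (x : V) : dd g (aeval n r x) = aeval n r (dd g x) :=
  aeval_comm (LinearMap.ext fun x => by
    simp only [End.mul_apply, h _, mm_apply, dd_apply, map_sub, map_add, map_smul,
      OG.inv_apply_self, OG.apply_inv_self]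
    module) r x

theorem cg (h : Sh g c n) (r : F[X]) (x : V) : g.1 (aeval n r x) = aeval n r (g.1 x) :=
  aeval_comm (z := (g.1 : V →ₗ[F] V)) (LinearMap.ext fun x => by
    simp [h _, mm_apply]) r x

theorem d2 (h : Sh g c n) (x : V) :
    dd g (dd g x) = aeval n (X ^ 2 + C (2 * c) * X + C (c ^ 2 - 4) : F[X]) x := by
  have : aeval n (X ^ 2 + C (2 * c) * X + C (c ^ 2 - 4) : F[X]) x =
      n (n x) + (2 * c) • n x + (c ^ 2 - 4) • x := by
    rw [map_add, map_add, map_mul, aeval_C, aeval_C, _root_.sq X, map_mul, aeval_X]; rfl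
  rw [this, h, h]
  simp only [mm_apply, dd_apply, map_sub, map_smul, map_add,
    OG.inv_apply_self, OG.apply_inv_self]
  module

theorem alt (h : Sh g c n) (h2 : (2 : F) ≠ 0) (r : F[X]) (x : V) :
    polar Q x (dd g (aeval n r x)) = 0 := by
  have : polar Q x (dd g (aeval n r x)) = -polar Q x (dd g (aeval n r x)) := by
    conv_lhs => rw [h.cd, ← h.sap, polar_comm, dd_adj]
  have k : (2 : F) * polar Q x (dd g (aeval n r x)) = 0 := by linear_combination this
  simpa [h2] using k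

theorem inv (h : Sh g c n) {E : Submodule F V} (hE : ∀ x ∈ E, n x ∈ E) : ∀ x ∈ E, mm g x ∈ E :=
  fun x hx => by
    have := E.add_mem (hE x hx) (E.smul_mem c hx)
    rwa [h x, sub_add_cancel] at this

theorem nd_cyc (h : Sh g c n) {p : F[X]} {k : ℕ} (hp : Irreducible p) {x : V}
    (h1 : aeval n (p ^ (k + 1)) x = 0) (h0 : polar Q (aeval n (p ^ k) x) x ≠ 0) :
    ∀ u ∈ cyc n x, (∀ y ∈ cyc n x, polar Q u y = 0) → u = 0 := by
  rintro _ ⟨t, rfl⟩ k0
  change aeval n t x = 0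
  by_cases hd : p ^ (k + 1) ∣ t
  · obtain ⟨d, rfl⟩ := hd
    rw [mul_comm, aeval_mul_apply, h1, map_zero]
  obtain ⟨d, e, he⟩ := exists_mul_eq hp hd
  refine absurd ?_ h0
  rw [he, map_add, LinearMap.add_apply, aeval_mul_apply _ e, h1, map_zero, add_zero,
    aeval_mul_apply, h.sap]
  exact k0 _ ⟨_, rfl⟩

end Sh

theorem exists_diag (hQ : ND Q) (h2 : (2 : F) ≠ 0) {π : End F V}
    (h : ∀ x y, polar Q (π x) y = polar Q x (π y)) {a : V} (ha : π a ≠ 0) :
    ∃ x, polar Q (π x) x ≠ 0 := by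
  by_contra k
  push Not at k
  refine ha (hQ _ fun y => ?_)
  have := k (a + y)
  rw [map_add, polar_add_left, polar_add_right, polar_add_right, k, k, h y, polar_comm Q y] at this
  have e : (2 : F) * polar Q (π a) y = 0 := by linear_combination this
  simpa [h2] using e

theorem nil_eig {n : End F V} {k : ℕ} {x : V} (h : (n ^ k) x = 0) {c : F} (hc : c ≠ 0)
    (e : n x = c • x) : x = 0 := by
  have : ∀ j : ℕ, (n ^ j) x = c ^ j • x := fun j => by
    induction j with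
    | zero => simp
    | succ j ih => rw [pow_succ', End.mul_apply, ih, map_smul, e, smul_smul, pow_succ]
  rw [this] at h
  simpa [hc] using h

/-- The data of an inverting involution. -/
structure Dt (g : OG Q) (E E' : Submodule F V) : Prop where
  o : ∀ x ∈ E, ∀ y ∈ E', polar Q x y = 0
  m1 : ∀ x ∈ E, mm g x ∈ E
  m2 : ∀ x ∈ E', mm g x ∈ E'
  d1 : ∀ x ∈ E, dd g x ∈ E'
  d2 : ∀ x ∈ E', dd g x ∈ E
  n1 : ∀ x ∈ E, (∀ y ∈ E, polar Q x y = 0) → x = 0
  n2 : ∀ x ∈ E', (∀ y ∈ E', polar Q x y = 0) → x = 0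
  ne : E ≠ ⊥

/-- No proper non-degenerate invariant subspace. -/
def Ind (g : OG Q) : Prop :=
  ∀ W : Submodule F V, (∀ x ∈ W, g.1 x ∈ W) → W ⊓ perp Q W = ⊥ → W ≠ ⊥ → W = ⊤

theorem Dt.top (h2 : (2 : F) ≠ 0) (hI : Ind g) {E E' : Submodule F V} (h : Dt g E E') :
    E ⊔ E' = ⊤ := by
  refine hI _ (fun z hz => ?_) ((Submodule.eq_bot_iff _).2 fun z hz => ?_)
    (fun e => h.ne (le_bot_iff.1 (e ▸ le_sup_left)))
  · obtain ⟨x, hx, y, hy, rfl⟩ := Submodule.mem_sup.1 hz
    refine g_mem h2 ?_ ?_ <;> rw [map_add]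
    · exact Submodule.add_mem_sup (h.m1 x hx) (h.m2 y hy)
    · rw [add_comm]; exact Submodule.add_mem_sup (h.d2 y hy) (h.d1 x hx)
  · obtain ⟨x, hx, y, hy, rfl⟩ := Submodule.mem_sup.1 hz.1
    rw [h.n1 x hx fun w hw => ?_, h.n2 y hy fun w hw => ?_, add_zero]
    · have := mem_perp'.1 hz.2 w (Submodule.mem_sup_right hw)
      rwa [polar_add_left, h.o x hx w hw, zero_add] at this
    · have := mem_perp'.1 hz.2 w (Submodule.mem_sup_left hw)
      rwa [polar_add_left, polar_comm Q y, h.o w hw y hy, add_zero] at this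

variable [FiniteDimensional F V]

theorem Dt.pp (hQ : ND Q) (h2 : (2 : F) ≠ 0) (hI : Ind g) {E E' : Submodule F V} (h : Dt g E E')
    (hc : (∀ x, g.1 x = -x → x = 0) ∨ ((∀ x, g.1 x = x → x = 0) ∧
      finrank F E ≤ finrank F E' + 1 ∧ finrank F E' ≤ finrank F E + 1)) : PP g := by
  have hs := h.top h2 hI
  have ic : IsCompl E E' := ⟨Submodule.disjoint_def.2 fun x hx hx' => h.n1 x hx fun y hy => by
    rw [polar_comm]; exact h.o y hy x hx', codisjoint_iff.2 hs⟩
  have dec : ∀ z, ∃ x ∈ E, ∃ y ∈ E', x + y = z := fun z => Submodule.mem_sup.1 (hs ▸ trivial)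
  let f := LinearMap.ofIsCompl ic E.subtype (-E'.subtype)
  have f1 : ∀ x ∈ E, f x = x := fun x hx => LinearMap.ofIsCompl_apply_left ic ⟨x, hx⟩
  have f2 : ∀ x ∈ E', f x = -x := fun x hx => LinearMap.ofIsCompl_apply_right ic ⟨x, hx⟩
  let s := hQ.ogOfLin f (fun z => by
    obtain ⟨x, hx, y, hy, rfl⟩ := dec z
    rw [map_add, f1 x hx, f2 y hy, ← sub_eq_add_neg, q_sub, q_add, h.o x hx y hy]; ring)
  have s0 : ∀ x, s.1 x = f x := fun _ => rfl
  have s1 : s * s = 1 := OG.ext fun z => by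
    obtain ⟨x, hx, y, hy, rfl⟩ := dec z
    rw [OG.mul_apply, s0, s0, map_add, f1 x hx, f2 y hy, map_add, map_neg, f1 x hx, f2 y hy,
      neg_neg, OG.one_apply]
  have s2 : ∀ z, s.1 (g.1 z) = (g⁻¹).1 (s.1 z) := fun z => by
    rw [← sub_eq_zero]
    refine half h2 ?_
    obtain ⟨x, hx, y, hy, rfl⟩ := dec z
    have a1 := f1 _ (h.m1 x hx)
    have a2 := f2 _ (h.m2 y hy)
    have a3 := f2 _ (h.d1 x hx)
    have a4 := f1 _ (h.d2 y hy)
    simp only [mm_apply, dd_apply, map_add, map_sub] at a1 a2 a3 a4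
    simp only [s0, map_add, f1 x hx, f2 y hy, map_neg]
    linear_combination (norm := module) a1 + a2 + a3 + a4
  have t1 : s * g * (s * g) = 1 := OG.ext fun z => by
    rw [OG.mul_apply, OG.mul_apply, OG.mul_apply, s2, ss s1, OG.inv_apply_self, OG.one_apply]
  have gt : ∀ x, g.1 x = s.1 ((s * g).1 x) := fun x => by rw [OG.mul_apply, ss s1]
  refine ⟨s, s * g, s1, t1, by rw [← mul_assoc, s1, one_mul], ?_⟩
  rcases hc with hc | ⟨hc, k1, k2⟩
  · have a := rk_le h2 t1 (s := s) fun x e1 e2 => hc x (by rw [gt, e2, map_neg, e1])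
    have b := rk_le h2 s1 (s := s * g) fun x e1 e2 => hc x (by rw [gt, e1, e2])
    omega
  · have a := rk_le h2 (ng_inv t1) (s := s) fun x e1 e2 => hc x (by
      rw [gt, neg_inj.1 (show -(s * g).1 x = -x from e2), e1])
    have b := rk_le h2 s1 (s := ng (s * g)) fun x e1 e2 => hc x (by
      rw [gt, neg_eq_iff_eq_neg.1 (show -(s * g).1 x = x from e1), map_neg, e2, neg_neg])
    have c := rk_ng h2 t1
    have d : mov s = E' := by
      ext z
      rw [mem_mov_iff h2 s1]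
      refine ⟨fun e => ?_, f2 z⟩
      obtain ⟨x, hx, y, hy, rfl⟩ := dec z
      rw [s0, map_add, f1 x hx, f2 y hy, neg_add, add_left_inj] at e
      rwa [half h2 e, zero_add]
    have e := Submodule.finrank_add_eq_of_isCompl ic
    have : rk s = finrank F E' := by rw [rk, d]
    omega

omit [FiniteDimensional F V] in
theorem dt_cyc (h2 : (2 : F) ≠ 0) {c : F} {n : End F V} (h : Sh g c n) {p : F[X]} {k : ℕ}
    (hp : Irreducible p) {x : V} (h1 : aeval n (p ^ (k + 1)) x = 0)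
    (h0 : polar Q (aeval n (p ^ k) x) x ≠ 0)
    (key : ∀ u ∈ cyc n x, dd g (dd g u) = 0 → dd g u = 0) :
    Dt g (cyc n x) ((cyc n x).map (dd g)) := by
  have d2 : ∀ u ∈ cyc n x, dd g (dd g u) ∈ cyc n x := fun u hu => by
    rw [h.d2]; exact aeval_mem cyc_inv _ hu
  refine ⟨?_, h.inv cyc_inv, h.inv ?_, fun u hu => ⟨u, hu, rfl⟩, ?_, h.nd_cyc hp h1 h0, ?_, fun e => h0 ?_⟩
  · rintro _ ⟨r, rfl⟩ _ ⟨_, ⟨s, rfl⟩, rfl⟩
    change polar Q (aeval n r x) (dd g (aeval n s x)) = 0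
    rw [h.sap, ← h.cd, ← aeval_mul_apply, h.alt h2]
  · rintro _ ⟨u, hu, rfl⟩
    exact ⟨n u, cyc_inv u hu, by simpa using h.cd X u⟩
  · rintro _ ⟨u, hu, rfl⟩
    exact d2 u hu
  · rintro _ ⟨u, hu, rfl⟩ k0
    refine key u hu (h.nd_cyc hp h1 h0 _ (d2 u hu) fun y hy => ?_)
    rw [dd_adj, k0 _ ⟨y, hy, rfl⟩, neg_zero]
  · rw [(Submodule.eq_bot_iff _).1 e x (self_mem_cyc _ _)]; simp

/-- The case of an eigenvalue `ε = ±1`. -/
structure Ec (g : OG Q) (ε : F) (n : End F V) (k : ℕ) : Prop where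
  e : ε * ε = 1
  sh : Sh g (2 * ε) n
  nil : ∀ x, (n ^ (k + 1)) x = 0

namespace Ec

variable {ε : F} {n : End F V} {k : ℕ}

omit [FiniteDimensional F V] in
theorem d2 (h : Ec g ε n k) (x : V) : dd g (dd g x) = n (n x) + (4 * ε) • n x := by
  rw [h.sh.d2, show (2 * ε) ^ 2 - 4 = 0 by linear_combination 4 * h.e, show 2 * (2 * ε) = 4 * ε by ring]
  rw [map_zero, add_zero, map_add, map_mul, aeval_C, _root_.sq X, map_mul, aeval_X]; rfl

omit [FiniteDimensional F V] in
theorem cp (h : Ec g ε n k) (j : ℕ) (x : V) : dd g ((n ^ j) x) = (n ^ j) (dd g x) := by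
  simpa using h.sh.cd (X ^ j) x

omit [FiniteDimensional F V] in
theorem sp (h : Ec g ε n k) (j : ℕ) (x y : V) : polar Q ((n ^ j) x) y = polar Q x ((n ^ j) y) := by
  simpa using h.sh.sap (X ^ j) x y

omit [FiniteDimensional F V] in
theorem top (h : Ec g ε n k) (x : V) : dd g (dd g ((n ^ k) x)) = 0 := by
  have := h.nil x
  rw [pow_succ', End.mul_apply] at this
  rw [h.d2, this]; simp

omit [FiniteDimensional F V] in
theorem up (h : Ec g ε n k) {j : ℕ} (hj : j ≤ k) (r : F[X]) (x : V) :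
    (n ^ (k - j)) (aeval n (X ^ j * r) x) = r.coeff 0 • (n ^ k) x := by
  rw [← aeval_top (h.nil x), show (X ^ k * r : F[X]) = X ^ (k - j) * (X ^ j * r) by
    rw [← mul_assoc, ← pow_add, Nat.sub_add_cancel hj], aeval_mul_apply _ (X ^ (k - j))]
  simp

omit [FiniteDimensional F V] in
theorem zero (h : Ec g ε n k) {r : F[X]} (hr : X ^ (k + 1) ∣ r) (x : V) : aeval n r x = 0 := by
  obtain ⟨d, rfl⟩ := hr
  rw [mul_comm, aeval_mul_apply]
  simp [h.nil]

omit [FiniteDimensional F V] in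
theorem four (h : Ec g ε n k) (h2 : (2 : F) ≠ 0) : 4 * ε ≠ 0 :=
  mul_ne_zero (by rw [show (4 : F) = 2 * 2 by norm_num]; exact mul_ne_zero h2 h2)
    (fun e => by simpa [e] using h.e)

theorem pp (h : Ec g ε n k) (hQ : ND Q) (h2 : (2 : F) ≠ 0) (hI : Ind g) {E E' : Submodule F V}
    (d : Dt g E E') (k1 : finrank F E ≤ finrank F E' + 1) (k2 : finrank F E' ≤ finrank F E + 1) :
    PP g := by
  have key : ∀ x, g.1 x = -ε • x → x = 0 := fun x e => by
    have e' : (g⁻¹).1 x = -ε • x := by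
      have := congrArg (fun y => -ε • (g⁻¹).1 y) e
      simp only [OG.inv_apply_self, map_smul, smul_smul, neg_mul_neg, h.e, one_smul] at this
      exact this.symm
    refine nil_eig (h.nil x) (neg_ne_zero.2 (h.four h2)) ?_
    rw [h.sh x, mm_apply, e, e']; module
  rcases mul_self_eq_one_iff.1 h.e with e | e
  · exact d.pp hQ h2 hI (Or.inl fun x hx => key x (by simpa [e] using hx))
  · exact d.pp hQ h2 hI (Or.inr ⟨fun x hx => key x (by simpa [e] using hx), k1, k2⟩)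

theorem odd (h : Ec g ε n k) (hQ : ND Q) (h2 : (2 : F) ≠ 0) (hI : Ind g) {a : V}
    (ha : (n ^ k) a ≠ 0) (h0 : ∀ x, dd g ((n ^ k) x) = 0) : PP g := by
  obtain ⟨x, hx⟩ := exists_diag hQ h2 (h.sp k) ha
  have x0 : (n ^ k) x ≠ 0 := fun e => hx (by simp [e])
  have key : ∀ u ∈ cyc n x, dd g (dd g u) = 0 → u ∈ Submodule.span F {(n ^ k) x} := by
    rintro _ ⟨r, rfl⟩ e
    change dd g (dd g (aeval n r x)) = 0 at e
    change aeval n r x ∈ _
    rw [h.d2] at e
    have e1 : n (aeval n r x) = 0 := nil_eig (h.nil _) (neg_ne_zero.2 (h.four h2))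
      (by linear_combination (norm := module) e)
    obtain ⟨r', rfl⟩ : X ^ k ∣ r := climb fun j hj r' e' => by
      have := h.up (show j + 1 ≤ k by omega) r' x
      rw [show (X ^ (j + 1) * r' : F[X]) = X * r by rw [e']; ring, aeval_mul_apply, aeval_X, e1,
        map_zero] at this
      simpa [x0] using this.symm
    rw [aeval_top (h.nil x)]
    exact Submodule.smul_mem _ _ (Submodule.mem_span_singleton_self _)
  have d := dt_cyc h2 h.sh irreducible_X (k := k) (x := x) (by simpa using h.nil x)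
    (by simpa using hx) fun u hu e => by
      obtain ⟨c, rfl⟩ := Submodule.mem_span_singleton.1 (key u hu e)
      rw [map_smul, h0, smul_zero]
  refine h.pp hQ h2 hI d ?_ ((Submodule.finrank_map_le _ _).trans (Nat.le_succ _))
  have e1 := LinearMap.finrank_range_add_finrank_ker ((dd g).domRestrict (cyc n x))
  rw [LinearMap.range_domRestrict] at e1
  have e2 : finrank F (LinearMap.ker ((dd g).domRestrict (cyc n x))) ≤ 1 := by
    rw [← Submodule.finrank_map_subtype_eq, ← finrank_span_singleton (K := F) x0]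
    refine Submodule.finrank_mono ?_
    rintro _ ⟨u, hu, rfl⟩
    exact key u u.2 (by rw [show dd g u = 0 from hu, map_zero])
  omega

omit [FiniteDimensional F V] in
theorem lem (h : Ec g ε n k) {a b : V} (γ : polar Q (dd g ((n ^ k) a)) b ≠ 0) {r s : F[X]}
    (e : ∀ y ∈ cyc n a ⊔ cyc n (dd g b), polar Q (aeval n r a + aeval n s (dd g b)) y = 0) :
    X ^ (k + 1) ∣ r ∧ X ^ (k + 1) ∣ s := by
  suffices ∀ j ≤ k + 1, X ^ j ∣ r ∧ X ^ j ∣ s from this _ le_rfl
  intro j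
  induction j with
  | zero => simp
  | succ j ih =>
    intro hj
    obtain ⟨⟨r', rfl⟩, ⟨s', rfl⟩⟩ := ih (by omega)
    have e1 := e _ (Submodule.mem_sup_right ⟨X ^ (k - j), rfl⟩)
    have e2 := e _ (Submodule.mem_sup_left ⟨X ^ (k - j), rfl⟩)
    change polar Q _ (aeval n (X ^ (k - j) : F[X]) _) = 0 at e1 e2
    rw [map_pow, aeval_X, ← h.sp, map_add, h.up (by omega), h.up (by omega), polar_add_left,
      p_smul_left, p_smul_left, ← h.cp] at e1 e2
    have z1 : polar Q (dd g ((n ^ k) b)) (dd g b) = 0 := by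
      rw [← neg_eq_zero, ← dd_adj, h.top]; simp
    have z2 : polar Q ((n ^ k) a) (dd g b) = -polar Q (dd g ((n ^ k) a)) b := by rw [dd_adj, neg_neg]
    have z3 : polar Q (dd g ((n ^ k) b)) a = -polar Q (dd g ((n ^ k) a)) b := by
      rw [dd_adj, h.sp, ← h.cp, polar_comm]
    have r0 : r'.coeff 0 = 0 := by
      rw [z1, z2] at e1
      simpa [γ] using e1
    have s0 : s'.coeff 0 = 0 := by
      rw [r0, z3] at e2
      simpa [γ] using e2
    rw [pow_succ]
    exact ⟨mul_dvd_mul_left _ (X_dvd_iff.2 r0), mul_dvd_mul_left _ (X_dvd_iff.2 s0)⟩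

omit [FiniteDimensional F V] in
theorem dec {a b z : V} (hz : z ∈ cyc n a ⊔ cyc n b) : ∃ r s : F[X], aeval n r a + aeval n s b = z := by
  obtain ⟨_, ⟨r, rfl⟩, _, ⟨s, rfl⟩, rfl⟩ := Submodule.mem_sup.1 hz
  exact ⟨r, s, rfl⟩

theorem even (h : Ec g ε n k) (hQ : ND Q) (h2 : (2 : F) ≠ 0) (hI : Ind g) {a : V}
    (ha : dd g ((n ^ k) a) ≠ 0) : PP g := by
  obtain ⟨b, b1, b2⟩ := hQ.exists_orth_polar_one (cyc n a) (u := dd g ((n ^ k) a)) (by
    rintro ⟨r, e⟩
    change aeval n r a = _ at e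
    refine ha (e ▸ h.zero (climb fun j hj r' e' => ?_) a)
    have := congrArg (dd g) (h.up (show j ≤ k by omega) r' a)
    rw [← e', e, h.cp, h.top, map_zero, map_smul] at this
    simpa [ha] using this.symm)
  have γ : polar Q (dd g ((n ^ k) a)) b ≠ 0 := by simp [b2]
  have γ' : polar Q (dd g ((n ^ k) b)) a ≠ 0 := by
    rwa [dd_adj, h.sp, ← h.cp, polar_comm, neg_ne_zero]
  have nd : ∀ {a b : V}, polar Q (dd g ((n ^ k) a)) b ≠ 0 → ∀ x ∈ cyc n a ⊔ cyc n (dd g b),
      (∀ y ∈ cyc n a ⊔ cyc n (dd g b), polar Q x y = 0) → x = 0 := fun γ x hx e => by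
    obtain ⟨r, s, rfl⟩ := dec hx
    obtain ⟨k1, k2⟩ := h.lem γ e
    rw [h.zero k1, h.zero k2, add_zero]
  have dm : ∀ {a b : V}, ∀ x ∈ cyc n a ⊔ cyc n (dd g b), dd g x ∈ cyc n b ⊔ cyc n (dd g a) :=
    fun x hx => by
      obtain ⟨r, s, rfl⟩ := dec hx
      rw [map_add, h.sh.cd, h.sh.cd, h.sh.d2, ← aeval_mul_apply, add_comm]
      exact Submodule.add_mem_sup ⟨_, rfl⟩ ⟨_, rfl⟩
  have d : Dt g (cyc n a ⊔ cyc n (dd g b)) (cyc n b ⊔ cyc n (dd g a)) := by
    refine ⟨fun x hx y hy => ?_, h.sh.inv Ep.sup_inv, h.sh.inv Ep.sup_inv, dm, dm, nd γ, nd γ',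
      fun e => ha ?_⟩
    · obtain ⟨r, s, rfl⟩ := dec hx
      obtain ⟨r', s', rfl⟩ := dec hy
      have z1 : polar Q (aeval n r a) (aeval n r' b) = 0 := by
        rw [← h.sh.sap, ← aeval_mul_apply]; exact b1 _ ⟨_, rfl⟩
      have z2 : ∀ (a : V) (r s : F[X]), polar Q (aeval n r a) (aeval n s (dd g a)) = 0 :=
        fun a r s => by rw [h.sh.sap, ← aeval_mul_apply, ← h.sh.cd, h.sh.alt h2]
      have z3 : polar Q (aeval n s (dd g b)) (aeval n s' (dd g a)) = 0 := by
        rw [h.sh.sap, dd_adj, ← aeval_mul_apply, h.sh.cd, h.sh.d2, ← aeval_mul_apply, polar_comm,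
          b1 _ (mem_cyc.2 ⟨_, rfl⟩), neg_zero]
      rw [polar_add_left, polar_add_right, polar_add_right, z1, z2, z3, polar_comm, z2]; simp
    · rw [(Submodule.eq_bot_iff _).1 e a (Submodule.mem_sup_left (self_mem_cyc _ _))]; simp
  let ev : V → (F[X] →ₗ[F] V) := fun y =>
    (LinearMap.applyₗ y) ∘ₗ (aeval n : F[X] →ₐ[F] End F V).toLinearMap
  have kr : ∀ {a b : V}, polar Q (dd g ((n ^ k) a)) b ≠ 0 → ∀ z : F[X] × F[X],
      z ∈ LinearMap.ker ((ev a).coprod (ev (dd g b))) ↔ X ^ (k + 1) ∣ z.1 ∧ X ^ (k + 1) ∣ z.2 :=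
    fun {a b} γ z => by
      change aeval n z.1 a + aeval n z.2 (dd g b) = 0 ↔ _
      exact ⟨fun e => h.lem γ fun y _ => by simp [e], fun e => by
        rw [h.zero e.1, h.zero e.2, add_zero]⟩
  have e := (((ev a).coprod (ev (dd g b))).quotKerEquivRange.symm.trans
    ((Submodule.quotEquivOfEq _ _ (Submodule.ext fun z => (kr γ z).trans (kr γ' z).symm)).trans
      ((ev b).coprod (ev (dd g a))).quotKerEquivRange)).finrank_eq
  rw [LinearMap.range_coprod, LinearMap.range_coprod] at e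
  exact h.pp hQ h2 hI d (e.le.trans (Nat.le_succ _)) (e.ge.trans (Nat.le_succ _))

end Ec

theorem Ind.pp (hQ : ND Q) (h2 : (2 : F) ≠ 0) (hI : Ind g) : PP g := by
  classical
  rcases subsingleton_or_nontrivial V with hV | hV
  · exact ⟨1, 1, by simp, by simp, OG.ext fun x => Subsingleton.elim _ _, by simp, by simp⟩
  have S : Sh g 0 (mm g) := fun x => by simp
  obtain ⟨x, x0⟩ := exists_ne (0 : V)
  have hχ := LinearMap.aeval_self_charpoly (mm g)
  obtain ⟨p, p1, p2, y, -, y2, y3⟩ := exists_irr (W := ⊤) (m := mm g) (fun _ _ => trivial) _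
    (LinearMap.charpoly_monic _).ne_zero x trivial x0 (by rw [hχ]; rfl)
  obtain ⟨e, r, r1, r2⟩ := WfDvdMonoid.max_power_factor (LinearMap.charpoly_monic (mm g)).ne_zero p2
  obtain ⟨a, b, hab⟩ := (p2.coprime_iff_not_dvd.mpr r1).pow_left (m := e + 1)
  have hW : LinearMap.ker (aeval (mm g) (p ^ (e + 1))) = ⊤ := by
    refine hI _ (fun x hx => ?_) ((Submodule.eq_bot_iff _).2 fun x hx => hQ x fun w => ?_)
      (fun e0 => y2 ((Submodule.eq_bot_iff _).1 e0 y ?_))
    · rw [LinearMap.mem_ker, ← S.cg, LinearMap.mem_ker.mp hx, map_zero]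
    · have : w = aeval (mm g) (p ^ (e + 1)) (aeval (mm g) a w) + aeval (mm g) (b * r) w := by
        rw [← aeval_mul_apply, ← LinearMap.add_apply, ← map_add, mul_comm, hab]; simp
      rw [this, polar_add_right, ← S.sap, LinearMap.mem_ker.mp hx.1, mem_perp'.1 hx.2 _ ?_]
      · simp
      · rw [LinearMap.mem_ker, ← aeval_mul_apply,
          show p ^ (e + 1) * (b * r) = (p * b) * (p ^ e * r) by ring, ← r2, aeval_mul_apply, hχ]
        simp
    · rw [LinearMap.mem_ker, pow_succ, aeval_mul_apply, y3, map_zero]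
  have hex : ∃ j, ∀ x, aeval (mm g) (p ^ j) x = 0 :=
    ⟨e + 1, fun x => LinearMap.mem_ker.1 (hW ▸ trivial)⟩
  obtain ⟨k, hk⟩ : ∃ k, Nat.find hex = k + 1 := Nat.exists_eq_succ_of_ne_zero (fun e0 => y2 (by
    have := Nat.find_spec hex y
    rw [e0] at this
    simpa using this))
  have h1 := hk ▸ Nat.find_spec hex
  obtain ⟨a, ha⟩ := not_forall.1 (Nat.find_min hex (show k < Nat.find hex by omega))
  by_cases hp : p ∣ (X - C (2 * 1)) * (X - C (2 * -1))
  · obtain ⟨ε, e1, rfl⟩ : ∃ ε : F, ε * ε = 1 ∧ p = X - C (2 * ε) := by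
      rcases p2.prime.dvd_or_dvd hp with h | h
      · exact ⟨1, by simp, eq_of_monic_of_associated p1 (monic_X_sub_C _)
          (p2.associated_of_dvd (irreducible_X_sub_C _) h)⟩
      · exact ⟨-1, by simp, eq_of_monic_of_associated p1 (monic_X_sub_C _)
          (p2.associated_of_dvd (irreducible_X_sub_C _) h)⟩
    simp only [map_pow] at h1 ha
    have E : Ec g ε (aeval (mm g) (X - C (2 * ε))) k :=
      ⟨e1, fun x => by rw [map_sub, aeval_X, aeval_C]; rfl, h1⟩
    by_cases hn : ∃ a, dd g ((aeval (mm g) (X - C (2 * ε)) ^ k) a) ≠ 0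
    · obtain ⟨a, hn⟩ := hn
      exact E.even hQ h2 hI hn
    · push Not at hn
      exact E.odd hQ h2 hI ha hn
  · obtain ⟨u, v, huv⟩ := (p2.coprime_iff_not_dvd.mpr hp).pow_left (m := k + 1)
    have key : ∀ z, dd g (dd g z) = 0 → z = 0 := fun z hz => by
      have := congrArg (fun r => aeval (mm g) r z) huv
      rw [S.d2, show (X ^ 2 + C (2 * 0) * X + C (0 ^ 2 - 4) : F[X]) =
        (X - C (2 * 1)) * (X - C (2 * -1)) by
          simp only [map_mul, map_sub, map_pow, map_zero, map_one, map_neg, map_ofNat]; ring] at hz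
      rw [map_add, LinearMap.add_apply, aeval_mul_apply _ u, aeval_mul_apply _ v, h1, hz] at this
      simpa using this.symm
    obtain ⟨x, hx⟩ := exists_diag hQ h2 (S.sap (p ^ k)) ha
    refine (dt_cyc h2 S p2 (h1 x) hx fun u _ e => by rw [key u e, map_zero]).pp hQ h2 hI
      (Or.inl fun z hz => key z ?_)
    have : (g⁻¹).1 z = -z := by
      have := congrArg (g⁻¹).1 hz
      rw [OG.inv_apply_self, map_neg] at this
      exact (neg_eq_iff_eq_neg.1 this.symm)
    rw [dd_apply z, hz, this, sub_self, map_zero]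

omit [FiniteDimensional F V] in
theorem pp_aux (h2 : (2 : F) ≠ 0) (n : ℕ) : ∀ (V : Type u) [AddCommGroup V] [Module F V]
    [FiniteDimensional F V] (Q : QuadraticForm F V), ND Q → finrank F V = n → ∀ g : OG Q, PP g := by
  induction n using Nat.strong_induction_on with
  | _ n ih =>
    intro V _ _ _ Q hQ hn g
    by_cases hI : Ind g
    · exact hI.pp hQ h2
    simp only [Ind, not_forall] at hI
    obtain ⟨W, w1, w2, w3, w4⟩ := hI
    obtain ⟨⟨a, b⟩, rfl⟩ : g ∈ (sumHom (splitIso (hQ.isCompl_perp w2))).range :=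
      hQ.range_sumHom_splitIso w2 ▸ mem_stab_of_le w1
    have d := hQ.finrank_perp_add W
    have d1 := Submodule.finrank_lt w4
    have d2 : finrank F W ≠ 0 := fun e => w3 (Submodule.finrank_eq_zero.1 e)
    obtain ⟨s, t, a1, a2, rfl, a3, a4⟩ :=
      (ih _ (by omega) W _ ((nd_restrict_iff W).2 w2) rfl a).le
    obtain ⟨s', t', b1, b2, rfl, b3, b4⟩ := (ih _ (by omega) (perp Q W) _ (hQ.nd_perp w2) rfl b).ge
    refine ⟨sumHom (splitIso (hQ.isCompl_perp w2)) (s, s'),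
      sumHom (splitIso (hQ.isCompl_perp w2)) (t, t'), ?_, ?_, ?_, ?_, ?_⟩
    · rw [← map_mul, Prod.mk_mul_mk, a1, b1]; exact map_one _
    · rw [← map_mul, Prod.mk_mul_mk, a2, b2]; exact map_one _
    · rw [← map_mul, Prod.mk_mul_mk]
    · rw [rk_sumHom, rk_sumHom]; omega
    · rw [rk_sumHom, rk_sumHom]; omega

theorem won (hQ : ND Q) (h2 : (2 : F) ≠ 0) (g : OG Q) (hg : Even (rk g)) :
    ∃ s t : OG Q, s * s = 1 ∧ t * t = 1 ∧ g = s * t ∧ rk s = rk t := by
  obtain ⟨s, t, a, b, rfl, c, d⟩ := pp_aux h2 _ V Q hQ rfl g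
  refine ⟨s, t, a, b, rfl, ?_⟩
  rw [hQ.even_rk_mul (good_of_two_ne_zero h2), Nat.even_iff, Nat.even_iff] at hg
  omega

end Cfsg.Agent.OreO
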