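import Mathlib
import Cfsg.Agent.Elu.OmB

/-! Vectors in the same position with respect to two involutions; commutators in odd dimension. -/

set_option autoImplicit false
set_option backward.isDefEq.respectTransparency false

namespace Cfsg.Agent.OreO

open QuadraticMap Module Cfsg.Agent.Orth

universe u

variable {F V : Type u} [Field F] [AddCommGroup V] [Module F V] {Q : QuadraticForm F V}
  {s t k : OG Q}

theorem fix_iff (hs : s * s = 1) {x : V} : x ∈ fix (s * t) ↔ s.1 x = t.1 x := by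
  rw [mem_fix, OG.mul_apply]
  exact ⟨fun h => by rw [← h, ss hs, h], fun h => by rw [← h, ss hs]⟩

theorem gv_of_fix {v : V} (h : s.1 v = t.1 v) : Gv s t v := ⟨by rw [h], by rw [h], by rw [h]⟩

theorem univ2 [Finite F] (h2 : (2 : F) ≠ 0) {W : Submodule F V} {x y : V} (hx : x ∈ W) (hy : y ∈ W)
    (x0 : Q x ≠ 0) (y0 : Q y ≠ 0) (o : polar Q x y = 0) (c : F) : ∃ v ∈ W, Q v = c := by
  obtain ⟨a, b, h⟩ := exists_binary_eq h2 x0 y0 c
  refine ⟨a • x + b • y, W.add_mem (W.smul_mem _ hx) (W.smul_mem _ hy), ?_⟩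
  rw [q_add, q_smul, q_smul, p_smul_left, p_smul_right, o]
  linear_combination h

theorem two_smul_mem (h2 : (2 : F) ≠ 0) {W : Submodule F V} {x : V} (h : x + x ∈ W) : x ∈ W := by
  have := W.smul_mem (2 : F)⁻¹ h
  rwa [← two_smul F, inv_smul_smul₀ h2] at this

variable [FiniteDimensional F V]

theorem ns_perp (hQ : ND Q) {U : Submodule F V} (h : 2 * finrank F U < finrank F V) :
    ∃ v ∈ perp Q U, Q v ≠ 0 := by
  by_contra k
  push Not at k
  have := hQ.two_mul_finrank_le k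
  have := hQ.finrank_perp_add U
  omega

theorem finrank_sup_span (W : Submodule F V) (x : V) :
    finrank F (W ⊔ Submodule.span F {x} : Submodule F V) ≤ finrank F W + 1 :=
  (Submodule.finrank_add_le_finrank_add_finrank _ _).trans
    (Nat.add_le_add_left (by simpa using finrank_span_le_card (R := F) ({x} : Set V)) _)

theorem small (hQ : ND Q) (hn : 7 ≤ finrank F V) {g : OG Q} (h : rk g ≤ 2) :
    ∃ x y, x ∈ fix g ∧ y ∈ fix g ∧ Q x ≠ 0 ∧ Q y ≠ 0 ∧ polar Q x y = 0 := by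
  obtain ⟨x, x1, x2⟩ := ns_perp hQ (U := mov g) (by unfold rk at h; omega)
  obtain ⟨y, y1, y2⟩ := ns_perp hQ (U := mov g ⊔ Submodule.span F {x}) (by
    have := finrank_sup_span (mov g) x; unfold rk at h; omega)
  rw [perp_sup] at y1
  rw [hQ.perp_mov] at x1 y1
  exact ⟨x, y, x1, y1.1, x2, y2, mem_perp_singleton.1 y1.2⟩

theorem ne_top_of_rk (h : 2 ≤ rk s) (f : V) : fix s ⊔ Submodule.span F {f} ≠ ⊤ := fun e => by
  have := finrank_sup_span (fix s) f
  have := rk_add_finrank_fix s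
  rw [e, finrank_top] at *
  omega

theorem solveD (hQ : ND Q) (hs : s * s = 1) (ht : t * t = 1) {x : V}
    (h : ∀ y, s.1 y = t.1 y → polar Q y x = 0) : ∃ u, s.1 u - t.1 u = x := by
  have : x ∈ mov (s * t) := by
    rw [← hQ.perp_fix, mem_perp]; exact fun y hy => h y ((fix_iff hs).1 hy)
  obtain ⟨w, rfl⟩ := mem_mov.1 this
  exact ⟨t.1 w, by rw [ss ht, OG.mul_apply]⟩

theorem case2 (hQ : ND Q) (h2 : (2 : F) ≠ 0) (hs : s * s = 1) (ht : t * t = 1) (r1 : 2 ≤ rk s)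
    (r2 : 2 ≤ rk t) {e : V} (e0 : e ≠ 0) (e1 : s.1 e = e) (e2 : t.1 e = e)
    (e3 : ∀ x, s.1 x = t.1 x → polar Q x e = 0) (c : F) :
    ∃ v, Q v = c ∧ Gv s t v ∧ polar Q e v ≠ 0 := by
  have ee := e3 e (e1.trans e2.symm)
  have qe : Q e = 0 := by rw [p_self] at ee; simpa [h2] using ee
  obtain ⟨w, hw⟩ := solveD hQ hs ht e3
  obtain ⟨f, hf⟩ : ∃ f, f = w - s.1 w := ⟨_, rfl⟩
  have f1 : s.1 f = -f := by rw [hf, map_sub, ss hs, neg_sub]
  have f2 : t.1 f = -f - (2 : F) • e := by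
    have := congrArg t.1 hw
    rw [map_sub, ss ht, e2] at this
    rw [hf, map_sub]
    linear_combination (norm := module) -hw - this
  obtain ⟨u, u1, u2, u3⟩ := avoid3 h2 (A := perp Q (Submodule.span F {e})) (fun h => by
    obtain ⟨y, hy⟩ := hQ.exists_polar_one e0
    have := mem_perp_singleton.1 (h ▸ trivial : y ∈ perp Q (Submodule.span F {e}))
    simp [hy] at this) (ne_top_of_rk r1 f) (ne_top_of_rk r2 (f + e))
  rw [mem_perp_singleton] at u1
  have fe : polar Q e f = 0 := orth_pm h2 e1 f1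
  obtain ⟨a, ha⟩ : ∃ a, polar Q u (s.1 u) - polar Q u (t.1 u) + 4 * a * polar Q e u = 0 := by
    have : (4 : F) ≠ 0 := by rw [show (4 : F) = 2 * 2 by norm_num]; exact mul_ne_zero h2 h2
    exact ⟨-(polar Q u (s.1 u) - polar Q u (t.1 u)) / (4 * polar Q e u), by field_simp; ring⟩
  obtain ⟨b, hb⟩ : ∃ b, Q (u + a • f) + b * polar Q e u = c :=
    ⟨(c - Q (u + a • f)) / polar Q e u, by field_simp; ring⟩
  have ev : polar Q e (u + a • f + b • e) = polar Q e u := by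
    simp [fe, ee]
  have neg : ∀ s : OG Q, s.1 e = e → s.1 (u + a • f + b • e) ≠ -(u + a • f + b • e) :=
    fun s h h' => u1 (ev ▸ orth_pm h2 h h')
  refine ⟨u + a • f + b • e, ?_, ⟨?_, iff_of_false (fun h => u2 ?_) (fun h => u3 ?_),
    iff_of_false (neg s e1) (neg t e2)⟩, ev ▸ u1⟩
  · rw [q_add, q_smul, qe, p_smul_right, polar_add_left, p_smul_left, polar_comm Q f, fe,
      polar_comm Q u]
    linear_combination hb
  · have a1 : polar Q f (s.1 u) = -polar Q u f := by rw [← sa hs, f1, polar_neg_left, polar_comm]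
    have a2 : polar Q f (t.1 u) = -polar Q u f - 2 * polar Q e u := by
      rw [← sa ht, f2, polar_sub_left, polar_neg_left, p_smul_left, polar_comm]
    have a3 : polar Q e (s.1 u) = polar Q e u := by rw [← sa hs, e1]
    have a4 : polar Q e (t.1 u) = polar Q e u := by rw [← sa ht, e2]
    simp only [map_add, map_smul, e1, e2, f1, f2, polar_add_left, polar_add_right, p_smul_left,
      p_smul_right, polar_sub_right, polar_neg_right, a1, a2, a3, a4, fe, ee, polar_comm Q u e,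
      polar_comm Q f e]
    linear_combination ha
  · exact Submodule.mem_sup.2 ⟨u + a • f + b • e - b • e, mem_fix.2 (by
      rw [map_sub, h, map_smul, e1]), (-a) • f, Submodule.smul_mem _ _
        (Submodule.mem_span_singleton_self _), by module⟩
  · exact Submodule.mem_sup.2 ⟨u + a • f + b • e - (b - a) • e, mem_fix.2 (by
      rw [map_sub, h, map_smul, e2]), (-a) • (f + e), Submodule.smul_mem _ _
        (Submodule.mem_span_singleton_self _), by module⟩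

/-- The common part of the two involutions is spanned by `e`, non-singular or zero. -/
structure C3 (s t : OG Q) (e : V) : Prop where
  hs : s * s = 1
  ht : t * t = 1
  e1 : s.1 e = e
  e2 : t.1 e = e
  e0 : e = 0 ∨ Q e ≠ 0
  K : ∀ x, s.1 x = t.1 x → polar Q e x = 0 → x = 0

namespace C3

variable {e : V}

omit [FiniteDimensional F V] in
theorem symm (h : C3 s t e) : C3 t s e := ⟨h.ht, h.hs, h.e2, h.e1, h.e0, fun x a => h.K x a.symm⟩

omit [FiniteDimensional F V] in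
theorem proj (h : C3 s t e) (h2 : (2 : F) ≠ 0) (x : V) :
    polar Q e (x - (polar Q e x / (2 * Q e)) • e) = 0 := by
  rcases h.e0 with e0 | e0
  · simp [e0]
  · rw [polar_sub_right, p_smul_right, p_self]; field_simp; ring

theorem solve' (h : C3 s t e) (hQ : ND Q) (h2 : (2 : F) ≠ 0) {x : V} (hx : polar Q e x = 0) :
    ∃ u, polar Q e u = 0 ∧ s.1 u - t.1 u = x := by
  obtain ⟨u, hu⟩ := solveD hQ h.hs h.ht (x := x) fun y hy => by
    have := h.K _ (by rw [map_sub, map_sub, map_smul, map_smul, hy, h.e1, h.e2]) (h.proj h2 y)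
    rw [sub_eq_zero.1 this, p_smul_left, hx, mul_zero]
  exact ⟨_, h.proj h2 u, by
    rw [map_sub, map_sub, map_smul, map_smul, h.e1, h.e2, ← hu]; abel⟩

theorem solve (h : C3 s t e) (hQ : ND Q) (h2 : (2 : F) ≠ 0) {a b : V} (ha : s.1 a = -a)
    (hb : t.1 b = -b) : ∃ u, polar Q e u = 0 ∧ u - s.1 u = a ∧ u - t.1 u = b := by
  obtain ⟨u, u1, u2⟩ := h.solve' hQ h2 (x := b - a) (by
    rw [polar_sub_right, orth_pm h2 h.e1 ha, orth_pm h2 h.e2 hb, sub_zero])
  have e : u - s.1 u - a = u - t.1 u - b := by linear_combination (norm := module) -u2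
  have z1 : s.1 (u - s.1 u - a) = -(u - s.1 u - a) := by
    rw [map_sub, map_sub, ss h.hs, ha]; abel
  have z2 : t.1 (u - s.1 u - a) = -(u - s.1 u - a) := by
    rw [e, map_sub, map_sub, ss h.ht, hb]; abel
  have := h.K _ (z1.trans z2.symm) (orth_pm h2 h.e1 z1)
  exact ⟨u, u1, sub_eq_zero.1 this, sub_eq_zero.1 (e ▸ this)⟩

variable [Finite F]

theorem one (h : C3 s t e) (hQ : ND Q) (h2 : (2 : F) ≠ 0) (r : 3 ≤ rk t) {a : V} (a1 : s.1 a = -a)
    (a2 : Q a ≠ 0) (a3 : t.1 a ≠ a) :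
    ∃ u, polar Q e u = 0 ∧ Q u ≠ 0 ∧ Q (u - s.1 u) = Q (u - t.1 u) ∧ Q (u - s.1 u) ≠ 0 := by
  obtain ⟨p, p1, p2, p3⟩ := h.solve hQ h2 a1 (b := 0) (by simp)
  obtain ⟨w, -, w2⟩ := h.solve' hQ h2 p1
  obtain ⟨b, b1, b2⟩ := nperp_univ ((nd_restrict_iff _).2 (nd_mov hQ h2 h.ht)) h2 r
    (w := ⟨_, sub_mem_mov t w⟩) (fun k => a3 (by
      have k : t.1 w - w = 0 := congrArg Subtype.val k
      have : s.1 p = -p := by rw [← w2, sub_eq_zero.1 k, map_sub, ss h.hs, neg_sub]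
      rw [← p2, this, map_sub, map_neg, ← sub_eq_zero.1 p3])) (Q a)
  have b3 := (mem_mov_iff h2 h.ht).1 b.2
  obtain ⟨x, x1, x2, x3⟩ := h.solve hQ h2 (a := 0) (by simp) b3
  have key : polar Q p x ≠ 0 := fun k => b1 (by
    have y1 := (mem_mov_iff h2 h.ht).1 (sub_mem_mov t w)
    have y2 : polar Q (t.1 w - w) x = 0 := by
      have := orth_pm h2 (sub_eq_zero.1 x2).symm ((mem_mov_iff h2 h.hs).1 (sub_mem_mov s w))
      rw [show t.1 w - w = s.1 w - w - p by rw [← w2]; abel, polar_sub_left, k, polar_comm, this,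
        sub_zero]
    change polar Q (t.1 w - w) b.1 = 0
    rw [← x3, polar_sub_right, ← sa h.ht, y1, polar_neg_left, y2]; simp)
  have b2 : Q b.1 = Q a := b2
  by_cases k : Q (p + x) = 0
  · have e1 : p - x - s.1 (p - x) = a := by rw [map_sub]; linear_combination (norm := module) p2 - x2
    have e2 : p - x - t.1 (p - x) = -b.1 := by
      rw [map_sub]; linear_combination (norm := module) p3 - x3
    refine ⟨p - x, by simp [p1, x1], fun k' => key ?_, by rw [e1, e2, QuadraticMap.map_neg, b2],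
      by rwa [e1]⟩
    rw [q_add] at k
    rw [q_sub] at k'
    have : 2 * polar Q p x = 0 := by linear_combination k - k'
    simpa [h2] using this
  · have e1 : p + x - s.1 (p + x) = a := by rw [map_add]; linear_combination (norm := module) p2 + x2
    have e2 : p + x - t.1 (p + x) = b.1 := by
      rw [map_add]; linear_combination (norm := module) p3 + x3
    exact ⟨p + x, by simp [p1, x1], k, by rw [e1, e2, b2], by rwa [e1]⟩

theorem two (h : C3 s t e) (hQ : ND Q) (h2 : (2 : F) ≠ 0) (r : 3 ≤ rk s) (r' : 3 ≤ rk t)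
    (hk : k * s * k⁻¹ = t) : ∃ k : OG Q, k * s * k⁻¹ = t ∧
      ∃ u, polar Q e u = 0 ∧ Q u ≠ 0 ∧ k.1 (u - s.1 u) = u - t.1 u := by
  obtain ⟨u, u1, u2, u3, u4⟩ : ∃ u, polar Q e u = 0 ∧ Q u ≠ 0 ∧ Q (u - s.1 u) = Q (u - t.1 u) ∧
      Q (u - s.1 u) ≠ 0 := by
    obtain ⟨a, a1, a2⟩ := exists_Q_sub (nd_mov hQ h2 h.hs) (by unfold rk at r; omega) 1
    rw [mem_mov_iff h2 h.hs] at a1
    have b1 : t.1 (k.1 a) = -k.1 a := by rw [conj_apply hk, a1, map_neg]
    by_cases c1 : t.1 a = a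
    swap
    · exact h.one hQ h2 r' a1 (by simp [a2]) c1
    by_cases c2 : s.1 (k.1 a) = k.1 a
    swap
    · obtain ⟨u, u1, u2, u3, u4⟩ := h.symm.one hQ h2 r b1 (by simp [a2]) c2
      exact ⟨u, u1, u2, u3.symm, u3 ▸ u4⟩
    have e1 : a + k.1 a - s.1 (a + k.1 a) = (2 : F) • a := by rw [map_add, a1, c2]; module
    have e2 : a + k.1 a - t.1 (a + k.1 a) = (2 : F) • k.1 a := by rw [map_add, c1, b1]; module
    refine ⟨a + k.1 a, ?_, ?_, ?_, ?_⟩
    · rw [polar_add_right, orth_pm h2 h.e1 a1, orth_pm h2 h.e2 b1, add_zero]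
    · rw [q_add, orth_pm h2 c1 b1, OG.map_Q, a2, add_zero, one_add_one_eq_two]; exact h2
    · rw [e1, e2, q_smul, q_smul, OG.map_Q]
    · rw [e1, q_smul, a2, mul_one]; exact pow_ne_zero _ h2
  obtain ⟨c, c1, c2, -⟩ := cent_witt' hQ h2 h.ht (x := k.1 (u - s.1 u)) (y := u - t.1 u)
    (by rw [conj_apply hk, map_sub s.1, ss h.hs, ← map_neg, neg_sub])
    (by rw [map_sub, ss h.ht, neg_sub])
    (iff_of_false (by rw [OG.apply_eq_zero]; exact ne_zero_of_Q_ne_zero u4)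
      (ne_zero_of_Q_ne_zero (u3 ▸ u4))) (by rw [OG.map_Q, u3])
  refine ⟨c * k, ?_, u, u1, u2, c2⟩
  rw [show c * k * s * (c * k)⁻¹ = c * (k * s * k⁻¹) * c⁻¹ by group, hk, c1, mul_inv_cancel_right]

/-- The graph of a conjugating isometry. -/
def gr (s t k : OG Q) (e : V) : Submodule F V where
  carrier := {u | polar Q e u = 0 ∧ k.1 (u - s.1 u) = u - t.1 u}
  add_mem' {a b} ha hb := ⟨by simp [ha.1, hb.1], by
    rw [map_add, map_add, add_sub_add_comm, map_add, ha.2, hb.2, add_sub_add_comm]⟩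
  zero_mem' := by simp
  smul_mem' c a ha := ⟨by simp [ha.1], by
    rw [map_smul, map_smul, ← smul_sub, map_smul, ha.2, smul_sub]⟩

theorem three (h : C3 s t e) (hQ : ND Q) (h2 : (2 : F) ≠ 0) (r : 3 ≤ rk s) (r' : 3 ≤ rk t)
    (hk : k * s * k⁻¹ = t) : ∃ k : OG Q, k * s * k⁻¹ = t ∧ ((∀ c, ∃ u ∈ gr s t k e, Q u = c) ∨
      ∃ u ∈ gr s t k e, Q u ≠ 0 ∧ s.1 u ≠ -u ∧ t.1 u ≠ -u) := by
  obtain ⟨k, hk, u, u1, u2, u3⟩ := h.two hQ h2 r r' hk
  refine ⟨k, hk, ?_⟩
  have uM : u ∈ gr s t k e := ⟨u1, u3⟩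
  by_cases c : ∃ y ∈ gr s t k e, polar Q u y = 0 ∧ Q y ≠ 0
  · obtain ⟨y, y1, y2, y3⟩ := c
    exact Or.inl (univ2 h2 uM y1 u2 y3 y2)
  push Not at c
  have big : ∀ s' : OG Q, s' * s' = 1 → 3 ≤ rk s' → (∀ a, s'.1 a = -a → ∃ x ∈ gr s t k e,
      x - s'.1 x = a) → (mov s').comap (gr s t k e).subtype ≠ ⊤ := fun s' hs r H e0 => by
    rw [Submodule.comap_subtype_eq_top] at e0
    obtain ⟨y, y1, y2⟩ := ((nd_restrict_iff _).2 (nd_mov hQ h2 hs)).exists_orth_nonsingular h2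
      (by unfold rk at r; omega) (u := ⟨u, e0 uM⟩) u2
    obtain ⟨x, x1, x2⟩ := H y ((mem_mov_iff h2 hs).1 y.2)
    rw [(mem_mov_iff h2 hs).1 (e0 x1), sub_neg_eq_add] at x2
    exact y2 (c y (x2 ▸ Submodule.add_mem _ x1 x1) y1)
  obtain ⟨x, x1, x2, x3⟩ := avoid3 h2 (big s h.hs r fun a ha => by
      obtain ⟨x, x1, x2, x3⟩ := h.solve hQ h2 ha (b := k.1 a) (by rw [conj_apply hk, ha, map_neg])
      exact ⟨x, ⟨x1, by rw [x2, x3]⟩, x2⟩)
    (big t h.ht r' fun b hb => by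
      obtain ⟨x, x1, x2, x3⟩ := h.solve hQ h2 (a := (k⁻¹).1 b) (by
        rw [← k.1.injective.eq_iff, ← conj_apply hk, map_neg, OG.apply_inv_self, hb]) hb
      exact ⟨x, ⟨x1, by rw [x2, x3, OG.apply_inv_self]⟩, x3⟩)
    (C := (perp Q (Submodule.span F {u})).comap (gr s t k e).subtype) (fun e0 => by
      have := mem_perp_singleton.1 (Submodule.comap_subtype_eq_top.1 e0 uM)
      rw [p_self] at this
      simp [h2, u2] at this)
  refine Or.inr ⟨x, x.2, fun q => x3 (mem_perp_singleton.2 ?_),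
    fun q => x1 ((mem_mov_iff h2 h.hs).2 q), fun q => x2 ((mem_mov_iff h2 h.ht).2 q)⟩
  have := c (x - (polar Q u x / (2 * Q u)) • u) (Submodule.sub_mem _ x.2 (Submodule.smul_mem _ _ uM))
    (by rw [polar_sub_right, p_smul_right, p_self]; field_simp; ring)
  rw [q_sub, q, q_smul, p_smul_right, polar_comm Q x] at this
  field_simp at this
  have e : polar Q u x.1 ^ 2 = 0 := by linear_combination -this
  simpa using e

theorem four (h : C3 s t e) (hQ : ND Q) (h2 : (2 : F) ≠ 0) (r : 3 ≤ rk s) (r' : 3 ≤ rk t)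
    (hk : k * s * k⁻¹ = t) (e0 : Q e ≠ 0) {c : F} (hc : ∀ y, Q e * y ^ 2 ≠ c) :
    ∃ v, Q v = c ∧ Gv s t v := by
  obtain ⟨k, hk, u, ⟨u1, u2⟩, u3, u4⟩ : ∃ k : OG Q, k * s * k⁻¹ = t ∧ ∃ u ∈ gr s t k e, Q u ≠ 0 ∧
      (Q u = Q e ∨ (s.1 u ≠ -u ∧ t.1 u ≠ -u)) := by
    obtain ⟨k, hk, H | ⟨u, u1, u2, u3⟩⟩ := h.three hQ h2 r r' hk
    · obtain ⟨u, u1, u2⟩ := H (Q e)
      exact ⟨k, hk, u, u1, u2 ▸ e0, Or.inl u2⟩
    · exact ⟨k, hk, u, u1, u2, Or.inr u3⟩
  obtain ⟨x, y, hxy⟩ := exists_binary_eq h2 u3 e0 c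
  have x0 : x ≠ 0 := by rintro rfl; exact hc y (by simpa using hxy)
  have u0 := ne_zero_of_Q_ne_zero u3
  have pos : ∀ s : OG Q, s.1 e = e → s.1 (x • u + y • e) = x • u + y • e → s.1 u = u :=
    fun s h h' => by simpa [h, x0] using h'
  have neg : ∀ s : OG Q, s.1 e = e → s.1 (x • u + y • e) = -(x • u + y • e) →
      Q u ≠ Q e ∧ s.1 u = -u := fun s h h' => by
    have := orth_pm h2 h h'
    rw [polar_add_right, p_smul_right, p_smul_right, u1, p_self] at this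
    obtain rfl : y = 0 := by simpa [h2, e0] using this
    refine ⟨fun q => hc x (by simpa [q] using hxy), ?_⟩
    rw [zero_smul, add_zero, map_smul, ← smul_neg] at h'
    exact smul_right_injective _ x0 h'
  refine ⟨x • u + y • e, ?_, ?_, iff_of_false (fun q => u0 ?_) (fun q => u0 ?_),
    iff_of_false (fun q => ?_) (fun q => ?_)⟩
  · rw [q_add, q_smul, q_smul, p_smul_left, p_smul_right, polar_comm, u1]
    linear_combination hxy
  · have a0 := congrArg Q u2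
    rw [OG.map_Q, q_sub, q_sub, OG.map_Q, OG.map_Q, sub_right_inj] at a0
    have a3 : polar Q e (s.1 u) = 0 := by rw [← sa h.hs, h.e1, u1]
    have a4 : polar Q e (t.1 u) = 0 := by rw [← sa h.ht, h.e2, u1]
    simp only [map_add, map_smul, h.e1, h.e2, polar_add_left, polar_add_right, p_smul_left,
      p_smul_right, a0, a3, a4]
  · have a := pos s h.e1 q
    rw [a, sub_self, map_zero, eq_comm, sub_eq_zero] at u2
    exact h.K u (a.trans u2) u1
  · have a := pos t h.e2 q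
    rw [a, sub_self, OG.apply_eq_zero, sub_eq_zero] at u2
    exact h.K u (u2.symm.trans a.symm) u1
  · have := neg s h.e1 q
    tauto
  · have := neg t h.e2 q
    tauto

end C3

theorem rad_case (hQ : ND Q) (h2 : (2 : F) ≠ 0) (hs : s * s = 1) (ht : t * t = 1)
    (hr : rk s = rk t) (r : 3 ≤ rk (s * t)) {e : V} (e0 : e ≠ 0) (e1 : s.1 e = t.1 e)
    (e3 : ∀ x, s.1 x = t.1 x → polar Q x e = 0) : ∃ e, e ≠ 0 ∧ Q e = 0 ∧
      ((s.1 e = e ∧ t.1 e = e) ∨ (s.1 e = -e ∧ t.1 e = -e)) ∧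
      ∀ c, ∃ v, Q v = c ∧ Gv s t v ∧ polar Q e v ≠ 0 := by
  have a1 := rk_mul_le s t
  have a2 := rk_mul_le (ng s) (ng t)
  have a3 := rk_ng h2 hs
  have a4 := rk_ng h2 ht
  rw [ng_mul] at a2
  have q : ∀ e, polar Q e e = 0 → Q e = 0 := fun e h => by rw [p_self] at h; simpa [h2] using h
  by_cases c : s.1 e = -e
  · refine ⟨e, e0, q e (e3 e e1), Or.inr ⟨c, e1 ▸ c⟩, fun d => ?_⟩
    obtain ⟨v, v1, v2, v3⟩ := case2 hQ h2 (ng_inv hs) (ng_inv ht) (by omega) (by omega) e0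
      (by simp [c]) (by simp [← e1, c]) (fun x hx => e3 x (by simpa using hx)) d
    exact ⟨v, v1, v2.ng, v3⟩
  · have f1 : s.1 (e + s.1 e) = e + s.1 e := by rw [map_add, ss hs, add_comm]
    have f2 : t.1 (e + s.1 e) = e + s.1 e := by rw [map_add, e1, ss ht, add_comm]
    have f3 : ∀ x, s.1 x = t.1 x → polar Q x (e + s.1 e) = 0 := fun x hx => by
      rw [polar_add_right, e3 x hx, ← sa hs, e3 _ (by rw [ss hs, hx, ss ht]), add_zero]
    have f0 : e + s.1 e ≠ 0 := fun k => c (eq_neg_of_add_eq_zero_right k)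
    exact ⟨_, f0, q _ (f3 _ (f1.trans f2.symm)), Or.inl ⟨f1, f2⟩,
      case2 hQ h2 hs ht (by omega) (by omega) f0 f1 f2 f3⟩

theorem exists_gv [Finite F] (hQ : ND Q) (h2 : (2 : F) ≠ 0) (hn : 7 ≤ finrank F V)
    (ho : Odd (finrank F V)) (hs : s * s = 1) (ht : t * t = 1) (hk : k * s * k⁻¹ = t)
    (he : Even (rk (s * t))) (c : F) : ∃ v, Q v = c ∧ Gv s t v := by
  by_contra H
  have H1 : ∀ v ∈ fix (s * t), Q v ≠ c := fun v hv e => H ⟨v, e, gv_of_fix ((fix_iff hs).1 hv)⟩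
  have hr : rk s = rk t := by rw [← hk, rk_conj]
  have r : 3 ≤ rk (s * t) := by
    by_contra r
    obtain ⟨x, y, x1, y1, x2, y2, o⟩ := small hQ hn (g := s * t) (by omega)
    obtain ⟨v, v1, v2⟩ := univ2 h2 x1 y1 x2 y2 o c
    exact H1 v v1 v2
  have nd : fix (s * t) ⊓ perp Q (fix (s * t)) = ⊥ := (Submodule.eq_bot_iff _).2 fun e he => by
    by_contra e0
    obtain ⟨e, -, -, -, h⟩ := rad_case hQ h2 hs ht hr r e0 ((fix_iff hs).1 he.1)
      fun x hx => mem_perp.1 he.2 x ((fix_iff hs).2 hx)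
    obtain ⟨v, v1, v2, -⟩ := h c
    exact H ⟨v, v1, v2⟩
  have d := rk_add_finrank_fix (s * t)
  have d1 : finrank F (fix (s * t)) = 1 := by
    by_contra d1
    rw [Nat.odd_iff] at ho
    rw [Nat.even_iff] at he
    obtain ⟨v, v1, v2⟩ := exists_Q_sub nd (by omega) c
    exact H1 v v1 v2
  haveI : Nontrivial (fix (s * t)) := Module.nontrivial_of_finrank_pos (R := F) (by omega)
  obtain ⟨e, e0⟩ := ((nd_restrict_iff _).2 nd).exists_nonsingular
  have e0 : Q e.1 ≠ 0 := e0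
  have sp : ∀ x, s.1 x = t.1 x → ∃ a : F, a • e.1 = x := fun x hx => by
    obtain ⟨a, ha⟩ := (finrank_eq_one_iff_of_nonzero' e (fun k => e0 (by simp [k]))).1 d1
      ⟨x, (fix_iff hs).2 hx⟩
    exact ⟨a, congrArg Subtype.val ha⟩
  have K : ∀ x, s.1 x = t.1 x → polar Q e.1 x = 0 → x = 0 := fun x hx h => by
    obtain ⟨a, rfl⟩ := sp x hx
    rw [p_smul_right, p_self] at h
    simp [show a = 0 by simpa [h2, e0] using h]
  have e1 := (fix_iff hs).1 e.2
  have hc : ∀ y, Q e.1 * y ^ 2 ≠ c := fun y h =>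
    H1 (y • e.1) (Submodule.smul_mem _ _ e.2) (by rw [q_smul, mul_comm, h])
  have a1 := rk_mul_le s t
  have a2 := rk_mul_le (ng s) (ng t)
  have a3 := rk_ng h2 hs
  have a4 := rk_ng h2 ht
  rw [ng_mul] at a2
  obtain ⟨a, ha⟩ := sp (s.1 e) (by rw [ss hs, e1, ss ht])
  have : a ^ 2 = 1 := by
    have := congrArg Q ha
    rw [q_smul, OG.map_Q] at this
    exact mul_right_cancel₀ e0 (by rw [this, one_mul])
  rcases sq_eq_one_iff.1 this with rfl | rfl
  · rw [one_smul] at ha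
    exact H (C3.four ⟨hs, ht, ha.symm, e1 ▸ ha.symm, Or.inr e0, K⟩ hQ h2 (by omega) (by omega) hk e0 hc)
  · rw [neg_one_smul] at ha
    obtain ⟨v, v1, v2⟩ := C3.four (s := ng s) (t := ng t) (k := k) ⟨ng_inv hs, ng_inv ht,
      by simp [← ha], by simp [← e1, ← ha], Or.inr e0, fun x hx => K x (by simpa using hx)⟩ hQ h2
      (by omega) (by omega) (OG.ext fun x => by rw [← hk]; simp) e0 hc
    exact H ⟨v, v1, v2.ng⟩

theorem omega_odd [Finite F] (hQ : ND Q) (h2 : (2 : F) ≠ 0) (hn : 7 ≤ finrank F V)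
    (ho : Odd (finrank F V)) {g : OG Q} (hg : g ∈ commutator (OG Q)) :
    ∃ a ∈ commutator (OG Q), ∃ b ∈ commutator (OG Q), g = a * b * a⁻¹ * b⁻¹ := by
  have G : Good F V := good_of_two_ne_zero h2
  have he := ((hQ.mem_commutator_iff G g).1 hg).1
  obtain ⟨s, t, hs, ht, rfl, hr, o⟩ : ∃ s t : OG Q, s * s = 1 ∧ t * t = 1 ∧ g = s * t ∧
      rk s = rk t ∧ ¬ Even (rk s) := by
    obtain ⟨s, t, hs, ht, rfl, hr⟩ := won hQ h2 g he
    by_cases o : Even (rk s)
    · have a3 := rk_ng h2 hs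
      have a4 := rk_ng h2 ht
      rw [Nat.odd_iff] at ho
      rw [Nat.even_iff] at o
      exact ⟨ng s, ng t, ng_inv hs, ng_inv ht, (ng_mul s t).symm, by omega, by
        rw [Nat.even_iff]; omega⟩
    · exact ⟨s, t, hs, ht, rfl, hr, o⟩
  obtain ⟨k, hk⟩ := conj_invol hQ h2 _ s t hs ht hr rfl hg
  obtain ⟨c, c0, hc⟩ : ∃ c : F, c ≠ 0 ∧ (SqSpin s ↔ IsSquare c) := by
    by_cases q : SqSpin s
    · exact ⟨1, one_ne_zero, by simp [q]⟩
    · obtain ⟨d, hd⟩ := exists_not_isSquare h2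
      exact ⟨d, by rintro rfl; exact hd IsSquare.zero, by simp [q, hd]⟩
  obtain ⟨v, rfl, hv⟩ := exists_gv hQ h2 hn ho hs ht hk he c
  obtain ⟨h, h1, h3, h4⟩ := conj_fix_omega hQ h2 hn hs ht hk hv
  refine ⟨s * refl Q v, (hQ.mem_commutator_iff G _).2 ⟨?_, ?_⟩, h, h1, ?_⟩
  · have := hQ.even_rk_refl_mul c0 1
    rw [hQ.even_rk_mul G]
    simpa [o] using this
  · rw [hQ.sqSpin_mul G, hQ.sqSpin_refl c0, hc]
  · rw [← h3, mul_inv_rev, refl_inv, mul_assoc s (refl Q v), refl_comm (Or.inl h4),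
      inv_eq_of_mul_eq_one_left hs]
    simp [mul_assoc, ← mul_assoc (refl Q v)]

theorem omega_mat {ι : Type} [Fintype ι] [DecidableEq ι] {Q : QuadraticForm F (ι → F)}
    (H : ∀ g ∈ commutator (OG Q), ∃ a ∈ commutator (OG Q), ∃ b ∈ commutator (OG Q),
      g = a * b * a⁻¹ * b⁻¹) (g : Cfsg.Omega F ⇑Q) :
    ∃ a b : Cfsg.Omega F ⇑Q, g = a * b * a⁻¹ * b⁻¹ := by
  obtain ⟨a, ha, b, hb, e⟩ := H _ ((mem_Omega_iff g.1).1 g.2)
  refine ⟨⟨(toOG Q).symm a, (mem_Omega_iff _).2 (by simpa using ha)⟩,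
    ⟨(toOG Q).symm b, (mem_Omega_iff _).2 (by simpa using hb)⟩, Subtype.ext ((toOG Q).injective ?_)⟩
  simpa using e

end Cfsg.Agent.OreO
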