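import Mathlib
import Cfsg.Agent.Elu.OmC

/-! Planes in the same position with respect to two involutions. -/

set_option autoImplicit false
set_option backward.isDefEq.respectTransparency false

namespace Cfsg.Agent.OreO

open QuadraticMap Module Cfsg.Agent.Orth

universe u

variable {F V : Type u} [Field F] [AddCommGroup V] [Module F V] {Q : QuadraticForm F V}
  {s t k : OG Q} [FiniteDimensional F V]

theorem witt_pair (hQ : ND Q) {P : Type*} [AddCommGroup P] [Module F P] (A B : P →ₗ[F] V)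
    (h0 : ∀ z, A z = 0 ↔ B z = 0) (h : ∀ z, Q (A z) = Q (B z)) : ∃ c : OG Q, ∀ z, c.1 (A z) = B z := by
  let f : LinearMap.range A →ₗ[F] V :=
    (LinearMap.ker A).liftQ B (fun z hz => (h0 z).1 hz) ∘ₗ A.quotKerEquivRange.symm.toLinearMap
  have hf : ∀ z, f ⟨A z, z, rfl⟩ = B z := fun z => by
    change (LinearMap.ker A).liftQ B (fun z hz => (h0 z).1 hz) (A.quotKerEquivRange.symm ⟨A z, z, rfl⟩) = B z
    rw [LinearMap.quotKerEquivRange_symm_apply_image]; rfl
  obtain ⟨c, hc⟩ := witt hQ _ f ((injective_iff_map_eq_zero f).2 (by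
    rintro ⟨_, z, rfl⟩ e
    exact Subtype.ext ((h0 z).2 ((hf z).symm.trans e)))) (by
    rintro ⟨_, z, rfl⟩
    rw [hf, h])
  exact ⟨c, fun z => (hc ⟨A z, z, rfl⟩).trans (hf z)⟩

theorem cent_wittU (hQ : ND Q) (h2 : (2 : F) ≠ 0) (ht : t * t = 1) (A B : F × F →ₗ[F] V)
    (hA : ∀ p, t.1 (A p) = A p) (hB : ∀ p, t.1 (B p) = B p) (h0 : ∀ p, A p = 0 ↔ B p = 0)
    (h : ∀ p, Q (A p) = Q (B p)) :
    ∃ c : OG Q, c * t = t * c ∧ (∀ p, c.1 (A p) = B p) ∧ ∀ w, t.1 w = -w → c.1 w = w := by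
  have k : ∀ x, t.1 x = x → ∀ w : mov t, (x + w = 0 ↔ x = 0 ∧ w = 0) := fun x hx w =>
    ⟨fun e => by
      have e' := congrArg t.1 e
      rw [map_add, hx, (mem_mov_iff h2 ht).1 w.2, map_zero] at e'
      have : x = 0 := half h2 (by linear_combination (norm := module) e + e')
      exact ⟨this, Subtype.ext (by simpa [this] using e)⟩, fun e => by simp [e.1, e.2]⟩
  obtain ⟨c, hc⟩ := witt_pair hQ (A.coprod (mov t).subtype) (B.coprod (mov t).subtype)
    (fun z => (k _ (hA _) _).trans (by rw [h0]; exact (k _ (hB _) _).symm)) (fun z => by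
      change Q (A z.1 + z.2) = Q (B z.1 + z.2)
      rw [q_add, q_add, h, orth_pm h2 (hA _) ((mem_mov_iff h2 ht).1 z.2.2),
        orth_pm h2 (hB _) ((mem_mov_iff h2 ht).1 z.2.2)])
  have c1 : ∀ w ∈ mov t, c.1 w = w := fun w hw => by simpa using hc (0, ⟨w, hw⟩)
  exact ⟨c, comm_of_fix hQ h2 ht c1, fun p => by simpa using hc (p, 0),
    fun w hw => c1 w ((mem_mov_iff h2 ht).2 hw)⟩

theorem conj_fix2 (hQ : ND Q) (h2 : (2 : F) ≠ 0) (hs : s * s = 1) (ht : t * t = 1)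
    (hk : k * s * k⁻¹ = t) (ι : F × F →ₗ[F] V) (h : ∀ p, Gv s t (ι p)) :
    ∃ k : OG Q, k * s * k⁻¹ = t ∧ ∀ p, k.1 (ι p) = ι p := by
  obtain ⟨c, c1, c2, c3⟩ := cent_wittU hQ h2 ht
    ((k.1 : V →ₗ[F] V) ∘ₗ (LinearMap.id + (s.1 : V →ₗ[F] V)) ∘ₗ ι)
    ((LinearMap.id + (t.1 : V →ₗ[F] V)) ∘ₗ ι)
    (fun p => show t.1 (k.1 (ι p + s.1 (ι p))) = k.1 (ι p + s.1 (ι p)) by
      rw [conj_apply hk, map_add s.1, ss hs, add_comm])
    (fun p => show t.1 (ι p + t.1 (ι p)) = ι p + t.1 (ι p) by rw [map_add, ss ht, add_comm])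
    (fun p => show k.1 (ι p + s.1 (ι p)) = 0 ↔ ι p + t.1 (ι p) = 0 by
      rw [OG.apply_eq_zero, add_eq_zero_iff_neg_eq, add_eq_zero_iff_neg_eq, eq_comm, (h p).n,
        eq_comm])
    (fun p => show Q (k.1 (ι p + s.1 (ι p))) = Q (ι p + t.1 (ι p)) by
      rw [OG.map_Q, q_add, q_add, (h p).q, OG.map_Q, OG.map_Q])
  obtain ⟨d, d1, d2, d3⟩ := cent_wittU hQ h2 (ng_inv ht)
    ((k.1 : V →ₗ[F] V) ∘ₗ (LinearMap.id - (s.1 : V →ₗ[F] V)) ∘ₗ ι)
    ((LinearMap.id - (t.1 : V →ₗ[F] V)) ∘ₗ ι)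
    (fun p => show (ng t).1 (k.1 (ι p - s.1 (ι p))) = k.1 (ι p - s.1 (ι p)) by
      rw [ng_apply, conj_apply hk, map_sub s.1, ss hs, ← map_neg, neg_sub])
    (fun p => show (ng t).1 (ι p - t.1 (ι p)) = ι p - t.1 (ι p) by
      rw [ng_apply, map_sub, ss ht, neg_sub])
    (fun p => show k.1 (ι p - s.1 (ι p)) = 0 ↔ ι p - t.1 (ι p) = 0 by
      rw [OG.apply_eq_zero, sub_eq_zero, sub_eq_zero, eq_comm, (h p).p, eq_comm])
    (fun p => show Q (k.1 (ι p - s.1 (ι p))) = Q (ι p - t.1 (ι p)) by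
      rw [OG.map_Q, q_sub, q_sub, (h p).q, OG.map_Q, OG.map_Q])
  have d1 : d * t = t * d := OG.ext fun z => by
    simpa using congrArg (fun g : OG Q => g.1 z) d1
  refine ⟨d * c * k, ?_, fun p => ?_⟩
  · rw [show d * c * k * s * (d * c * k)⁻¹ = d * (c * (k * s * k⁻¹) * c⁻¹) * d⁻¹ by group, hk, c1,
      mul_inv_cancel_right, d1, mul_inv_cancel_right]
  · rw [← sub_eq_zero]
    refine half h2 ?_
    have e1 : (d * c * k).1 (ι p + s.1 (ι p)) = ι p + t.1 (ι p) := by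
      rw [OG.mul_apply, OG.mul_apply]
      exact (congrArg d.1 (c2 p)).trans (d3 _ (by
        change -t.1 (ι p + t.1 (ι p)) = -(ι p + t.1 (ι p))
        rw [map_add, ss ht, add_comm]))
    have e2 : (d * c * k).1 (ι p - s.1 (ι p)) = ι p - t.1 (ι p) := by
      rw [OG.mul_apply, OG.mul_apply, c3 _ (by rw [conj_apply hk, map_sub s.1, ss hs, ← map_neg,
        neg_sub])]
      exact d2 p
    rw [map_add] at e1
    rw [map_sub] at e2
    linear_combination (norm := module) e1 + e2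

/-- A good plane. -/
structure Pl (s t : OG Q) (x y : V) : Prop where
  gv : ∀ a b : F, Gv s t (a • x + b • y)
  un : ∀ c, ∃ a b : F, Q (a • x + b • y) = c
  ad : ∀ c, ∃ z, Q z = c ∧ (s.1 z = z ∨ s.1 z = -z) ∧ polar Q z x = 0 ∧ polar Q z y = 0

/-- A commutator of two elements of `Ω`. -/
def Cmo (g : OG Q) : Prop :=
  ∃ a ∈ commutator (OG Q), ∃ b ∈ commutator (OG Q), g = a * b * a⁻¹ * b⁻¹

omit [FiniteDimensional F V] in
theorem cmo_of {h c : OG Q} (hs : s * s = 1) (h1 : h ∈ commutator (OG Q)) (h3 : h * s * h⁻¹ = t)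
    (c1 : c * h = h * c) (c2 : s * c ∈ commutator (OG Q)) : Cmo (s * t) :=
  ⟨s * c, c2, h, h1, by
    rw [← h3, mul_assoc s c h, c1, mul_inv_rev, inv_eq_of_mul_eq_one_left hs]; group⟩

theorem Pl.cmo [Finite F] (hQ : ND Q) (h2 : (2 : F) ≠ 0) (hs : s * s = 1) (ht : t * t = 1)
    (hk : k * s * k⁻¹ = t) {x y : V} (h : Pl s t x y) : Cmo (s * t) := by
  obtain ⟨k, k1, k2⟩ := conj_fix2 hQ h2 hs ht hk
    ((LinearMap.toSpanSingleton F V x).coprod (LinearMap.toSpanSingleton F V y))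
    (fun p => h.gv p.1 p.2)
  obtain ⟨c, ⟨c1, c2, c2'⟩, c3⟩ := adjust hQ h2
    (Subgroup.centralizer {s} ⊓ (MulAction.stabilizer (OG Q) x ⊓ MulAction.stabilizer (OG Q) y))
    (fun c => by
      obtain ⟨z, z1, z2, z3, z4⟩ := h.ad c
      exact ⟨z, z1, Subgroup.mem_centralizer_singleton_iff.2 (refl_comm z2),
        refl_apply_of_orth z3, refl_apply_of_orth z4⟩) k
  have c4 : c * s = s * c := Subgroup.mem_centralizer_singleton_iff.1 c1
  have c5 : c.1 x = x := c2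
  have c6 : c.1 y = y := c2'
  obtain ⟨d, d1, d2⟩ := adjust hQ h2 (Subgroup.centralizer {k * c}) (fun e => by
    obtain ⟨a, b, hab⟩ := h.un e
    refine ⟨_, hab, Subgroup.mem_centralizer_singleton_iff.2 (refl_comm (Or.inl ?_))⟩
    rw [OG.mul_apply, map_add, map_smul, map_smul, c5, c6]
    exact k2 (a, b)) s
  exact cmo_of hs c3 (by rw [mul_assoc k, c4, ← k1]; group)
    (Subgroup.mem_centralizer_singleton_iff.1 d1) d2

omit [FiniteDimensional F V] in
theorem Pl.ng {x y : V} (h : Pl (ng s) (ng t) x y) : Pl s t x y :=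
  ⟨fun a b => (h.gv a b).ng, h.un, fun c => by
    obtain ⟨z, z1, z2, z3⟩ := h.ad c
    exact ⟨z, z1, by simpa [neg_eq_iff_eq_neg, or_comm] using z2, z3⟩⟩

omit [FiniteDimensional F V] in
theorem Gv.to_ng {v : V} (h : Gv s t v) : Gv (OreO.ng s) (OreO.ng t) v :=
  ⟨by simpa using h.q, by simpa [neg_eq_iff_eq_neg] using h.n, by simpa using h.p⟩

theorem sub_perp2 [Finite F] {T : Submodule F V} (hT : T ⊓ perp Q T = ⊥) (hn : 4 ≤ finrank F T)
    {a b : V} (ha : a ∈ T) (hb : b ∈ T) (hd : 4 * Q a * Q b ≠ polar Q a b ^ 2) (c : F) :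
    ∃ z ∈ T, polar Q a z = 0 ∧ polar Q b z = 0 ∧ Q z = c := by
  have nd := (nd_restrict_iff T).2 hT
  have e := nd.finrank_perp_add (Submodule.span F {⟨a, ha⟩, ⟨b, hb⟩})
  have e' := finrank_span_pair_le (F := F) (⟨a, ha⟩ : T) ⟨b, hb⟩
  obtain ⟨z, hz⟩ := (nd.nd_perp (W := Submodule.span F {⟨a, ha⟩, ⟨b, hb⟩}) (
    (Submodule.eq_bot_iff _).2 fun z hz => by
      obtain ⟨α, β, rfl⟩ := Submodule.mem_span_pair.1 hz.1
      obtain ⟨k1, k2⟩ := mem_perp_pair.1 hz.2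
      rw [polar_restrict] at k1 k2
      simp only [Submodule.coe_add, Submodule.coe_smul, polar_add_right,
        p_smul_right, p_self, polar_comm Q b a] at k1 k2
      have a0 : α * (4 * Q a * Q b - polar Q a b ^ 2) = 0 := by
        linear_combination 2 * Q b * k1 - polar Q a b * k2
      have b0 : β * (4 * Q a * Q b - polar Q a b ^ 2) = 0 := by
        linear_combination 2 * Q a * k2 - polar Q a b * k1
      rw [mul_eq_zero_iff_right (sub_ne_zero.2 hd)] at a0 b0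
      simp [a0, b0])).exists_Q_eq (by omega) c
  exact ⟨z.1.1, z.1.2, (mem_perp_pair.1 z.2).1, (mem_perp_pair.1 z.2).2, hz⟩

theorem cent_refl2 [Finite F] (hQ : ND Q) (h2 : (2 : F) ≠ 0) (hs : s * s = 1) (hn : 4 ≤ rk s)
    {x y a b : V} (ha : x - s.1 x = a) (hb : y - s.1 y = b)
    (hd : 4 * Q a * Q b ≠ polar Q a b ^ 2) (c : F) :
    ∃ z, Q z = c ∧ s.1 z = -z ∧ polar Q z x = 0 ∧ polar Q z y = 0 := by
  have m : ∀ x, x - s.1 x ∈ mov s := fun x => (mem_mov_iff h2 hs).2 (by rw [map_sub, ss hs, neg_sub])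
  obtain ⟨z, z1, z2, z3, z4⟩ := sub_perp2 (nd_mov hQ h2 hs) hn (ha ▸ m x) (hb ▸ m y) hd c
  rw [mem_mov_iff h2 hs] at z1
  have k : ∀ x, polar Q (x - s.1 x) z = 0 → polar Q z x = 0 := fun x h => by
    rw [polar_sub_left, sa hs, z1, polar_neg_right, polar_comm] at h
    have : (2 : F) * polar Q z x = 0 := by linear_combination h
    simpa [h2] using this
  exact ⟨z, z4, z1, k x (ha ▸ z2), k y (hb ▸ z3)⟩

theorem pl_rad [Finite F] (hQ : ND Q) (h2 : (2 : F) ≠ 0) (hn : 7 ≤ finrank F V) (hs : s * s = 1)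
    (ht : t * t = 1) {e v : V} (e0 : Q e = 0) (e1 : s.1 e = e) (e2 : t.1 e = e) (hv : Gv s t v)
    (ev : polar Q e v ≠ 0) : Pl s t v e := by
  have ee : polar Q e e = 0 := by rw [p_self, e0, mul_zero]
  refine ⟨fun a b => ?_, fun c => ⟨1, (c - Q v) / polar Q e v, ?_⟩, fun c => ?_⟩
  · by_cases a0 : a = 0
    · exact gv_of_fix (by simp [a0, e1, e2])
    have neg : ∀ s : OG Q, s.1 e = e → s.1 (a • v + b • e) ≠ -(a • v + b • e) := fun s h h' => by
      have := orth_pm h2 h h'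
      simp [ee, a0, ev] at this
    refine ⟨?_, by simpa [e1, e2, a0] using hv.p, iff_of_false (neg s e1) (neg t e2)⟩
    have a3 : polar Q e (s.1 v) = polar Q e v := by rw [← sa hs, e1]
    have a4 : polar Q e (t.1 v) = polar Q e v := by rw [← sa ht, e2]
    simp only [map_add, map_smul, e1, e2, polar_add_left, polar_add_right, p_smul_left,
      p_smul_right, a3, a4, hv.q]
  · rw [one_smul, q_add, q_smul, e0, p_smul_right, polar_comm Q v]; field_simp; ring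
  · have := rk_ng h2 hs
    by_cases h4 : 4 ≤ rk s
    · obtain ⟨x, x1, x2, x3⟩ := cent_refl hQ h2 hs h4 v c
      exact ⟨x, x1, Or.inr x2, x3, by rw [polar_comm]; exact orth_pm h2 e1 x2⟩
    · obtain ⟨x, x1, x2, x3⟩ := cent_refl2 hQ h2 (ng_inv hs) (by omega) (x := v) (y := e) rfl rfl (by
        have a3 : polar Q (s.1 v) e = polar Q e v := by rw [sa hs, e1, polar_comm]
        simp only [ng_apply, e1, sub_neg_eq_add, q_add Q e e, e0, ee, polar_add_left, polar_add_right,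
          a3, polar_comm Q v e, add_zero, mul_zero]
        rw [show polar Q e v + polar Q e v + (polar Q e v + polar Q e v) = 2 * (2 * polar Q e v) by
          ring]
        exact (pow_ne_zero _ (mul_ne_zero h2 (mul_ne_zero h2 ev))).symm) c
      exact ⟨x, x1, Or.inl (by simpa using x2), x3⟩

theorem red_fix [Finite F] (hQ : ND Q) (h2 : (2 : F) ≠ 0) (hn : 8 ≤ finrank F V)
    (he : Even (finrank F V)) {g : OG Q} (hg : g ∈ commutator (OG Q)) {e : V} (e0 : Q e ≠ 0)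
    (e1 : g.1 e = e) : Cmo g := by
  have G : Good F V := good_of_two_ne_zero h2
  have w2 := span_inf_perp_of_nonsingular h2 e0
  have fx : ∀ x ∈ Submodule.span F {e}, g.1 x = x := fun x hx => by
    obtain ⟨c, rfl⟩ := Submodule.mem_span_singleton.1 hx
    rw [map_smul, e1]
  obtain ⟨⟨a, b⟩, rfl⟩ : g ∈ (sumHom (splitIso (hQ.isCompl_perp w2))).range :=
    hQ.range_sumHom_splitIso w2 ▸ mem_stab_of_le fun x hx => by rwa [fx x hx]
  obtain rfl : a = 1 := OG.ext fun x => Subtype.ext (by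
    have := sumHom_apply (splitIso (hQ.isCompl_perp w2)) (a, b) x 0
    simp only [splitIso_apply, ZeroMemClass.coe_zero, add_zero, map_zero] at this
    rw [← this, fx x x.2]; rfl)
  have d := hQ.finrank_perp_singleton (ne_zero_of_Q_ne_zero e0)
  rw [hQ.mem_commutator_iff G, rk_sumHom, sqSpin_sumHom_right _ hQ (hQ.nd_perp w2)
    (good_of_two_ne_zero h2), rk_one, zero_add,
    ← (hQ.nd_perp w2).mem_commutator_iff (good_of_two_ne_zero h2)] at hg
  obtain ⟨x, x1, y, y1, rfl⟩ := omega_odd (hQ.nd_perp w2) h2 (by omega) (by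
    rw [Nat.odd_iff]; rw [Nat.even_iff] at he; omega) hg
  refine ⟨_, sumHom_mem_commutator (splitIso (hQ.isCompl_perp w2)) (one_mem _) x1, _,
    sumHom_mem_commutator (splitIso (hQ.isCompl_perp w2)) (one_mem _) y1, ?_⟩
  rw [← map_inv, ← map_inv, ← map_mul, ← map_mul, ← map_mul]; simp

theorem prodW (h2 : (2 : F) ≠ 0) {T : Submodule F V} (hT : T ⊓ perp Q T = ⊥) (hn : 3 ≤ finrank F T)
    (G : QuadraticForm F V) {x : V} (hx : x ∈ T) (h : G x ≠ 0) : ∃ y ∈ T, Q y ≠ 0 ∧ G y ≠ 0 := by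
  by_contra k
  push Not at k
  have k' : ∀ y ∈ T, G y ≠ 0 → Q y = 0 := fun y hy h => by_contra fun q => h (k y hy q)
  have := ((nd_restrict_iff T).2 hT).two_mul_finrank_le
    (W := LinearMap.ker (G.polarBilin x ∘ₗ T.subtype)) fun y hy => by
      have o : polar G x y = 0 := hy
      change Q y = 0
      by_cases c : G y = 0
      · have a := k' _ (T.add_mem hx y.2) (by rwa [q_add, o, c, add_zero, add_zero])
        have b := k' _ (T.sub_mem hx y.2) (by rwa [q_sub, o, c, add_zero, sub_zero])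
        rw [q_add, k' x hx h] at a
        rw [q_sub, k' x hx h] at b
        have : 2 * Q y = 0 := by linear_combination a + b
        simpa [h2] using this
      · exact k' y y.2 c
  have e := LinearMap.finrank_range_add_finrank_ker (G.polarBilin x ∘ₗ T.subtype)
  have e' := Submodule.finrank_le (LinearMap.range (G.polarBilin x ∘ₗ T.subtype))
  rw [finrank_self] at e'
  omega

theorem nd_inf (h2 : (2 : F) ≠ 0) {T : Submodule F V} (hT : T ⊓ perp Q T = ⊥) {a : V} (ha : a ∈ T)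
    (a0 : Q a ≠ 0) : (T ⊓ perp Q (Submodule.span F {a})) ⊓
      perp Q (T ⊓ perp Q (Submodule.span F {a})) = ⊥ ∧
      finrank F T ≤ finrank F (T ⊓ perp Q (Submodule.span F {a}) : Submodule F V) + 1 := by
  have m : ∀ w ∈ T, w - (polar Q a w / (2 * Q a)) • a ∈ T ⊓ perp Q (Submodule.span F {a}) :=
    fun w hw => ⟨T.sub_mem hw (T.smul_mem _ ha), mem_perp_singleton.2 (by
      rw [polar_sub_right, p_smul_right, p_self]; field_simp; ring)⟩
  refine ⟨(Submodule.eq_bot_iff _).2 fun z hz => (Submodule.eq_bot_iff _).1 hT z ⟨hz.1.1,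
    mem_perp.2 fun w hw => ?_⟩, (Submodule.finrank_mono fun w hw => ?_).trans (finrank_sup_span _ a)⟩
  · have := mem_perp.1 hz.2 _ (m w hw)
    rwa [polar_sub_left, p_smul_left, mem_perp_singleton.1 hz.1.2, mul_zero, sub_zero] at this
  · exact Submodule.mem_sup.2 ⟨_, m w hw, _, Submodule.smul_mem _ _
      (Submodule.mem_span_singleton_self a), sub_add_cancel _ _⟩

theorem ker_ns [Finite F] (h2 : (2 : F) ≠ 0) {T : Submodule F V} (hT : T ⊓ perp Q T = ⊥)
    (hn : 4 ≤ finrank F T) (φ : V →ₗ[F] F) : ∃ a ∈ T, φ a = 0 ∧ Q a = 1 := by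
  have nd := (nd_restrict_iff T).2 hT
  obtain ⟨w, hw⟩ := nd.exists_polar_eq (φ ∘ₗ T.subtype)
  obtain ⟨x, x1, x2⟩ := perp_univ nd h2 hn w 1
  exact ⟨x, x.2, (hw x).symm.trans x1, x2⟩

theorem ns_avoid2 (h2 : (2 : F) ≠ 0) (hQ : ND Q) (hn : 3 ≤ finrank F V) {A B : Submodule F V}
    (hA : A ≠ ⊤) (hB : B ≠ ⊤) : ∃ c, Q c ≠ 0 ∧ c ∉ A ∧ c ∉ B := by
  obtain ⟨x, x1, x2⟩ := avoid2 hA hB
  obtain ⟨y, y1, y2⟩ := hQ.exists_orth_polar_one A x1
  obtain ⟨z, z1, z2⟩ := hQ.exists_orth_polar_one B x2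
  obtain ⟨c, -, c1, c2⟩ := prodW h2 (T := ⊤) (by rw [hQ.perp_top, top_inf_eq]) (by simpa using hn)
    (linMulLin (Q.polarBilin y) (Q.polarBilin z)) (x := x) trivial (by
      simp [polar_comm Q y, polar_comm Q z, y2, z2])
  simp only [linMulLin_apply, polarBilin_apply_apply, mul_ne_zero_iff, polar_comm Q y,
    polar_comm Q z] at c2
  exact ⟨c, c1, fun h => c2.1 (y1 c h), fun h => c2.2 (z1 c h)⟩

end Cfsg.Agent.OreO
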