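import Mathlib
import Cfsg.Agent.Elu.OmD

/-! A checker for commutators in the eight dimensional orthogonal groups over two elements. -/

set_option autoImplicit false
set_option backward.isDefEq.respectTransparency false

namespace Cfsg.Agent.OreO

open QuadraticMap Module Cfsg.Agent.Orth

/-- Parity of a byte. -/
def par8 (x : ℕ) : ℕ := Nat.land (Nat.shiftRight 47758914269546354982683078068829456704164423862093743397580034411621752859030 x) 1

/-- Swaps the two halves of a byte. -/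
def sw8 (w : ℕ) : ℕ := Nat.lor (Nat.shiftRight w 4) (Nat.shiftLeft (Nat.land w 15) 4)

/-- The bilinear form on bytes. -/
def pB (w v : ℕ) : ℕ := par8 (Nat.land v (sw8 w))

/-- The quadratic form on bytes. -/
def qf (j w : ℕ) : ℕ :=
  Nat.add (Nat.add (par8 (Nat.land (Nat.shiftRight w 4) w)) (Nat.shiftRight w j)) (Nat.shiftRight w 4) % 2

/-- A reflection on bytes. -/
def rf (w v : ℕ) : ℕ := Nat.xor v (Nat.mul (pB w v) w)

/-- A product of reflections on bytes. -/
noncomputable def al (l : List ℕ) (v : ℕ) : ℕ := List.rec v (fun w _ r => rf w r) l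

/-- Four bytes. -/
def dec4 (c : ℕ) : List ℕ := [Nat.land c 255, Nat.land (Nat.shiftRight c 8) 255,
  Nat.land (Nat.shiftRight c 16) 255, Nat.land (Nat.shiftRight c 24) 255]

/-- Lists of non-singular bytes. -/
def okL (j : ℕ) (l : List ℕ) : Bool := l.all fun w => w < 256 && qf j w == 1

/-- Checks one commutator. -/
noncomputable def chk (j : ℕ) (l : List ℕ) (c : ℕ) : Bool :=
  okL j (dec4 c) && okL j (dec4 (Nat.shiftRight c 32)) && [1, 2, 4, 8, 16, 32, 64, 128].all fun v =>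
    al l (al (dec4 (Nat.shiftRight c 32)) (al (dec4 c) v)) == al (dec4 c) (al (dec4 (Nat.shiftRight c 32)) v)

/-- Checks a row of commutators. -/
noncomputable def rowOk (j : ℕ) (ls : List ℕ) : List (List ℕ) → ℕ → Bool
  | [], _ => true
  | lt :: L, R => ((lt ++ ls).length % 2 == 1 || chk j (lt ++ ls) (Nat.land R 18446744073709551615)) &&
      rowOk j ls L (Nat.shiftRight R 64)

/-- Checks a table. -/
noncomputable def tabOk (j : ℕ) (LT : List (List ℕ)) : List (List ℕ) → List ℕ → Bool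
  | [], _ => true
  | _ :: _, [] => false
  | ls :: L, R :: T => rowOk j ls LT R && tabOk j LT L T

theorem rowOk_spec {j : ℕ} {ls : List ℕ} : ∀ {L : List (List ℕ)} {R : ℕ}, rowOk j ls L R = true →
    ∀ lt ∈ L, (lt ++ ls).length % 2 = 1 ∨ ∃ c, chk j (lt ++ ls) c = true
  | [], _, _ => by simp
  | lt :: L, R, h => by
    simp only [rowOk, Bool.and_eq_true, Bool.or_eq_true, beq_iff_eq] at h
    intro l hl
    rcases List.mem_cons.1 hl with rfl | hl
    · exact h.1.imp_right fun e => ⟨_, e⟩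
    · exact rowOk_spec h.2 l hl

theorem tabOk_spec {j : ℕ} {LT : List (List ℕ)} : ∀ {L : List (List ℕ)} {T : List ℕ},
    tabOk j LT L T = true → ∀ ls ∈ L, ∀ lt ∈ LT,
      (lt ++ ls).length % 2 = 1 ∨ ∃ c, chk j (lt ++ ls) c = true
  | [], _, _ => by simp
  | _ :: _, [], h => by simp [tabOk] at h
  | ls :: L, R :: T, h => by
    simp only [tabOk, Bool.and_eq_true] at h
    intro l hl
    rcases List.mem_cons.1 hl with rfl | hl
    · exact rowOk_spec h.1
    · exact tabOk_spec h.2 l hl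

/-- The images of the basis form an isometry which is listed. -/
noncomputable def lst (j : ℕ) (L : List (List ℕ)) (n : List ℕ) : Bool :=
  L.any fun l => [1, 2, 4, 8, 16, 32, 64, 128].map (al l) == n

/-- All involutions are listed; `f i s` is the image of the `i`-th moved basis vector. -/
noncomputable def allL (j : ℕ) (L : List (List ℕ)) (f : ℕ → ℕ → ℕ) (F : List ℕ → List ℕ) : Bool :=
  L.all (okL j) && (List.range 16).all fun a => qf j (f 0 a) != qf j (f 0 0) ||
    (List.range 16).all fun b => qf j (f 1 b) != qf j (f 1 0) || pB (f 0 a) (f 1 b) != 0 ||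
    (List.range 16).all fun c => qf j (f 2 c) != qf j (f 2 0) || pB (f 0 a) (f 2 c) != 0 ||
      pB (f 1 b) (f 2 c) != 0 ||
    (List.range 16).all fun d => qf j (f 3 d) != qf j (f 3 0) || pB (f 0 a) (f 3 d) != 0 ||
      pB (f 1 b) (f 3 d) != 0 || pB (f 2 c) (f 3 d) != 0 || lst j L (F [f 0 a, f 1 b, f 2 c, f 3 d])

theorem pB_eq : ∀ w < 256, ∀ v < 256, pB w v = (∑ i ∈ Finset.range 8,
    (w.testBit i).toNat * (v.testBit ((i + 4) % 8)).toNat) % 2 := by
  have : ((List.range 256).all fun w => (List.range 256).all fun v => Nat.beq (pB w v)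
    (Nat.mod (Nat.add (Nat.add (Nat.add (Nat.add (Nat.add (Nat.add (Nat.add (Nat.mul (Nat.mod (Nat.div w 1) 2) (Nat.mod (Nat.div v 16) 2))
      (Nat.mul (Nat.mod (Nat.div w 2) 2) (Nat.mod (Nat.div v 32) 2)))
      (Nat.mul (Nat.mod (Nat.div w 4) 2) (Nat.mod (Nat.div v 64) 2)))
      (Nat.mul (Nat.mod (Nat.div w 8) 2) (Nat.mod (Nat.div v 128) 2)))
      (Nat.mul (Nat.mod (Nat.div w 16) 2) (Nat.mod (Nat.div v 1) 2)))
      (Nat.mul (Nat.mod (Nat.div w 32) 2) (Nat.mod (Nat.div v 2) 2)))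
      (Nat.mul (Nat.mod (Nat.div w 64) 2) (Nat.mod (Nat.div v 4) 2)))
      (Nat.mul (Nat.mod (Nat.div w 128) 2) (Nat.mod (Nat.div v 8) 2))) 2)) = true := by decide +kernel
  intro w hw v hv
  simp only [List.all_eq_true, List.mem_range, Nat.beq_eq] at this
  rw [this w hw v hv]
  simp only [Finset.sum_range_succ, Finset.sum_range_zero, Nat.toNat_testBit, zero_add]
  rfl

theorem qf_step : ∀ j < 2, ∀ n < 256, n = 0 ∨ ∃ i < 8, n ^^^ 2 ^ i < n ∧
    qf j n = (qf j (n ^^^ 2 ^ i) + qf j (2 ^ i) + pB (n ^^^ 2 ^ i) (2 ^ i)) % 2 := by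
  decide +kernel

theorem rf_lt {w v : ℕ} (hw : w < 256) (hv : v < 256) : rf w v < 256 := by
  have : pB w v < 2 := by rw [pB_eq w hw v hv]; omega
  refine Nat.xor_lt_two_pow (n := 8) hv (show pB w v * w < _ from ?_)
  interval_cases pB w v <;> omega

universe u

variable {F V : Type u} [Field F] [AddCommGroup V] [Module F V] {Q : QuadraticForm F V}

/-- The vector with the given bits as coordinates. -/
def io8 (F : Type u) [Field F] [Module F V] (x : ℕ → V) (n : ℕ) : V :=
  ∑ i ∈ Finset.range 8, ((n.testBit i).toNat : F) • x i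

/-- A normalised basis. -/
structure B8 (Q : QuadraticForm F V) (j : ℕ) (x : ℕ → V) : Prop where
  h2 : (2 : F) = 0
  hj : j < 2
  p : ∀ i < 8, ∀ k < 8, polar Q (x i) (x k) = if k = (i + 4) % 8 then 1 else 0
  q : ∀ i < 8, Q (x i) = qf j (2 ^ i)
  sp : ∀ v, ∃ n < 256, io8 F x n = v

namespace B8

variable {j : ℕ} {x : ℕ → V}

theorem cast2 (h : B8 Q j x) (n : ℕ) : ((n % 2 : ℕ) : F) = n := by
  conv_rhs => rw [← Nat.mod_add_div n 2]
  push_cast
  rw [h.h2, zero_mul, add_zero]

theorem xor (h : B8 Q j x) (n k : ℕ) : io8 F x (n ^^^ k) = io8 F x n + io8 F x k := by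
  unfold io8
  rw [← Finset.sum_add_distrib]
  refine Finset.sum_congr rfl fun i _ => ?_
  rw [Nat.testBit_xor, ← add_smul]
  have := h.h2
  cases n.testBit i <;> cases k.testBit i <;> simp [one_add_one_eq_two, this]

theorem pow {i : ℕ} (hi : i < 8) : io8 F x (2 ^ i) = x i := by
  unfold io8
  rw [Finset.sum_eq_single i (fun k _ hk => by simp [Nat.testBit_two_pow, hk.symm])
    (by simp [hi])]
  simp

theorem pol (h : B8 Q j x) {w v : ℕ} (hw : w < 256) (hv : v < 256) :
    polar Q (io8 F x w) (io8 F x v) = pB w v := by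
  rw [pB_eq w hw v hv, h.cast2, io8, p_sum_left, Nat.cast_sum]
  refine Finset.sum_congr rfl fun i hi => ?_
  rw [p_smul_left, io8, p_sum_right, Finset.sum_eq_single ((i + 4) % 8) (fun k hk e => by
    rw [p_smul_right, h.p i (Finset.mem_range.1 hi) k (Finset.mem_range.1 hk), if_neg e, mul_zero])
    (fun e => absurd (Finset.mem_range.2 (Nat.mod_lt _ (by omega))) e), p_smul_right,
    h.p i (Finset.mem_range.1 hi) _ (Nat.mod_lt _ (by omega)), if_pos rfl, mul_one, Nat.cast_mul]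

theorem qq (h : B8 Q j x) (n : ℕ) : n < 256 → Q (io8 F x n) = qf j n := by
  induction n using Nat.strong_induction_on with
  | _ n ih =>
  intro hn
  rcases qf_step j h.hj n hn with rfl | ⟨i, hi, k1, k2⟩
  · rw [show qf j 0 = 0 by have := h.hj; interval_cases j <;> rfl]; simp [io8]
  have e : n = (n ^^^ 2 ^ i) ^^^ 2 ^ i := by rw [Nat.xor_assoc, Nat.xor_self, Nat.xor_zero]
  have lt : 2 ^ i < 256 := Nat.pow_lt_pow_right (by omega) hi
  rw [k2, h.cast2]
  conv_lhs => rw [e, h.xor, q_add, ih _ k1 (by omega), h.pol (by omega) lt, pow hi, h.q i hi]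
  push_cast; rfl

theorem inj (h : B8 Q j x) {a b : ℕ} (ha : a < 2) (hb : b < 2) (e : (a : F) = b) : a = b := by
  interval_cases a <;> interval_cases b <;> simp_all

theorem rfl1 (h : B8 Q j x) {w v : ℕ} (hw : w < 256) (hv : v < 256) (q : qf j w = 1) :
    (refl Q (io8 F x w)).1 (io8 F x v) = io8 F x (rf w v) := by
  have : pB w v < 2 := by rw [pB_eq w hw v hv]; omega
  rw [refl_apply, h.qq w hw, q, h.pol hw hv, show rf w v = v ^^^ (pB w v * w) from rfl, h.xor,
    Nat.cast_one, inv_one, one_mul,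
    sub_eq_add_neg, ← neg_smul]
  have e : (-1 : F) = 1 := by linear_combination -h.h2
  interval_cases pB w v <;> simp [io8, e]

/-- The product of the listed reflections. -/
def pr (Q : QuadraticForm F V) (x : ℕ → V) (l : List ℕ) : OG Q :=
  ((l.map (io8 F x)).map (refl Q)).prod

theorem app (h : B8 Q j x) : ∀ {l : List ℕ}, okL j l = true → ∀ {v : ℕ}, v < 256 →
    al l v < 256 ∧ (pr Q x l).1 (io8 F x v) = io8 F x (al l v)
  | [], _, _, hv => ⟨hv, rfl⟩
  | w :: l, hl, v, hv => by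
    simp only [okL, List.all_cons, Bool.and_eq_true, decide_eq_true_eq, beq_iff_eq] at hl
    obtain ⟨k1, k2⟩ := app h (l := l) hl.2 hv
    refine ⟨rf_lt hl.1.1 k1, ?_⟩
    change (refl Q (io8 F x w)).1 ((pr Q x l).1 _) = _
    rw [k2, h.rfl1 hl.1.1 k1 hl.1.2]; rfl

theorem ext (h : B8 Q j x) {g k : OG Q} (e : ∀ v ∈ [1, 2, 4, 8, 16, 32, 64, 128],
    g.1 (io8 F x v) = k.1 (io8 F x v)) : g = k := OG.ext fun v => by
  obtain ⟨n, -, rfl⟩ := h.sp v
  rw [io8, map_sum, map_sum]
  refine Finset.sum_congr rfl fun i hi => ?_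
  have hi := Finset.mem_range.1 hi
  rw [map_smul, map_smul, ← pow (F := F) (x := x) hi, e _ (by interval_cases i <;> simp)]

variable [FiniteDimensional F V]

theorem even (h : B8 Q j x) (hQ : ND Q) {l : List ℕ} (hl : okL j l = true) :
    Even (rk (pr Q x l)) ↔ Even l.length := by
  rw [pr, hQ.even_rk_list, List.length_map]
  intro v hv
  obtain ⟨w, hw, rfl⟩ := List.mem_map.1 hv
  simp only [okL, List.all_eq_true, Bool.and_eq_true, decide_eq_true_eq, beq_iff_eq] at hl
  rw [h.qq w (hl w hw).1, (hl w hw).2]; simp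

theorem cmo [Finite F] (h : B8 Q j x) (hQ : ND Q) (G : Good F V) {l : List ℕ} (hl : okL j l = true)
    {c : ℕ} (hc : chk j l c = true) : Cmo (pr Q x l) := by
  simp only [chk, Bool.and_eq_true, List.all_eq_true, beq_iff_eq] at hc
  obtain ⟨⟨h1, h2⟩, h3⟩ := hc
  refine ⟨pr Q x (dec4 c), ?_, pr Q x (dec4 (Nat.shiftRight c 32)), ?_, ?_⟩
  · rw [hQ.mem_commutator_iff_char_two G h.h2, h.even hQ h1]; simp [dec4]; decide
  · rw [hQ.mem_commutator_iff_char_two G h.h2, h.even hQ h2]; simp [dec4]; decide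
  rw [eq_mul_inv_iff_mul_eq, eq_mul_inv_iff_mul_eq]
  refine h.ext fun v hv => ?_
  have lt : v < 256 := by simp at hv; omega
  simp only [OG.mul_apply]
  rw [(h.app h1 lt).2, (h.app h2 (h.app h1 lt).1).2, (h.app hl (h.app h2 (h.app h1 lt).1).1).2,
    (h.app h2 lt).2, (h.app h1 (h.app h2 lt).1).2, h3 v hv]

theorem listed (h : B8 Q j x) {L : List (List ℕ)} {f : ℕ → ℕ → ℕ} {G : List ℕ → List ℕ}
    (hL : allL j L f G = true) (hf : ∀ i < 4, ∀ a < 16, f i a < 256) (s : OG Q) (a : ℕ → ℕ)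
    (ha : ∀ i < 4, a i < 16) (h1 : ∀ i < 4, s.1 (io8 F x (f i 0)) = io8 F x (f i (a i)))
    (h2 : ∀ i < 4, ∀ k < 4, pB (f i 0) (f k 0) = 0)
    (h3 : [1, 2, 4, 8, 16, 32, 64, 128].map (fun v => s.1 (io8 F x v)) =
      (G [f 0 (a 0), f 1 (a 1), f 2 (a 2), f 3 (a 3)]).map (io8 F x)) :
    ∃ l ∈ L, okL j l = true ∧ s = pr Q x l := by
  have q : ∀ i < 4, qf j (f i (a i)) = qf j (f i 0) := fun i hi =>
    h.inj (Nat.mod_lt _ (by omega)) (Nat.mod_lt _ (by omega)) (by
      rw [← h.qq _ (hf i hi _ (ha i hi)), ← h.qq _ (hf i hi 0 (by omega)), ← h1 i hi, OG.map_Q])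
  have p : ∀ i < 4, ∀ k < 4, pB (f i (a i)) (f k (a k)) = 0 := fun i hi k hk =>
    h.inj (by rw [pB_eq _ (hf i hi _ (ha i hi)) _ (hf k hk _ (ha k hk))]; omega) (by omega) (by
      rw [← h.pol (hf i hi _ (ha i hi)) (hf k hk _ (ha k hk)), ← h1 i hi, ← h1 k hk, OG.map_polar,
        h.pol (hf i hi 0 (by omega)) (hf k hk 0 (by omega)), h2 i hi k hk])
  simp only [allL, Bool.and_eq_true, List.all_eq_true, List.mem_range, Bool.or_eq_true,
    bne_iff_ne, ne_eq] at hL
  obtain ⟨k0, k⟩ := hL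
  have k := ((k _ (ha 0 (by omega))).resolve_left (by simp [q])) _ (ha 1 (by omega))
  have k := (k.resolve_left (by simp [q, p])) _ (ha 2 (by omega))
  have k := (k.resolve_left (by simp [q, p])) _ (ha 3 (by omega))
  have k := k.resolve_left (by simp [q, p])
  simp only [lst, List.any_eq_true, beq_iff_eq] at k
  obtain ⟨l, l1, l2⟩ := k
  refine ⟨l, l1, k0 l l1, h.ext fun v hv => ?_⟩
  rw [← l2, List.map_map, List.map_inj_left] at h3
  rw [h3 v hv, (h.app (k0 l l1) (by simp at hv; omega)).2]; rfl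

end B8

end Cfsg.Agent.OreO
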