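import Mathlib
import Cfsg.Agent.Elu.O8p10
import Cfsg.Agent.Elu.O8p11

/-! Commutator tables. -/

set_option autoImplicit false
set_option maxRecDepth 100000

namespace Cfsg.Agent.OreO.T1

theorem all : ∀ ls ∈ LS, ∀ lt ∈ LT, (lt ++ ls).length % 2 = 1 ∨ ∃ c, chk 1 (lt ++ ls) c = true := by
  intro ls h
  rw [show LS = ((List.range 32).map fun i => (LS.drop (4 * i)).take 4).flatten by decide +kernel,
    List.mem_flatten] at h
  obtain ⟨l, h1, h⟩ := h
  obtain ⟨i, hi, rfl⟩ := List.mem_map.1 h1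
  rw [List.mem_range] at hi
  interval_cases i
  exacts [tabOk_spec t0 ls h,
    tabOk_spec t1 ls h,
    tabOk_spec t2 ls h,
    tabOk_spec t3 ls h,
    tabOk_spec t4 ls h,
    tabOk_spec t5 ls h,
    tabOk_spec t6 ls h,
    tabOk_spec t7 ls h,
    tabOk_spec t8 ls h,
    tabOk_spec t9 ls h,
    tabOk_spec t10 ls h,
    tabOk_spec t11 ls h,
    tabOk_spec t12 ls h,
    tabOk_spec t13 ls h,
    tabOk_spec t14 ls h,
    tabOk_spec t15 ls h,
    tabOk_spec t16 ls h,
    tabOk_spec t17 ls h,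
    tabOk_spec t18 ls h,
    tabOk_spec t19 ls h,
    tabOk_spec t20 ls h,
    tabOk_spec t21 ls h,
    tabOk_spec t22 ls h,
    tabOk_spec t23 ls h,
    tabOk_spec t24 ls h,
    tabOk_spec t25 ls h,
    tabOk_spec t26 ls h,
    tabOk_spec t27 ls h,
    tabOk_spec t28 ls h,
    tabOk_spec t29 ls h,
    tabOk_spec t30 ls h,
    tabOk_spec t31 ls h]

end Cfsg.Agent.OreO.T1
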