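import Mathlib
import Cfsg.Agent.Elu.OmD

/-! Commutators in orthogonal groups of even dimension and odd characteristic. -/

set_option autoImplicit false
set_option backward.isDefEq.respectTransparency false

namespace Cfsg.Agent.OreO

open QuadraticMap Module Cfsg.Agent.Orth

universe u

variable {F V : Type u} [Field F] [AddCommGroup V] [Module F V] {Q : QuadraticForm F V}
  {s t k : OG Q} [FiniteDimensional F V]

/-- The defect map of a conjugating isometry. -/
def Ph (s t k : OG Q) : mov s →ₗ[F] V :=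
  ((2 : F) • (k.1 : V →ₗ[F] V) - (LinearMap.id - (t.1 : V →ₗ[F] V))) ∘ₗ (mov s).subtype

omit [FiniteDimensional F V] in
theorem Ph_apply (a : mov s) : Ph s t k a = (2 : F) • k.1 a - (a - t.1 a) := rfl

theorem exists_good (hQ : ND Q) (h2 : (2 : F) ≠ 0) (hs : s * s = 1) (r : 3 ≤ rk s) (j : ℕ) :
    ∀ k : OG Q, k * s * k⁻¹ = t → finrank F (LinearMap.ker (Ph s t k)) = j →
      ∃ k : OG Q, k * s * k⁻¹ = t ∧ ∀ a, Ph s t k a = 0 → a = 0 := by
  induction j using Nat.strong_induction_on with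
  | _ j ih =>
    intro k hk hj
    by_cases h0 : ∀ a, Ph s t k a = 0 → a = 0
    · exact ⟨k, hk, h0⟩
    push Not at h0
    obtain ⟨a, a1, a2⟩ := h0
    have nd := (nd_restrict_iff _).2 (nd_mov hQ h2 hs)
    obtain ⟨c, c1, c2, c3⟩ := ns_avoid2 h2 nd r (A := perp _ (Submodule.span F {a}))
      (B := (LinearMap.range (Ph s t k)).comap ((k.1 : V →ₗ[F] V) ∘ₗ (mov s).subtype))
      (fun e => a2 (nd a fun y => mem_perp_singleton.1 (e ▸ trivial : y ∈ perp _ _))) (fun e => by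
        have e1 := LinearMap.finrank_range_add_finrank_ker (Ph s t k)
        have e2 := LinearMap.finrank_le_finrank_of_injective (f := LinearMap.codRestrict
          (LinearMap.range (Ph s t k)) ((k.1 : V →ₗ[F] V) ∘ₗ (mov s).subtype)
          (fun x => Submodule.eq_top_iff'.1 e x)) (fun x y h =>
            Subtype.ext (k.1.injective (congrArg Subtype.val h)))
        have e3 : finrank F (LinearMap.ker (Ph s t k)) ≠ 0 := fun z =>
          a2 ((Submodule.eq_bot_iff _).1 (Submodule.finrank_eq_zero.1 z) a a1)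
        omega)
    have c1 : Q c.1 ≠ 0 := c1
    have up : ∀ x : mov s, Ph s t (k * refl Q c) x =
        Ph s t k x - (2 * ((Q c.1)⁻¹ * polar Q c.1 x)) • k.1 c := fun x => by
      rw [Ph_apply, Ph_apply, OG.mul_apply, refl_apply, map_sub, map_smul]; module
    have key : ∀ x : mov s, Ph s t (k * refl Q c) x = 0 → polar Q c.1 x = 0 := fun x hx => by
      by_contra n
      have n' : 2 * ((Q c.1)⁻¹ * polar Q c.1 x) ≠ 0 := by simp [h2, c1, n]
      rw [up, sub_eq_zero] at hx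
      exact c3 ⟨(2 * ((Q c.1)⁻¹ * polar Q c.1 x))⁻¹ • x, by
        rw [map_smul, hx, inv_smul_smul₀ n']; rfl⟩
    have lt : LinearMap.ker (Ph s t (k * refl Q c)) < LinearMap.ker (Ph s t k) := by
      refine lt_of_le_of_ne (fun x hx => ?_) fun e => c2 (mem_perp_singleton.2 ?_)
      · have := up x
        rwa [key x hx, LinearMap.mem_ker.1 hx, mul_zero, mul_zero, zero_smul, sub_zero,
          eq_comm] at this
      · rw [polar_comm]; exact key a (e.ge a1)
    refine ih _ (hj ▸ Submodule.finrank_lt_finrank_of_lt lt) (k * refl Q c) ?_ rfl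
    rw [mul_assoc k, refl_comm (Or.inr ((mem_mov_iff h2 hs).1 c.2)), ← hk]; group

theorem good_two (hQ : ND Q) (h2 : (2 : F) ≠ 0) (hs : s * s = 1) (ht : t * t = 1)
    (hk : k * s * k⁻¹ = t) (h : ∀ a, Ph s t k a = 0 → a = 0) {a : V} (a1 : s.1 a = -a)
    (a2 : (2 : F) • a = k.1 a - s.1 (k.1 a)) : a = 0 := by
  have km : ∀ a, s.1 a = -a → t.1 (k.1 a) = -k.1 a := fun a h => by rw [conj_apply hk, h, map_neg]
  have sj := (LinearMap.injective_iff_surjective_of_finrank_eq_finrank (f := LinearMap.codRestrict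
    (mov t) (Ph s t k) (fun x => (mem_mov_iff h2 ht).2 (by
      rw [Ph_apply, map_sub, map_smul, km _ ((mem_mov_iff h2 hs).1 x.2), map_sub, ss ht]; module)))
    (show rk s = rk t by rw [← hk, rk_conj])).1
    ((injective_iff_map_eq_zero _).2 fun x e => h x (congrArg Subtype.val e))
  rw [← OG.apply_eq_zero k]
  refine (Submodule.eq_bot_iff _).1 (nd_mov hQ h2 ht) _ ⟨(mem_mov_iff h2 ht).2 (km a a1),
    mem_perp.2 fun w hw => ?_⟩
  obtain ⟨x, e⟩ := sj ⟨w, hw⟩
  have e : Ph s t k x = w := congrArg Subtype.val e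
  have := congrArg (polar Q x.1) a2
  rw [p_smul_right, polar_sub_right, ← sa hs, (mem_mov_iff h2 hs).1 x.2, polar_neg_left] at this
  rw [← e, Ph_apply, polar_sub_left, polar_sub_left, p_smul_left, OG.map_polar, sa ht, km a a1,
    polar_neg_right]
  linear_combination this

omit [FiniteDimensional F V] in
theorem gv_of {u : V} (e : k.1 (u - s.1 u) = u - t.1 u) (n : s.1 u = -u ↔ t.1 u = -u) :
    Gv s t u := by
  refine ⟨?_, ⟨fun a => ?_, fun a => ?_⟩, n⟩
  · have a0 := congrArg Q e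
    rwa [OG.map_Q, q_sub, q_sub, OG.map_Q, OG.map_Q, sub_right_inj] at a0
  · rw [a, sub_self, map_zero, eq_comm, sub_eq_zero] at e; exact e.symm
  · rw [a, sub_self, OG.apply_eq_zero, sub_eq_zero] at e; exact e.symm

omit [FiniteDimensional F V] in
theorem un_of_disc [Finite F] (h2 : (2 : F) ≠ 0) {x y : V} (x0 : Q x ≠ 0)
    (h : 4 * Q x * Q y - polar Q x y * polar Q x y ≠ 0) (c : F) :
    ∃ a b : F, Q (a • x + b • y) = c := by
  obtain ⟨v, v1, v2⟩ := univ2 h2 (W := Submodule.span F {x, y}) (x := x)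
    (y := y - (polar Q x y / (2 * Q x)) • x) (Submodule.subset_span (by simp))
    (Submodule.sub_mem _ (Submodule.subset_span (by simp))
      (Submodule.smul_mem _ _ (Submodule.subset_span (by simp)))) x0 (fun e => h (by
      rw [q_sub, q_smul, p_smul_right, polar_comm Q y] at e
      field_simp at e
      linear_combination e)) (by rw [polar_sub_right, p_smul_right, p_self]; field_simp; ring) c
  obtain ⟨a, b, rfl⟩ := Submodule.mem_span_pair.1 v1
  exact ⟨a, b, v2⟩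

theorem pig {A1 A2 A3 B1 B2 B3 : Prop} (i1 : ¬ A1 → B1) (i2 : ¬ A2 → B2) (i3 : ¬ A3 → B3)
    (j1 : A1 → A2 → False) (j2 : A1 → A3 → False) (j3 : A2 → A3 → False)
    (j4 : B1 → B2 → False) (j5 : B1 → B3 → False) (j6 : B2 → B3 → False) : False := by tauto

/-- The data of a transversal graph. -/
structure Fr (s t k : OG Q) (E p : V →ₗ[F] V) : Prop where
  hs : s * s = 1
  ht : t * t = 1
  hk : k * s * k⁻¹ = t
  E2 : ∀ u, s.1 (E u) - t.1 (E u) = u
  sp : ∀ a b, s.1 a = -a → t.1 b = -b →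
    E (b - a) - s.1 (E (b - a)) = a ∧ E (b - a) - t.1 (E (b - a)) = b
  pd : ∀ a, p a = E (k.1 a - a)
  p1 : ∀ a, s.1 a = -a → p a - s.1 (p a) = a ∧ p a - t.1 (p a) = k.1 a
  g1 : ∀ a, s.1 a = -a → s.1 (p a) = -p a → a = 0
  g2 : ∀ a, s.1 a = -a → t.1 (p a) = -p a → a = 0

theorem exists_fr (hQ : ND Q) (h2 : (2 : F) ≠ 0) (h : C3 s t 0) (r : 4 ≤ rk s)
    (hk : k * s * k⁻¹ = t) : ∃ k E p, Fr s t k E p := by
  obtain ⟨k, hk, N1⟩ := exists_good hQ h2 h.hs (by omega) _ k hk rfl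
  have hs := h.hs
  have ht := h.ht
  have mv := fun x => mem_mov_iff h2 hs (x := x)
  have km : ∀ a, s.1 a = -a → t.1 (k.1 a) = -k.1 a := fun a h => by rw [conj_apply hk, h, map_neg]
  have inj : Function.Injective ((s.1 : V →ₗ[F] V) - (t.1 : V →ₗ[F] V)) :=
    (injective_iff_map_eq_zero _).2 fun x e => h.K x (sub_eq_zero.1 e) (by simp)
  let E := (LinearEquiv.ofInjectiveEndo _ inj).symm
  have E1 : ∀ u, E (s.1 u - t.1 u) = u := fun u => (LinearEquiv.ofInjectiveEndo _ inj).symm_apply_apply u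
  have E2 : ∀ u, s.1 (E u) - t.1 (E u) = u := fun u => (LinearEquiv.ofInjectiveEndo _ inj).apply_symm_apply u
  have sp : ∀ a b, s.1 a = -a → t.1 b = -b →
      E (b - a) - s.1 (E (b - a)) = a ∧ E (b - a) - t.1 (E (b - a)) = b := fun a b ha hb => by
    obtain ⟨u, -, u1, u2⟩ := h.solve hQ h2 ha hb
    rw [show b - a = s.1 u - t.1 u by rw [← u1, ← u2]; abel, E1]
    exact ⟨u1, u2⟩
  let p : V →ₗ[F] V := (E : V →ₗ[F] V) ∘ₗ ((k.1 : V →ₗ[F] V) - LinearMap.id)
  have p1 : ∀ a, s.1 a = -a → p a - s.1 (p a) = a ∧ p a - t.1 (p a) = k.1 a :=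
    fun a ha => sp a _ ha (km a ha)
  have g1 : ∀ a, s.1 a = -a → s.1 (p a) = -p a → a = 0 := fun a ha e => by
    obtain ⟨e1, e2⟩ := p1 a ha
    rw [e] at e1
    refine congrArg Subtype.val (N1 ⟨a, (mv a).2 ha⟩ ?_)
    have e3 := congrArg t.1 e1
    rw [map_sub, map_neg] at e3
    rw [Ph_apply]
    linear_combination (norm := module) -(2 : F) • e2 + e1 - e3
  have g2 : ∀ a, s.1 a = -a → t.1 (p a) = -p a → a = 0 := fun a ha e => by
    obtain ⟨e1, e2⟩ := p1 a ha
    rw [e] at e2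
    have e3 := congrArg s.1 e2
    rw [map_sub, map_neg] at e3
    exact good_two hQ h2 hs ht hk N1 ha
      (by linear_combination (norm := module) -(2 : F) • e1 + e2 - e3)
  exact ⟨k, E, p, hs, ht, hk, E2, sp, fun _ => rfl, p1, g1, g2⟩

namespace Fr

variable {E p : V →ₗ[F] V}

omit [FiniteDimensional F V] in
theorem gp (h : Fr s t k E p) (a : V) (ha : s.1 a = -a) : Gv s t (p a) :=
  gv_of (k := k) (by rw [(h.p1 a ha).1, (h.p1 a ha).2])
    ⟨fun e => by simp [h.g1 a ha e], fun e => by simp [h.g2 a ha e]⟩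

variable [Finite F]

theorem ad (hQ : ND Q) (h2 : (2 : F) ≠ 0) (hs : s * s = 1) (r : 4 ≤ rk s) {x y a b : V}
    (ha : x - s.1 x = a) (hb : y - s.1 y = b) (a0 : Q a ≠ 0) (b0 : Q b ≠ 0) (o : polar Q a b = 0)
    (c : F) : ∃ z, Q z = c ∧ (s.1 z = z ∨ s.1 z = -z) ∧ polar Q z x = 0 ∧ polar Q z y = 0 := by
  have four : (4 : F) ≠ 0 := by rw [show (4 : F) = 2 * 2 by norm_num]; exact mul_ne_zero h2 h2
  obtain ⟨z, z1, z2, z3⟩ := cent_refl2 hQ h2 hs r ha hb (by simp [o, four, a0, b0]) c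
  exact ⟨z, z1, Or.inr z2, z3⟩

theorem alt (h : Fr s t k E p) (hQ : ND Q) (h2 : (2 : F) ≠ 0) (r : 4 ≤ rk s) :
    (∃ a, s.1 a = -a ∧ Q a ≠ 0 ∧ ∀ b, s.1 b = -b → polar Q (p a) (p b) = 0) ∨
      ∃ x y, Pl s t x y := by
  obtain ⟨hs, ht, hk, E2, sp, pd, p1, g1, g2⟩ := id h
  have mv := fun x => mem_mov_iff h2 hs (x := x)
  have km : ∀ a, s.1 a = -a → t.1 (k.1 a) = -k.1 a := fun a h => by rw [conj_apply hk, h, map_neg]
  have nd := nd_mov hQ h2 hs
  have four : (4 : F) ≠ 0 := by rw [show (4 : F) = 2 * 2 by norm_num]; exact mul_ne_zero h2 h2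
  by_cases hA : ∃ a ∈ mov s, Q (p a) ≠ 0
  swap
  · push Not at hA
    obtain ⟨a, a1, a2⟩ := exists_Q_sub nd (by unfold rk at r; omega) 1
    refine Or.inl ⟨a, (mv a).1 a1, by simp [a2], fun b hb => ?_⟩
    have := hA _ ((mov s).add_mem a1 ((mv b).2 hb))
    rwa [map_add, q_add, hA a a1, hA b ((mv b).2 hb), zero_add, zero_add] at this
  obtain ⟨a, a1, a2⟩ := hA
  obtain ⟨a, a1, a2, a3⟩ := prodW h2 nd (by unfold rk at r; omega) (Q.comp p) a1 a2
  have a3 : Q (p a) ≠ 0 := a3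
  obtain ⟨n1, n2⟩ := nd_inf h2 nd a1 a2
  let l : V →ₗ[F] F := Q.polarBilin (p a) ∘ₗ p
  let Δ : QuadraticForm F V := (4 * Q (p a)) • Q.comp p - linMulLin l l
  have Δ1 : ∀ b, Δ b = 4 * Q (p a) * Q (p b) - polar Q (p a) (p b) * polar Q (p a) (p b) :=
    fun b => rfl
  by_cases hB : ∃ b ∈ mov s ⊓ perp Q (Submodule.span F {a}), Δ b ≠ 0
  · obtain ⟨b, b1, b2⟩ := hB
    obtain ⟨b, b1, b2, b3⟩ := prodW h2 n1 (by unfold rk at r; omega) Δ b1 b2
    refine Or.inr ⟨p a, p b, fun α β => ?_, un_of_disc h2 a3 b3,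
      ad hQ h2 hs r (p1 a ((mv a).1 a1)).1 (p1 b ((mv b).1 b1.1)).1 a2 b2 (mem_perp_singleton.1 b1.2)⟩
    rw [← map_smul, ← map_smul, ← map_add]
    exact h.gp _ ((mv _).1 ((mov s).add_mem ((mov s).smul_mem _ a1) ((mov s).smul_mem _ b1.1)))
  push Not at hB
  have z : ∀ b ∈ mov s, polar Q (p a) (p b) = 0 → Q (p b) = 0 := fun b hb e => by
    have := hB (b - (polar Q a b / (2 * Q a)) • a) ⟨(mov s).sub_mem hb ((mov s).smul_mem _ a1),
      mem_perp_singleton.2 (by rw [polar_sub_right, p_smul_right, p_self]; field_simp; ring)⟩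
    rw [Δ1, map_sub, map_smul, q_sub, q_smul, polar_sub_right, p_smul_right, p_smul_right,
      polar_comm Q (p b), e, p_self] at this
    have e' : 4 * Q (p a) * Q (p b) = 0 := by linear_combination this
    simpa [four, a3] using e'
  obtain ⟨b, b1, b2, b3⟩ := ker_ns h2 nd r l
  have b2 : polar Q (p a) (p b) = 0 := b2
  refine Or.inl ⟨b, (mv b).1 b1, by simp [b3], fun d hd => ?_⟩
  have d1 := (mov s).sub_mem ((mv d).2 hd) ((mov s).smul_mem (polar Q (p a) (p d) / (2 * Q (p a))) a1)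
  have d2 : polar Q (p a) (p (d - (polar Q (p a) (p d) / (2 * Q (p a))) • a)) = 0 := by
    rw [map_sub, map_smul, polar_sub_right, p_smul_right, p_self]; field_simp; ring
  have := z _ ((mov s).add_mem b1 d1) (by rw [map_add, polar_add_right, b2, d2, add_zero])
  rwa [map_add, q_add, z b b1 b2, z _ d1 d2, zero_add, zero_add, map_sub, map_smul,
    polar_sub_right, p_smul_right, polar_comm Q (p b) (p a), b2, mul_zero, sub_zero] at this

omit [Finite F] in
theorem ex (h : Fr s t k E p) (hQ : ND Q) (h2 : (2 : F) ≠ 0) {a : V} (a1 : s.1 a = -a)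
    (a0 : Q a ≠ 0) (a2 : ∀ b, s.1 b = -b → polar Q (p a) (p b) = 0) {l : V →ₗ[F] F}
    (l1 : ∀ c, l c = polar Q (p a) (E (-k.1 c - c))) :
    ∃ c ∈ mov s ⊓ perp Q (Submodule.span F {a}), l c ≠ 0 := by
  obtain ⟨hs, ht, hk, E2, sp, pd, p1, g1, g2⟩ := id h
  have mv := fun x => mem_mov_iff h2 hs (x := x)
  have km : ∀ a, s.1 a = -a → t.1 (k.1 a) = -k.1 a := fun a h => by rw [conj_apply hk, h, map_neg]
  have four : (4 : F) ≠ 0 := by rw [show (4 : F) = 2 * 2 by norm_num]; exact mul_ne_zero h2 h2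
  have am := (mv a).2 a1
  by_contra hc
  push Not at hc
  obtain ⟨μ, hμ⟩ : ∃ μ, ∀ c ∈ mov s, l c = 2 * μ * polar Q a c :=
    ⟨l a / (4 * Q a), fun c cm => by
      have := hc (c - (polar Q a c / (2 * Q a)) • a) ⟨(mov s).sub_mem cm ((mov s).smul_mem _ am),
        mem_perp_singleton.2 (by rw [polar_sub_right, p_smul_right, p_self]; field_simp; ring)⟩
      rw [map_sub, map_smul, sub_eq_zero] at this
      rw [this, smul_eq_mul]; field_simp; ring⟩
  obtain ⟨y, hy⟩ : ∃ y, y = E (p a) := ⟨_, rfl⟩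
  have y1 : ∀ w, polar Q (p a) (E w) = polar Q y w := fun w => by
    rw [← E2 (p a), ← hy, polar_sub_left, sa hs, sa ht, ← polar_sub_right, E2]
  have y2 : ∀ c ∈ mov s, polar Q y c = -μ * polar Q a c ∧ polar Q y (k.1 c) = -μ * polar Q a c :=
    fun c cm => by
      have k1 := hμ c cm
      have k2 : polar Q (p a) (E (k.1 c - c)) = 0 := pd c ▸ a2 c ((mv c).1 cm)
      rw [l1, y1, polar_sub_right, polar_neg_right] at k1
      rw [y1, polar_sub_right] at k2
      exact ⟨mul_left_cancel₀ h2 (by linear_combination -k1 - k2),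
        mul_left_cancel₀ h2 (by linear_combination k2 - k1)⟩
  have y3 : y + μ • a ∈ fix s := by
    rw [← hQ.perp_mov, mem_perp']
    intro w hw
    rw [polar_add_left, p_smul_left, (y2 w hw).1]; ring
  have y4 : y + μ • k.1 a ∈ fix t := by
    rw [← hQ.perp_mov, mem_perp']
    intro w hw
    obtain ⟨w, rfl⟩ := k.1.surjective w
    rw [mem_mov_iff h2 ht, conj_apply hk, ← map_neg, k.1.injective.eq_iff] at hw
    rw [polar_add_left, p_smul_left, (y2 w ((mv w).2 hw)).2, OG.map_polar]; ring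
  rw [mem_fix, map_add, map_smul] at y3 y4
  rw [a1] at y3
  rw [km a a1] at y4
  have x0 : p a = (2 * μ) • (a - k.1 a) := by
    rw [← E2 (p a), ← hy]; linear_combination (norm := module) y3 - y4
  obtain ⟨e1, e2⟩ := p1 a a1
  have e3 := congrArg (polar Q a) e1
  have e4 := congrArg (polar Q (k.1 a)) e2
  rw [polar_sub_right, ← sa hs, a1, polar_neg_left, x0, p_smul_right, polar_sub_right, p_self] at e3
  rw [polar_sub_right, ← sa ht, km a a1, polar_neg_left, x0, p_smul_right, polar_sub_right, p_self,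
    OG.map_Q, polar_comm] at e4
  have : 4 * Q a = 0 := by linear_combination -e3 - e4
  simp [four, a0] at this

theorem last (h : Fr s t k E p) (hQ : ND Q) (h2 : (2 : F) ≠ 0) (r : 4 ≤ rk s) {a : V}
    (a1 : s.1 a = -a) (a0 : Q a ≠ 0) (a2 : ∀ b, s.1 b = -b → polar Q (p a) (p b) = 0) :
    ∃ x y, Pl s t x y := by
  obtain ⟨hs, ht, hk, E2, sp, pd, p1, g1, g2⟩ := id h
  have mv := fun x => mem_mov_iff h2 hs (x := x)
  have km : ∀ a, s.1 a = -a → t.1 (k.1 a) = -k.1 a := fun a h => by rw [conj_apply hk, h, map_neg]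
  have nd := nd_mov hQ h2 hs
  have four : (4 : F) ≠ 0 := by rw [show (4 : F) = 2 * 2 by norm_num]; exact mul_ne_zero h2 h2
  have am := (mv a).2 a1
  obtain ⟨n1, n2⟩ := nd_inf h2 nd am a0
  obtain ⟨l, l1⟩ : ∃ l : V →ₗ[F] F, ∀ c, l c = polar Q (p a) (E (-k.1 c - c)) :=
    ⟨Q.polarBilin (p a) ∘ₗ E ∘ₗ (-(k.1 : V →ₗ[F] V) - LinearMap.id), fun _ => rfl⟩
  obtain ⟨c, c1, c2⟩ := h.ex hQ h2 a1 a0 a2 l1
  obtain ⟨c, c1, c0, c2⟩ := prodW h2 n1 (by unfold rk at r; omega) (linMulLin l l) c1 (by simpa using c2)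
  have c2 : l c ≠ 0 := by simpa using c2
  have ac : polar Q a c = 0 := mem_perp_singleton.1 c1.2
  have c3 := (mv c).1 c1.1
  obtain ⟨w0, w1, w2, w3, w4⟩ := sub_perp2 nd r am c1.1 (by simp [ac, four, a0, c0]) (Q c)
  obtain ⟨n, hn⟩ : ∃ n, n = E (-k.1 c - c) := ⟨_, rfl⟩
  have uq : ∀ s' : OG Q, (∀ a, s.1 a = -a → s'.1 (p a) = -p a → a = 0) → ∀ w w', w ∈ mov s →
      w' ∈ mov s → polar Q a w = 0 → polar Q a w' = 0 →
      (∃ α : F, s'.1 (n + p (w + α • a)) = -(n + p (w + α • a))) →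
      (∃ α : F, s'.1 (n + p (w' + α • a)) = -(n + p (w' + α • a))) → w = w' := by
    rintro s' H w w' hw hw' o o' ⟨α, e⟩ ⟨α', e'⟩
    have := H (w + α • a - (w' + α' • a)) ((mv _).1 ((mov s).sub_mem ((mov s).add_mem hw
      ((mov s).smul_mem _ am)) ((mov s).add_mem hw' ((mov s).smul_mem _ am)))) (by
        rw [map_add] at e e'
        rw [map_sub, map_sub]; linear_combination (norm := module) e - e')
    have k := congrArg (polar Q a) this
    rw [polar_sub_right, polar_add_right, polar_add_right, o, o', p_smul_right, p_smul_right, p_self,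
      polar_zero_right] at k
    have k' : (α - α') * (2 * Q a) = 0 := by linear_combination k
    obtain rfl : α = α' := by simpa [h2, a0, sub_eq_zero] using k'
    simpa [sub_eq_zero] using this
  have w5 : w0 ≠ 0 := ne_zero_of_Q_ne_zero (w4 ▸ c0)
  obtain ⟨w, v1, v2, v3, v4, v5, v6⟩ : ∃ w ∈ mov s, polar Q a w = 0 ∧ polar Q c w = 0 ∧
      Q c + Q w ≠ 0 ∧ (¬ ∃ α : F, s.1 (n + p (w + α • a)) = -(n + p (w + α • a))) ∧
      ¬ ∃ α : F, t.1 (n + p (w + α • a)) = -(n + p (w + α • a)) := by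
    by_contra hc'
    have hc : ∀ w ∈ mov s, polar Q a w = 0 → polar Q c w = 0 → Q c + Q w ≠ 0 →
        (¬ ∃ α : F, s.1 (n + p (w + α • a)) = -(n + p (w + α • a))) →
        ∃ α : F, t.1 (n + p (w + α • a)) = -(n + p (w + α • a)) :=
      fun w u1 u2 u3 u4 u5 => by_contra fun u6 => hc' ⟨w, u1, u2, u3, u4, u5, u6⟩
    have q : Q c + Q c ≠ 0 := by rw [← two_mul]; exact mul_ne_zero h2 c0
    have i1 := hc 0 (zero_mem _) (by simp) (by simp) (by simpa using c0)
    have i2 := hc w0 w1 w2 w3 (w4 ▸ q)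
    have i3 := hc (-w0) (neg_mem w1) (by simp [w2]) (by simp [w3])
      (by rw [QuadraticMap.map_neg, w4]; exact q)
    have j1 := uq s g1 0 w0 (zero_mem _) w1 (by simp) w2
    have j2 := uq s g1 0 (-w0) (zero_mem _) (neg_mem w1) (by simp) (by simp [w2])
    have j3 := uq s g1 w0 (-w0) w1 (neg_mem w1) w2 (by simp [w2])
    have j4 := uq t g2 0 w0 (zero_mem _) w1 (by simp) w2
    have j5 := uq t g2 0 (-w0) (zero_mem _) (neg_mem w1) (by simp) (by simp [w2])
    have j6 := uq t g2 w0 (-w0) w1 (neg_mem w1) w2 (by simp [w2])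
    have d1 : 0 ≠ w0 := w5.symm
    have d2 : 0 ≠ -w0 := (neg_ne_zero.2 w5).symm
    have d3 : w0 ≠ -w0 := fun e => w5 (half h2 e)
    exact pig i1 i2 i3 (fun a b => d1 (j1 a b)) (fun a b => d2 (j2 a b)) (fun a b => d3 (j3 a b))
      (fun a b => d1 (j4 a b)) (fun a b => d2 (j5 a b)) (fun a b => d3 (j6 a b))
  obtain ⟨m1, m2⟩ := sp c (-k.1 c) c3 (by rw [map_neg, km c c3])
  rw [← hn] at m1 m2
  have v7 := (mv w).1 v1
  refine ⟨p a, n + p w, fun α β => ?_, fun d => ⟨(d - Q (n + p w)) / l c, 1, ?_⟩,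
    ad hQ h2 hs r (p1 a a1).1 (b := c + w) (by rw [map_add, add_sub_add_comm, m1, (p1 w v7).1]) a0
      (by rwa [q_add, v3, add_zero]) (by rw [polar_add_right, ac, v2, add_zero])⟩
  · by_cases b0 : β = 0
    · rw [b0, zero_smul, add_zero, ← map_smul]
      exact h.gp _ (by rw [map_smul, a1, smul_neg])
    have e : α • p a + β • (n + p w) = β • (n + p (w + (α / β) • a)) := by
      rw [map_add, map_smul]; match_scalars <;> field_simp
    have ng : ∀ s' : OG Q, s'.1 (α • p a + β • (n + p w)) = -(α • p a + β • (n + p w)) →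
        ∃ α : F, s'.1 (n + p (w + α • a)) = -(n + p (w + α • a)) := fun s' q =>
      ⟨α / β, smul_right_injective _ b0 (by simp only []; rw [← map_smul, smul_neg, ← e, q])⟩
    refine gv_of (k := k * refl Q c) ?_ (iff_of_false (fun q => v5 (ng s q)) fun q => v6 (ng t q))
    have f1 : α • p a + β • (n + p w) - s.1 (α • p a + β • (n + p w)) = α • a + β • (c + w) := by
      simp only [map_add, map_smul]
      linear_combination (norm := module) α • (p1 a a1).1 + β • m1 + β • (p1 w v7).1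
    have f2 : α • p a + β • (n + p w) - t.1 (α • p a + β • (n + p w)) =
        α • k.1 a + β • (-k.1 c + k.1 w) := by
      simp only [map_add, map_smul]
      linear_combination (norm := module) α • (p1 a a1).2 + β • m2 + β • (p1 w v7).2
    rw [f1, f2, OG.mul_apply]
    simp only [map_add, map_smul, refl_apply_self c0, refl_apply_of_orth v3,
      refl_apply_of_orth ((polar_comm Q c a).trans ac), map_neg]
  · have q0 : Q (p a) = 0 := by
      have := a2 a a1
      rw [p_self] at this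
      simpa [h2] using this
    rw [one_smul, q_add, q_smul, q0, p_smul_left, polar_add_right, a2 w v7, hn, ← l1]
    field_simp
    ring

end Fr

theorem pl_free [Finite F] (hQ : ND Q) (h2 : (2 : F) ≠ 0) (h : C3 s t 0) (r : 4 ≤ rk s)
    (hk : k * s * k⁻¹ = t) : ∃ x y, Pl s t x y := by
  obtain ⟨k, E, p, H⟩ := exists_fr hQ h2 h r hk
  obtain ⟨a, a1, a0, a2⟩ | H' := H.alt hQ h2 r
  · exact H.last hQ h2 r a1 a0 a2
  · exact H'

theorem omega_even [Finite F] (hQ : ND Q) (h2 : (2 : F) ≠ 0) (hn : 8 ≤ finrank F V)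
    (he : Even (finrank F V)) {g : OG Q} (hg : g ∈ commutator (OG Q)) : Cmo g := by
  have G : Good F V := good_of_two_ne_zero h2
  by_cases hf : ∃ e, Q e ≠ 0 ∧ g.1 e = e
  · obtain ⟨e, e0, e1⟩ := hf
    exact red_fix hQ h2 hn he hg e0 e1
  push Not at hf
  obtain ⟨s, t, hs, ht, rfl, hr⟩ := won hQ h2 g ((hQ.mem_commutator_iff G g).1 hg).1
  obtain ⟨k, hk⟩ := conj_invol hQ h2 _ s t hs ht hr rfl hg
  have z : ∀ x ∈ fix (s * t), Q x = 0 := fun x hx => by_contra fun q => hf x q (mem_fix.1 hx)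
  by_cases hK : ∃ e, e ≠ 0 ∧ s.1 e = t.1 e
  · obtain ⟨e, e0, e1⟩ := hK
    obtain ⟨e, -, e0, e1, H⟩ := rad_case hQ h2 hs ht hr (by
      by_contra r
      obtain ⟨x, -, x1, -, x2, -⟩ := small hQ (g := s * t) (by omega) (by omega)
      exact x2 (z x x1)) e0 e1 fun x hx =>
        mem_perp.1 (le_perp_of_singular z ((fix_iff hs).2 e1)) x ((fix_iff hs).2 hx)
    obtain ⟨v, -, v1, v2⟩ := H 0
    rcases e1 with ⟨e1, e2⟩ | ⟨e1, e2⟩
    · exact (pl_rad hQ h2 (by omega) hs ht e0 e1 e2 v1 v2).cmo hQ h2 hs ht hk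
    · exact (pl_rad hQ h2 (by omega) (ng_inv hs) (ng_inv ht) e0 (by simp [e1]) (by simp [e2])
        v1.to_ng v2).ng.cmo hQ h2 hs ht hk
  · push Not at hK
    have K : ∀ x, s.1 x = t.1 x → x = 0 := fun x hx => by_contra fun q => hK x q hx
    have d := rk_add_finrank_fix (s * t)
    rw [(Submodule.eq_bot_iff _).2 fun x hx => K x ((fix_iff hs).1 hx), finrank_bot] at d
    have := rk_mul_le s t
    obtain ⟨x, y, h⟩ := pl_free hQ h2 ⟨hs, ht, by simp, by simp, Or.inl rfl, fun x hx _ => K x hx⟩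
      (by omega) hk
    exact h.cmo hQ h2 hs ht hk

end Cfsg.Agent.OreO
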