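import Mathlib
import Cfsg.Agent.Elu.Ore5
import Cfsg.Agent.Elu.Ore3

/-! Involutions as quotients of similar fixed point free maps. -/

set_option autoImplicit false
set_option backward.isDefEq.respectTransparency false

namespace Cfsg.Agent.Ore

open Polynomial Module Cfsg.Agent.Com

universe u

section
variable {F : Type u} [Field F] {V W : Type u} [AddCommGroup V] [Module F V] [AddCommGroup W]
  [Module F W]

/-- `A` is a quotient of two similar maps killed by `P`. -/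
def Ok (P : F[X]) (A : End F V) : Prop := ∃ s : End F V, aeval s P = 0 ∧ Sim (A * s) s

/-- The diagonal involutions. -/
def Okd (P : F[X]) (a b : ℕ) : Prop := Ok P ((dg (-1 : F) a).prodMap (dg 1 b))

theorem Ok.sim {P : F[X]} {A : End F V} {B : End F W} (h : Ok P A) (hs : Sim A B) : Ok P B := by
  obtain ⟨s, h1, h2⟩ := h
  obtain ⟨s', h3, h4⟩ := hs.transport s
  exact ⟨s', sim_aeval h3 h1, (h4.symm.trans h2).trans h3⟩

theorem aeval_prodMap (f : End F V) (g : End F W) (P : F[X]) (x : V × W) :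
    aeval (f.prodMap g : End F (V × W)) P x = (aeval f P x.1, aeval g P x.2) :=
  Prod.ext (aeval_int (LinearMap.fst F V W) (fun _ => rfl) P x)
    (aeval_int (LinearMap.snd F V W) (fun _ => rfl) P x)

theorem Ok.prod {P : F[X]} {A : End F V} {B : End F W} (h : Ok P A) (h' : Ok P B) :
    Ok P (A.prodMap B) := by
  obtain ⟨s, h1, h2⟩ := h
  obtain ⟨s', h3, h4⟩ := h'
  exact ⟨s.prodMap s', LinearMap.ext (fun x => by rw [aeval_prodMap, h1, h3]; rfl), h2.prod h4⟩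

theorem Okd.add {P : F[X]} {a b a' b' : ℕ} (h : Okd P a b) (h' : Okd P a' b') :
    Okd P (a + a') (b + b') :=
  (Ok.prod h h').sim (Sim.trans ⟨LinearEquiv.prodProdProdComm F _ _ _ _, fun _ => rfl⟩
    ((sim_scalar_add _ (by simp)).prod (sim_scalar_add _ (by simp))).symm)

theorem okd_zero (P : F[X]) : Okd P 0 0 :=
  ⟨0, Subsingleton.elim _ _, by rw [mul_zero]; exact Sim.refl _⟩

theorem Okd.mul {P : F[X]} {a b : ℕ} (h : Okd P a b) (k : ℕ) : Okd P (k * a) (k * b) := by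
  induction k with
  | zero => simpa using okd_zero P
  | succ k ih => rw [add_mul, add_mul, one_mul, one_mul]; exact ih.add h

theorem okd_id {P τ : F[X]} (h : τ.Monic) (hd : τ ∣ P) {n : ℕ} (hn : τ.natDegree = n) :
    Okd P 0 n := by
  obtain ⟨s, hs⟩ := exists_model h
  subst hn
  refine Ok.sim (A := dg 1 τ.natDegree) ⟨s, (hs.aeval_iff P).mpr hd, ?_⟩
    ((sim_zero _ _).symm.trans (sim_comm _ _))
  rw [dg, one_smul]; exact Sim.refl _

theorem okd_neg {P τ : F[X]} (h : τ.Monic) (hd : τ.comp (X ^ 2) ∣ P) {n : ℕ}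
    (hn : τ.natDegree = n) : Okd P (2 * n) 0 := by
  obtain ⟨D, hD⟩ := exists_model h
  subst hn
  obtain ⟨k, rfl⟩ := hd
  refine Ok.sim (A := ((-1 : F) • LinearMap.id : End F ((Fin τ.natDegree → F) ×
    (Fin τ.natDegree → F)))) ⟨(D ∘ₗ LinearMap.snd F _ _).prod (LinearMap.fst F _ _), ?_,
      (LinearEquiv.refl F _).prodCongr (LinearEquiv.neg F), fun x => by simp⟩
    ((sim_scalar _ (by simp [two_mul])).trans (sim_zero _ _).symm)
  rw [mul_comm, map_mul, aeval_comp, map_pow, aeval_X, pow_two,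
    show ((D ∘ₗ LinearMap.snd F _ _).prod (LinearMap.fst F _ _) : End F (_ × _)) *
      (D ∘ₗ LinearMap.snd F _ _).prod (LinearMap.fst F _ _) = D.prodMap D from rfl,
    show aeval (D.prodMap D : End F (_ × _)) τ = 0 from LinearMap.ext (fun x => by
      rw [aeval_prodMap, (hD.aeval_iff τ).mpr dvd_rfl]; rfl), mul_zero]

variable [FiniteDimensional F V] [FiniteDimensional F W]

theorem okd_fun {P τ : F[X]} (hd : τ ∣ P) {a b : ℕ} (ha : finrank F V = a) (hb : finrank F W = b)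
    (s e e' : End F (V × W)) (h1 : ∀ x, e (e' x) = x)
    (h2 : ∀ x, e ((-(s x).1, (s x).2)) = s (e x)) (h3 : aeval s τ = 0) : Okd P a b := by
  obtain ⟨k, rfl⟩ := hd
  have k1 : e * e' = 1 := LinearMap.ext h1
  refine Ok.sim (A := ((-1 : F) • LinearMap.id : End F V).prodMap ((1 : F) • LinearMap.id : End F W))
    ⟨s, by rw [map_mul, h3, zero_mul], LinearEquiv.ofLinear e e' k1 (mul_eq_one_comm.mp k1),
      fun x => ?_⟩ ((sim_scalar _ (by simp [ha])).prod (sim_scalar _ (by simp [hb])))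
  simpa [LinearMap.prodMap_apply] using h2 x

theorem sim_idem {φ : End F V} (h : φ * φ = φ) : Sim ((dg (-1 : F) (finrank F
    (LinearMap.range φ))).prodMap (dg 1 (finrank F (LinearMap.ker φ)))) (1 - (2 : F) • φ) := by
  refine ((sim_scalar (W := LinearMap.range φ) _ (by simp)).prod
    (sim_scalar (W := LinearMap.ker φ) _ (by simp))).trans
    ⟨Submodule.prodEquivOfIsCompl _ _ (LinearMap.IsIdempotentElem.isCompl h), ?_⟩
  rintro ⟨⟨_, x, rfl⟩, y, hy⟩
  have : φ (φ x) = φ x := congrArg (fun f : End F V => f x) h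
  simp [this, LinearMap.mem_ker.mp hy]
  module

end

section
variable {F : Type u} [Field F]

theorem fp_lin {a : F} (h : a * a ≠ 1) : Fp (X - C a) := by
  intro K _ _ y z e
  refine cop_of z (algebraMap F K a) (sub_ne_zero.mpr h.symm) ?_
  simp only [map_sub, map_mul, aeval_X, aeval_C, map_one]
  linear_combination e

theorem fp_odd {a d : F} (h : a * a ≠ 1) (h1 : d * d ≠ 1) (h2 : a * a * d ≠ 1) :
    Fp ((X ^ 2 - C d) * (X - C a)) := by
  intro K _ _ y z e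
  simp only [map_sub, map_mul, aeval_X, aeval_C, map_pow]
  refine IsCoprime.mul_left (IsCoprime.mul_right ?_ ?_) (IsCoprime.mul_right ?_ ?_)
  · refine cop_of (z ^ 2) (algebraMap F K d) (sub_ne_zero.mpr h1.symm) ?_
    simp only [map_sub, map_mul, map_one]
    linear_combination (y * z + 1) * e
  · refine cop_of (algebraMap F K a ^ 2) (y * (1 + algebraMap F K a * y))
      (sub_ne_zero.mpr h2.symm) ?_
    simp only [map_sub, map_mul, map_one]
    linear_combination (1 + algebraMap F K a * y) * e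
  · refine cop_of (z * (1 + algebraMap F K a * z)) (algebraMap F K a ^ 2)
      (sub_ne_zero.mpr h2.symm) ?_
    simp only [map_sub, map_mul, map_one]
    linear_combination (1 + algebraMap F K a * z) * e
  · simpa using fp_lin h K y z e

end

/-- The universal polynomial over the field with three elements. -/
noncomputable def P3 : (ZMod 3)[X] :=
  (X ^ 2 - X - 1) * (X ^ 4 - X ^ 2 - 1) * ((X ^ 3 - X - 1) * (X ^ 3 - X + 1))

/-- The universal polynomial over the field with two elements. -/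
noncomputable def P2 : (ZMod 2)[X] := (X ^ 3 + X + 1) * (X ^ 4 + X + 1) * (X ^ 5 + X ^ 2 + 1)

theorem fp3 : Fp P3 := by
  intro K _ _ y z e
  have h3 : (3 : K) = 0 := by
    rw [← map_ofNat (algebraMap (ZMod 3) K) 3, show (3 : ZMod 3) = 0 from rfl, map_zero]
  have k : aeval z P3 * y ^ 12 = (1 - y - y ^ 2) * (1 - y ^ 2 - y ^ 4) * ((1 - y ^ 2 - y ^ 3) *
      (1 - y ^ 2 + y ^ 3)) := by
    rw [← show y ^ 2 * (z ^ 2 - z - 1) = 1 - y - y ^ 2 by linear_combination (-y + (1 + y * z)) * e,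
      ← show y ^ 4 * (z ^ 4 - z ^ 2 - 1) = 1 - y ^ 2 - y ^ 4 by
        linear_combination (-y ^ 2 * (1 + y * z) + (1 + y * z + (y * z) ^ 2 + (y * z) ^ 3)) * e,
      ← show y ^ 3 * (z ^ 3 - z - 1) = 1 - y ^ 2 - y ^ 3 by
        linear_combination (-y ^ 2 + (1 + y * z + (y * z) ^ 2)) * e,
      ← show y ^ 3 * (z ^ 3 - z + 1) = 1 - y ^ 2 + y ^ 3 by
        linear_combination (-y ^ 2 + (1 + y * z + (y * z) ^ 2)) * e]
    simp only [P3, map_mul, map_sub, map_add, map_pow, aeval_X, map_one]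
    ring
  refine IsCoprime.of_mul_right_left (z := y ^ 12) ?_
  rw [k]
  refine ⟨1 - y ^ 2 - y ^ 4 + y ^ 7 - y ^ 8 - y ^ 9 - y ^ 10 + y ^ 11,
    -1 - y ^ 3 + y ^ 4 - y ^ 6 + y ^ 7 + y ^ 8 + y ^ 11, ?_⟩
  simp only [P3, map_mul, map_sub, map_add, map_pow, aeval_X, map_one]
  linear_combination (-1 + 2 * y ^ 2 - y ^ 3 - y ^ 4 + 2 * y ^ 5 - 3 * y ^ 6 - y ^ 7 + 6 * y ^ 8 -
    5 * y ^ 10 + 3 * y ^ 11 + y ^ 12 - 4 * y ^ 13 + 2 * y ^ 14 + 5 * y ^ 15 - y ^ 16 - 4 * y ^ 17 -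
    2 * y ^ 18 + 2 * y ^ 19 + 2 * y ^ 20 - y ^ 21 - y ^ 22) * h3

theorem fp2 : Fp P2 := by
  intro K _ _ y z e
  have h2 : (2 : K) = 0 := by
    rw [← map_ofNat (algebraMap (ZMod 2) K) 2, show (2 : ZMod 2) = 0 from rfl, map_zero]
  have k : aeval z P2 * y ^ 12 = (1 + y ^ 2 + y ^ 3) * (1 + y ^ 3 + y ^ 4) * (1 + y ^ 3 + y ^ 5) := by
    rw [← show y ^ 3 * (z ^ 3 + z + 1) = 1 + y ^ 2 + y ^ 3 by
        linear_combination (y ^ 2 + (1 + y * z + (y * z) ^ 2)) * e,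
      ← show y ^ 4 * (z ^ 4 + z + 1) = 1 + y ^ 3 + y ^ 4 by
        linear_combination (y ^ 3 + (1 + y * z + (y * z) ^ 2 + (y * z) ^ 3)) * e,
      ← show y ^ 5 * (z ^ 5 + z ^ 2 + 1) = 1 + y ^ 3 + y ^ 5 by
        linear_combination (y ^ 3 * (1 + y * z) +
          (1 + y * z + (y * z) ^ 2 + (y * z) ^ 3 + (y * z) ^ 4)) * e]
    simp only [P2, map_mul, map_add, map_pow, aeval_X, map_one]
    ring
  refine IsCoprime.of_mul_right_left (z := y ^ 12) ?_
  rw [k]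
  refine ⟨1 + y ^ 2 + y ^ 3 + y ^ 6 + y ^ 7 + y ^ 9 + y ^ 10 + y ^ 11,
    y ^ 2 + y ^ 5 + y ^ 8 + y ^ 10 + y ^ 11, ?_⟩
  simp only [P2, map_mul, map_add, map_pow, aeval_X, map_one]
  linear_combination (y + 2 * y ^ 2 + 3 * y ^ 3 + 4 * y ^ 4 + 6 * y ^ 5 + 6 * y ^ 6 + 8 * y ^ 7 +
    10 * y ^ 8 + 10 * y ^ 9 + 11 * y ^ 10 + 13 * y ^ 11 + 13 * y ^ 12 + 14 * y ^ 13 + 13 * y ^ 14 +
    12 * y ^ 15 + 13 * y ^ 16 + 10 * y ^ 17 + 8 * y ^ 18 + 7 * y ^ 19 + 5 * y ^ 20 + 3 * y ^ 21 +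
    2 * y ^ 22 + y ^ 23) * h2

theorem okd2 {n : ℕ} (hn : 3 ≤ n) : Okd P2 0 n := by
  have k3 : Okd P2 0 3 := okd_id (τ := X ^ 3 + X + 1) (by monicity!)
    ((dvd_mul_right _ _).mul_right _) (by compute_degree!)
  have k4 : Okd P2 0 4 := okd_id (τ := X ^ 4 + X + 1) (by monicity!)
    ((dvd_mul_left _ _).mul_right _) (by compute_degree!)
  have k5 : Okd P2 0 5 := okd_id (τ := X ^ 5 + X ^ 2 + 1) (by monicity!)
    (dvd_mul_left _ _) (by compute_degree!)
  obtain ⟨j, rfl | rfl | rfl⟩ : ∃ j, n = j * 3 + 3 ∨ n = j * 3 + 4 ∨ n = j * 3 + 5 :=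
    ⟨(n - 3) / 3, by omega⟩
  exacts [(k3.mul j).add k3, (k3.mul j).add k4, (k3.mul j).add k5]

theorem kill {F : Type u} [Field F] {V : Type u} [AddCommGroup V] [Module F V] (s : End F V) :
    ((∀ x, s (s (s x)) = s x + x) → aeval s (X ^ 3 - X - 1 : F[X]) = 0) ∧
    ((∀ x, s (s (s (s x))) = s (s x) + x) → aeval s (X ^ 4 - X ^ 2 - 1 : F[X]) = 0) ∧
    ((∀ x, s (s (s (s (s x) - s x - x))) = s (s (s x) - s x - x) + (s (s x) - s x - x)) →
      aeval s ((X ^ 3 - X - 1) * (X ^ 2 - X - 1) : F[X]) = 0) := by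
  refine ⟨fun h => LinearMap.ext (fun x => by simp [pow_succ, h]),
    fun h => LinearMap.ext (fun x => by simp [pow_succ, h]), fun h => LinearMap.ext (fun x => ?_)⟩
  rw [aeval_mul_apply, show aeval s (X ^ 2 - X - 1 : F[X]) x = s (s x) - s x - x by simp [pow_succ]]
  generalize_proofs
  have := h x
  generalize s (s x) - s x - x = y at this
  simp [pow_succ, this]

theorem okd3_21 : Okd P3 2 1 :=
  okd_fun (V := ZMod 3 × ZMod 3) (W := ZMod 3) ((dvd_mul_right _ _).mul_left _) (by simp) (by simp)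
    (blk (l2 2 1 0 1) ((sc 0).prod (sc 2)) ((sc 2).coprod (sc 0)) (sc 0))
    (blk (l2 2 0 1 1) ((sc 0).prod (sc 0)) ((sc 0).coprod (sc 0)) (sc 2))
    (blk (l2 2 0 1 1) ((sc 0).prod (sc 0)) ((sc 0).coprod (sc 0)) (sc 2))
    (by decide +kernel) (by decide +kernel) ((kill _).1 (by decide +kernel))

theorem okd3_22 : Okd P3 2 2 :=
  okd_fun (V := ZMod 3 × ZMod 3) (W := ZMod 3 × ZMod 3) ((dvd_mul_left _ _).mul_right _) (by simp)
    (by simp)
    (blk (l2 1 1 0 2) (l2 2 0 0 1) (l2 1 0 2 1) (l2 0 0 0 0))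
    (blk (l2 0 2 0 0) (l2 2 1 2 2) (l2 2 2 0 2) (l2 1 2 2 2))
    (blk (l2 2 1 0 1) (l2 2 2 0 2) (l2 1 2 2 0) (l2 0 2 0 1))
    (by decide +kernel) (by decide +kernel) ((kill _).2.1 (by decide +kernel))

theorem okd3_41 : Okd P3 4 1 :=
  okd_fun (V := (ZMod 3 × ZMod 3) × (ZMod 3 × ZMod 3)) (W := ZMod 3)
    ⟨(X ^ 4 - X ^ 2 - 1) * (X ^ 3 - X + 1), by rw [P3]; ring⟩ (by simp) (by simp)
    (blk (blk (l2 0 0 2 2) (l2 2 0 1 1) (l2 0 1 1 0) (l2 1 1 0 0))
      (((sc 0).prod (sc 2)).prod ((sc 1).prod (sc 0))) (((sc 1).coprod (sc 0)).coprod ((sc 0).coprod (sc 0))) (sc 1))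
    (blk (blk (l2 2 1 0 1) (l2 1 1 2 0) (l2 0 0 0 0) (l2 0 2 2 0))
      (((sc 0).prod (sc 2)).prod ((sc 0).prod (sc 2))) (((sc 1).coprod (sc 2)).coprod ((sc 2).coprod (sc 1))) (sc 2))
    (blk (blk (l2 0 1 0 1) (l2 1 1 0 2) (l2 1 0 0 0) (l2 2 2 2 0))
      (((sc 1).prod (sc 0)).prod ((sc 1).prod (sc 0))) (((sc 2).coprod (sc 0)).coprod ((sc 1).coprod (sc 0))) (sc 2))
    (by decide +kernel) (by decide +kernel) ((kill _).2.2 (by decide +kernel))

theorem okd3 {a b : ℕ} (ha : Even a) (h : 2 ≤ a + b) (h' : 0 < b ∨ a ≠ 2) : Okd P3 a b := by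
  have k2 : Okd P3 0 2 := okd_id (τ := X ^ 2 - X - 1) (by monicity!)
    ((dvd_mul_right _ _).mul_right _) (by compute_degree!)
  have k3 : Okd P3 0 3 := okd_id (τ := X ^ 3 - X - 1) (by monicity!)
    ((dvd_mul_right _ _).mul_left _) (by compute_degree!)
  have k4 : Okd P3 (2 * 2) 0 := okd_neg (τ := X ^ 2 - X - 1) (by monicity!)
    ⟨(X ^ 2 - X - 1) * ((X ^ 3 - X - 1) * (X ^ 3 - X + 1)), by simp [P3]; ring⟩ (by compute_degree!)
  have k6 : Okd P3 (2 * 3) 0 := okd_neg (τ := X ^ 3 - 2 * X ^ 2 + X - 1) (by monicity!)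
    ⟨(X ^ 2 - X - 1) * (X ^ 4 - X ^ 2 - 1), by simp [P3]; ring⟩ (by compute_degree!)
  have hb : ∀ b, b ≠ 1 → Okd P3 0 b := fun b hb => by
    obtain ⟨j, rfl | rfl⟩ : ∃ j, b = j * 2 ∨ b = j * 2 + 3 := ⟨if b % 2 = 0 then b / 2 else (b - 3) / 2,
      by split_ifs <;> omega⟩
    exacts [k2.mul j, (k2.mul j).add k3]
  have ha' : ∀ j, j ≠ 1 → Okd P3 (2 * j) 0 := fun b hb => by
    obtain ⟨j, rfl | rfl⟩ : ∃ j, b = j * 2 ∨ b = j * 2 + 3 := ⟨if b % 2 = 0 then b / 2 else (b - 3) / 2,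
      by split_ifs <;> omega⟩
    · convert k4.mul j using 1 <;> ring
    · convert (k4.mul j).add k6 using 1 <;> ring
  obtain ⟨j, rfl⟩ := ha.two_dvd
  by_cases j1 : j = 1
  · subst j1
    by_cases b2 : b = 2
    · subst b2; exact okd3_22
    · have := okd3_21.add (hb (b - 1) (by omega))
      rwa [show 1 + (b - 1) = b by omega] at this
  by_cases b1 : b = 1
  · subst b1
    by_cases j2 : j = 2
    · subst j2; exact okd3_41
    · have := okd3_21.add (ha' (j - 1) (by omega))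
      rwa [show 2 + 2 * (j - 1) = 2 * j by omega] at this
  · simpa using (ha' j j1).add (hb b b1)

theorem ok3_J : Ok P3 (l2 (-1) 0 1 (-1)) := by
  obtain ⟨a, b, c, d, k1, k2, k3, k4, k5⟩ := (by decide : ∃ a b c d : ZMod 3, c ≠ 0 ∧ a - c ≠ 0 ∧
    a + d = 1 ∧ a * d - b * c = -1 ∧ -a + (b - d) = 1)
  have c1 := cy_l2 a b c d k1
  have c2 := cy_l2 (-a) (-b) (a - c) (b - d) k2
  rw [k5, show -a * (b - d) - -b * (a - c) = -1 by rw [← k4]; ring] at c2
  rw [k3, k4] at c1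
  refine ⟨_, (c1.aeval_iff _).mpr ⟨(X ^ 4 - X ^ 2 - 1) * ((X ^ 3 - X - 1) * (X ^ 3 - X + 1)), by
    simp [P3, qd]; ring⟩, Cy.sim ?_ c1⟩
  convert c2 using 1
  refine LinearMap.ext (fun x => ?_)
  ext <;> simp <;> ring

end Cfsg.Agent.Ore
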