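import Mathlib
import Cfsg.Agent.Elu.OmE
import Cfsg.Agent.Elu.Ore6

/-! Conjugation inside parabolic subgroups of orthogonal groups in characteristic two. -/

set_option autoImplicit false
set_option backward.isDefEq.respectTransparency false

namespace Cfsg.Agent.OreO

open QuadraticMap Module Cfsg.Agent.Orth Polynomial Cfsg.Agent.Ore Cfsg.Agent.Com

universe u

variable {F V : Type u} [Field F] [AddCommGroup V] [Module F V] {Q : QuadraticForm F V}

/-- An isometry as an endomorphism. -/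
abbrev en (g : OG Q) : End F V := (g.1 : V →ₗ[F] V)

theorem en_iso (g : OG Q) : Iso Q.polarBilin (en g) := fun x y => OG.map_polar g x y

theorem en_inv (g : OG Q) : en g * en g⁻¹ = 1 := LinearMap.ext fun v => OG.apply_inv_self g v

theorem en_inv' (g : OG Q) : en g⁻¹ * en g = 1 := LinearMap.ext fun v => OG.inv_apply_self g v

theorem en_adj (g : OG Q) (P : F[X]) (v w : V) :
    polar Q (aeval (en g) P v) w = polar Q v (aeval (en g⁻¹) P w) :=
  (en_iso g).adj_aeval (en_inv g) P v w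

/-- Admissible polynomials. -/
structure PD (P : F[X]) (t : F) : Prop where
  fp : Fp P
  c0 : P.coeff 0 ≠ 0
  cp : IsCoprime P ((X + 1) * (X ^ 2 + C t * X + 1))

theorem PD.three {P : F[X]} {t : F} (h : PD P t) (K : Type u) [CommRing K] [Algebra F K] (y z : K)
    (e : y * z = 1) : ∃ a b d : K,
      a * ((y + 1) * (y ^ 2 + algebraMap F K t * y + 1) * aeval z P) + b * (aeval y P * aeval z P) +
        d * (aeval y P * ((y + 1) * (y ^ 2 + algebraMap F K t * y + 1))) = 1 := by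
  have k : ∀ y : K, IsCoprime (aeval y P) ((y + 1) * (y ^ 2 + algebraMap F K t * y + 1)) := fun y => by
    simpa using h.cp.map (aeval y : F[X] →ₐ[F] K).toRingHom
  have k' : IsCoprime (aeval z P) ((y + 1) * (y ^ 2 + algebraMap F K t * y + 1)) := by
    have := k z
    rw [show (z + 1) * (z ^ 2 + algebraMap F K t * z + 1) =
      (y + 1) * (y ^ 2 + algebraMap F K t * y + 1) * z ^ 3 by
        linear_combination -((y * z) ^ 2 + y * z + 1 + (algebraMap F K t + 1) * z * (y * z + 1) +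
          (algebraMap F K t + 1) * z ^ 2) * e] at this
    exact this.of_mul_right_left
  obtain ⟨u, v, h1⟩ := (k y).mul_right (h.fp K y z e)
  obtain ⟨u', v', h2⟩ := k'
  exact ⟨v, u * u', u * v', by linear_combination h1 + u * aeval y P * h2⟩

/-- The cubic in `g`. -/
def bt (t : F) (g : OG Q) (v : V) : V :=
  g.1 (g.1 (g.1 v)) + (t + 1) • g.1 (g.1 v) + (t + 1) • g.1 v + v

/-- Projections onto an invariant Levi decomposition. -/
structure Tri (x : OG Q) (W : Submodule F V) (p q : End F V) : Prop where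
  cp : ∀ v, p (x.1 v) = x.1 (p v)
  cq : ∀ v, q (x.1 v) = x.1 (q v)
  r : ∀ v, v - p v - q v ∈ W
  p1 : ∀ v, p v ∈ perp Q W
  p2 : ∀ c ∈ W, p c = 0
  q1 : ∀ v ∈ perp Q W, q v = 0
  q2 : ∀ v, Q (q v) = 0
  pq : ∀ v w, polar Q (p v) (q w) = 0

theorem tri (h2 : (2 : F) = 0) {P : F[X]} {t : F} (hP : PD P t) (x : OG Q) {W : Submodule F V}
    (hC : (∀ c ∈ W, aeval (en x) P c = 0) ∨ ∀ c ∈ W, aeval (en x⁻¹) P c = 0)
    (hR : ∀ v ∈ perp Q W, bt t x v ∈ W) : ∃ p q, Tri x W p q := by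
  have e := en_inv x
  have e' := en_inv' x
  letI := Algebra.adjoinCommRingOfComm F (s := ({en x, en x⁻¹} : Set (End F V))) (by
    rintro a (rfl | rfl) b (rfl | rfl) <;> simp only [e, e'])
  let K := Algebra.adjoin F ({en x, en x⁻¹} : Set (End F V))
  let Y : K := ⟨en x, Algebra.subset_adjoin (by simp)⟩
  let Z : K := ⟨en x⁻¹, Algebra.subset_adjoin (by simp)⟩
  obtain ⟨δ, hδ⟩ : ∃ δ : K, δ = Y ^ 2 + algebraMap F K t * Y + 1 := ⟨_, rfl⟩
  obtain ⟨β, hβ⟩ : ∃ β : K, β = (Y + 1) * δ := ⟨_, rfl⟩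
  have bβ : ∀ v, β.1 v = bt t x v := fun v => by
    rw [show β = Y * Y * Y + (algebraMap F K t + 1) * (Y * Y) + (algebraMap F K t + 1) * Y + 1 by
      rw [hβ, hδ]; ring]
    change x.1 (x.1 (x.1 v)) + (t • x.1 (x.1 v) + x.1 (x.1 v)) + (t • x.1 v + x.1 v) + v = _
    simp only [bt, add_smul, one_smul]
  obtain ⟨α, γ, a, b, d, h, adj, kill⟩ : ∃ α γ a b d : K, a * (β * γ) + b * (α * γ) + d * (α * β) = 1 ∧
      (∀ v w, polar Q (α.1 v) w = polar Q v (γ.1 w)) ∧ ∀ c ∈ W, α.1 c = 0 := by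
    obtain ⟨a, b, d, h⟩ := hP.three K Y Z (Subtype.ext e)
    rw [← hδ, ← hβ] at h
    have cY : (aeval Y P).1 = aeval (en x) P := aeval_subalgebra_coe P K Y
    have cZ : (aeval Z P).1 = aeval (en x⁻¹) P := aeval_subalgebra_coe P K Z
    rcases hC with hC | hC
    · exact ⟨aeval Y P, aeval Z P, a, b, d, h, by rw [cY, cZ]; exact en_adj x P, by rwa [cY]⟩
    · refine ⟨aeval Z P, aeval Y P, d, b, a, by linear_combination h, fun v w => ?_, by rwa [cZ]⟩
      rw [cY, cZ, polar_comm, ← en_adj, polar_comm]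
  have ap : ∀ {A B : K}, A = B → ∀ v, A.1 v = B.1 v := fun h v => by rw [h]
  have g1 : ∀ v, γ.1 v ∈ perp Q W := fun v c hc => by
    change polar Q c _ = 0
    rw [← adj, kill c hc, polar_zero_left]
  have b1 : ∀ v ∈ perp Q W, β.1 v ∈ W := fun v hv => bβ v ▸ hR v hv
  have h0 : α * (β * γ) = 0 := Subtype.ext (LinearMap.ext fun v => kill _ (b1 _ (g1 v)))
  have gq : ∀ v, γ.1 ((d * (α * β)).1 v) = 0 :=
    ap (A := γ * (d * (α * β))) (B := 0) (by linear_combination d * h0)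
  have qq : ∀ v w, polar Q ((d * (α * β)).1 v) ((d * (α * β)).1 w) = 0 := fun v w => by
    rw [ap (B := α * (β * d)) (by ring) v]
    exact (adj _ _).trans (by rw [gq, polar_zero_right])
  refine ⟨(b * (α * γ)).1, (d * (α * β)).1, fun v => ap (mul_comm (b * (α * γ)) Y) v,
    fun v => ap (mul_comm (d * (α * β)) Y) v,
    fun v => ?_, fun v => ?_, fun c hc => ?_, fun v hv => ?_, fun v => ?_, fun v w => ?_⟩
  · have := ap (A := 1 - b * (α * γ) - d * (α * β)) (B := β * (γ * a)) (by linear_combination -h) v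
    change (1 - b * (α * γ) - d * (α * β)).1 v ∈ W
    rw [this]; exact b1 _ (g1 _)
  · rw [ap (B := γ * (α * b)) (by ring) v]; exact g1 _
  · rw [ap (B := (b * γ) * α) (by ring) c]
    change (b * γ).1 (α.1 c) = 0
    rw [kill c hc, map_zero]
  · change d.1 (α.1 (β.1 v)) = 0
    rw [kill _ (b1 v hv), map_zero]
  · have k := ap (A := d * (α * β)) (B := Y * (d * (α * β) * (d * α * δ)) + d * (α * β) * (d * α * δ))
      (by linear_combination (-d * (α * β)) * h + (d * β * a + d * α * b) * h0 +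
        d * d * α * α * β * hβ) v
    have k' := ap (mul_comm Y (d * (α * β))) ((d * α * δ).1 v)
    rw [k]
    change Q (x.1 ((d * (α * β)).1 _) + (d * (α * β)).1 _) = 0
    rw [q_add, OG.map_Q, ← two_mul, h2, zero_mul, zero_add]
    exact (congrArg (polar Q · _) k').trans (qq _ _)
  · rw [ap (B := α * (γ * b)) (by ring) v]
    exact (adj _ _).trans (by rw [gq, polar_zero_right])

theorem bt_mem {t : F} {x x1 : OG Q} {W : Submodule F V} (hW : W ≤ perp Q W)
    (h : ∀ v ∈ perp Q W, x.1 v - x1.1 v ∈ W) (h1 : ∀ c ∈ W, x1.1 c = c) (h0 : ∀ v, bt t x1 v = 0) :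
    ∀ v ∈ perp Q W, bt t x v ∈ W := fun v hv => by
  have k : ∀ v ∈ perp Q W, ∀ w, v - w ∈ W → x.1 v ∈ perp Q W ∧ x.1 v - x1.1 w ∈ W := fun v hv w e => by
    refine ⟨?_, ?_⟩
    · rw [← sub_add_cancel (x.1 v) (x1.1 v)]
      refine add_mem (hW (h v hv)) fun c hc => ?_
      change polar Q c _ = 0
      rw [← h1 c hc, OG.map_polar]; exact hv c hc
    · have := add_mem (h v hv) e
      rwa [← h1 _ e, map_sub, sub_add_sub_cancel] at this
  obtain ⟨a1, a2⟩ := k v hv v (by simp)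
  obtain ⟨b1, b2⟩ := k _ a1 _ a2
  obtain ⟨-, c2⟩ := k _ b1 _ b2
  have := add_mem (add_mem c2 (W.smul_mem (t + 1) b2)) (W.smul_mem (t + 1) a2)
  convert this using 1
  have := h0 v
  unfold bt at this ⊢
  linear_combination (norm := module) this

theorem aeval_agree {f g : End F V} {W : Submodule F V} (h : ∀ c ∈ W, g c ∈ W)
    (e : ∀ c ∈ W, f c = g c) (P : F[X]) : ∀ c ∈ W, aeval f P c = aeval g P c := fun c hc =>
  (aeval_int (f := g.restrict h) (g := f) W.subtype (fun x => (e x x.2).symm) P ⟨c, hc⟩).symm.trans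
    (aeval_int (f := g.restrict h) (g := g) W.subtype (fun _ => rfl) P ⟨c, hc⟩)

variable [FiniteDimensional F V]

theorem surj_on {x : OG Q} {W : Submodule F V} (h : ∀ c ∈ W, x.1 c ∈ W) : ∀ c ∈ W, x⁻¹.1 c ∈ W :=
  fun c hc => by
  have : W.map (x.1 : V →ₗ[F] V) = W := Submodule.eq_of_le_of_finrank_eq
    (by rintro _ ⟨c, hc, rfl⟩; exact h c hc) (LinearEquiv.finrank_map_eq _ _)
  obtain ⟨d, hd, rfl⟩ := this.ge hc
  simpa using hd

theorem of_lin (hQ : ND Q) (c : End F V) (h : ∀ v, Q (c v) = Q v) : ∃ k : OG Q, ∀ v, k.1 v = c v :=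
  ⟨⟨LinearEquiv.ofInjectiveEndo c ((injective_iff_map_eq_zero c).2 fun v e => hQ v fun w => by
    have := h (v + w)
    rw [map_add, e, zero_add, h, q_add, ← h v, e, map_zero] at this
    linear_combination -this), h⟩, fun _ => rfl⟩

theorem Tri.conj (hQ : ND Q) {x x0 : OG Q} {W : Submodule F V} {p q p0 q0 : End F V}
    (T : Tri x W p q) (T0 : Tri x0 W p0 q0) (hs : ∀ c ∈ W, Q c = 0) (hi : ∀ c ∈ W, x.1 c ∈ W)
    (h1 : ∀ c ∈ W, x.1 c = x0.1 c) (h2 : ∀ v ∈ perp Q W, x.1 v - x0.1 v ∈ W) :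
    ∃ k : OG Q, k * x * k⁻¹ = x0 := by
  have le := le_perp_of_singular hs
  have h3 : ∀ w, x.1 w - x0.1 w ∈ perp Q W := fun w c hc => by
    change polar Q c _ = 0
    have hd := surj_on hi c hc
    rw [polar_sub_right, ← OG.apply_inv_self x c, OG.map_polar, h1 _ hd, OG.map_polar, sub_self]
  have key : ∀ c ∈ W, ∀ e ∈ perp Q W, ∀ d, Q d = 0 → polar Q e d = 0 →
      Q (c + e + d) = Q e + polar Q c d := fun c hc e he d hd o => by
    rw [q_add, q_add, hs c hc, hd, mem_perp.1 he c hc, polar_add_left, o]; ring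
  obtain ⟨k, hk⟩ := of_lin hQ (1 - p - q + p0 * p + q0 * q) fun v => by
    change Q (v - p v - q v + p0 (p v) + q0 (q v)) = Q v
    have a1 := T0.r (p v)
    rw [T0.q1 _ (T.p1 v), sub_zero] at a1
    have a2 : polar Q (v - p v - q v) (q v - p0 (q v) - q0 (q v)) = 0 :=
      mem_perp.1 (le (T0.r (q v))) _ (T.r v)
    rw [polar_sub_right, polar_sub_right, mem_perp.1 (T0.p1 _) _ (T.r v), sub_zero, sub_eq_zero] at a2
    have a3 := key _ a1 _ (T0.p1 (p v)) 0 (map_zero _) (polar_zero_right _ _)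
    rw [add_zero, sub_add_cancel, polar_zero_right, add_zero] at a3
    rw [key _ (T.r v) _ (T0.p1 _) _ (T0.q2 _) (T0.pq _ _), ← a3, ← a2,
      ← key _ (T.r v) _ (T.p1 _) _ (T.q2 _) (T.pq _ _)]
    congr 1; abel
  refine ⟨k, mul_inv_eq_iff_eq_mul.2 (OG.ext fun v => ?_)⟩
  rw [OG.mul_apply, OG.mul_apply, hk, hk]
  change x.1 v - p (x.1 v) - q (x.1 v) + p0 (p (x.1 v)) + q0 (q (x.1 v)) =
    x0.1 (v - p v - q v + p0 (p v) + q0 (q v))
  have a1 := T0.p2 _ (h2 _ (T.p1 v))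
  have a2 := T0.q1 _ (h3 (q v))
  rw [map_sub, sub_eq_zero] at a1 a2
  rw [T.cp, T.cq, a1, a2, T0.cp, T0.cq, map_add, map_add, ← h1 _ (T.r v), map_sub, map_sub]

theorem par_conj (hQ : ND Q) (h2 : (2 : F) = 0) {P : F[X]} {t : F} (hP : PD P t) {x x0 x1 l : OG Q}
    {W : Submodule F V} (hs : ∀ c ∈ W, Q c = 0) (hl : ∀ c ∈ W, l.1 c ∈ W)
    (hC : (∀ c ∈ W, aeval (en l) P c = 0) ∨ ∀ c ∈ W, aeval (en l⁻¹) P c = 0)
    (e : ∀ c ∈ W, x.1 c = l.1 c) (e0 : ∀ c ∈ W, x0.1 c = l.1 c)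
    (h : ∀ v ∈ perp Q W, x.1 v - x1.1 v ∈ W) (h' : ∀ v ∈ perp Q W, x0.1 v - x1.1 v ∈ W)
    (h1 : ∀ c ∈ W, x1.1 c = c) (h0 : ∀ v, bt t x1 v = 0) : ∃ k : OG Q, k * x * k⁻¹ = x0 := by
  have le := le_perp_of_singular hs
  have k : ∀ x : OG Q, (∀ c ∈ W, x.1 c = l.1 c) → (∀ v ∈ perp Q W, x.1 v - x1.1 v ∈ W) →
      ∃ p q, Tri x W p q := fun x e h => by
    refine tri h2 hP x (hC.imp (fun H c hc => ?_) fun H c hc => ?_) (bt_mem le h h1 h0)
    · exact (aeval_agree (g := en l) hl e P c hc).trans (H c hc)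
    · refine (aeval_agree (g := en l⁻¹) (surj_on hl) (fun c hc => ?_) P c hc).trans (H c hc)
      change x⁻¹.1 c = l⁻¹.1 c
      conv_lhs => rw [← OG.apply_inv_self l c, ← e _ (surj_on hl c hc), OG.inv_apply_self]
  obtain ⟨p, q, T⟩ := k x e h
  obtain ⟨p0, q0, T0⟩ := k x0 e0 h'
  exact T.conj hQ T0 hs (fun c hc => e c hc ▸ hl c hc) (fun c hc => (e c hc).trans (e0 c hc).symm)
    fun v hv => by simpa using sub_mem (h v hv) (h' v hv)

end Cfsg.Agent.OreO
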