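import Mathlib
import Cfsg.Agent.Elu.OmF
import Cfsg.Agent.Orth.Inv2

/-! Pairs of involutions fixing complementary isotropic subspaces. -/

set_option autoImplicit false
set_option backward.isDefEq.respectTransparency false

namespace Cfsg.Agent.OreO

open QuadraticMap Module Cfsg.Agent.Orth Polynomial Cfsg.Agent.Ore Cfsg.Agent.Com

universe u

variable {F V : Type u} [Field F] [AddCommGroup V] [Module F V] {Q : QuadraticForm F V}
  {U U' : Submodule F V} {π π' : End F V} {σ τ : OG Q}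

theorem sy_of (hQ : ND Q) (h2 : (2 : F) = 0) : Sy Q.polarBilin :=
  ⟨fun x => (p_self Q x).trans (by rw [h2, zero_mul]), hQ⟩

/-- Projections onto small parts of complementary isotropic subspaces. -/
structure Pj (Q : QuadraticForm F V) (U U' : Submodule F V) (π π' : End F V) : Prop where
  nd : ND Q
  h2 : (2 : F) = 0
  pr : Pr Q.polarBilin U U'
  l : ∀ v, π v ∈ U
  r : ∀ v, π' v ∈ U'
  ll : ∀ v, π (π v) = π v
  adj : ∀ v w, polar Q (π v) w = polar Q v (π' w)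
  q : ∀ u ∈ U, π u = 0 → Q u = 0
  q' : ∀ u ∈ U', π' u = 0 → Q u = 0

namespace Pj

theorem adj' (h : Pj Q U U' π π') (v w : V) : polar Q (π' v) w = polar Q v (π w) := by
  rw [polar_comm, ← h.adj, polar_comm]

theorem symm (h : Pj Q U U' π π') : Pj Q U' U π' π :=
  ⟨h.nd, h.h2, h.pr.symm, h.r, h.l, fun v => sub_eq_zero.1 (h.nd _ fun w => by
    rw [polar_sub_left, h.adj', h.adj', h.adj', h.ll, sub_self]), h.adj', h.q', h.q⟩

theorem iso (h : Pj Q U U' π π') {x y : V} (hx : x ∈ U) (hy : y ∈ U) : polar Q x y = 0 :=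
  h.pr.l x hx y hy

theorem l0 (h : Pj Q U U' π π') {u : V} (hu : u ∈ U') : π u = 0 :=
  h.nd _ fun w => by rw [h.adj, h.symm.iso hu (h.r w)]

theorem sub (h : Pj Q U U' π π') {u : V} (hu : u ∈ U) : u - π u ∈ U ⊓ LinearMap.ker π :=
  ⟨sub_mem hu (h.l u), by simp [h.ll]⟩

theorem qp (h : Pj Q U U' π π') {u : V} (hu : u ∈ U) : Q (π u) = Q u := by
  conv_rhs => rw [← sub_add_cancel u (π u), q_add, h.q _ (h.sub hu).1 (h.sub hu).2,
    h.iso (h.sub hu).1 (h.l u), zero_add, add_zero]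

theorem lag (h : Pj Q U U' π π') {g : OG Q} (hg : ∀ u ∈ U, g.1 u = u) (v : V) : g.1 v - v ∈ U :=
  h.pr.lag (sy_of h.nd h.h2) fun x hx => by
    change polar Q _ x = 0
    rw [polar_sub_left, ← hg x hx, OG.map_polar, hg x hx, sub_self]

theorem perp1 (h : Pj Q U U' π π') {v : V} (hv : v ∈ perp Q (U ⊓ LinearMap.ker π)) :
    v - π' v ∈ U := by
  refine h.pr.lag (sy_of h.nd h.h2) fun x hx => ?_
  change polar Q _ x = 0
  rw [polar_sub_left, h.adj', ← polar_sub_right, polar_comm]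
  exact hv _ (h.sub hx)

theorem v1 (h : Pj Q U U' π π') {v : V} (hv : v ∈ perp Q (U ⊓ LinearMap.ker π))
    (hv' : v ∈ perp Q (U' ⊓ LinearMap.ker π')) : π v + π' v = v := by
  have a := sub_mem (h.perp1 hv) (h.l v)
  have b := sub_mem (h.symm.perp1 hv') (h.r v)
  rw [sub_right_comm] at b
  have := (h.pr.compl (sy_of h.nd h.h2)).disjoint.le_bot ⟨a, b⟩
  rw [Submodule.mem_bot, sub_sub, sub_eq_zero] at this
  rw [add_comm, ← this]

theorem pp (h : Pj Q U U' π π') (v : V) : π v ∈ perp Q (U ⊓ LinearMap.ker π) ∧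
    π' v ∈ perp Q (U ⊓ LinearMap.ker π) :=
  ⟨fun c hc => h.iso hc.1 (h.l v), fun c hc => by
    change polar Q c _ = 0
    rw [← h.adj, hc.2, polar_zero_left]⟩

theorem dec (h : Pj Q U U' π π') (v : V) : ∃ c ∈ U ⊓ LinearMap.ker π, ∃ d ∈ U' ⊓ LinearMap.ker π',
    v = π v + π' v + c + d := by
  obtain ⟨a, ha, b, hb, rfl⟩ := h.pr.top v
  refine ⟨_, h.sub ha, _, h.symm.sub hb, ?_⟩
  rw [map_add, map_add, h.l0 hb, h.symm.l0 ha]; abel

end Pj

/-- Elements of the Levi factor. -/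
def Lv (Q : QuadraticForm F V) (U U' : Submodule F V) (π π' : End F V) : Submonoid (OG Q) where
  carrier := {l | (∀ u ∈ U ⊓ LinearMap.ker π, l.1 u ∈ U ⊓ LinearMap.ker π) ∧
    (∀ u ∈ U' ⊓ LinearMap.ker π', l.1 u ∈ U' ⊓ LinearMap.ker π') ∧
    (∀ v, l.1 (π v) = π v) ∧ ∀ v, l.1 (π' v) = π' v}
  one_mem' := ⟨fun _ h => h, fun _ h => h, fun _ => rfl, fun _ => rfl⟩
  mul_mem' := fun ha hb => ⟨fun u h => ha.1 _ (hb.1 u h), fun u h => ha.2.1 _ (hb.2.1 u h),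
    fun v => by rw [OG.mul_apply, hb.2.2.1, ha.2.2.1], fun v => by
      rw [OG.mul_apply, hb.2.2.2, ha.2.2.2]⟩

variable [FiniteDimensional F V]

theorem Pj.levi0 (h : Pj Q U U' π π') {P : F[X]} (h0 : P.coeff 0 ≠ 0)
    (s : End F (U ⊓ LinearMap.ker π : Submodule F V)) (hs : aeval s P = 0) :
    ∃ l ∈ Lv Q U U' π π', ∀ c ∈ U ⊓ LinearMap.ker π, aeval (en l) P c = 0 := by
  have si : ∀ x, s x = 0 → x = 0 := fun x hx => by
    have := congrArg (fun f : End F _ => f x) hs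
    rw [← divX_mul_X_add P] at this
    simpa [hx, h0] using this
  let ρ : U →ₗ[F] (U ⊓ LinearMap.ker π : Submodule F V) :=
    ((1 - π) ∘ₗ U.subtype).codRestrict _ fun x => h.sub x.2
  let f : U →ₗ[F] U := (π ∘ₗ U.subtype + Submodule.subtype _ ∘ₗ s ∘ₗ ρ).codRestrict _
    fun x => add_mem (h.l _) (s (ρ x)).2.1
  have f1 : ∀ x : U, (f x : V) = π x + s (ρ x) := fun _ => rfl
  have f2 : ∀ x : U, π (f x) = π x := fun x => by
    rw [f1, map_add, h.ll, (s (ρ x)).2.2, add_zero]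
  have fi : Function.Injective f := (injective_iff_map_eq_zero f).2 fun x e => by
    have a := f2 x
    have b := f1 x
    rw [e] at a b
    simp only [ZeroMemClass.coe_zero, map_zero] at a b
    rw [← a, zero_add] at b
    have := congrArg Subtype.val (si _ (Subtype.ext b.symm))
    change x - π x = 0 at this
    exact Subtype.ext (by rwa [← a, sub_zero] at this)
  obtain ⟨c, c1, c2, c3⟩ := h.pr.ext (sy_of h.nd h.h2) h.pr (LinearEquiv.ofInjectiveEndo f fi)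
  have c1 : ∀ v w, polar Q (c v) (c w) = polar Q v w := c1
  have c2 : ∀ x : U, c x = f x := c2
  have d1 : ∀ v, c (π v) = π v := fun v => by
    rw [c2 ⟨_, h.l v⟩, f1, show ρ ⟨_, h.l v⟩ = 0 from Subtype.ext (sub_eq_zero.2 (h.ll v).symm)]
    simp [h.ll]
  have d2 : ∀ u ∈ U', π' (c u) = π' u := fun u _ => sub_eq_zero.1 (h.nd _ fun w => by
    rw [polar_sub_left, h.adj', h.adj', ← d1 w, c1, d1, sub_self])
  have d3 : ∀ v, c (π' v) = π' v := fun v => sub_eq_zero.1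
    (h.pr.zero (sy_of h.nd h.h2) (sub_mem (c3 _ (h.r v)) (h.r v)) fun x hx => by
      obtain ⟨y, hy⟩ := LinearMap.injective_iff_surjective.1 fi ⟨x, hx⟩
      obtain rfl : (f y : V) = x := congrArg Subtype.val hy
      change polar Q _ _ = 0
      rw [polar_sub_left, h.adj' v, f2, ← c2, c1, h.adj', sub_self])
  obtain ⟨l, hl⟩ := of_lin h.nd c fun v => by
    obtain ⟨a, ha, b, hb, rfl⟩ := h.pr.top v
    rw [map_add, q_add, q_add, c1, ← h.symm.qp (c3 b hb), d2 b hb, h.symm.qp hb, c2 ⟨a, ha⟩,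
      ← h.qp (f _).2, f2, h.qp ha]
  have d4 : ∀ x : (U ⊓ LinearMap.ker π : Submodule F V), l.1 x = s x := fun x => by
    have e : π x = 0 := x.2.2
    rw [hl, c2 ⟨x, x.2.1⟩, f1, show ρ ⟨x, x.2.1⟩ = x from Subtype.ext (by
      change x - π x = x; rw [e, sub_zero])]
    simp [e]
  refine ⟨l, ⟨fun u hu => d4 ⟨u, hu⟩ ▸ (s _).2, fun u hu => ?_, fun v => (hl _).trans (d1 v),
    fun v => (hl _).trans (d3 v)⟩, fun x hx => ?_⟩
  · rw [hl]; exact ⟨c3 u hu.1, (d2 u hu.1).trans hu.2⟩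
  · have := aeval_int (f := s) (g := en l) (Submodule.subtype _) (fun x => (d4 x).symm) P ⟨x, hx⟩
    rw [hs] at this
    exact this.symm

theorem Pj.levi [Finite F] (h : Pj Q U U' π π') {P : F[X]} (h0 : P.coeff 0 ≠ 0)
    (s : End F (U ⊓ LinearMap.ker π : Submodule F V)) (hs : aeval s P = 0) :
    ∃ l ∈ Lv Q U U' π π', Even (rk l) ∧ (∀ c ∈ U ⊓ LinearMap.ker π, aeval (en l) P c = 0) ∧
      ∀ c ∈ U' ⊓ LinearMap.ker π', aeval (en l⁻¹) P c = 0 := by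
  obtain ⟨l, l1, l2⟩ := h.levi0 h0 s hs
  have := Fintype.ofFinite F
  haveI : CharP F 2 := CharTwo.of_one_ne_zero_of_two_eq_zero one_ne_zero h.h2
  obtain ⟨k, hk⟩ : 2 ∣ Fintype.card F := (CharP.cast_eq_zero_iff F 2 _).1 (FiniteField.cast_card_eq_zero F)
  have m := (Lv Q U U' π π').pow_mem l1 (Fintype.card F)
  have a : ∀ c ∈ U ⊓ LinearMap.ker π, aeval (en (l ^ Fintype.card F)) P c = 0 := fun c hc => by
    have e : ∀ n : ℕ, en (l ^ n) = en l ^ n := fun n => by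
      induction n with
      | zero => rfl
      | succ n ih => rw [pow_succ, pow_succ, ← ih]; rfl
    obtain ⟨n, hn⟩ : ∃ n, Fintype.card F = n + 1 := ⟨_, (Nat.succ_pred_eq_of_pos Fintype.card_pos).symm⟩
    rw [e, ← expand_aeval, FiniteField.expand_card, hn, pow_succ, aeval_mul_apply, l2 c hc, map_zero]
  refine ⟨_, m, by rw [hk, two_mul, pow_add, h.nd.even_rk_mul'], a, fun c hc => h.nd _ fun w => ?_⟩
  obtain ⟨x, hx, y, hy, e⟩ := h.dec w
  rw [polar_comm, ← en_adj, e, map_add, map_add, a x hx, add_zero, polar_add_left,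
    h.symm.iso (aeval_mem (m := en _) m.2.1 P hy).1 hc.1, add_zero]
  refine mem_perp'.1 (aeval_mem (m := en _) (W := Submodule.span F {π w + π' w}) (fun z hz => ?_) P
    (Submodule.mem_span_singleton_self _) |> (Submodule.span_singleton_le_iff_mem _ _).2
      (add_mem (h.symm.pp w).2 (h.symm.pp w).1)) c hc
  obtain ⟨r, rfl⟩ := Submodule.mem_span_singleton.1 hz
  change (l ^ Fintype.card F).1 _ ∈ _
  rwa [map_smul, map_add, m.2.2.1, m.2.2.2]

theorem Pj.half (h : Pj Q U U' π π') {P : F[X]} {t : F} (hP : PD P t) {σ1 n l : OG Q}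
    (hs : ∀ u ∈ U, σ.1 u = u) (hs1 : ∀ u ∈ U, σ1.1 u = u)
    (e : ∀ v, π (σ.1 (π' v)) = π (σ1.1 (π' v))) (hn : ∀ c ∈ U ⊓ LinearMap.ker π, n.1 c = c)
    (h0 : ∀ v, bt t (σ1 * n) v = 0) (l1 : ∀ u ∈ U ⊓ LinearMap.ker π, l.1 u ∈ U ⊓ LinearMap.ker π)
    (l2 : ∀ v, l.1 (π v) = π v) (l3 : ∀ v, l.1 (π' v) = π' v)
    (hC : (∀ c ∈ U ⊓ LinearMap.ker π, aeval (en l) P c = 0) ∨
      ∀ c ∈ U ⊓ LinearMap.ker π, aeval (en l⁻¹) P c = 0) :
    ∃ k : OG Q, k * (σ * n * l) * k⁻¹ = σ1 * n * l := by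
  have a1 : ∀ v ∈ perp Q (U ⊓ LinearMap.ker π), l.1 v - v ∈ U ⊓ LinearMap.ker π := fun v hv => by
    have := h.sub (h.perp1 hv)
    have k := sub_mem (l1 _ this) this
    simp only [map_sub, l2, l3] at k
    convert k using 1; abel
  have a2 : ∀ v ∈ perp Q (U ⊓ LinearMap.ker π), n.1 v ∈ perp Q (U ⊓ LinearMap.ker π) :=
    fun v hv c hc => by
      change polar Q c _ = 0
      rw [← hn c hc, OG.map_polar]; exact hv c hc
  have a3 : ∀ v ∈ perp Q (U ⊓ LinearMap.ker π), σ.1 v - σ1.1 v ∈ U ⊓ LinearMap.ker π := fun v hv => by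
    have k := hs _ (h.perp1 hv)
    have k1 := hs1 _ (h.perp1 hv)
    rw [map_sub] at k k1
    refine ⟨by simpa using sub_mem (h.lag hs v) (h.lag hs1 v), ?_⟩
    rw [show σ.1 v - σ1.1 v = σ.1 (π' v) - σ1.1 (π' v) by linear_combination (norm := module) k - k1]
    simp [e]
  have a4 : ∀ g : OG Q, (∀ u ∈ U, g.1 u = u) → ∀ v ∈ perp Q (U ⊓ LinearMap.ker π),
      (g * n * l).1 v = (g * n).1 v + (l.1 v - v) := fun g hg v hv => by
    rw [← hg _ (a1 v hv).1, ← hn _ (a1 v hv)]; simp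
  refine par_conj (x1 := σ1 * n) (W := U ⊓ LinearMap.ker π) h.nd h.h2 hP (fun c hc => h.q c hc.1 hc.2) l1 hC
    (fun c hc => by simp [hn _ (l1 c hc), hs _ (l1 c hc).1])
    (fun c hc => by simp [hn _ (l1 c hc), hs1 _ (l1 c hc).1]) (fun v hv => ?_) (fun v hv => ?_)
    (fun c hc => by simp [hn c hc, hs1 c hc.1]) h0
  · rw [a4 σ hs v hv, add_sub_right_comm]
    exact add_mem (a3 _ (a2 v hv)) (a1 v hv)
  · rw [a4 σ1 hs1 v hv, add_sub_cancel_left]
    exact a1 v hv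

theorem bt_conj {t : F} {k x : OG Q} (h : ∀ v, bt t x v = 0) (v : V) : bt t (k * x * k⁻¹) v = 0 := by
  have := congrArg k.1 (h (k⁻¹.1 v))
  simpa [bt] using this

theorem Pj.main [Finite F] (h : Pj Q U U' π π') (G : Good F V) {P : F[X]} {t : F} (hP : PD P t)
    (s : End F (U ⊓ LinearMap.ker π : Submodule F V)) (hs : aeval s P = 0) {σ1 τ1 n k : OG Q}
    (s0 : ∀ u ∈ U, σ.1 u = u) (s1 : ∀ u ∈ U, σ1.1 u = u) (t0 : ∀ u ∈ U', τ.1 u = u)
    (t1 : ∀ u ∈ U', τ1.1 u = u) (e : ∀ v, π (σ.1 (π' v)) = π (σ1.1 (π' v)))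
    (e' : ∀ v, π' (τ.1 (π v)) = π' (τ1.1 (π v))) (n1 : ∀ c ∈ U ⊓ LinearMap.ker π, n.1 c = c)
    (n2 : ∀ c ∈ U' ⊓ LinearMap.ker π', n.1 c = c) (k1 : ∀ c ∈ U ⊓ LinearMap.ker π, k.1 c = c)
    (k2 : ∀ c ∈ U' ⊓ LinearMap.ker π', k.1 c = c) (hk : k * (σ1 * n) * k⁻¹ = τ1 * n)
    (h0 : ∀ v, bt t (σ1 * n) v = 0) (ev : Even (rk (σ1 * n))) {z : V} (z1 : π z + π' z = z)
    (z2 : Q z ≠ 0) (z3 : (σ1 * n).1 z = z) : Cmo (τ * σ⁻¹) := by
  obtain ⟨l, l1, l2, l3, l4⟩ := h.levi hP.c0 s hs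
  obtain ⟨a, ha⟩ := h.half hP s0 s1 e n1 h0 l1.1 l1.2.2.1 l1.2.2.2 (Or.inl l3)
  obtain ⟨b, hb⟩ := h.symm.half hP t0 t1 e' n2 (hk ▸ bt_conj h0) l1.2.1 l1.2.2.2 l1.2.2.1 (Or.inr l4)
  have kl : l * k = k * l := OG.ext fun v => by
    obtain ⟨c, hc, d, hd, e⟩ := h.dec v
    have pk : ∀ W : Submodule F V, (∀ c ∈ W, k.1 c = c) → ∀ w ∈ perp Q W, k.1 w ∈ perp Q W :=
      fun W hW w hw c hc => by
        change polar Q c _ = 0
        rw [← hW c hc, OG.map_polar]; exact hw c hc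
    have := h.v1 (pk _ k1 _ (add_mem (h.pp v).1 (h.pp v).2))
      (pk _ k2 _ (add_mem (h.symm.pp v).2 (h.symm.pp v).1))
    have f : l.1 (k.1 (π v + π' v)) = k.1 (π v + π' v) := by
      rw [← this, map_add, l1.2.2.1, l1.2.2.2]
    have f' : l.1 (π v + π' v) = π v + π' v := by rw [map_add, l1.2.2.1, l1.2.2.2]
    generalize π v + π' v = w at e f f'
    subst e
    simp only [OG.mul_apply, map_add, f, f', k1 c hc, k2 d hd, k1 _ (l1.1 c hc), k2 _ (l1.2.1 d hd)]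
  have hz : refl Q z * (σ1 * n * l) = σ1 * n * l * refl Q z := refl_comm (Or.inl (by
    rw [OG.mul_apply, ← z1, map_add, l1.2.2.1, l1.2.2.2, z1, z3]))
  have mem := fun g => h.nd.mem_commutator_iff_char_two G h.h2 g
  have hx : σ * n * l ∈ commutator (OG Q) := by
    rw [mem, ← rk_conj a, ha, h.nd.even_rk_mul']; exact iff_of_true ev l2
  have fin : ∀ k' : OG Q, k' * (σ1 * n * l) * k'⁻¹ = τ1 * n * l → Even (rk (k' * (a * b⁻¹))) →
      Cmo (τ * σ⁻¹) := fun k' e1 e2 => by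
    refine ⟨b⁻¹ * k' * a, ?_, _, hx, ?_⟩
    · rw [mem, ← rk_conj b]; convert e2 using 2; group
    · rw [show b⁻¹ * k' * a * (σ * n * l) * (b⁻¹ * k' * a)⁻¹ =
        b⁻¹ * (k' * (a * (σ * n * l) * a⁻¹) * k'⁻¹) * b by group, ha, e1, ← hb]
      group
  have e1 : k * (σ1 * n * l) * k⁻¹ = τ1 * n * l := by
    rw [← hk, mul_assoc _ k⁻¹ l, show k⁻¹ * l = l * k⁻¹ by
      rw [inv_mul_eq_iff_eq_mul, ← mul_assoc, ← kl, mul_inv_cancel_right]]
    group
  by_cases ek : Even (rk (k * (a * b⁻¹)))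
  · exact fin k e1 ek
  · refine fin (k * refl Q z) (by rw [mul_assoc k, hz, ← e1]; group) ?_
    rw [show k * refl Q z * (a * b⁻¹) = (k * refl Q z * k⁻¹) * (k * (a * b⁻¹)) by group, refl_conj,
      h.nd.even_rk_refl_mul (by simpa using z2)]
    exact ek

end Cfsg.Agent.OreO
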