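import Mathlib
import Cfsg.Agent.Elu.OmG

/-! The frame attached to an orthogonal transformation in characteristic two. -/

set_option autoImplicit false
set_option backward.isDefEq.respectTransparency false

namespace Cfsg.Agent.OreO

open QuadraticMap Module Cfsg.Agent.Orth Polynomial Cfsg.Agent.Ore Cfsg.Agent.Com

universe u

variable {F V : Type u} [Field F] [AddCommGroup V] [Module F V] {Q : QuadraticForm F V}
  {U U' : Submodule F V} {π π' : End F V} {σ τ : OG Q} {e e' : V}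

/-- The universal polynomial. -/
noncomputable def P2' (F : Type u) [Field F] : F[X] :=
  (X ^ 3 + X + 1) * (X ^ 4 + X + 1) * (X ^ 5 + X ^ 2 + 1)

theorem fp2' (h : (2 : F) = 0) : Fp (P2' F) := by
  intro K _ _ y z e
  have h2 : (2 : K) = 0 := by rw [← map_ofNat (algebraMap F K) 2, h, map_zero]
  have k : aeval z (P2' F) * y ^ 12 =
      (1 + y ^ 2 + y ^ 3) * (1 + y ^ 3 + y ^ 4) * (1 + y ^ 3 + y ^ 5) := by
    rw [← show y ^ 3 * (z ^ 3 + z + 1) = 1 + y ^ 2 + y ^ 3 by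
        linear_combination (y ^ 2 + (1 + y * z + (y * z) ^ 2)) * e,
      ← show y ^ 4 * (z ^ 4 + z + 1) = 1 + y ^ 3 + y ^ 4 by
        linear_combination (y ^ 3 + (1 + y * z + (y * z) ^ 2 + (y * z) ^ 3)) * e,
      ← show y ^ 5 * (z ^ 5 + z ^ 2 + 1) = 1 + y ^ 3 + y ^ 5 by
        linear_combination (y ^ 3 * (1 + y * z) +
          (1 + y * z + (y * z) ^ 2 + (y * z) ^ 3 + (y * z) ^ 4)) * e]
    simp only [P2', map_mul, map_add, map_pow, aeval_X, map_one]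
    ring
  refine IsCoprime.of_mul_right_left (z := y ^ 12) ?_
  rw [k]
  refine ⟨1 + y ^ 2 + y ^ 3 + y ^ 6 + y ^ 7 + y ^ 9 + y ^ 10 + y ^ 11,
    y ^ 2 + y ^ 5 + y ^ 8 + y ^ 10 + y ^ 11, ?_⟩
  simp only [P2', map_mul, map_add, map_pow, aeval_X, map_one]
  linear_combination (y + 2 * y ^ 2 + 3 * y ^ 3 + 4 * y ^ 4 + 6 * y ^ 5 + 6 * y ^ 6 + 8 * y ^ 7 +
    10 * y ^ 8 + 10 * y ^ 9 + 11 * y ^ 10 + 13 * y ^ 11 + 13 * y ^ 12 + 14 * y ^ 13 + 13 * y ^ 14 +
    12 * y ^ 15 + 13 * y ^ 16 + 10 * y ^ 17 + 8 * y ^ 18 + 7 * y ^ 19 + 5 * y ^ 20 + 3 * y ^ 21 +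
    2 * y ^ 22 + y ^ 23) * h2

theorem okd2' {n : ℕ} (hn : 3 ≤ n) : Okd (P2' F) 0 n := by
  have k3 : Okd (P2' F) 0 3 := okd_id (τ := X ^ 3 + X + 1) (by monicity!)
    ((dvd_mul_right _ _).mul_right _) (by compute_degree!)
  have k4 : Okd (P2' F) 0 4 := okd_id (τ := X ^ 4 + X + 1) (by monicity!)
    ((dvd_mul_left _ _).mul_right _) (by compute_degree!)
  have k5 : Okd (P2' F) 0 5 := okd_id (τ := X ^ 5 + X ^ 2 + 1) (by monicity!)
    (dvd_mul_left _ _) (by compute_degree!)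
  obtain ⟨j, rfl | rfl | rfl⟩ : ∃ j, n = j * 3 + 3 ∨ n = j * 3 + 4 ∨ n = j * 3 + 5 :=
    ⟨(n - 3) / 3, by omega⟩
  exacts [(k3.mul j).add k3, (k3.mul j).add k4, (k3.mul j).add k5]

theorem pd2 (h : (2 : F) = 0) {t : F} (ht : t = 0 ∨ t = 1) : PD (P2' F) t := by
  have h2 : (2 : F[X]) = 0 := by rw [← map_ofNat (C : F →+* F[X]) 2, h, map_zero]
  have a : IsCoprime (P2' F) (X + 1) := by
    refine IsCoprime.mul_left (IsCoprime.mul_left ⟨1, X ^ 2 + X, ?_⟩ ⟨1, X ^ 3 + X ^ 2 + X, ?_⟩)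
      ⟨1, X ^ 4 + X ^ 3 + X ^ 2, ?_⟩ <;> grind
  have b : IsCoprime (P2' F) (X ^ 2 + X + 1) := by
    refine IsCoprime.mul_left (IsCoprime.mul_left ⟨X + 1, X ^ 2, ?_⟩ ⟨1, X ^ 2 + X, ?_⟩)
      ⟨1, X ^ 3 + X ^ 2, ?_⟩ <;> grind
  refine ⟨fp2' h, by simp [P2'], a.mul_right ?_⟩
  rcases ht with rfl | rfl
  · rw [show (X ^ 2 + C 0 * X + 1 : F[X]) = (X + 1) * (X + 1) by rw [map_zero]; grind]
    exact a.mul_right a
  · simpa using b

theorem exists_P [Finite F] (h2 : (2 : F) = 0) (t : F) {d : ℕ} (hd : 2 ≤ d)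
    (h : d = 2 → ∃ x : F, x ≠ 0 ∧ x ≠ 1) : ∃ P, PD P t ∧ Okd P 0 d := by
  have := Fintype.ofFinite F
  have n1 : (-1 : F) = 1 := by linear_combination -h2
  have sc : ∀ x : F, x ≠ 0 → x ≠ 1 → x ^ 2 + t * x + 1 ≠ 0 → ∃ P, PD P t ∧ Okd P 0 d :=
    fun x h0 h1 h3 => ⟨X - C x, ⟨fp_lin fun e => (mul_self_eq_one_iff.1 e).elim h1 (by rwa [n1]),
      by simpa using h0, cop_X (by
        simp only [eval_mul, eval_add, eval_X, eval_one, eval_pow, eval_C]
        exact mul_ne_zero (fun e => h1 (by linear_combination e - h2)) h3)⟩,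
      by simpa using (okd_id (monic_X_sub_C x) dvd_rfl (natDegree_X_sub_C x)).mul d⟩
  by_cases hx : ∃ x : F, x ≠ 0 ∧ x ≠ 1
  swap
  · exact ⟨_, pd2 h2 (by_contra fun k => hx ⟨t, not_or.1 k⟩), okd2' (by_contra fun k => hx (h (by omega)))⟩
  obtain ⟨x, h0, h1⟩ := hx
  by_cases ht : t = 1
  swap
  · by_cases k : x ^ 2 + t * x + 1 = 0
    · exact sc (x + 1) (fun e => h1 (by linear_combination e - h2)) (by simpa using h0)
        fun e => ht (by linear_combination e - k - (x + 1) * h2)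
    · exact sc x h0 h1 k
  by_cases h3 : 3 ≤ d
  · exact ⟨_, pd2 h2 (Or.inr ht), okd2' h3⟩
  obtain rfl : d = 2 := by omega
  obtain ⟨s, hs⟩ := exists_qd h0
  refine ⟨qd s x, ⟨fp_qd hs h1, by rwa [qd_coeff0], IsCoprime.mul_right ?_ ?_⟩,
    okd_id (qd_monic s x) dvd_rfl (qd_natDegree s x)⟩
  · simpa using cop_qd hs (-1) 1
  · refine (irr_qd hs).coprime_iff_not_dvd.2 fun k => h1 ?_
    have := eq_of_monic_of_dvd_of_natDegree_le (qd_monic s x) (by monicity!) k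
      (by rw [qd_natDegree]; compute_degree!)
    have := congrArg (eval 0) this
    simpa [eval_qd] using this.symm

/-- A frame for the pair `σ`, `τ`. -/
structure Fw (σ τ : OG Q) (U U' : Submodule F V) (e e' : V) : Prop where
  nd : ND Q
  h2 : (2 : F) = 0
  pr : Pr Q.polarBilin U U'
  s : ∀ u ∈ U, σ.1 u = u
  t : ∀ u ∈ U', τ.1 u = u
  l : e ∈ U
  r : e' ∈ U'
  q : ∀ u ∈ U, Q u = polar Q u e' ^ 2
  q' : ∀ u ∈ U', Q u = polar Q u e ^ 2

namespace Fw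

theorem symm (h : Fw σ τ U U' e e') : Fw τ σ U' U e' e :=
  ⟨h.nd, h.h2, h.pr.symm, h.t, h.s, h.r, h.l, h.q', h.q⟩

theorem iso (h : Fw σ τ U U' e e') {x y : V} (hx : x ∈ U) (hy : y ∈ U) : polar Q x y = 0 :=
  h.pr.l x hx y hy

theorem lag (h : Fw σ τ U U' e e') (v : V) : σ.1 v - v ∈ U :=
  h.pr.lag (sy_of h.nd h.h2) fun x hx => by
    change polar Q _ x = 0
    rw [polar_sub_left, ← h.s x hx, OG.map_polar, h.s x hx, sub_self]

theorem inv (h : Fw σ τ U U' e e') : σ * σ = 1 := OG.ext fun v => by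
  have := h.s _ (h.lag v)
  rw [map_sub] at this
  change σ.1 (σ.1 v) = v
  linear_combination (norm := module) this + h.h2 • (σ.1 v - v)

theorem dg (h : Fw σ τ U U' e e') {b : V} (hb : b ∈ U') :
    polar Q (σ.1 b) b = polar Q (σ.1 e') b ^ 2 := by
  have a := h.q _ (h.lag b)
  rw [q_sub, OG.map_Q, polar_sub_left, h.symm.iso hb h.r, sa h.inv b e', polar_comm Q b] at a
  linear_combination -a + (Q b - polar Q (σ.1 e') b ^ 2) * h.h2

theorem ex1 (h : Fw σ τ U U' e e') {x : V} (hx : x ∈ U) (h0 : x ≠ 0) : ∃ y ∈ U', polar Q x y = 1 := by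
  obtain ⟨y, hy, k⟩ : ∃ y ∈ U', polar Q x y ≠ 0 := by
    by_contra k; push Not at k
    exact h0 (h.pr.symm.zero (sy_of h.nd h.h2) hx k)
  exact ⟨(polar Q x y)⁻¹ • y, U'.smul_mem _ hy, by rw [p_smul_right, inv_mul_cancel₀ k]⟩

theorem ex2 (h : Fw σ τ U U' e e') {x z : V} (hx : x ∈ U) (h0 : x ≠ 0) (hz : z ∈ U) (z0 : z ≠ 0) :
    ∃ y ∈ U', polar Q x y = 1 ∧ polar Q z y ≠ 0 := by
  obtain ⟨y, y1, y2⟩ := h.ex1 hx h0
  obtain ⟨w, w1, w2⟩ := h.ex1 hz z0
  by_cases k : polar Q z y = 0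
  · by_cases k' : polar Q x w = 0
    · exact ⟨y + w, add_mem y1 w1, by simp [polar_add_right, y2, k'], by simp [polar_add_right, w2, k]⟩
    · exact ⟨(polar Q x w)⁻¹ • w, U'.smul_mem _ w1, by rw [p_smul_right, inv_mul_cancel₀ k'],
        by simp [w2, k']⟩
  · exact ⟨y, y1, y2, k⟩

theorem chg (h : Fw σ τ U U' e e') (h0 : polar Q e e' = 0) (ht : τ.1 e = e) :
    ∃ U'', Fw σ τ U U'' 0 e' := by
  have ee := h.iso h.l h.l
  refine ⟨U'.map (1 + (Q.polarBilin e).smulRight e), h.nd, h.h2, ⟨h.pr.l, ?_, fun v => ?_⟩, h.s, ?_,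
    zero_mem _, ⟨e', h.r, ?_⟩, h.q, ?_⟩
  · rintro _ ⟨x, hx, rfl⟩ _ ⟨y, hy, rfl⟩
    change polar Q (x + polar Q e x • e) (y + polar Q e y • e) = 0
    simp only [polar_add_left, polar_add_right, p_smul_left, p_smul_right, ee, h.symm.iso hx hy,
      polar_comm Q x e]
    linear_combination polar Q e x * polar Q e y * h.h2
  · obtain ⟨a, ha, b, hb, rfl⟩ := h.pr.top v
    exact ⟨a - polar Q e b • e, sub_mem ha (U.smul_mem _ h.l), _, ⟨b, hb, rfl⟩, by
      change _ + (b + polar Q e b • e) = _; abel⟩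
  · rintro _ ⟨x, hx, rfl⟩
    change τ.1 (x + polar Q e x • e) = x + polar Q e x • e
    rw [map_add, map_smul, ht, h.t x hx]
  · change e' + polar Q e e' • e = e'
    rw [h0, zero_smul, add_zero]
  · rintro _ ⟨x, hx, rfl⟩
    change Q (x + polar Q e x • e) = _
    rw [q_add, q_smul, h.q' x hx, h.q e h.l, h0, p_smul_right, polar_zero_right, polar_comm Q x]
    linear_combination polar Q e x ^ 2 * h.h2

theorem rfl' (h : Fw σ τ U U' e e') {w : V} (hw : w ∈ U) : Fw (refl Q w * σ) τ U U' e e' :=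
  ⟨h.nd, h.h2, h.pr, fun u hu => by rw [OG.mul_apply, h.s u hu, refl_apply_of_orth (h.iso hw hu)],
    h.t, h.l, h.r, h.q, h.q'⟩

variable [FiniteDimensional F V]

theorem par0 (h : Fw σ τ U U' e e') (k : σ.1 e' = e') : Even (rk σ) :=
  h.nd.even_rk_of_sing h.h2 h.inv fun w hw => by
    obtain ⟨v, rfl⟩ := mem_mov.1 hw
    rw [h.q _ (h.lag v), polar_sub_left, sa h.inv, k, sub_self]; simp

theorem par1 (h : Fw σ τ U U' e e') (k : polar Q (σ.1 e') e' = 1) : ¬ Even (rk σ) := by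
  have ee := h.symm.iso h.r h.r
  have q : Q (σ.1 e' - e') = 1 := by rw [h.q _ (h.lag e'), polar_sub_left, k, ee]; simp
  have := (h.rfl' (h.lag e')).par0 (by
    rw [OG.mul_apply, refl_apply, q, polar_sub_left, OG.map_polar, ee, polar_comm, k, inv_one, one_mul]
    linear_combination (norm := module) h.h2 • (σ.1 e' - e'))
  rwa [h.nd.even_rk_refl_mul (by simp [q])] at this

theorem par2 (h : Fw σ τ U U' e e') (k : polar Q (σ.1 e') e' = 0) : Even (rk σ) := by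
  by_cases k0 : σ.1 e' = e'
  · exact h.par0 k0
  obtain ⟨w, w1, w2⟩ := h.symm.ex1 h.r (fun e0 => k0 (by simp [e0]))
  rw [polar_comm] at w2
  have q : Q w = 1 := by rw [h.q w w1, w2]; simp
  have := (h.rfl' w1).par1 (by
    have a := h.iso w1 (h.lag e')
    rw [polar_sub_right, w2, sub_eq_zero] at a
    rw [OG.mul_apply, refl_apply, q, a, polar_sub_left, k, p_smul_left, w2]
    linear_combination -h.h2)
  rwa [h.nd.even_rk_refl_mul (by simp [q]), not_not] at this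

theorem dim (h : Fw σ τ U U' e e') : finrank F V = 2 * finrank F U := by
  obtain ⟨θ, -⟩ := h.pr.theta (sy_of h.nd h.h2)
  rw [← Submodule.finrank_add_eq_of_isCompl (h.pr.compl (sy_of h.nd h.h2)), θ.finrank_eq,
    Subspace.dual_finrank_eq, two_mul]

end Fw

variable [FiniteDimensional F V]

theorem ex3 (hn : 3 ≤ finrank F U) (x y : V) :
    ∃ z ∈ U, z ≠ 0 ∧ polar Q x z = 0 ∧ polar Q y z = 0 := by
  obtain ⟨z, z1, z2⟩ := (Submodule.ne_bot_iff _).1 (LinearMap.ker_ne_bot_of_finrank_lt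
    (f := ((Q.polarBilin x).prod (Q.polarBilin y)) ∘ₗ U.subtype) (by simp; omega))
  exact ⟨z, z.2, by simpa using z2, congrArg Prod.fst z1, congrArg Prod.snd z1⟩

theorem rep [Finite F] (hQ : ND Q) (h2 : (2 : F) = 0) (h : Pr Q.polarBilin U U') :
    ∃ e' ∈ U', ∀ u ∈ U, Q u = polar Q u e' ^ 2 := by
  haveI : CharP F 2 := CharTwo.of_one_ne_zero_of_two_eq_zero one_ne_zero h2
  let φ := frobeniusEquiv F 2
  have k : ∀ x, φ x = x ^ 2 := fun _ => rfl
  let l : U →ₗ[F] F :=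
    { toFun := fun u => φ.symm (Q u)
      map_add' := fun x y => by
        rw [Submodule.coe_add, q_add, show polar Q x y = 0 from h.l x x.2 y y.2, add_zero, map_add]
      map_smul' := fun a x => by
        rw [Submodule.coe_smul, q_smul, map_mul, ← k, φ.symm_apply_apply]; rfl }
  obtain ⟨θ, hθ⟩ := h.theta (sy_of hQ h2)
  refine ⟨θ.symm l, (θ.symm l).2, fun u hu => ?_⟩
  have := hθ (θ.symm l) ⟨u, hu⟩
  rw [θ.apply_symm_apply] at this
  rw [polar_comm, ← k]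
  exact (φ.apply_symm_apply _).symm.trans (congrArg φ this)

theorem exists_fw [Finite F] (hQ : ND Q) (h2 : (2 : F) = 0) (g : OG Q) :
    ∃ σ τ U U' e e', Fw σ τ U U' e e' ∧ g = τ * σ⁻¹ := by
  have sy := sy_of hQ h2
  have c : Ctx Q.polarBilin (en g) (en g⁻¹) := ⟨sy, en_iso g, en_inv g, en_inv' g⟩
  obtain ⟨U, h, -⟩ := bi_top c
  obtain ⟨U', u1, p⟩ := sy.ext_compl (W := U.map (en g - 1)) h.tot (fun y => h.lag y trivial) (by
    rintro _ ⟨x, hx, rfl⟩ _ ⟨y, hy, rfl⟩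
    have := c.symm h.tot h.inv hx hy
    simp only [LinearMap.sub_apply, End.one_apply, map_sub, en_iso g x y, h.tot x hx y hy]
    rw [sy.skew (en g x) y]
    linear_combination -this) (by
    rw [Submodule.disjoint_def]
    rintro _ ⟨x, hx, rfl⟩ k
    obtain ⟨a, -, b, -, rfl, e1, e2⟩ := h.rad x hx (by simpa using add_mem k hx)
    simp only [LinearMap.sub_apply, End.one_apply, map_add, e1, e2]
    linear_combination (norm := module) -h2 • b)
  let f := LinearMap.ofIsCompl (p.compl sy) U.subtype (en g⁻¹ ∘ₗ U'.subtype)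
  have f1 : ∀ x ∈ U, f x = x := fun x hx => LinearMap.ofIsCompl_apply_left _ ⟨x, hx⟩
  have f2 : ∀ x ∈ U', f x = g⁻¹.1 x := fun x hx => LinearMap.ofIsCompl_apply_right _ ⟨x, hx⟩
  obtain ⟨σ, hσ⟩ := of_lin hQ f fun v => by
    obtain ⟨a, ha, b, hb, rfl⟩ := p.top v
    have : polar Q (g.1 a - a) b = 0 := p.r _ (u1 ⟨a, ha, rfl⟩) b hb
    rw [polar_sub_left, sub_eq_zero] at this
    rw [map_add, f1 a ha, f2 b hb, q_add, q_add, OG.map_Q, OG.polar_inv_right, this]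
  obtain ⟨e', r1, r2⟩ := rep hQ h2 p
  obtain ⟨e, r3, r4⟩ := rep hQ h2 p.symm
  exact ⟨σ, g * σ, U, U', e, e', ⟨hQ, h2, p, fun u hu => (hσ u).trans (f1 u hu), fun u hu => by
    rw [OG.mul_apply, hσ, f2 u hu, OG.apply_inv_self], r3, r1, r2, r4⟩, by group⟩

end Cfsg.Agent.OreO
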