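import Mathlib
import Cfsg.Agent.Elu.OmH

/-! The cases of the commutator theorem in characteristic two. -/

set_option autoImplicit false
set_option backward.isDefEq.respectTransparency false

namespace Cfsg.Agent.OreO

open QuadraticMap Module Cfsg.Agent.Orth Polynomial Cfsg.Agent.Ore Cfsg.Agent.Com

universe u

variable {F V : Type u} [Field F] [AddCommGroup V] [Module F V] {Q : QuadraticForm F V}
  {U U' : Submodule F V} {σ τ : OG Q} {e e' a1 a2 b1 b2 : V}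

/-- A projection of rank at most two. -/
def pj (Q : QuadraticForm F V) (b1 a1 b2 a2 : V) : End F V :=
  (Q.polarBilin b1).smulRight a1 + (Q.polarBilin b2).smulRight a2

theorem pj_apply (b1 a1 b2 a2 v : V) :
    pj Q b1 a1 b2 a2 v = polar Q b1 v • a1 + polar Q b2 v • a2 := rfl

/-- Two dual pairs. -/
structure Bo (Q : QuadraticForm F V) (U U' : Submodule F V) (a1 a2 b1 b2 : V) : Prop where
  m1 : a1 ∈ U
  m2 : a2 ∈ U
  m3 : b1 ∈ U'
  m4 : b2 ∈ U'
  p11 : polar Q b1 a1 = 1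
  p12 : polar Q b1 a2 = 0
  p21 : polar Q b2 a1 = 0
  p22 : polar Q b2 a2 = 1 ∨ a2 = 0 ∧ b2 = 0

theorem Bo.symm (h : Bo Q U U' a1 a2 b1 b2) : Bo Q U' U b1 b2 a1 a2 :=
  ⟨h.m3, h.m4, h.m1, h.m2, by rw [polar_comm, h.p11], by rw [polar_comm, h.p21],
    by rw [polar_comm, h.p12], h.p22.imp (by rw [polar_comm]; exact id) And.symm⟩

theorem Bo.ker (h : Bo Q U U' a1 a2 b1 b2) {v : V} (k : pj Q b1 a1 b2 a2 v = 0) :
    polar Q b1 v = 0 ∧ polar Q b2 v = 0 := by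
  have k1 := congrArg (polar Q b1) k
  have k2 := congrArg (polar Q b2) k
  rw [pj_apply, polar_add_right, p_smul_right, p_smul_right] at k1 k2
  refine ⟨by simpa [h.p11, h.p12] using k1, ?_⟩
  rcases h.p22 with e | ⟨-, rfl⟩
  · simpa [h.p21, e] using k2
  · simp

theorem Bo.fx (h : Bo Q U U' a1 a2 b1 b2) :
    pj Q b1 a1 b2 a2 a1 = a1 ∧ pj Q b1 a1 b2 a2 a2 = a2 := by
  refine ⟨by simp [pj_apply, h.p11, h.p21], ?_⟩
  rcases h.p22 with e | ⟨rfl, -⟩
  · simp [pj_apply, h.p12, e]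
  · simp

theorem Fw.pj (h : Fw σ τ U U' e e') (B : Bo Q U U' a1 a2 b1 b2)
    (he : ∃ x y : F, e = x • a1 + y • a2) (he' : ∃ x y : F, e' = x • b1 + y • b2) :
    Pj Q U U' (pj Q b1 a1 b2 a2) (pj Q a1 b1 a2 b2) := by
  obtain ⟨x, y, rfl⟩ := he
  obtain ⟨x', y', rfl⟩ := he'
  refine ⟨h.nd, h.h2, h.pr, fun v => add_mem (U.smul_mem _ B.m1) (U.smul_mem _ B.m2),
    fun v => add_mem (U'.smul_mem _ B.m3) (U'.smul_mem _ B.m4), fun v => ?_, fun v w => ?_,
    fun u hu k => ?_, fun u hu k => ?_⟩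
  · rw [pj_apply b1 a1 b2 a2 v, map_add, map_smul, map_smul, B.fx.1, B.fx.2]
  · simp only [pj_apply, polar_add_left, polar_add_right, p_smul_left, p_smul_right, polar_comm Q v]
    ring
  · rw [h.q u hu, polar_comm, polar_add_left, p_smul_left, p_smul_left, (B.ker k).1, (B.ker k).2]; simp
  · rw [h.q' u hu, polar_comm, polar_add_left, p_smul_left, p_smul_left, (B.symm.ker k).1,
      (B.symm.ker k).2]; simp

/-- Elements fixing the complement of four vectors. -/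
def Fx (g : OG Q) (a1 a2 b1 b2 : V) : Prop := ∀ c, polar Q a1 c = 0 → polar Q a2 c = 0 →
  polar Q b1 c = 0 → polar Q b2 c = 0 → g.1 c = c

theorem bt_zero (h2 : (2 : F) = 0) {g : OG Q} (h : g * g = 1) (v : V) : bt 0 g v = 0 := by
  simp only [bt, ss h]
  linear_combination (norm := module) h2 • (g.1 v + v)

theorem bt_rot (h2 : (2 : F) = 0) {p r : V} {b : F} (hb : b ≠ 0) (hp : Q p = 1) (hr : Q r = b)
    (h : polar Q p r = b) (v : V) : bt b (refl Q p * refl Q r) v = 0 := by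
  obtain ⟨g, hg⟩ : ∃ g, g = refl Q p * refl Q r := ⟨_, rfl⟩
  have k : ∀ v, g.1 v = v - (b⁻¹ * polar Q r v) • r - (polar Q p v - polar Q r v) • p := fun v => by
    rw [hg, OG.mul_apply, refl_apply, refl_apply, hp, hr, polar_sub_right, p_smul_right, h]
    congr 2; field_simp
  have k1 : g.1 p = p - r + b • p := by
    rw [k, polar_comm Q r, h, p_self, h2, inv_mul_cancel₀ hb]; module
  have k2 : g.1 r = r - b • p := by
    rw [k, h, p_self, h2]; module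
  obtain ⟨x, y, k3⟩ : ∃ x y : F, g.1 v = v - x • r - y • p := ⟨_, _, k v⟩
  rw [← hg]
  simp only [bt, k3, map_sub, map_add, map_smul, k1, k2]
  match_scalars <;> grind

variable [FiniteDimensional F V] [Finite F]

theorem Fw.main (h : Fw σ τ U U' e e') (B : Bo Q U U' a1 a2 b1 b2)
    (he : ∃ x y : F, e = x • a1 + y • a2) (he' : ∃ x y : F, e' = x • b1 + y • b2)
    (hn : 8 ≤ finrank F V) (hq : a2 = 0 ∨ finrank F V ≠ 8 ∨ ∃ x : F, x ≠ 0 ∧ x ≠ 1) (t : F)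
    {σ1 τ1 n k : OG Q} (s1 : ∀ u ∈ U, σ1.1 u = u) (t1 : ∀ u ∈ U', τ1.1 u = u)
    (e1 : ∀ x ∈ [b1, b2], ∀ y ∈ [b1, b2], polar Q x (σ.1 y) = polar Q x (σ1.1 y))
    (e2 : ∀ x ∈ [a1, a2], ∀ y ∈ [a1, a2], polar Q x (τ.1 y) = polar Q x (τ1.1 y))
    (n1 : Fx n a1 a2 b1 b2) (k1 : Fx k a1 a2 b1 b2) (hk : k * (σ1 * n) * k⁻¹ = τ1 * n)
    (h0 : ∀ v, bt t (σ1 * n) v = 0) (ev : Even (rk (σ1 * n))) {x1 x2 y1 y2 : F}
    (z2 : Q (x1 • a1 + x2 • a2 + y1 • b1 + y2 • b2) ≠ 0)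
    (z3 : (σ1 * n).1 (x1 • a1 + x2 • a2 + y1 • b1 + y2 • b2) =
      x1 • a1 + x2 • a2 + y1 • b1 + y2 • b2) : Cmo (τ * σ⁻¹) := by
  have J := h.pj B he he'
  have d := h.dim
  have le : U ≤ (U ⊓ LinearMap.ker (OreO.pj Q b1 a1 b2 a2) ⊔ Submodule.span F {a1}) ⊔
      Submodule.span F {a2} := fun u hu => by
    rw [← sub_add_cancel u (OreO.pj Q b1 a1 b2 a2 u)]
    nth_rewrite 2 [pj_apply]
    rw [← add_assoc]
    exact Submodule.add_mem_sup (Submodule.add_mem_sup (J.sub hu) (Submodule.smul_mem _ _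
      (Submodule.mem_span_singleton_self _))) (Submodule.smul_mem _ _
      (Submodule.mem_span_singleton_self _))
  have d1 := finrank_sup_span (U ⊓ LinearMap.ker (OreO.pj Q b1 a1 b2 a2)) a1
  have d2 := (Submodule.finrank_mono le).trans (finrank_sup_span _ a2)
  obtain ⟨P, hP, hs⟩ := exists_P h.h2 t (d := finrank F (U ⊓ LinearMap.ker (OreO.pj Q b1 a1 b2 a2) :
    Submodule F V)) (by omega) fun e => by
      rcases hq with rfl | hq | hq
      · rw [Submodule.span_zero_singleton, sup_bot_eq] at le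
        have := Submodule.finrank_mono le
        omega
      · omega
      · exact hq
  obtain ⟨s, hs, -⟩ := Ok.sim hs (((sim_comm _ _).trans (sim_zero _ _)).trans
    (sim_scalar (W := (U ⊓ LinearMap.ker (OreO.pj Q b1 a1 b2 a2) : Submodule F V)) _ (by simp)))
  have f1 : ∀ g, Fx g a1 a2 b1 b2 → ∀ c ∈ U ⊓ LinearMap.ker (OreO.pj Q b1 a1 b2 a2), g.1 c = c :=
    fun g hg c hc => hg c (h.iso B.m1 hc.1) (h.iso B.m2 hc.1) (B.ker hc.2).1 (B.ker hc.2).2
  have f2 : ∀ g, Fx g a1 a2 b1 b2 → ∀ c ∈ U' ⊓ LinearMap.ker (OreO.pj Q a1 b1 a2 b2), g.1 c = c :=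
    fun g hg c hc => hg c (B.symm.ker hc.2).1 (B.symm.ker hc.2).2 (h.symm.iso B.m3 hc.1)
      (h.symm.iso B.m4 hc.1)
  simp only [List.mem_cons, List.not_mem_nil, or_false, forall_eq_or_imp, forall_eq] at e1 e2
  refine J.main (good_of_five_le (by omega)) hP s hs h.s s1 h.t t1 (fun v => ?_) (fun v => ?_)
    (f1 n n1) (f2 n n1) (f1 k k1) (f2 k k1) hk h0 ev ?_ z2 z3
  · simp only [pj_apply, map_add, map_smul, polar_add_right, p_smul_right, e1]
  · simp only [pj_apply, map_add, map_smul, polar_add_right, p_smul_right, e2]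
  · simp only [map_add, map_smul, B.fx, B.symm.fx, J.l0 B.m3, J.l0 B.m4, J.symm.l0 B.m1,
      J.symm.l0 B.m2]
    module

omit [FiniteDimensional F V] [Finite F] in
theorem ns3 {a b : V} (h : polar Q a b = 1) : ∃ x y : F, Q (x • a + y • b) ≠ 0 := by
  by_contra k
  push Not at k
  have k1 := k 1 0
  have k2 := k 0 1
  have k3 := k 1 1
  simp only [one_smul, zero_smul, add_zero, zero_add, q_add] at k1 k2 k3
  simp [k1, k2, h] at k3

theorem Fw.case1 (h : Fw σ τ U U' e e') (hn : 8 ≤ finrank F V) {a b : V} (ha : a ∈ U) (hb : b ∈ U')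
    (p : polar Q a b = 1) (he : ∃ x : F, e = x • a) (he' : ∃ x : F, e' = x • b)
    (h1 : polar Q (σ.1 e') b = 0) (h2 : polar Q (τ.1 e) a = 0) : Cmo (τ * σ⁻¹) := by
  obtain ⟨x, y, z⟩ := ns3 p
  refine h.main (a2 := 0) (b2 := 0) ⟨ha, zero_mem _, hb, zero_mem _, by rwa [polar_comm], by simp,
    by simp, Or.inr ⟨rfl, rfl⟩⟩ (by obtain ⟨x, hx⟩ := he; exact ⟨x, 0, by simp [hx]⟩)
    (by obtain ⟨x, hx⟩ := he'; exact ⟨x, 0, by simp [hx]⟩) hn (Or.inl rfl) 0 (σ1 := 1) (τ1 := 1)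
    (n := 1) (k := 1) (by simp) (by simp) ?_ ?_ (fun _ _ _ _ _ => rfl) (fun _ _ _ _ _ => rfl) (by simp)
    (bt_zero h.h2 (by simp)) (by simp) (x1 := x) (x2 := 0) (y1 := y) (y2 := 0) (by simpa using z) rfl
  · simp [polar_comm Q b (σ.1 b), h.dg hb, h1, h.symm.iso hb hb]
  · simp [polar_comm Q a (τ.1 a), h.symm.dg ha, h2, h.iso ha ha]

theorem Fw.case2 (h : Fw σ τ U U' e 0) (hn : 8 ≤ finrank F V) (h2 : polar Q (τ.1 e) e = 0) :
    Cmo (τ * σ⁻¹) := by
  by_cases h0 : e = 0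
  · have := h.dim
    obtain ⟨a, a1, a2, -⟩ := ex3 (Q := Q) (U := U) (by omega) 0 0
    obtain ⟨b, b1, b2⟩ := h.ex1 a1 a2
    exact h.case1 hn a1 b1 b2 ⟨0, by simp [h0]⟩ ⟨0, by simp⟩ (by simp) (by simp [h0])
  · obtain ⟨b, b1, b2⟩ := h.ex1 h.l h0
    exact h.case1 hn h.l b1 b2 ⟨1, by simp⟩ ⟨0, by simp⟩ (by simp) h2

omit [FiniteDimensional F V] [Finite F] in
theorem Cmo.inv {g : OG Q} (h : Cmo g) : Cmo g⁻¹ := by
  obtain ⟨a, ha, b, hb, rfl⟩ := h
  exact ⟨b, hb, a, ha, by group⟩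

omit [FiniteDimensional F V] [Finite F] in
theorem Cmo.sw (h : Cmo (σ * τ⁻¹)) : Cmo (τ * σ⁻¹) := by simpa using h.inv

omit [FiniteDimensional F V] [Finite F] in
theorem Fw.two (h : Fw σ τ U U' e e') {a b : V} (ha : a ∈ U) (hb : b ∈ U') (p0 : polar Q e e' = 0)
    (p1 : polar Q e b = 1) (p2 : polar Q a e' = 1) (p3 : polar Q a b = 0)
    (h1 : polar Q (σ.1 e') e' = 0) : Q a = 1 ∧ Q (a + polar Q (σ.1 e') b • e) = 1 ∧
      (∀ u ∈ U, (refl Q a * refl Q (a + polar Q (σ.1 e') b • e)).1 u = u) ∧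
      ∀ x ∈ [b, e'], ∀ y ∈ [b, e'], polar Q x (σ.1 y) =
        polar Q x ((refl Q a * refl Q (a + polar Q (σ.1 e') b • e)).1 y) := by
  obtain ⟨α, hα⟩ : ∃ α, α = polar Q (σ.1 e') b := ⟨_, rfl⟩
  rw [← hα]
  have m := add_mem ha (U.smul_mem α h.l)
  have q1 : Q a = 1 := by rw [h.q a ha, p2]; simp
  have q2 : Q (a + α • e) = 1 := by rw [h.q _ m, polar_add_left, p_smul_left, p2, p0]; simp
  refine ⟨q1, q2, fun u hu => by
    rw [OG.mul_apply, refl_apply_of_orth (h.iso m hu), refl_apply_of_orth (h.iso ha hu)], ?_⟩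
  have k : ∀ y, (refl Q a * refl Q (a + α • e)).1 y =
      y - polar Q (a + α • e) y • (a + α • e) - polar Q a y • a := fun y => by
    rw [OG.mul_apply, refl_apply, refl_apply, q1, q2, polar_sub_right, p_smul_right, h.iso ha m]; simp
  have c1 := h.dg hb
  have c2 := sa h.inv b e'
  have := h.h2
  simp only [List.mem_cons, List.not_mem_nil, or_false, forall_eq_or_imp, forall_eq, k,
    polar_sub_right, polar_add_left, polar_add_right, p_smul_left, p_smul_right, polar_comm Q b a,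
    polar_comm Q b e, polar_comm Q e' a, polar_comm Q e' e, polar_comm Q b (σ.1 _),
    polar_comm Q e' (σ.1 _), h.symm.iso hb hb, h.symm.iso h.r h.r, h.symm.iso h.r hb, h.symm.iso hb h.r,
    p0, p1, p2, p3, c1, h1, ← hα] at c2 ⊢
  refine ⟨⟨?_, ?_⟩, ?_, ?_⟩ <;> grind

theorem Fw.case4 (h : Fw σ τ U U' e e') (hn : 8 ≤ finrank F V)
    (hq : finrank F V ≠ 8 ∨ ∃ x : F, x ≠ 0 ∧ x ≠ 1) (p0 : polar Q e e' = 0) (e0 : e ≠ 0) (e1 : e' ≠ 0)
    (h1 : polar Q (σ.1 e') e' = 0) (h2 : polar Q (τ.1 e) e = 0) (s0 : σ.1 e' ≠ e') (t0 : τ.1 e ≠ e) :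
    Cmo (τ * σ⁻¹) := by
  obtain ⟨b0, b1, b2, b3⟩ := h.ex2 h.l e0 (h.lag e') (sub_ne_zero.2 s0)
  obtain ⟨a, a1, a2, a3⟩ := h.symm.ex2 h.r e1 (h.symm.lag e) (sub_ne_zero.2 t0)
  rw [polar_sub_left, h.symm.iso h.r b1, sub_zero] at b3
  rw [polar_sub_left, h.iso h.l a1, sub_zero] at a3
  rw [polar_comm] at a2
  obtain ⟨b, hb, p1, p3, hα⟩ : ∃ b ∈ U', polar Q e b = 1 ∧ polar Q a b = 0 ∧ polar Q (σ.1 e') b ≠ 0 :=
    ⟨b0 - polar Q a b0 • e', sub_mem b1 (U'.smul_mem _ h.r), by simp [b2, p0], by simp [a2],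
      by simpa [h1] using b3⟩
  obtain ⟨q1, q2, s1, s2⟩ := h.two a1 hb p0 p1 a2 p3 h1
  obtain ⟨q3, q4, t1, t2⟩ := h.symm.two hb a1 (by rwa [polar_comm]) (by rwa [polar_comm])
    (by rwa [polar_comm]) (by rwa [polar_comm]) h2
  generalize polar Q (σ.1 e') b = α at hα q2 s1 s2
  generalize polar Q (τ.1 e) a = α' at a3 q4 t1 t2
  let W := perp Q (Submodule.span F {e, a}) ⊓ perp Q (Submodule.span F {b, e'})
  have w1 : ∀ w : W, polar Q e w = 0 ∧ polar Q a w = 0 := fun w => mem_perp_pair.1 w.2.1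
  have w2 : ∀ w : W, polar Q b w = 0 ∧ polar Q e' w = 0 := fun w => mem_perp_pair.1 w.2.2
  have qe : Q e = 0 := by rw [h.q e h.l, p0]; simp
  have qe' : Q e' = 0 := by rw [h.q' e' h.r, polar_comm, p0]; simp
  obtain ⟨k, hk⟩ := witt_pair h.nd ((io a (α • e)).coprod W.subtype) ((io b (α' • e')).coprod W.subtype)
    (fun z => by
      change z.1.1 • a + z.1.2 • α • e + z.2 = 0 ↔ z.1.1 • b + z.1.2 • α' • e' + z.2 = 0
      constructor
      · intro k
        have k1 := congrArg (polar Q e') k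
        have k2 := congrArg (polar Q b) k
        simp [polar_add_right, w2, polar_comm Q e' a, polar_comm Q b a, polar_comm Q e' e,
          polar_comm Q b e, p0, p1, a2, p3, hα] at k1 k2
        simpa [k1, k2] using k
      · intro k
        have k1 := congrArg (polar Q e) k
        have k2 := congrArg (polar Q a) k
        simp [polar_add_right, w1, p0, p1, a2, p3, a3] at k1 k2
        simpa [k1, k2] using k) (fun z => by
      change Q (z.1.1 • a + z.1.2 • α • e + z.2) = Q (z.1.1 • b + z.1.2 • α' • e' + z.2)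
      simp [q_add, q_smul, polar_add_left, w1, w2, q1, q3, qe, qe', h.iso a1 h.l, h.symm.iso hb h.r])
  have k1 : k.1 a = b := by simpa using hk ((1, 0), 0)
  have k2 : k.1 (α • e) = α' • e' := by simpa using hk ((0, 1), 0)
  have cm := refl_comm (t := refl Q a) (v := a + α • e)
    (Or.inl (refl_apply_of_orth (h.iso a1 (add_mem a1 (U.smul_mem α h.l)))))
  refine h.main (a1 := e) (a2 := a) (b1 := b) (b2 := e') ⟨h.l, a1, hb, h.r, by rwa [polar_comm],
    by rwa [polar_comm], by rwa [polar_comm], Or.inl (by rwa [polar_comm])⟩ ⟨1, 0, by simp⟩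
    ⟨0, 1, by simp⟩ hn (Or.inr hq) 0 (n := 1) (k := k) s1 t1 s2 (by simpa [and_comm] using t2)
    (fun _ _ _ _ _ => rfl) (fun c c1 c2 c3 c4 => by
      simpa using hk (0, ⟨c, mem_perp_pair.2 ⟨c1, c2⟩, mem_perp_pair.2 ⟨c3, c4⟩⟩)) ?_
    (bt_zero h.h2 ?_) ?_ (x1 := 0) (x2 := 1) (y1 := 0) (y2 := 0) (by simp [q1]) (by simpa using s1 a a1)
  · rw [mul_one, mul_one, show k * (refl Q a * refl Q (a + α • e)) * k⁻¹ =
      (k * refl Q a * k⁻¹) * (k * refl Q (a + α • e) * k⁻¹) by group, refl_conj, refl_conj, map_add,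
      k1, k2]
  · rw [mul_one, mul_assoc, ← mul_assoc (refl Q (a + α • e)), cm]; simp [← mul_assoc]
  · rw [mul_one, h.nd.even_rk_refl_mul (by simp [q1]), ← mul_one (refl Q _),
      h.nd.even_rk_refl_mul (by simp [q2])]
    simp

omit [FiniteDimensional F V] [Finite F] in
theorem Fw.one (h : Fw σ τ U U' e e') {w w' b : V} (hw : w ∈ U) (hw' : w' ∈ U') (hb : b ∈ U')
    (p2 : polar Q w b = 0) (he' : ∃ x y : F, e' = x • w' + y • b)
    (f1 : polar Q (σ.1 e') w' = polar Q w w') (f2 : polar Q (σ.1 e') b = 0)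
    (h1 : polar Q (σ.1 e') e' = 1) {c : F} : Q w = 1 ∧
      ∀ x ∈ [c • w', b], ∀ y ∈ [c • w', b], polar Q x (σ.1 y) = polar Q x ((refl Q w).1 y) := by
  obtain ⟨x, y, k⟩ := he'
  have k1 : x * polar Q w w' = 1 := by
    rw [← h1]; nth_rewrite 2 [k]; rw [polar_add_right, p_smul_right, p_smul_right, f1, f2]; ring
  have q : Q w = 1 := by
    rw [h.q w hw, k, polar_add_right, p_smul_right, p_smul_right, k1, p2]; simp
  have c1 := h.dg hb
  have c2 := h.dg hw'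
  have c3 : polar Q (σ.1 w') b = 0 := by
    have := f2
    rw [k, map_add, map_smul, map_smul, polar_add_left, p_smul_left, p_smul_left, c1, f2] at this
    linear_combination polar Q w w' * this - polar Q (σ.1 w') b * k1
  have c4 : polar Q (σ.1 b) w' = 0 := by rw [sa h.inv, polar_comm, c3]
  have := h.h2
  refine ⟨q, ?_⟩
  simp only [List.mem_cons, List.not_mem_nil, or_false, forall_eq_or_imp, forall_eq, refl_apply, q,
    map_smul, polar_sub_right, p_smul_left, p_smul_right, polar_comm Q b (σ.1 _),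
    polar_comm Q w' (σ.1 _), polar_comm Q b w, polar_comm Q w' w, h.symm.iso hb hb,
    h.symm.iso hw' hw', h.symm.iso hw' hb, h.symm.iso hb hw', c1, c2, c3, c4, f1, f2, p2]
  refine ⟨⟨?_, ?_⟩, ?_, ?_⟩ <;> grind

theorem Fw.odd0 (h : Fw σ τ U U' e e') (hn : 8 ≤ finrank F V)
    (hq : finrank F V ≠ 8 ∨ ∃ x : F, x ≠ 0 ∧ x ≠ 1) {w w' a b : V} (hw : w ∈ U) (hw' : w' ∈ U')
    (ha : a ∈ U) (hb : b ∈ U') (p1 : polar Q w w' ≠ 0) (p2 : polar Q w b = 0) (p3 : polar Q w' a = 0)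
    (p4 : polar Q a b = 1) (he : ∃ x y : F, e = x • w + y • a) (he' : ∃ x y : F, e' = x • w' + y • b)
    (f1 : polar Q (σ.1 e') w' = polar Q w w') (f2 : polar Q (σ.1 e') b = 0)
    (f3 : polar Q (τ.1 e) w = polar Q w' w) (f4 : polar Q (τ.1 e) a = 0)
    (h1 : polar Q (σ.1 e') e' = 1) (h2 : polar Q (τ.1 e) e = 1) : Cmo (τ * σ⁻¹) := by
  obtain ⟨q1, s1⟩ := h.one hw hw' hb p2 he' f1 f2 h1 (c := (polar Q w w')⁻¹)
  obtain ⟨q2, t1⟩ := h.symm.one hw' hw ha p3 he f3 f4 h2 (c := 1)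
  rw [one_smul] at t1
  obtain ⟨x, y, z⟩ := ns3 p4
  have q3 : Q (w + w') = polar Q w w' := by rw [q_add, q1, q2, one_add_one_eq_two, h.h2, zero_add]
  have q4 : polar Q w (w + w') = polar Q w w' := by rw [polar_add_right, h.iso hw hw, zero_add]
  have fx : Fx (refl Q (w + w')) w a ((polar Q w w')⁻¹ • w') b := fun c c1 _ c3 _ =>
    refl_apply_of_orth (by
      rw [p_smul_left, mul_eq_zero_iff_left (inv_ne_zero p1)] at c3
      rw [polar_add_left, c1, c3, add_zero])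
  have r1 : (refl Q (w + w')).1 w = w' := by
    rw [refl_apply, q3, polar_comm Q (w + w'), q4, inv_mul_cancel₀ p1]
    linear_combination (norm := module) -h.h2 • w'
  have o1 : polar Q w (x • a + y • b) = 0 := by simp [polar_add_right, h.iso hw ha, p2]
  have o2 : polar Q w' (x • a + y • b) = 0 := by simp [polar_add_right, h.symm.iso hw' hb, p3]
  refine h.main (a1 := w) (a2 := a) (b1 := (polar Q w w')⁻¹ • w') (b2 := b) ⟨hw, ha,
    U'.smul_mem _ hw', hb, by rw [p_smul_left, polar_comm Q w', inv_mul_cancel₀ p1], by simp [p3],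
    by rwa [polar_comm], Or.inl (by rwa [polar_comm])⟩ he (by
      obtain ⟨x, y, k⟩ := he'
      exact ⟨x * polar Q w w', y, by rw [smul_smul, mul_inv_cancel_right₀ p1, k]⟩)
    hn (Or.inr hq) (polar Q w w') (fun u hu => refl_apply_of_orth (h.iso hw hu))
    (fun u hu => refl_apply_of_orth (h.symm.iso hw' hu)) s1 t1 fx fx ?_
    (bt_rot h.h2 p1 q1 q3 q4) ?_ (x1 := 0) (x2 := x) (y1 := 0) (y2 := y) (by simpa using z) ?_
  · rw [← mul_assoc, mul_inv_cancel_right, ← r1, ← refl_conj, r1]; simp [mul_assoc]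
  · rw [h.nd.even_rk_refl_mul (by simp [q1]), ← mul_one (refl Q _),
      h.nd.even_rk_refl_mul (by rwa [q3])]
    simp
  · simp only [zero_smul, zero_add, add_zero, OG.mul_apply]
    rw [refl_apply_of_orth (v := w + w') (by rw [polar_add_left, o1, o2, add_zero]),
      refl_apply_of_orth o1]

theorem Fw.odd (h : Fw σ τ U U' e e') (hn : 8 ≤ finrank F V)
    (hq : finrank F V ≠ 8 ∨ ∃ x : F, x ≠ 0 ∧ x ≠ 1)
    (h1 : polar Q (σ.1 e') e' = 1) (h2 : polar Q (τ.1 e) e = 1) : Cmo (τ * σ⁻¹) := by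
  have d := h.symm.dim
  have c2 := h.h2
  have ee := h.iso h.l h.l
  have ee' := h.symm.iso h.r h.r
  by_cases p0 : polar Q e e' = 0
  swap
  · obtain ⟨b, b1, b2, b3, b4⟩ := ex3 (Q := Q) (U := U') (by omega) e (σ.1 e')
    obtain ⟨a0, a1, a2⟩ := h.symm.ex1 b1 b2
    obtain ⟨a, a1, a2, a3⟩ : ∃ a ∈ U, polar Q a b = 1 ∧ polar Q a e' = 0 :=
      ⟨a0 - (polar Q a0 e' / polar Q e e') • e, sub_mem a1 (U.smul_mem _ h.l),
        by simp [b3, polar_comm Q a0 b, a2], by simp [p0]⟩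
    obtain ⟨μ, hμ⟩ : ∃ μ, polar Q (τ.1 e) a = μ := ⟨_, rfl⟩
    obtain ⟨ε, hε⟩ : ∃ ε, polar Q e e' = ε := ⟨_, rfl⟩
    rw [hε] at p0
    refine h.odd0 hn hq (w := ε⁻¹ • e) (w' := ε⁻¹ • e' + μ • b) (a := a + μ • e) (b := b)
      (U.smul_mem _ h.l) (add_mem (U'.smul_mem _ h.r) (U'.smul_mem _ b1))
      (add_mem a1 (U.smul_mem _ h.l)) b1 ?_ ?_ ?_ ?_ ⟨ε, 0, by simp [p0]⟩
      ⟨ε, -(ε * μ), by simp [p0, smul_smul]⟩ ?_ b4 ?_ ?_ h1 h2 <;>
    simp only [polar_add_left, polar_add_right, p_smul_left, p_smul_right, polar_comm Q e' e,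
      polar_comm Q e' a, polar_comm Q b e, polar_comm Q b a, hε, hμ, a2, a3, b3, b4, h1, h2] <;>
    grind
  obtain ⟨s, s1, s2⟩ : ∃ s ∈ U, σ.1 e' = s + e' := ⟨_, h.lag e', by simp⟩
  obtain ⟨t, t1, t2⟩ : ∃ t ∈ U', τ.1 e = t + e := ⟨_, h.symm.lag e, by simp⟩
  have k1 : polar Q s e' = 1 := by rwa [s2, polar_add_left, ee', add_zero] at h1
  have k2 : polar Q e t = 1 := by rwa [t2, polar_add_left, ee, add_zero, polar_comm] at h2
  obtain ⟨p, p1, p', p2, p3, p4, p5⟩ : ∃ p ∈ U, ∃ p' ∈ U', polar Q p e' = 0 ∧ polar Q e p' = 0 ∧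
      polar Q s t + polar Q p p' ≠ 0 := by
    by_cases k : polar Q s t = 0
    · obtain ⟨p', b1, b2, b3, b4⟩ := ex3 (Q := Q) (U := U') (by omega) e s
      obtain ⟨p, a1, a2⟩ := h.symm.ex1 b1 b2
      exact ⟨p - polar Q p e' • s, sub_mem a1 (U.smul_mem _ s1), p', b1, by simp [k1], b3,
        by simp [k, b4, polar_comm Q p p', a2]⟩
    · exact ⟨0, zero_mem _, 0, zero_mem _, by simp, by simp, by simpa using k⟩
  obtain ⟨β, hβ⟩ : ∃ β, β = polar Q s t + polar Q p p' := ⟨_, rfl⟩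
  have m1 := add_mem (add_mem s1 p1) (U.smul_mem (polar Q p t + polar Q p p') h.l)
  have m2 := add_mem (add_mem t1 p2) (U'.smul_mem (polar Q s p' + polar Q p p') h.r)
  have b0 : β ≠ 0 := hβ ▸ p5
  refine h.odd0 hn hq m1 m2 (add_mem m1 (U.smul_mem β h.l))
    (U'.smul_mem β⁻¹ (add_mem m2 (U'.smul_mem β h.r))) ?_ ?_ ?_ ?_
    ⟨-β⁻¹, β⁻¹, by match_scalars <;> grind⟩ ⟨-β⁻¹, 1, by match_scalars <;> grind⟩ ?_ ?_ ?_ ?_ h1 h2 <;>
  simp only [s2, t2, polar_add_left, polar_add_right, p_smul_left, p_smul_right, polar_comm Q e' e,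
    polar_comm Q e' s, polar_comm Q e' p, polar_comm Q t e, polar_comm Q t s, polar_comm Q t p,
    polar_comm Q p' e, polar_comm Q p' s, polar_comm Q p' p, p0, k1, k2, p3, p4, ee, ee',
    h.iso h.l s1, h.iso h.l p1, h.symm.iso h.r t1, h.symm.iso h.r p2] <;>
  grind

end Cfsg.Agent.OreO
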