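import Mathlib
import Cfsg.Agent.Elu.OmI
import Cfsg.Agent.Elu.O8t0
import Cfsg.Agent.Elu.O8t1

/-! Commutators in orthogonal groups of even dimension. -/

set_option autoImplicit false
set_option backward.isDefEq.respectTransparency false

namespace Cfsg.Agent.OreO

open QuadraticMap Module Cfsg.Agent.Orth Cfsg.Agent.Ore

universe u

variable {F V : Type u} [Field F] [AddCommGroup V] [Module F V] {Q : QuadraticForm F V}
  {U U' : Submodule F V} {σ τ : OG Q} {e e' : V}

/-- Dual families. -/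
structure Bk (Q : QuadraticForm F V) (U U' : Submodule F V) (k : ℕ) (a b : ℕ → V) : Prop where
  l : ∀ i < k, a i ∈ U
  r : ∀ i < k, b i ∈ U'
  p : ∀ i < k, ∀ j < k, polar Q (a i) (b j) = if i = j then 1 else 0

theorem Bk.symm {k : ℕ} {a b : ℕ → V} (h : Bk Q U U' k a b) : Bk Q U' U k b a :=
  ⟨h.r, h.l, fun i hi j hj => by rw [polar_comm, h.p j hj i hi]; simp [eq_comm]⟩

theorem nib (hF : ∀ x : F, x = 0 ∨ x = 1) (c : ℕ → F) :
    ∃ n < 16, ∀ i < 4, ((n.testBit i).toNat : F) = c i := by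
  classical
  refine ⟨Nat.ofBits fun i : Fin 4 => decide (c i = 1), Nat.ofBits_lt_two_pow _, fun i hi => ?_⟩
  rw [Nat.testBit_ofBits_lt _ _ hi]
  rcases hF (c i) with e | e <;> simp [e]

theorem bits : ∀ n < 16, ∀ i < 4, (16 * n).testBit i = false ∧ (16 * n).testBit (4 + i) = n.testBit i ∧
    n.testBit (4 + i) = false := by decide +kernel

theorem io_lo (hF : ∀ x : F, x = 0 ∨ x = 1) (x : ℕ → V) (c : ℕ → F) :
    ∃ n < 16, io8 F x n = ∑ i ∈ Finset.range 4, c i • x i := by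
  obtain ⟨n, h1, h2⟩ := nib hF c
  refine ⟨n, h1, ?_⟩
  rw [io8, Finset.sum_range_add _ 4 4, Finset.sum_eq_zero (s := Finset.range 4)
    (f := fun i => ((n.testBit (4 + i)).toNat : F) • x (4 + i)) fun i hi => by
      simp [(bits n h1 i (Finset.mem_range.1 hi)).2.2], add_zero]
  exact Finset.sum_congr rfl fun i hi => by rw [h2 i (Finset.mem_range.1 hi)]

theorem io_hi (hF : ∀ x : F, x = 0 ∨ x = 1) (x : ℕ → V) (c : ℕ → F) :
    ∃ n < 16, io8 F x (16 * n) = ∑ i ∈ Finset.range 4, c i • x (4 + i) := by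
  obtain ⟨n, h1, h2⟩ := nib hF c
  refine ⟨n, h1, ?_⟩
  rw [io8, Finset.sum_range_add _ 4 4, Finset.sum_eq_zero (s := Finset.range 4)
    (f := fun i => (((16 * n).testBit i).toNat : F) • x i) fun i hi => by
      simp [(bits n h1 i (Finset.mem_range.1 hi)).1], zero_add]
  exact Finset.sum_congr rfl fun i hi => by
    rw [(bits n h1 i (Finset.mem_range.1 hi)).2.1, h2 i (Finset.mem_range.1 hi)]

theorem qf_pow : ∀ j < 2, ∀ i < 4, qf j (2 ^ i) = (if i = j then 1 else 0) ∧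
    qf j (2 ^ (4 + i)) = if i = 0 then 1 else 0 := by decide +kernel

variable [FiniteDimensional F V]

theorem Fw.ext (h : Fw σ τ U U' e e') {k : ℕ} {a b : ℕ → V} (B : Bk Q U U' k a b)
    (hk : k < finrank F U) : ∃ a' b', Bk Q U U' (k + 1) a' b' ∧ ∀ i < k, a' i = a i ∧ b' i = b i := by
  obtain ⟨c, c1, c2⟩ := (Submodule.ne_bot_iff _).1 (LinearMap.ker_ne_bot_of_finrank_lt
    (f := LinearMap.pi fun i : Fin k => Q.polarBilin (b i) ∘ₗ U.subtype) (by simpa using hk))
  have c3 : ∀ i < k, polar Q c (b i) = 0 := fun i hi => by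
    rw [polar_comm]; exact congrFun c1 ⟨i, hi⟩
  obtain ⟨d, d1, d2⟩ := h.ex1 c.2 (by simpa using c2)
  refine ⟨Function.update a k c, Function.update b k
    (d - ∑ i ∈ Finset.range k, polar Q (a i) d • b i), ⟨fun i hi => ?_, fun i hi => ?_,
    fun i hi j hj => ?_⟩, fun i hi => by simp [hi.ne]⟩
  · rcases Nat.lt_succ_iff_lt_or_eq.1 hi with hi | rfl
    · simpa [hi.ne] using B.l i hi
    · simp
  · rcases Nat.lt_succ_iff_lt_or_eq.1 hi with hi | rfl
    · simpa [hi.ne] using B.r i hi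
    · simpa using sub_mem d1 (U'.sum_mem fun i hi => U'.smul_mem _ (B.r i (Finset.mem_range.1 hi)))
  · rcases Nat.lt_succ_iff_lt_or_eq.1 hi with hi | rfl <;>
      rcases Nat.lt_succ_iff_lt_or_eq.1 hj with hj | rfl
    · simpa [hi.ne, hj.ne] using B.p i hi j hj
    · rw [Function.update_of_ne hi.ne, Function.update_self, if_neg hi.ne, polar_sub_right, p_sum_right,
        Finset.sum_eq_single i (fun l hl e => by
          rw [p_smul_right, B.p i hi l (Finset.mem_range.1 hl), if_neg e.symm, mul_zero])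
          (by simp [hi]), p_smul_right, B.p i hi i hi, if_pos rfl, mul_one, sub_self]
    · simp [hj.ne, hj.ne', c3 j hj]
    · rw [Function.update_self, Function.update_self, if_pos rfl, polar_sub_right, p_sum_right, d2,
        Finset.sum_eq_zero fun l hl => by rw [p_smul_right, c3 l (Finset.mem_range.1 hl), mul_zero],
        sub_zero]

theorem Bk.span {k : ℕ} {a b : ℕ → V} (B : Bk Q U U' k a b) (hk : finrank F U = k) {u : V}
    (hu : u ∈ U) : ∃ c : ℕ → F, u = ∑ i ∈ Finset.range k, c i • a i := by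
  let φ : U →ₗ[F] (Fin k → F) := LinearMap.pi fun i : Fin k => Q.polarBilin (b i) ∘ₗ U.subtype
  have m : ∀ c : ℕ → F, ∑ i ∈ Finset.range k, c i • a i ∈ U := fun c =>
    U.sum_mem fun i hi => U.smul_mem _ (B.l i (Finset.mem_range.1 hi))
  have k1 : ∀ (c : ℕ → F) (j : Fin k), φ ⟨_, m c⟩ j = c j := fun c j => by
    change polar Q (b j) (∑ i ∈ Finset.range k, c i • a i) = _
    rw [p_sum_right, Finset.sum_eq_single (j : ℕ) (fun l hl e => by
      rw [p_smul_right, B.symm.p j j.2 l (Finset.mem_range.1 hl), if_neg e.symm, mul_zero])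
      (by simp), p_smul_right, B.symm.p j j.2 j j.2, if_pos rfl, mul_one]
  have inj : Function.Injective φ :=
    (LinearMap.injective_iff_surjective_of_finrank_eq_finrank (by simpa using hk)).2 fun f =>
      ⟨⟨_, m fun i => if h : i < k then f ⟨i, h⟩ else 0⟩, funext fun j => by rw [k1]; simp⟩
  exact ⟨fun i => polar Q (b i) u, congrArg Subtype.val
    (inj (a₁ := ⟨u, hu⟩) (a₂ := ⟨_, m _⟩) (funext fun j => by rw [k1]; rfl))⟩

theorem Fw.small [Finite F] (h : Fw σ τ U U' e e') (hn : finrank F V = 8)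
    (hF : ∀ x : F, x = 0 ∨ x = 1) (e0 : e ≠ 0) (e1 : e' ≠ 0) (hg : Even (rk (τ * σ⁻¹))) :
    Cmo (τ * σ⁻¹) := by
  have d := h.dim
  have d' := h.symm.dim
  obtain ⟨j, hj, a, b, B, ha, hb⟩ : ∃ j < 2, ∃ a b, Bk Q U U' 2 a b ∧ a 0 = e ∧ b j = e' := by
    rcases hF (polar Q e e') with p | p
    · obtain ⟨y, y1, y2⟩ := h.ex1 h.l e0
      obtain ⟨z, z1, z2⟩ := h.symm.ex1 h.r e1
      rw [polar_comm] at z2
      refine ⟨1, by omega, fun i => if i = 0 then e else z,
        fun i => if i = 0 then y - polar Q z y • e' else e', ⟨fun i hi => ?_, fun i hi => ?_,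
        fun i hi k hk => ?_⟩, rfl, rfl⟩
      · split_ifs; exacts [h.l, z1]
      · split_ifs; exacts [sub_mem y1 (U'.smul_mem _ h.r), h.r]
      · interval_cases i <;> interval_cases k <;> simp [p, y2, z2]
    · obtain ⟨a, b, B, k⟩ := h.ext (k := 1) (a := fun _ => e) (b := fun _ => e')
        ⟨fun _ _ => h.l, fun _ _ => h.r, fun i hi k hk => by rw [p, if_pos (by omega)]⟩ (by omega)
      exact ⟨0, by omega, a, b, B, (k 0 (by omega)).1, (k 0 (by omega)).2⟩
  obtain ⟨a3, b3, B3, k3⟩ := h.ext B (by omega)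
  obtain ⟨a4, b4, B4, k4⟩ := h.ext B3 (by omega)
  replace ha : a4 0 = e := by rw [(k4 0 (by omega)).1, (k3 0 (by omega)).1, ha]
  replace hb : b4 j = e' := by rw [(k4 j (by omega)).2, (k3 j (by omega)).2, hb]
  obtain ⟨x, x1, x2⟩ : ∃ x : ℕ → V, (∀ i < 4, x i = a4 i) ∧ ∀ i, x (4 + i) = b4 i :=
    ⟨fun i => if i < 4 then a4 i else b4 (i - 4), fun i hi => if_pos hi, fun i => by simp⟩
  have lo : ∀ u ∈ U, ∃ n < 16, io8 F x n = u := fun u hu => by
    obtain ⟨c, rfl⟩ := B4.span (by omega) hu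
    obtain ⟨n, n1, n2⟩ := io_lo hF x c
    exact ⟨n, n1, n2.trans (Finset.sum_congr rfl fun i hi => by rw [x1 i (Finset.mem_range.1 hi)])⟩
  have hi : ∀ u ∈ U', ∃ n < 16, io8 F x (16 * n) = u := fun u hu => by
    obtain ⟨c, rfl⟩ := B4.symm.span (by omega) hu
    obtain ⟨n, n1, n2⟩ := io_hi hF x c
    exact ⟨n, n1, n2.trans (Finset.sum_congr rfl fun i _ => by rw [x2 i])⟩
  have cs : ∀ i < 8, i < 4 ∨ ∃ k < 4, i = 4 + k := fun i hi =>
    (lt_or_ge i 4).imp_right fun k => ⟨i - 4, by omega, by omega⟩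
  have X : B8 Q j x := by
    have xr : ∀ n k, io8 F x (n ^^^ k) = io8 F x n + io8 F x k := fun n k => by
      unfold io8
      rw [← Finset.sum_add_distrib]
      refine Finset.sum_congr rfl fun i _ => ?_
      rw [Nat.testBit_xor, ← add_smul]
      have := h.h2
      cases n.testBit i <;> cases k.testBit i <;> simp [one_add_one_eq_two, this]
    refine ⟨h.h2, hj, fun i hi k hk => ?_, fun i hi => ?_, fun v => ?_⟩
    · have c1 := cs i hi
      have c2 := cs k hk
      clear hi hk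
      rcases c1 with hi | ⟨i, hi, rfl⟩ <;> rcases c2 with hk | ⟨k, hk, rfl⟩
      · rw [x1 i hi, x1 k hk, h.iso (B4.l i hi) (B4.l k hk), if_neg (by omega)]
      · rw [x1 i hi, x2, B4.p i hi k hk]; exact if_congr (by omega) rfl rfl
      · rw [x1 k hk, x2, B4.symm.p i hi k hk]; exact if_congr (by omega) rfl rfl
      · rw [x2, x2, h.symm.iso (B4.r i hi) (B4.r k hk), if_neg (by omega)]
    · have c1 := cs i hi
      clear hi
      rcases c1 with hi | ⟨i, hi, rfl⟩
      · rw [x1 i hi, h.q _ (B4.l i hi), ← hb, B4.p i hi j (by omega), (qf_pow j hj i hi).1]; simp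
      · rw [x2, h.q' _ (B4.r i hi), ← ha, B4.symm.p i hi 0 (by omega), (qf_pow j hj i hi).2]; simp
    · obtain ⟨u, hu, w, hw, rfl⟩ := h.pr.top v
      obtain ⟨n, n1, rfl⟩ := lo u hu
      obtain ⟨k, k1, rfl⟩ := hi w hw
      exact ⟨n ^^^ (16 * k), Nat.xor_lt_two_pow (n := 8) (by omega) (by omega), xr _ _⟩
  choose s s1 s2 using fun i => lo _ (h.lag (io8 F x (16 <<< i)))
  choose t t1 t2 using fun i => hi _ (h.symm.lag (io8 F x (1 <<< i)))
  have fs : ∀ i < 4, σ.1 (io8 F x (2 ^ i)) = io8 F x (2 ^ i) := fun i hi => by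
    rw [B8.pow (by omega), x1 i hi, h.s _ (B4.l i hi)]
  have ft : ∀ i < 4, τ.1 (io8 F x (2 ^ (4 + i))) = io8 F x (2 ^ (4 + i)) := fun i hi => by
    rw [B8.pow (by omega), x2, h.t _ (B4.r i hi)]
  have gs : ∀ i, σ.1 (io8 F x (16 <<< i ^^^ 0)) = io8 F x (16 <<< i ^^^ s i) := fun i => by
    rw [Nat.xor_zero, X.xor, s2]; abel
  have gt : ∀ i, τ.1 (io8 F x (1 <<< i ^^^ 16 * 0)) = io8 F x (1 <<< i ^^^ 16 * t i) := fun i => by
    rw [mul_zero, Nat.xor_zero, X.xor, t2]; abel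
  have fin : ∀ LS LT : List (List ℕ),
      allL j LS (fun i a => (16 <<< i) ^^^ a) (fun l => [1, 2, 4, 8] ++ l) = true →
      allL j LT (fun i a => (1 <<< i) ^^^ (16 * a)) (fun l => l ++ [16, 32, 64, 128]) = true →
      (∀ ls ∈ LS, ∀ lt ∈ LT, (lt ++ ls).length % 2 = 1 ∨ ∃ c, chk j (lt ++ ls) c = true) →
      Cmo (τ * σ⁻¹) := fun LS LT h1 h2 h3 => by
    obtain ⟨ls, l1, l2, l3⟩ := X.listed h1 (by decide +kernel) σ s (fun i _ => s1 i) (fun i _ => gs i)
      (by decide +kernel) (by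
        simp only [List.map, List.cons_append, List.nil_append, List.cons.injEq, and_true]
        exact ⟨fs 0 (by omega), fs 1 (by omega), fs 2 (by omega), fs 3 (by omega), gs 0, gs 1, gs 2,
          gs 3⟩)
    obtain ⟨lt, m1, m2, m3⟩ := X.listed h2 (by decide +kernel) τ t (fun i _ => t1 i) (fun i _ => gt i)
      (by decide +kernel) (by
        simp only [List.map, List.cons_append, List.nil_append, List.cons.injEq, and_true]
        exact ⟨gt 0, gt 1, gt 2, gt 3, ft 0 (by omega), ft 1 (by omega), ft 2 (by omega),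
          ft 3 (by omega)⟩)
    have e : τ * σ⁻¹ = B8.pr Q x (lt ++ ls) := by
      rw [inv_eq_of_mul_eq_one_right h.inv, l3, m3]; simp [B8.pr]
    have ok : okL j (lt ++ ls) = true := by
      unfold okL at l2 m2 ⊢
      rw [List.all_append, l2, m2]; rfl
    rw [e] at hg ⊢
    rw [X.even h.nd ok, Nat.even_iff] at hg
    obtain ⟨c, hc⟩ := (h3 ls l1 lt m1).resolve_left (by omega)
    exact X.cmo h.nd (good_of_five_le (by omega)) ok hc
  interval_cases j
  exacts [fin _ _ T0.hS T0.hT T0.all, fin _ _ T1.hS T1.hT T1.all]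

theorem omega_two [Finite F] (hQ : ND Q) (h2 : (2 : F) = 0) (hn : 8 ≤ finrank F V) {g : OG Q}
    (hg : g ∈ commutator (OG Q)) : Cmo g := by
  rw [hQ.mem_commutator_iff_char_two (good_of_five_le (by omega)) h2] at hg
  obtain ⟨σ, τ, U, U', e, e', h, rfl⟩ := exists_fw hQ h2 g
  have id1 : ∀ x : F, x = x ^ 2 → x = 0 ∨ x = 1 := fun x k => by
    rcases mul_eq_zero.1 (show x * (x - 1) = 0 by linear_combination -k) with k | k
    exacts [Or.inl k, Or.inr (sub_eq_zero.1 k)]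
  have hg' := hg
  rw [inv_eq_of_mul_eq_one_right h.inv, hQ.even_rk_mul'] at hg'
  have par : polar Q (σ.1 e') e' = 0 ∧ polar Q (τ.1 e) e = 0 ∨
      polar Q (σ.1 e') e' = 1 ∧ polar Q (τ.1 e) e = 1 := by
    rcases id1 _ (h.dg h.r) with k | k <;> rcases id1 _ (h.symm.dg h.l) with k' | k'
    · exact Or.inl ⟨k, k'⟩
    · exact absurd (hg'.2 (h.par2 k)) (h.symm.par1 k')
    · exact absurd (hg'.1 (h.symm.par2 k')) (h.par1 k)
    · exact Or.inr ⟨k, k'⟩
  by_cases e1 : e' = 0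
  · subst e1
    exact h.case2 hn (par.resolve_right (by simp)).2
  by_cases e0 : e = 0
  · subst e0
    exact (h.symm.case2 hn (par.resolve_right (by simp)).1).sw
  by_cases hq : finrank F V ≠ 8 ∨ ∃ x : F, x ≠ 0 ∧ x ≠ 1
  swap
  · push Not at hq
    exact h.small hq.1 (fun x => or_iff_not_imp_left.2 (hq.2 x)) e0 e1 hg
  rcases par with ⟨k, k'⟩ | ⟨k, k'⟩
  swap
  · exact h.odd hn hq k k'
  by_cases p0 : polar Q e e' = 0
  swap
  · exact h.case1 hn h.l (U'.smul_mem (polar Q e e')⁻¹ h.r) (by simp [p0]) ⟨1, by simp⟩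
      ⟨polar Q e e', by simp [p0]⟩ (by simp [k]) k'
  by_cases t0 : τ.1 e = e
  · obtain ⟨W, H⟩ := h.chg p0 t0
    exact (H.symm.case2 hn k).sw
  by_cases s0 : σ.1 e' = e'
  · obtain ⟨W, H⟩ := h.symm.chg (by rwa [polar_comm]) s0
    exact H.symm.case2 hn k'
  exact h.case4 hn hq p0 e0 e1 k k' s0 t0

theorem omega_all [Finite F] (hQ : ND Q) (hn : 8 ≤ finrank F V) (he : Even (finrank F V))
    {g : OG Q} (hg : g ∈ commutator (OG Q)) : Cmo g := by
  by_cases h2 : (2 : F) = 0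
  exacts [omega_two hQ h2 hn hg, omega_even hQ h2 hn he hg]

end Cfsg.Agent.OreO
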