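import Mathlib
import Cfsg.Agent.Elu.Ore6

/-! Every element of a symplectic group is a commutator. -/

set_option autoImplicit false
set_option backward.isDefEq.respectTransparency false

namespace Cfsg.Agent.Ore

open Polynomial Module Cfsg.Agent.Com Matrix

universe u

variable {F : Type u} [Field F] {V : Type u} [AddCommGroup V] [Module F V]
  {ω : LinearMap.BilinForm F V} {g g' : End F V} [FiniteDimensional F V]

/-- `g` is a commutator of isometries. -/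
def Cm (ω : LinearMap.BilinForm F V) (g : End F V) : Prop :=
  ∃ a b : End F V, Iso ω a ∧ Iso ω b ∧ a * b = g * (b * a)

theorem Gu.dim (c : Ctx ω g g') {U : Submodule F V} (h : Gu ω g g' ⊤ U) :
    finrank F V = 2 * finrank F U := by
  obtain ⟨U', -, p⟩ := c.sy.ext_compl (W := ⊥) h.tot (fun y => h.lag y trivial) (by simp [Tot])
    (by simp)
  obtain ⟨θ, -⟩ := p.theta c.sy
  rw [← Submodule.finrank_add_eq_of_isCompl (p.compl c.sy), θ.finrank_eq, Subspace.dual_finrank_eq,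
    two_mul]

theorem Gu.cm (c : Ctx ω g g') {U : Submodule F V} (h : Gu ω g g' ⊤ U) (A : End F U)
    (h1 : ∀ x y : U, ω (A x) (g y) = ω (A y) (g x)) (h2 : ∀ x : U, g x = x → A x = x)
    (h3 : ∀ x : U, g x = -x → A x = -x) {P : F[X]} (hP : Fp P) (h0 : P.coeff 0 ≠ 0)
    (hA : Ok P A) : Cm ω g := by
  obtain ⟨s, s1, s2⟩ := hA
  obtain ⟨x, x1, x2⟩ := siegel' c.sy c.iso U.subtype Subtype.val_injective
    (fun x y => h.tot x x.2 y y.2) (fun y hy => ⟨⟨y, h.lag y trivial (fun x hx => hy ⟨x, hx⟩)⟩, rfl⟩)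
    A s (fun x y => by
      simp only [Submodule.subtype_apply]
      rw [c.sy.skew (g x), h1 x y, neg_add_cancel]) (fun x y e => by
      simp only [Submodule.subtype_apply] at e
      obtain ⟨u1, a1, u2, a2, e1, e2, e3⟩ := h.rad x x.2 (e ▸ y.2)
      apply Subtype.ext
      rw [← e, show x = ⟨u1, a1⟩ + ⟨u2, a2⟩ from Subtype.ext e1, map_add A, h2 ⟨u1, a1⟩ e2,
        h3 ⟨u2, a2⟩ e3]
      simp [e2, e3]) hP h0 s1 s2
  obtain ⟨a, a1, a2⟩ := x1.conj c.sy x2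
  exact ⟨a, x, a1, x1.1, by rw [a2, mul_assoc]⟩

theorem cm_of_c2 (h : C2 ω g ⊤) : Cm ω g := by
  obtain ⟨a, b, h1, h2, -, -, h3⟩ := h
  exact ⟨a, b, h1, h2, LinearMap.ext (fun w => h3 w trivial)⟩

theorem cm_even [Finite F] (c : Ctx ω g g') (h2 : (2 : F) = 0) {P : F[X]} (hP : Fp P)
    (h0 : P.coeff 0 ≠ 0) {m : ℕ} (hm : finrank F V = 2 * m) (H : Okd P 0 m) : Cm ω g := by
  obtain ⟨U, h, -⟩ := bi_top c
  refine h.cm c ((1 : F) • LinearMap.id) (fun x y => by simpa using c.symm h.tot h.inv x.2 y.2)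
    (by simp) (fun x _ => ?_) hP h0 (H.sim (((sim_comm _ _).trans (sim_zero _ _)).trans
      (sim_scalar _ (by have := h.dim c; simp; omega))))
  rw [eq_neg_iff_add_eq_zero]
  simp [← two_smul F x, h2]

theorem cm_odd [Finite F] (c : Ctx ω g g') (h2 : (2 : F) ≠ 0) {P : F[X]} (hP : Fp P)
    (h0 : P.coeff 0 ≠ 0) {m : ℕ} (hm : finrank F V = 2 * m)
    (H : ∀ a b, Even a → a + b = m → 0 < b ∨ a ≠ 2 → Okd P a b)
    (HJ : Okd P 2 0 ∨ Ok P (l2 (-1) 0 1 (-1))) : Cm ω g := by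
  obtain ⟨U, h, ⟨u, hu, hu'⟩ | h'⟩ := bi_top c
  swap
  · exact cm_of_c2 h'
  have hd : finrank F U = m := by have := h.dim c; omega
  have sy : ∀ x y : U, ω x (g y) = ω y (g x) := fun x y => c.symm h.tot h.inv x.2 y.2
  let Rm := LinearMap.ker ((g + 1) ∘ₗ U.subtype)
  let Rp := LinearMap.ker ((g - 1) ∘ₗ U.subtype)
  have mm : ∀ x : U, x ∈ Rm ↔ g x = -x := fun x => by simp [Rm, add_eq_zero_iff_eq_neg]
  have mp : ∀ x : U, x ∈ Rp ↔ g x = x := fun x => by simp [Rp, sub_eq_zero]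
  obtain ⟨D, d1, d2⟩ := (Submodule.disjoint_def.mpr (fun x k1 k2 => by
    have := ((mp x).mp k1).symm.trans ((mm x).mp k2)
    rw [eq_neg_iff_add_eq_zero, ← two_smul F, smul_eq_zero] at this
    exact Subtype.ext (this.resolve_left h2)) : Disjoint Rp Rm).exists_isCompl
  obtain ⟨φ, f1, f2, f3⟩ : ∃ φ : End F U, (∀ x, φ x ∈ Rm) ∧ (∀ x ∈ Rm, φ x = x) ∧
      ∀ x ∈ Rp, φ x = 0 := ⟨Rm.projection D d2.symm, fun x => Submodule.projection_apply_mem _ x,
    fun x hx => Submodule.projection_apply_of_mem_left _ hx,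
    fun x hx => Submodule.projection_apply_of_mem_right _ (d1 hx)⟩
  have z1 : ∀ x ∈ Rm, ∀ y : U, ω y (g x) = 0 := fun x hx y => by
    rw [(mm x).mp hx]; exact h.tot y y.2 _ (U.neg_mem x.2)
  have z2 : ∀ x ∈ Rp, ∀ y : U, ω y (g x) = 0 := fun x hx y => by
    rw [(mp x).mp hx]; exact h.tot y y.2 _ x.2
  have main : ∀ ψ : End F U, ψ * ψ = ψ → (∀ x y : U, ω (ψ x) (g y) = ω (ψ y) (g x)) →
      (∀ x ∈ Rm, ψ x = x) → (∀ x ∈ Rp, ψ x = 0) → Okd P (finrank F (LinearMap.range ψ))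
        (finrank F (LinearMap.ker ψ)) → Cm ω g := fun ψ p1 p2 p3 p4 p5 =>
    h.cm c (1 - (2 : F) • ψ) (fun x y => by simp [sy x y, p2 x y])
      (fun x hx => by simp [p4 x ((mp x).mpr hx)])
      (fun x hx => by simp [p3 x ((mm x).mpr hx), two_smul]) hP h0 (p5.sim (sim_idem p1))
  obtain ⟨v, hv⟩ : ∃ v : U, ω v (g v) ≠ 0 := by
    by_contra hn
    push Not at hn
    refine hu' (h.lag _ trivial (fun x hx => c.sy.sw ?_))
    have := hn (⟨x, hx⟩ + ⟨u, hu⟩)
    simp only [Submodule.coe_add, map_add, LinearMap.add_apply, hn ⟨x, hx⟩, hn ⟨u, hu⟩,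
      sy ⟨u, hu⟩ ⟨x, hx⟩] at this
    exact (mul_eq_zero.mp (show 2 * ω x (g u) = 0 by linear_combination this)).resolve_left h2
  obtain ⟨w, w1, w2⟩ : ∃ w : U, ω w (g w) ≠ 0 ∧ φ w = 0 := ⟨v - φ v, by
    simpa [z1 _ (f1 v), sy (φ v) v] using hv, by rw [map_sub, f2 _ (f1 v), sub_self]⟩
  have w3 : w ∉ Rm := fun e => w1 (z1 w e w)
  have r1 : LinearMap.range φ = Rm := le_antisymm (by rintro _ ⟨x, rfl⟩; exact f1 x)
    (fun x hx => ⟨x, f2 x hx⟩)
  have r2 : finrank F Rm < m := hd ▸ Submodule.finrank_lt (fun e => w3 (e ▸ trivial))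
  rcases Nat.even_or_odd (finrank F Rm) with ev | od
  · have := φ.finrank_range_add_finrank_ker
    rw [r1] at this
    exact main φ (LinearMap.ext (fun x => f2 _ (f1 x))) (fun x y => by
      rw [sy, sy (φ y), z1 _ (f1 x), z1 _ (f1 y)]) f2 f3 (H _ _ (r1 ▸ ev) (by rw [r1]; omega)
      (Or.inl (by omega)))
  obtain ⟨l, l1, l2', l3⟩ : ∃ l : U →ₗ[F] F, l w = 1 ∧ (∀ x y : U, l x * ω w (g y) = l y * ω w (g x)) ∧
      ∀ x : U, ω w (g x) = 0 → l x = 0 := ⟨(ω w (g w))⁻¹ • (ω w ∘ₗ g ∘ₗ U.subtype), by simp [w1],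
    fun x y => by simp; ring, fun x hx => by simp [hx]⟩
  let ψ : End F U := φ + l.smulRight w
  have hψ : ∀ x, ψ x = φ x + l x • w := fun _ => rfl
  have p3 : ∀ x ∈ Rm, ψ x = x := fun x hx => by simp [hψ, f2 x hx, l3 x (z1 x hx w)]
  have p4 : ∀ x ∈ Rp, ψ x = 0 := fun x hx => by simp [hψ, f3 x hx, l3 x (z2 x hx w)]
  have p5 : ψ w = w := by simp [hψ, w2, l1]
  have r3 : LinearMap.range ψ = Rm ⊔ Submodule.span F {w} := le_antisymm (by
    rintro _ ⟨x, rfl⟩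
    exact Submodule.add_mem_sup (f1 x) (Submodule.smul_mem _ _ (Submodule.mem_span_singleton_self w)))
    (sup_le (fun x hx => ⟨x, p3 x hx⟩) ((Submodule.span_singleton_le_iff_mem _ _).mpr ⟨w, p5⟩))
  have r4 : finrank F (LinearMap.range ψ) = finrank F Rm + 1 := by
    rw [r3, Submodule.finrank_sup_span_singleton w3]
  have r5 := ψ.finrank_range_add_finrank_ker
  have main' := main ψ (LinearMap.ext (fun x => by
      rw [End.mul_apply, hψ x, map_add, map_smul, p3 _ (f1 x), p5]))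
    (fun x y => by simp [hψ, sy (φ x), sy (φ y), z1 _ (f1 x), z1 _ (f1 y), l2' x y]) p3 p4
  by_cases sp : 0 < finrank F (LinearMap.ker ψ) ∨ finrank F (LinearMap.range ψ) ≠ 2
  · exact main' (H _ _ (r4 ▸ od.add_one) (by omega) sp)
  obtain ⟨s1, s2⟩ : finrank F (LinearMap.ker ψ) = 0 ∧ finrank F (LinearMap.range ψ) = 2 := by omega
  rcases HJ with HJ | HJ
  · exact main' (s1 ▸ s2 ▸ HJ)
  obtain ⟨e, e1, e2⟩ := (Submodule.ne_bot_iff Rm).mp (fun e => by
    rw [e, finrank_bot] at r4; omega)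
  refine h.cm c (-1 + l.smulRight e) (fun x y => by simp [sy x y, sy e, z1 e e1])
    (fun x hx => ?_) (fun x hx => by simp [l3 x (z1 x ((mm x).mpr hx) w)]) hP h0 (HJ.sim ?_)
  · have : x ∈ LinearMap.ker ψ := p4 x ((mp x).mpr hx)
    rw [Submodule.finrank_eq_zero.mp s1] at this
    simp [(Submodule.mem_bot F).mp this]
  · have hi : Function.Injective (io w e : F × F →ₗ[F] U) := by
      rw [injective_iff_map_eq_zero]
      intro x hx
      have k := congrArg l hx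
      simp [l1, l3 e (z1 e e1 w)] at k
      simp [k, e2] at hx
      exact Prod.ext k hx
    refine ⟨LinearEquiv.ofBijective (io w e) ⟨hi, (LinearMap.injective_iff_surjective_of_finrank_eq_finrank
      (by simp; omega)).mp hi⟩, fun x => ?_⟩
    simp [l1, l3 e (z1 e e1 w)]
    module

theorem comm_of_cm {m : ℕ} (G : symplecticGroup (Fin m) F)
    (h : ∀ g', Ctx (om (Fin m) F) (toLin' (G : Matrix _ _ F)) g' →
      Cm (om (Fin m) F) (toLin' (G : Matrix _ _ F))) :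
    ∃ a b : symplecticGroup (Fin m) F, G = a * b * a⁻¹ * b⁻¹ := by
  have hi := (iso_iff _).mpr G.2
  obtain ⟨g', e1, e2⟩ := hi.inv sy_om
  obtain ⟨a, b, h1, h2, h3⟩ := h g' ⟨sy_om, hi, e1, e2⟩
  obtain ⟨A, rfl⟩ := exists_sp h1
  obtain ⟨B, rfl⟩ := exists_sp h2
  rw [← sp_mul, ← sp_mul, ← sp_mul] at h3
  exact ⟨A, B, by rw [sp_ext h3]; group⟩

theorem sp_transfer {K : Type} [Field K] (φ : K ≃+* F) {n : ℕ}
    (h : ∀ g : symplecticGroup (Fin n) K, ∃ a b : symplecticGroup (Fin n) K,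
      g = a * b * a⁻¹ * b⁻¹) (g : symplecticGroup (Fin n) F) :
    ∃ a b : symplecticGroup (Fin n) F, g = a * b * a⁻¹ * b⁻¹ := by
  let f : symplecticGroup (Fin n) K →* symplecticGroup (Fin n) F := MonoidHom.mk'
    (fun A => ⟨(A : Matrix _ _ K).map φ, SymplecticGroup.map_mem A.2 φ⟩)
    (fun A B => Subtype.ext (by
      simp only [Submonoid.coe_mul]
      exact Matrix.map_mul))
  have hg : (g : Matrix (Fin n ⊕ Fin n) (Fin n ⊕ Fin n) F).map φ.symm ∈ symplecticGroup (Fin n) K :=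
    SymplecticGroup.map_mem (l := Fin n) (R := F) (S := K) g.2 φ.symm
  obtain ⟨a, b, e⟩ := h ⟨_, hg⟩
  refine ⟨f a, f b, ?_⟩
  rw [← map_inv, ← map_inv, ← map_mul, ← map_mul, ← map_mul, ← e]
  ext i j
  simp [f]

theorem sp_comm [Fintype F] (m : ℕ) (hm : 1 ≤ m) (h1 : m = 1 → 4 ≤ Fintype.card F)
    (h2 : m = 2 → 3 ≤ Fintype.card F) (g : symplecticGroup (Fin m) F) :
    ∃ a b : symplecticGroup (Fin m) F, g = a * b * a⁻¹ * b⁻¹ := by
  classical
  have hd : ∀ (K : Type u) [Field K], finrank K (Fin m ⊕ Fin m → K) = 2 * m := fun K _ => by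
    simp [two_mul]
  have := Fintype.one_lt_card (α := F)
  by_cases c2 : Fintype.card F = 2
  · exact sp_transfer (ZMod.ringEquivOfPrime F Nat.prime_two c2) (fun g => comm_of_cm g
      (fun g' c => cm_even c rfl fp2 (by simp [P2]) (m := m) (by simp [two_mul]) (okd2 (by omega)))) g
  by_cases c3 : Fintype.card F = 3
  · exact sp_transfer (ZMod.ringEquivOfPrime F Nat.prime_three c3) (fun g => comm_of_cm g
      (fun g' c => cm_odd c (by decide) fp3 (by simp [P3]) (m := m) (by simp [two_mul])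
        (fun a b k1 k2 k3 => okd3 k1 (by omega) k3) (Or.inr ok3_J))) g
  obtain ⟨a, a0, a1, a2⟩ := exists_ne3 (F := F) (by omega) 0 1 (-1)
  have ha : a * a ≠ 1 := fun e => (mul_self_eq_one_iff.mp e).elim a1 a2
  refine comm_of_cm g (fun g' c => ?_)
  by_cases e : (2 : F) = 0
  · refine cm_even c e (fp_lin ha) (by simpa using a0) (hd F) ?_
    simpa using (okd_id (monic_X_sub_C a) dvd_rfl (natDegree_X_sub_C a)).mul m
  have od := FiniteField.odd_card_of_char_ne_two (F := F) (fun k => e (by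
    have := ringChar.Nat.cast_ringChar (R := F)
    rwa [k] at this))
  obtain ⟨d, -, hd'⟩ := Finset.exists_mem_notMem_of_card_lt_card
    (s := ({0, 1, -1, (a * a)⁻¹} : Finset F)) (t := Finset.univ)
    (Finset.card_le_four.trans_lt (by rw [Finset.card_univ]; omega))
  obtain ⟨d0, d1, d2, d3⟩ : d ≠ 0 ∧ d ≠ 1 ∧ d ≠ -1 ∧ d ≠ (a * a)⁻¹ := by simpa using hd'
  have k1 : Okd ((X ^ 2 - C d) * (X - C a)) 0 1 :=
    okd_id (monic_X_sub_C a) (dvd_mul_left _ _) (natDegree_X_sub_C a)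
  have k2 : Okd ((X ^ 2 - C d) * (X - C a)) (2 * 1) 0 :=
    okd_neg (monic_X_sub_C d) (by simp) (natDegree_X_sub_C d)
  refine cm_odd c e (fp_odd ha (fun k => (mul_self_eq_one_iff.mp k).elim d1 d2)
    (fun k => d3 (eq_inv_of_mul_eq_one_right k))) (by simp [a0, d0]) (hd F)
    (fun x y ev _ _ => ?_) (Or.inl k2)
  obtain ⟨j, rfl⟩ := ev.two_dvd
  simpa [mul_comm] using (k2.mul j).add (k1.mul y)

end Cfsg.Agent.Ore
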